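import Cfsg.Agent.Stability.Action
import Cfsg.Agent.CharTwo.Constrained
import Cfsg.Agent.Cores.Fitting
import Cfsg.Agent.Cores.Pi
import Cfsg.Agent.Lib.Hall
import Cfsg.Agent.Lib.Element
import Mathlib.GroupTheory.SchurZassenhaus

/-!
In a soluble group, for primes `p ≥ 5`, an abelian subgroup `A` that is self-centralizing in a group
containing the Fitting subgroup and normalising `A` contains the `p`-elements of its centralizer.
-/

set_option autoImplicit false

namespace Cfsg.Agent.Tech.SCNHall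

open Subgroup Cfsg.Agent
open scoped commutatorElement

variable {G : Type*} [Group G]

/-- The `q`-part of an abelian subgroup. -/
def primaryPart (q : ℕ) (A : Subgroup G) (hA : ∀ a ∈ A, ∀ c ∈ A, a * c = c * a) : Subgroup G where
  carrier := {a | a ∈ A ∧ ∃ k : ℕ, a ^ q ^ k = 1}
  one_mem' := ⟨A.one_mem, 0, by simp⟩
  mul_mem' := by
    rintro a c ⟨ha, k, hk⟩ ⟨hc, l, hl⟩
    refine ⟨A.mul_mem ha hc, k + l, ?_⟩
    rw [(show Commute a c from hA a ha c hc).mul_pow]
    conv_lhs => arg 1; rw [pow_add, pow_mul, hk, one_pow]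
    rw [one_mul, add_comm, pow_add, pow_mul, hl, one_pow]
  inv_mem' := by
    rintro a ⟨ha, k, hk⟩
    exact ⟨A.inv_mem ha, k, by rw [inv_pow, hk, inv_one]⟩

variable [Finite G]

/-- An element of a normal `q`-subgroup centralizing the `q`-part of an abelian subgroup it
normalises centralizes the subgroup. -/
theorem commute_of_primaryPart {q : ℕ} [Fact q.Prime] {V A : Subgroup G} [hVn : V.Normal]
    (hV : IsPGroup q V) (hA : ∀ a ∈ A, ∀ c ∈ A, a * c = c * a) {v : G} (hv : v ∈ V)
    (hvA : v ∈ normalizer (A : Set G)) (hc : v ∈ centralizer (primaryPart q A hA : Set G)) :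
    v ∈ centralizer (A : Set G) := by
  intro a ha
  obtain ⟨k, m, hm, hkm⟩ :=
    Nat.exists_eq_pow_mul_and_not_dvd (orderOf_pos a).ne' q (Fact.out : q.Prime).ne_one
  have hco : (q ^ k).Coprime m := (((Nat.Prime.coprime_iff_not_dvd Fact.out).2 hm).pow_left k)
  obtain ⟨x, y, hxy, -, hx, hy, hxm, hym⟩ :=
    Element.exists_split_of_coprime hco hkm (orderOf_pos a).ne'
  have hyA : y ∈ A := (zpowers_le.2 ha) hym
  have hxA : x ∈ A := (zpowers_le.2 ha) hxm
  have h1 : x * v = v * x := mem_centralizer_iff.1 hc x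
    ⟨hxA, k, by rw [← hx]; exact pow_orderOf_eq_one x⟩
  have hcA : v * y * v⁻¹ * y⁻¹ ∈ A :=
    A.mul_mem ((mem_normalizer_iff.1 hvA y).1 hyA) (A.inv_mem hyA)
  have hcV : v * y * v⁻¹ * y⁻¹ ∈ V := by
    have e : v * y * v⁻¹ * y⁻¹ = v * (y * v⁻¹ * y⁻¹) := by group
    rw [e]
    exact V.mul_mem hv (hVn.conj_mem _ (V.inv_mem hv) y)
  set c := v * y * v⁻¹ * y⁻¹ with hc'
  have hcy : Commute c y := hA c hcA y hyA
  obtain ⟨l, hl⟩ := (IsPGroup.iff_orderOf.1 hV) ⟨c, hcV⟩
  rw [← orderOf_coe] at hl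
  have hl' : orderOf c = q ^ l := hl
  have hco' : (orderOf c).Coprime (orderOf y) := by
    rw [hl', hy]; exact ((Nat.Prime.coprime_iff_not_dvd Fact.out).2 hm).pow_left l
  have hconj : orderOf (c * y) = orderOf y := by
    rw [show c * y = MulAut.conj v y by simp [hc', MulAut.conj_apply], MulEquiv.orderOf_eq]
  rw [hcy.orderOf_mul_eq_mul_orderOf_of_coprime hco'] at hconj
  have hc1 : orderOf c = 1 :=
    Nat.eq_one_of_mul_eq_one_right (m := orderOf c) (n := 1) (by
      rw [mul_one]; exact mul_right_cancel₀ (orderOf_pos y).ne' (hconj.trans (one_mul _).symm))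
  rw [orderOf_eq_one_iff, hc', mul_inv_eq_one, mul_inv_eq_iff_eq_mul] at hc1
  rw [← hxy]
  calc x * y * v = x * (y * v) := mul_assoc _ _ _
    _ = x * (v * y) := by rw [hc1]
    _ = v * (x * y) := by rw [← mul_assoc, h1, mul_assoc]

/-- `p`-elements centralizing `A` lie in `A`. -/
theorem mem_of_centralizes [Group.IsSolvable G] {A F' : Subgroup G}
    (hA : ∀ a ∈ A, ∀ c ∈ A, a * c = c * a) (hF : Cfsg.fittingSubgroup G ≤ F')
    (hnorm : F' ≤ normalizer (A : Set G)) (hself : F' ⊓ centralizer (A : Set G) ≤ A)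
    {p : ℕ} [hp : Fact p.Prime] (hp5 : 5 ≤ p) {x : G} (hxp : ∃ k, orderOf x = p ^ k)
    (hxA : x ∈ centralizer (A : Set G)) : x ∈ A := by
  obtain ⟨k, hk⟩ := hxp
  have hcore : ∀ (q : ℕ) [Fact q.Prime], Cfsg.pCore q G ≤ F' := fun q _ =>
    Cores.pCore_le_fittingSubgroup.trans hF
  -- the other cores are centralized
  have hother : ∀ (q : ℕ) [Fact q.Prime], q ≠ p →
      x ∈ centralizer (Cfsg.pCore q G : Set G) := by
    intro q hq hne
    refine CharTwo.pxq (A := primaryPart q A hA) Cores.pCore_isPGroup ?_ ?_ ?_ ?_ ?_ ?_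
    · rintro ⟨a, -, l, hl⟩
      exact ⟨l, Subtype.ext hl⟩
    · rw [normalizer_eq_top (h := inferInstance)]; exact le_top
    · rw [normalizer_eq_top (h := inferInstance)]; exact mem_top x
    · rw [hk]; exact ((Nat.coprime_primes hp.out hq.out).2 (Ne.symm hne)).pow_left k
    · exact centralizer_le (show (primaryPart q A hA : Set G) ⊆ A from fun a ha => ha.1) hxA
    · rintro v ⟨hv1, hv2⟩
      exact mem_centralizer_iff.1 hxA v
        (hself ⟨hcore q hv2, commute_of_primaryPart Cores.pCore_isPGroup hA hv2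
          (hnorm (hcore q hv2)) hv1⟩)
  -- stability on the `p`-core
  set V := Cfsg.pCore p G with hV
  have hquad : ⁅⁅V, zpowers x⁆, zpowers x⁆ = ⊥ := by
    have hle : ⁅V, zpowers x⁆ ≤ A := by
      rw [commutator_le]
      intro v hv y hy
      refine hself ⟨?_, ?_⟩
      · refine hcore p ?_
        rw [commutatorElement_def, mul_assoc, mul_assoc]
        refine V.mul_mem hv ?_
        simpa [mul_assoc] using (inferInstance : V.Normal).conj_mem _ (V.inv_mem hv) y
      · have hy' : y ∈ centralizer (A : Set G) := (zpowers_le.2 hxA) hy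
        rw [commutatorElement_def]
        refine (centralizer _).mul_mem ?_ ((centralizer _).inv_mem hy')
        intro a ha
        have ha' : v⁻¹ * a * v ∈ A := by
          have := (mem_normalizer_iff.1 ((normalizer _).inv_mem (hnorm (hcore p hv))) a).1 ha
          simpa using this
        have := mem_centralizer_iff.1 hy' _ ha'
        calc a * (v * y * v⁻¹) = v * ((v⁻¹ * a * v) * y) * v⁻¹ := by group
          _ = v * (y * (v⁻¹ * a * v)) * v⁻¹ := by rw [this]
          _ = v * y * v⁻¹ * a := by group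
    rw [commutator_eq_bot_iff_le_centralizer]
    refine hle.trans fun a ha => mem_centralizer_iff.2 fun y hy => ?_
    exact (mem_centralizer_iff.1 ((zpowers_le.2 hxA) hy) a ha).symm
  have hst := ((Stability.pairFree_of_isPSolvable (p := p) hp5
    (PSolv.isPSolvable_of_isSolvable inferInstance)).isPStableOn (by omega)
      (P := V) Cores.pCore_isPGroup) x hquad
  -- a normal subgroup with normal Sylow subgroup
  set L := ⨅ (q : Nat.Primes) (_ : (q : ℕ) ≠ p), centralizer (Cfsg.pCore (q : ℕ) G : Set G) with hL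
  set E := (Cfsg.pCore p (G ⧸ centralizer (V : Set G))).comap
    (QuotientGroup.mk' (centralizer (V : Set G))) with hE
  set D := E ⊓ L with hD
  have hLn : L.Normal := normal_iInf_normal fun q => normal_iInf_normal fun _ => inferInstance
  have hDn : D.Normal := normal_inf_normal E L
  have hxD : x ∈ D := ⟨hst, mem_iInf.2 fun q => mem_iInf.2 fun hq => by
    have : Fact (q : ℕ).Prime := ⟨q.2⟩
    exact hother _ hq⟩
  have hVD : V ≤ D := by
    refine le_inf (fun v hv => ?_) ?_
    · rw [hE, mem_comap]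
      exact Cores.le_pCore ((inferInstance : V.Normal).map _ (QuotientGroup.mk'_surjective _))
        ((Cores.pCore_isPGroup (p := p) (G := G)).map _) (mem_map_of_mem _ hv)
    · simp only [hL, le_iInf_iff]
      intro q hq v hv w hw
      have : Fact (q : ℕ).Prime := ⟨q.2⟩
      exact ((commute_of_normal_of_disjoint _ _ inferInstance inferInstance
        (IsPGroup.disjoint_of_ne _ _ (Ne.symm hq) _ _ Cores.pCore_isPGroup
          Cores.pCore_isPGroup)) v w hv hw).symm.eq
  obtain ⟨P, hP⟩ := ((show IsPGroup p (zpowers (⟨x, hxD⟩ : D)) from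
    IsPGroup.of_card (n := k) (by rw [Nat.card_zpowers, orderOf_mk, hk]))).exists_le_sylow
  have hVP : V.subgroupOf D ≤ P := by
    have h1 : IsPGroup p (V.subgroupOf D) := (Cores.pCore_isPGroup (p := p) (G := G)).comap_subtype
    have : (V.subgroupOf D).Normal := (inferInstance : V.Normal).subgroupOf D
    exact (Cores.le_pCore inferInstance h1).trans (Cores.pCore_le_sylow P)
  have hPn : (P : Subgroup D).Normal := by
    rw [← normalizer_eq_top_iff, eq_top_iff]
    intro d _
    -- `D = C(F(G)) P`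
    let π := QuotientGroup.mk' (centralizer (V : Set G))
    let g := π.comp D.subtype
    have hrange : IsPGroup p g.range := by
      refine (Cores.pCore_isPGroup (p := p) (G := G ⧸ centralizer (V : Set G))).to_le ?_
      rintro _ ⟨z, rfl⟩
      exact z.2.1
    let g' := g.rangeRestrict
    have hs : Function.Surjective g' := g.rangeRestrict_surjective
    have htop := (P.mapSurjective hs).is_maximal' (hrange.to_subgroup ⊤) le_top
    have hd : g' d ∈ (P.mapSurjective hs : Subgroup g.range) := htop ▸ mem_top _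
    rw [Sylow.coe_mapSurjective] at hd
    obtain ⟨s, hs', hse⟩ := hd
    have hc : ((d * s⁻¹ : D) : G) ∈ centralizer (Cfsg.fittingSubgroup G : Set G) := by
      have h1 : ((d * s⁻¹ : D) : G) ∈ centralizer (V : Set G) := by
        rw [← QuotientGroup.eq_one_iff]
        show g (d * s⁻¹) = 1
        rw [map_mul, map_inv, mul_inv_eq_one]
        exact (congrArg Subtype.val hse).symm
      rw [Cores.fittingSubgroup_eq_iSup_pCore]
      intro f hf
      have hle : (⨆ q : Nat.Primes, Cfsg.pCore (q : ℕ) G) ≤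
          centralizer ({((d * s⁻¹ : D) : G)} : Set G) := by
        refine iSup_le fun q w hw => mem_centralizer_singleton_iff.2 ?_
        by_cases hq : (q : ℕ) = p
        · rw [hq] at hw; exact mem_centralizer_iff.1 h1 w hw
        · have h2 : ((d * s⁻¹ : D) : G) ∈ L := (d * s⁻¹ : D).2.2
          exact mem_centralizer_iff.1 (mem_iInf.1 (mem_iInf.1 h2 q) hq) w hw
      exact mem_centralizer_singleton_iff.1 (hle hf)
    have hcF := Cores.centralizer_fittingSubgroup_le hc
    rw [Cores.fittingSubgroup_eq_iSup_pCore] at hcF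
    have hle : (⨆ q : Nat.Primes, Cfsg.pCore (q : ℕ) G) ≤
        V ⊔ ⨆ (q : Nat.Primes) (_ : (q : ℕ) ≠ p), Cfsg.pCore (q : ℕ) G := by
      refine iSup_le fun q => ?_
      by_cases hq : (q : ℕ) = p
      · rw [hq]; exact le_sup_left
      · exact le_sup_of_le_right (le_iSup₂ (f := fun (q : Nat.Primes) (_ : (q : ℕ) ≠ p) =>
          Cfsg.pCore (q : ℕ) G) q hq)
    obtain ⟨v, hv, w, hw, hvw⟩ := mem_sup_of_normal_left.1 (hle hcF)
    have hwD : w ∈ D := by
      have : w = v⁻¹ * ((d * s⁻¹ : D) : G) := by rw [← hvw, inv_mul_cancel_left]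
      rw [this]
      exact D.mul_mem (D.inv_mem (hVD hv)) (d * s⁻¹ : D).2
    have hwP : (⟨w, hwD⟩ : D) ∈ centralizer ((P : Subgroup D) : Set D) := by
      intro z _
      apply Subtype.ext
      show (z : G) * w = w * z
      have hle' : (⨆ (q : Nat.Primes) (_ : (q : ℕ) ≠ p), Cfsg.pCore (q : ℕ) G) ≤
          centralizer ({(z : G)} : Set G) := by
        refine iSup₂_le fun q hq u hu => mem_centralizer_singleton_iff.2 ?_
        have h2 : (z : G) ∈ L := z.2.2
        exact mem_centralizer_iff.1 (mem_iInf.1 (mem_iInf.1 h2 q) hq) u hu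
      exact (mem_centralizer_singleton_iff.1 (hle' hw)).symm
    have he : d = (⟨v, hVD hv⟩ : D) * ⟨w, hwD⟩ * s := by
      apply Subtype.ext
      show (d : G) = v * w * (s : G)
      rw [hvw]; simp
    rw [he]
    exact (normalizer _).mul_mem ((normalizer _).mul_mem (le_normalizer (hVP hv))
      (centralizer_le_normalizer _ hwP)) (le_normalizer hs')
  have hxV : x ∈ V := by
    have := hDn
    have := P.characteristic_of_normal hPn
    exact Cores.le_pCore (Cores.normal_map_subtype_of_characteristic (P : Subgroup D))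
      (P.2.map D.subtype) ⟨⟨x, hxD⟩, hP (mem_zpowers _), rfl⟩
  exact hself ⟨hcore p hxV, hxA⟩

/-- The statement for a Hall subgroup. -/
theorem exists_complement [Group.IsSolvable G] (π : Set ℕ) (h2 : 2 ∉ π) (h3 : 3 ∉ π) {H : Subgroup G}
    (hH : Cfsg.IsPiHall π H) {A : Subgroup G}
    (hA : Cfsg.IsSCN ((Cfsg.fittingSubgroup H).map H.subtype) A) :
    ∃ D : Subgroup G, D ≤ centralizer (A : Set G) ∧
      (∀ c ∈ centralizer (A : Set G), ∀ d ∈ D, c * d * c⁻¹ ∈ D) ∧
      A ⊓ D = ⊥ ∧ A ⊔ D = centralizer (A : Set G) ∧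
      ∀ q : ℕ, q.Prime → q ∣ Nat.card D → q ∉ π := by
  obtain ⟨hAF, hFN, hFC⟩ := hA
  set F := (Cfsg.fittingSubgroup H).map H.subtype with hFdef
  have hAH : A ≤ H := hAF.trans (map_subtype_le _)
  have hAc : ∀ a ∈ A, ∀ c ∈ A, a * c = c * a := by
    intro a ha c hc
    have hc' : c ∈ F ⊓ centralizer (A : Set G) := hFC.ge hc
    exact mem_centralizer_iff.1 hc'.2 a ha
  have hAC : A ≤ centralizer (A : Set G) := fun a ha c hc => hAc c hc a ha
  set W := Cfsg.piCore πᶜ G with hW
  have hWn : W.Normal := inferInstance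
  have hWπ : ∀ q : ℕ, q.Prime → q ∣ Nat.card W → q ∉ π := Cores.piCore_isPiNat
  let ψ := QuotientGroup.mk' W
  have hψ : Function.Surjective ψ := QuotientGroup.mk'_surjective W
  have hHW : ∀ {g : G}, g ∈ H → g ∈ W → g = 1 := by
    intro g hg hgW
    refine orderOf_eq_one_iff.1 (Nat.eq_one_of_dvd_coprimes ?_ (H.orderOf_dvd_natCard hg)
      (W.orderOf_dvd_natCard hgW))
    exact Nat.coprime_of_dvd fun q hq h1 h2 => hWπ q hq h2 (hH.1 q hq h1)
  let e : H →* H.map ψ := ψ.subgroupMap H
  have he : Function.Bijective e := by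
    refine ⟨(injective_iff_map_eq_one e).2 fun g hg => Subtype.ext (hHW g.2 ?_),
      ψ.subgroupMap_surjective H⟩
    exact (QuotientGroup.eq_one_iff _).1 (congrArg Subtype.val hg)
  -- the Fitting subgroup of the quotient
  have hFbar : Cfsg.fittingSubgroup (G ⧸ W) ≤ F.map ψ := by
    have hπ : Cfsg.fittingSubgroup (G ⧸ W) ≤ H.map ψ := by
      rw [Cores.fittingSubgroup_eq_iSup_pCore]
      refine iSup_le fun q => ?_
      have : Fact (q : ℕ).Prime := ⟨q.2⟩
      by_cases hq : (q : ℕ) ∈ π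
      · have hHb : Cfsg.IsPiHall π (H.map ψ) := by
          refine ⟨fun r hr hd => hH.1 r hr (hd.trans (card_map_dvd H ψ)), fun r hr hrπ hd => ?_⟩
          exact hH.2 r hr hrπ (hd.trans (index_map_dvd H hψ))
        obtain ⟨n, hn⟩ := IsPGroup.iff_card.1 (Cores.pCore_isPGroup (p := (q : ℕ)) (G := G ⧸ W))
        obtain ⟨g, hg⟩ := Hall.le_conj_isPiHall hHb (S := Cfsg.pCore (q : ℕ) (G ⧸ W))
          (hn ▸ Hall.piNum_prime_pow q.2 hq n)
        intro z hz
        have hz' : g⁻¹ * z * g ∈ Cfsg.pCore (q : ℕ) (G ⧸ W) := by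
          simpa using (inferInstance : (Cfsg.pCore (q : ℕ) (G ⧸ W)).Normal).conj_mem z hz g⁻¹
        have := hg (smul_mem_pointwise_smul _ (MulAut.conj g) _ hz')
        simpa [MulAut.smul_def, mul_assoc] using this
      · obtain ⟨n, hn⟩ := IsPGroup.iff_card.1 (Cores.pCore_isPGroup (p := (q : ℕ)) (G := G ⧸ W))
        have h1 : Cfsg.pCore (q : ℕ) (G ⧸ W) ≤ Cfsg.piCore πᶜ (G ⧸ W) := by
          refine Cores.le_piCore inferInstance fun r hr hd => ?_
          rw [hn] at hd
          rw [(Nat.prime_dvd_prime_iff_eq hr q.2).1 (hr.dvd_of_dvd_pow hd)]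
          exact hq
        rw [Cores.piCore_quotient_piCore_eq_bot] at h1
        exact h1.trans bot_le
    have := Cores.fittingSubgroup_isNilpotent (G := G ⧸ W)
    have : Group.IsNilpotent ((Cfsg.fittingSubgroup (G ⧸ W)).subgroupOf (H.map ψ)) :=
      Group.nilpotent_of_mulEquiv (subgroupOfEquivOfLe hπ).symm
    have h1 : (Cfsg.fittingSubgroup (G ⧸ W)).subgroupOf (H.map ψ) ≤
        Cfsg.fittingSubgroup (H.map ψ) :=
      Cores.le_fittingSubgroup inferInstance inferInstance
    rw [← Cores.map_fittingSubgroup_equiv (MulEquiv.ofBijective e he)] at h1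
    intro z hz
    obtain ⟨h, hh, hhe⟩ := h1 (show (⟨z, hπ hz⟩ : H.map ψ) ∈ _ from hz)
    exact ⟨h, ⟨h, hh, rfl⟩, congrArg Subtype.val hhe⟩
  -- all `π`-elements of the centralizer lie in `A`
  have key : ∀ (p : ℕ) [Fact p.Prime], p ∈ π → ∀ x : G, (∃ k, orderOf x = p ^ k) →
      x ∈ centralizer (A : Set G) → x ∈ A := by
    intro p hp hpπ x ⟨k, hk⟩ hx
    have hp5 : 5 ≤ p := by
      have h2' : p ≠ 2 := fun h => h2 (h ▸ hpπ)
      have h3' : p ≠ 3 := fun h => h3 (h ▸ hpπ)
      have h4 : p ≠ 4 := fun h => absurd hp.out (by rw [h]; norm_num)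
      have := hp.out.two_le
      omega
    have hxb : ψ x ∈ A.map ψ := by
      refine mem_of_centralizes (F' := F.map ψ) ?_ hFbar ?_ ?_ hp5 ?_ ?_
      · rintro _ ⟨a, ha, rfl⟩ _ ⟨c, hc, rfl⟩
        rw [← map_mul, ← map_mul, hAc a ha c hc]
      · exact (map_mono hFN).trans (le_normalizer_map ψ)
      · rintro _ ⟨⟨f, hf, rfl⟩, hfc⟩
        refine ⟨f, ?_, rfl⟩
        rw [← hFC]
        refine ⟨hf, mem_centralizer_iff.2 fun a ha => ?_⟩
        have h1 : ⁅a, f⁆ = 1 := by
          have hfH : f ∈ H := map_subtype_le _ hf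
          refine hHW ?_ ((QuotientGroup.eq_one_iff _).1 ?_)
          · rw [commutatorElement_def]
            exact H.mul_mem (H.mul_mem (H.mul_mem (hAH ha) hfH) (H.inv_mem (hAH ha))) (H.inv_mem hfH)
          · show ψ ⁅a, f⁆ = 1
            rw [map_commutatorElement, commutatorElement_eq_one_iff_mul_comm]
            exact mem_centralizer_iff.1 hfc _ ⟨a, ha, rfl⟩
        exact commutatorElement_eq_one_iff_mul_comm.1 h1
      · obtain ⟨j, -, hj⟩ := (Nat.dvd_prime_pow hp.out).1 (hk ▸ orderOf_map_dvd ψ x)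
        exact ⟨j, hj⟩
      · rintro _ ⟨a, ha, rfl⟩
        rw [← map_mul, ← map_mul, mem_centralizer_iff.1 hx a ha]
    obtain ⟨a, ha, hax⟩ := hxb
    have hw : a⁻¹ * x ∈ W := QuotientGroup.eq.1 hax
    have hcom : Commute a⁻¹ x := (show Commute a x from mem_centralizer_iff.1 hx a ha).inv_left
    have : a⁻¹ * x = 1 := by
      refine orderOf_eq_one_iff.1 (Nat.eq_one_of_dvd_coprimes (a := Nat.card W)
        (b := Nat.card A * p ^ k) ?_ (W.orderOf_dvd_natCard hw) ?_)
      · exact Nat.coprime_of_dvd fun r hr h1 h2 => hWπ r hr h1 ((hr.dvd_mul.1 h2).elim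
          (fun h => hH.1 r hr (h.trans (card_dvd_of_le hAH)))
          (fun h => by rw [(Nat.prime_dvd_prime_iff_eq hr hp.out).1 (hr.dvd_of_dvd_pow h)]; exact hpπ))
      · refine hcom.orderOf_mul_dvd_lcm.trans (Nat.lcm_dvd ?_ ?_)
        · rw [orderOf_inv]; exact (A.orderOf_dvd_natCard ha).mul_right _
        · rw [hk]; exact dvd_mul_left _ _
    rw [inv_mul_eq_one] at this
    exact this ▸ ha
  set C := centralizer (A : Set G) with hC
  set A' := A.subgroupOf C with hA'
  have hA'c : A' ≤ center C := fun z hz => mem_center_iff.2 fun y =>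
    Subtype.ext (mem_centralizer_iff.1 y.2 _ hz).symm
  have hA'n : A'.Normal := ⟨fun z hz g => by
    rwa [mem_center_iff.1 (hA'c hz) g, mul_inv_cancel_right]⟩
  have hidx : ∀ q : ℕ, q.Prime → q ∣ A'.index → q ∉ π := by
    intro q hq hd hqπ
    have := Fact.mk hq
    obtain ⟨S⟩ := (inferInstance : Nonempty (Sylow q C))
    refine S.not_dvd_index (hd.trans (index_dvd_of_le fun s hs => key q hqπ s ?_ s.2))
    obtain ⟨j, hj⟩ := IsPGroup.iff_orderOf.1 S.isPGroup' ⟨s, hs⟩
    exact ⟨j, by rw [← orderOf_coe] at hj; rw [orderOf_coe, ← hj]⟩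
  have hcardA : Nat.card A' = Nat.card A := Nat.card_congr (subgroupOfEquivOfLe hAC).toEquiv
  have hco : Nat.Coprime (Nat.card A') A'.index := Nat.coprime_of_dvd fun q hq h1 h2 =>
    hidx q hq h2 (hH.1 q hq ((hcardA ▸ h1).trans (card_dvd_of_le hAH)))
  obtain ⟨K, hK⟩ := exists_right_complement'_of_coprime hco
  have hKn : K.Normal := by
    rw [← normalizer_eq_top_iff]
    refine top_le_iff.1 (hK.sup_eq_top ▸ sup_le ?_ le_normalizer)
    exact ((hA'c.trans (center_le_centralizer _)).trans (centralizer_le_normalizer _))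
  refine ⟨K.map C.subtype, map_subtype_le _, ?_, ?_, ?_, fun q hq hd => hidx q hq ?_⟩
  · rintro c hc _ ⟨d, hd, rfl⟩
    exact ⟨⟨c, hc⟩ * d * ⟨c, hc⟩⁻¹, hKn.conj_mem d hd _, rfl⟩
  · rw [eq_bot_iff]
    rintro _ ⟨ha, d, hd, rfl⟩
    have : d = 1 := disjoint_def.1 hK.disjoint (show d ∈ A' from ha) hd
    rw [this]; exact one_mem _
  · rw [← map_subgroupOf_eq_of_le hAC, ← Subgroup.map_sup, hK.sup_eq_top,
      ← MonoidHom.range_eq_map, range_subtype]
  · rwa [hK.symm.index_eq_card, ← card_map_of_injective C.subtype_injective]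

end Cfsg.Agent.Tech.SCNHall
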