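import Cfsg.Agent.FT.BG4.OmegaCases
import Cfsg.Agent.OddPre.Rank2
import Cfsg.Agent.PSolv.Cores

/-!
For odd `p`, a non-trivial `p`-group of rank at most two has a proper characteristic subgroup of index
at most `p²`. Hence `p`-chief factors of groups of `p`-rank at most two have order at most `p²`.
-/

set_option autoImplicit false

open scoped commutatorElement

namespace Cfsg.Agent.Tech.RankTwo

variable {A : Type*} [Group A] [Finite A] {p : ℕ} [hp : Fact p.Prime]

omit [Finite A] hp in
/-- The elements of order dividing `p` of the second center form a subgroup (`p` odd). -/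
theorem exists_omega_secondCenter (hodd : Odd p) :
    ∃ D : Subgroup A, ∀ x, x ∈ D ↔ x ^ p = 1 ∧ ∀ y, ⁅x, y⁆ ∈ Subgroup.center A := by
  refine ⟨{ carrier := {x | x ^ p = 1 ∧ ∀ y, ⁅x, y⁆ ∈ Subgroup.center A}
            one_mem' := ⟨one_pow p, fun y => by rw [commutatorElement_one_left]; exact one_mem _⟩
            mul_mem' := ?_
            inv_mem' := ?_ }, fun x => Iff.rfl⟩
  · intro a b ha hb
    refine ⟨?_, fun y => ?_⟩
    · have hc := hb.2 a
      rw [PGroup.mul_pow_of_odd hodd hc ?_, ha.1, hb.1, one_mul]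
      rw [← PGroup.commutatorElement_pow_left hc, hb.1, commutatorElement_one_left]
    · rw [PGroup.commutatorElement_mul_left (hb.2 y)]
      exact mul_mem (ha.2 y) (hb.2 y)
  · intro a ha
    refine ⟨by rw [inv_pow, ha.1, inv_one], fun y => ?_⟩
    rw [PGroup.commutatorElement_inv_left (ha.2 y)]
    exact inv_mem (ha.2 y)

omit hp in
/-- The elements moving `d` inside a coset of `N` modulo a normal subgroup. -/
theorem index_comap_centralizer_le {K : Type*} [Group K] (f : A →* K) {N : Subgroup A} {d : A}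
    (hN : ∀ a : A, ⁅a, d⁆ ∈ N) :
    ((Subgroup.centralizer {f d}).comap f).index ≤ Nat.card N := by
  set X := (Subgroup.centralizer {f d}).comap f
  rw [Subgroup.index_eq_card]
  refine Nat.card_le_card_of_injective (fun q => (⟨⁅q.out, d⁆, hN _⟩ : N)) ?_
  intro q q' h
  have h1 : ⁅q.out, d⁆ = ⁅q'.out, d⁆ := congrArg Subtype.val h
  have h2 : Commute (f (q.out⁻¹ * q'.out)) (f d) := by
    have e : q'.out * d * q'.out⁻¹ = q.out * d * q.out⁻¹ := by
      simp only [commutatorElement_def] at h1
      exact (mul_right_cancel h1).symm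
    have e2 : q.out⁻¹ * q'.out * d = d * (q.out⁻¹ * q'.out) := by
      calc q.out⁻¹ * q'.out * d = q.out⁻¹ * (q'.out * d * q'.out⁻¹) * q'.out := by group
        _ = q.out⁻¹ * (q.out * d * q.out⁻¹) * q'.out := by rw [e]
        _ = d * (q.out⁻¹ * q'.out) := by group
    exact (map_mul f _ _).symm.trans ((congrArg f e2).trans (map_mul f _ _))
  rw [← QuotientGroup.out_eq' q, ← QuotientGroup.out_eq' q']
  exact QuotientGroup.eq.mpr (Subgroup.mem_centralizer_singleton_iff.mpr h2.eq)

/-- If every proper characteristic subgroup has index above `p²`, characteristic subgroups of order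
at most `p³` are central. -/
theorem le_center_of_card_le (hA : IsPGroup p A)
    (h : ∀ X : Subgroup A, X.Characteristic → X.index ≤ p ^ 2 → X = ⊤)
    (D : Subgroup A) [D.Characteristic] (hD : Nat.card D ≤ p ^ 3) : D ≤ Subgroup.center A := by
  by_contra hc
  set D1 := ⁅D, (⊤ : Subgroup A)⁆ with hD1
  have hne1 : D1 ≠ ⊥ := fun h0 => hc (by
    rwa [hD1, Subgroup.commutator_eq_bot_iff_le_centralizer, Subgroup.coe_top,
      Subgroup.centralizer_univ] at h0)
  have hne : D ≠ ⊥ := fun h0 => hne1 (by rw [hD1, h0, Subgroup.commutator_bot_left])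
  set D2 := ⁅D1, (⊤ : Subgroup A)⁆ with hD2
  have hlt1 : D1 < D := PGroup.commutator_top_lt hA hne
  have hlt2 : D2 < D1 := PGroup.commutator_top_lt hA hne1
  let f := QuotientGroup.mk' D2
  set X := (Subgroup.centralizer ((D.map f : Subgroup (A ⧸ D2)) : Set (A ⧸ D2))).comap f with hX
  have hmem : ∀ a, a ∈ X ↔ ∀ d ∈ D, ⁅d, a⁆ ∈ D2 := by
    intro a
    simp only [hX, Subgroup.mem_comap, Subgroup.mem_centralizer_iff]
    refine ⟨fun ha d hd => ?_, fun ha y hy => ?_⟩
    · rw [← QuotientGroup.eq_one_iff, ← QuotientGroup.mk'_apply, map_commutatorElement,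
        commutatorElement_eq_one_iff_mul_comm]
      exact ha _ ⟨d, hd, rfl⟩
    · obtain ⟨d, hd, rfl⟩ := hy
      rw [← commutatorElement_eq_one_iff_mul_comm, ← map_commutatorElement]
      exact (QuotientGroup.eq_one_iff _).2 (ha d hd)
  have hXchar : X.Characteristic := by
    rw [Subgroup.characteristic_iff_le_comap]
    intro φ a ha
    rw [hmem] at ha
    refine (hmem (φ a)).2 fun d hd => ?_
    have hd' : φ.symm d ∈ D := Subgroup.characteristic_iff_le_comap.1 inferInstance φ.symm hd
    have := Subgroup.characteristic_iff_le_comap.1 (inferInstance : D2.Characteristic) φ (ha _ hd')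
    simpa [map_commutatorElement] using this
  suffices X.index ≤ p ^ 2 by
    have htop := h X hXchar this
    have hle : D1 ≤ D2 := Subgroup.commutator_le.mpr fun d hd a _ =>
      (hmem a).1 (htop.symm ▸ Subgroup.mem_top a) d hd
    exact not_le_of_gt hlt2 hle
  have hgen : ∀ d ∈ D, ∀ a, ⁅a, d⁆ ∈ D1 := fun d hd a => by
    rw [← commutatorElement_inv]
    exact inv_mem (Subgroup.commutator_mem_commutator hd (Subgroup.mem_top a))
  have hcov : ∀ S : Set A, D ≤ D1 ⊔ Subgroup.closure S →
      ∀ a, (∀ s ∈ S, f a ∈ Subgroup.centralizer {f s}) → a ∈ X := by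
    intro S hS a ha
    rw [hX, Subgroup.mem_comap, Subgroup.mem_centralizer_iff]
    rintro _ ⟨d, hd, rfl⟩
    have hle : D1 ⊔ Subgroup.closure S ≤ (Subgroup.centralizer {f a}).comap f := by
      refine sup_le (fun e he => ?_) ((Subgroup.closure_le _).mpr fun s hs => ?_)
      · rw [Subgroup.mem_comap, Subgroup.mem_centralizer_singleton_iff,
          ← commutatorElement_eq_one_iff_mul_comm, ← map_commutatorElement]
        exact (QuotientGroup.eq_one_iff _).2
          (Subgroup.commutator_mem_commutator he (Subgroup.mem_top a))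
      · rw [SetLike.mem_coe, Subgroup.mem_comap, Subgroup.mem_centralizer_singleton_iff]
        exact (Subgroup.mem_centralizer_singleton_iff.mp (ha s hs)).symm
    exact Subgroup.mem_centralizer_singleton_iff.mp (hle (hS hd))
  obtain ⟨i, hi⟩ := IsPGroup.iff_card.1 (hA.to_subgroup D)
  obtain ⟨j, hj⟩ := IsPGroup.iff_card.1 (hA.to_subgroup D1)
  have hi3 : i ≤ 3 := (Nat.pow_le_pow_iff_right hp.out.one_lt).1 (hi ▸ hD)
  have hj0 : 0 < j := Nat.pos_of_ne_zero fun h0 => hne1 (Subgroup.eq_bot_of_card_eq _ (by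
    rw [hj, h0, pow_zero]))
  have hcard : ∀ {S T : Subgroup A}, S < T → Nat.card S < Nat.card T := fun {S T} hST =>
    Set.ncard_lt_ncard (s := (S : Set A)) (t := (T : Set A)) hST (Set.toFinite _)
  obtain ⟨d, hd, hd1⟩ := SetLike.exists_of_lt hlt1
  set K := D1 ⊔ Subgroup.zpowers d with hK
  have hKD : K ≤ D := sup_le hlt1.le (Subgroup.zpowers_le.mpr hd)
  have hD1K : D1 < K := lt_of_le_of_ne le_sup_left fun h0 =>
    hd1 (h0.ge (Subgroup.mem_sup_right (Subgroup.mem_zpowers d)))
  obtain ⟨k, hk⟩ := IsPGroup.iff_card.1 (hA.to_subgroup K)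
  have hjk : j < k := (Nat.pow_lt_pow_iff_right hp.out.one_lt).1 (hj ▸ hk ▸ hcard hD1K)
  rcases hKD.lt_or_eq with hKlt | hKeq
  · obtain ⟨d', hd', hd'K⟩ := SetLike.exists_of_lt hKlt
    have hki : k < i := (Nat.pow_lt_pow_iff_right hp.out.one_lt).1 (hk ▸ hi ▸ hcard hKlt)
    set K' := K ⊔ Subgroup.zpowers d' with hK'
    have hKK' : K < K' := lt_of_le_of_ne le_sup_left fun h0 =>
      hd'K (h0.ge (Subgroup.mem_sup_right (Subgroup.mem_zpowers d')))
    have hK'D : K' ≤ D := sup_le hKD (Subgroup.zpowers_le.mpr hd')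
    obtain ⟨l, hl⟩ := IsPGroup.iff_card.1 (hA.to_subgroup K')
    have hkl : k < l := (Nat.pow_lt_pow_iff_right hp.out.one_lt).1 (hk ▸ hl ▸ hcard hKK')
    have hK'eq : K' = D := Subgroup.eq_of_le_of_card_ge hK'D (by
      rw [hi, hl]; exact Nat.pow_le_pow_right hp.out.pos (by omega))
    have hle : D ≤ D1 ⊔ Subgroup.closure {d, d'} := by
      rw [← hK'eq, hK', hK]
      refine sup_le (sup_le le_sup_left ?_) ?_ <;>
        exact le_trans (Subgroup.zpowers_le.mpr (Subgroup.subset_closure (by simp))) le_sup_right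
    have hXle : (Subgroup.centralizer {f d}).comap f ⊓ (Subgroup.centralizer {f d'}).comap f ≤ X :=
      fun a ha => hcov _ hle a (by rintro s (rfl | rfl); exacts [ha.1, ha.2])
    have hj1 : j = 1 := by omega
    calc X.index ≤ ((Subgroup.centralizer {f d}).comap f ⊓
          (Subgroup.centralizer {f d'}).comap f).index := Subgroup.index_antitone hXle
      _ ≤ _ := Subgroup.index_inf_le
      _ ≤ Nat.card D1 * Nat.card D1 :=
          Nat.mul_le_mul (index_comap_centralizer_le f (hgen d hd))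
            (index_comap_centralizer_le f (hgen d' hd'))
      _ = p ^ 2 := by rw [hj, hj1, pow_one, sq]
  · have hle : D ≤ D1 ⊔ Subgroup.closure {d} := by
      rw [← hKeq, hK, Subgroup.zpowers_eq_closure]
    have hXle : (Subgroup.centralizer {f d}).comap f ≤ X :=
      fun a ha => hcov _ hle a (by rintro s rfl; exact ha)
    have hji : j < i := (Nat.pow_lt_pow_iff_right hp.out.one_lt).1 (hj ▸ hi ▸ hcard hlt1)
    calc X.index ≤ ((Subgroup.centralizer {f d}).comap f).index := Subgroup.index_antitone hXle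
      _ ≤ Nat.card D1 := index_comap_centralizer_le f (hgen d hd)
      _ ≤ p ^ 2 := by rw [hj]; exact Nat.pow_le_pow_right hp.out.pos (by omega)

/-- If the elements of order dividing `p` are central, `p`-th roots are unique up to them. -/
theorem div_pow_eq_one_of_central (hodd : Odd p) (hA : IsPGroup p A)
    (hΩ : ∀ x : A, x ^ p = 1 → x ∈ Subgroup.center A) (H : Subgroup A) :
    ∀ x ∈ H, ∀ y ∈ H, x ^ p = y ^ p → (x⁻¹ * y) ^ p = 1 := by
  induction H using WellFoundedLT.induction with
  | ind H ih =>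
  intro x hx y hy hxy
  by_cases hlt : Subgroup.closure {x, y} < H
  · exact ih _ hlt x (Subgroup.subset_closure (by simp)) y (Subgroup.subset_closure (by simp)) hxy
  have hle : Subgroup.closure {x, y} ≤ H := by
    rw [Subgroup.closure_le]
    rintro _ (rfl | rfl) <;> assumption
  let K : Subgroup H := Subgroup.zpowers ⟨y, hy⟩ ⊔ frattini H
  by_cases hK : K = ⊤
  · have htop : (Subgroup.zpowers ⟨y, hy⟩ : Subgroup H) = ⊤ := frattini_nongenerating hK
    have hcomm : Commute x⁻¹ y := by
      obtain ⟨i, hi⟩ := Subgroup.mem_zpowers_iff.mp (htop ▸ Subgroup.mem_top (⟨x, hx⟩ : H))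
      have hi' : y ^ i = x := congrArg Subtype.val hi
      rw [← hi']
      exact ((Commute.refl y).zpow_left i).inv_left
    rw [hcomm.mul_pow, inv_pow, ← hxy, inv_mul_cancel]
  have hKn : K.Normal := PGroup.normal_of_commutator_le
    ((PGroup.commutator_le_frattini (hA.to_subgroup H)).trans le_sup_right)
  have hKlt : K.map H.subtype < H := by
    refine lt_of_le_of_ne (Subgroup.map_subtype_le K) fun h => hK ?_
    exact eq_top_iff.mpr fun w _ => by
      obtain ⟨v, hv, hvw⟩ := h.ge w.2
      exact Subtype.ext (a1 := v) (a2 := w) hvw ▸ hv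
  have hyK : (⟨y, hy⟩ : H) ∈ K := Subgroup.mem_sup_left (Subgroup.mem_zpowers _)
  have hpow : y ^ p = (x * y * x⁻¹) ^ p := by
    rw [conj_pow, ← hxy, ← pow_succ', pow_succ, mul_inv_cancel_right]
  have hzp : (y⁻¹ * (x * y * x⁻¹)) ^ p = 1 := ih _ hKlt y ⟨⟨y, hy⟩, hyK, rfl⟩ (x * y * x⁻¹)
    ⟨_, hKn.conj_mem _ hyK ⟨x, hx⟩, rfl⟩ hpow
  have hz := hΩ _ hzp
  have he : ⁅y, x⁻¹⁆ = x⁻¹ * (x * y * x⁻¹ * y⁻¹) * x := by simp [commutatorElement_def, mul_assoc]
  have he2 : x * y * x⁻¹ * y⁻¹ = y⁻¹ * (x * y * x⁻¹) := by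
    have := Subgroup.mem_center_iff.mp hz y
    calc x * y * x⁻¹ * y⁻¹ = y * (y⁻¹ * (x * y * x⁻¹)) * y⁻¹ := by group
      _ = y⁻¹ * (x * y * x⁻¹) * y * y⁻¹ := by rw [this]
      _ = y⁻¹ * (x * y * x⁻¹) := by group
  have he3 : ⁅y, x⁻¹⁆ = y⁻¹ * (x * y * x⁻¹) := by
    rw [he, he2, Subgroup.mem_center_iff.mp hz x⁻¹, inv_mul_cancel_right]
  rw [PGroup.mul_pow_of_odd hodd (he3 ▸ hz) (he3 ▸ hzp), inv_pow, ← hxy, inv_mul_cancel]

open FT.BG4 in
/-- A non-trivial `p`-group of rank at most two, `p` odd, has a proper characteristic subgroup of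
index at most `p²`. -/
theorem exists_char_index_le (hp2 : p ≠ 2) (hA : IsPGroup p A) [Nontrivial A]
    (hr : Cfsg.PRankLE p 2 A) :
    ∃ X : Subgroup A, X.Characteristic ∧ X.index ≤ p ^ 2 ∧ X ≠ ⊤ := by
  by_contra hcon
  have h : ∀ X : Subgroup A, X.Characteristic → X.index ≤ p ^ 2 → X = ⊤ := fun X h1 h2 => by
    by_contra h3; exact hcon ⟨X, h1, h2, h3⟩
  have hodd : Odd p := hp.out.odd_of_ne_two hp2
  -- the elements of order `p` are central
  have hΩ : ∀ x : A, x ^ p = 1 → x ∈ Subgroup.center A := by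
    by_cases hcyc : IsCyclic A
    · intro x _
      let := IsCyclic.commGroup (α := A)
      exact Subgroup.mem_center_iff.mpr fun g => mul_comm g x
    obtain ⟨D, hD⟩ := exists_omega_secondCenter (A := A) hodd
    have hDchar : D.Characteristic := by
      rw [Subgroup.characteristic_iff_le_comap]
      intro φ x hx
      rw [hD] at hx
      rw [Subgroup.mem_comap, hD]
      refine ⟨?_, fun y => ?_⟩
      · show (φ x) ^ p = 1
        rw [← map_pow, hx.1, map_one]
      have := Subgroup.characteristic_iff_le_comap.1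
        (inferInstance : (Subgroup.center A).Characteristic) φ (hx.2 (φ.symm y))
      simpa [map_commutatorElement] using this
    have hDexp : ∀ x : D, x ^ p = 1 := fun x => Subtype.ext ((hD x).1 x.2).1
    have hDcl : commutator D ≤ Subgroup.center D := by
      rw [commutator_def, Subgroup.commutator_le]
      intro a _ b _
      exact Subgroup.mem_center_iff.mpr fun g =>
        Subtype.ext (Subgroup.mem_center_iff.mp (((hD a).1 a.2).2 b) g)
    have hDle : D ≤ Subgroup.center A := le_center_of_card_le hA h D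
      (OddPre.Rank2.card_le_cube (hA.to_subgroup D) hDexp hDcl (PGroup.pRankLE_subgroup D hr))
    obtain ⟨E, hEn, hEc, hEcomm, hEe⟩ := Known.exists_normal_elemAb_sq hp2 hA hcyc
    have hEZ : E ≤ Subgroup.center A := fun e he => hDle ((hD e).2 ⟨hEe e he, fun y =>
      (commutator_central hA hEc.le).1 (Subgroup.commutator_mem_commutator he (Subgroup.mem_top y))⟩)
    intro x hx
    exact hEZ (mem_of_pRankLE hr hEc
      (fun a ha b _ => (Subgroup.mem_center_iff.mp (hEZ ha) b).symm) hEe hx
      (Subgroup.mem_centralizer_iff.mpr fun a ha => (Subgroup.mem_center_iff.mp (hEZ ha) x).symm))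
  -- so they form a subgroup of order at most `p²`
  let Ω : Subgroup A :=
    { carrier := {x | x ^ p = 1}
      one_mem' := one_pow p
      mul_mem' := fun {a b} ha hb => by
        show (a * b) ^ p = 1
        rw [(show Commute a b from (Subgroup.mem_center_iff.mp (hΩ a ha) b).symm).mul_pow,
          show a ^ p = 1 from ha, show b ^ p = 1 from hb, one_mul]
      inv_mem' := fun {a} ha => by
        show a⁻¹ ^ p = 1
        rw [inv_pow, show a ^ p = 1 from ha, inv_one] }
  have hΩc : Nat.card Ω ≤ p ^ 2 := hr Ω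
    ⟨⟨fun a b => Subtype.ext (Subgroup.mem_center_iff.mp (hΩ a a.2) b).symm⟩⟩ fun x hx => hx
  classical
  let r : A → A := fun c => if h : ∃ x, x ^ p = c then h.choose else 1
  have hrr : ∀ x : A, (r (x ^ p)) ^ p = x ^ p := fun x => by
    simp only [r, dif_pos (⟨x, rfl⟩ : ∃ y, y ^ p = x ^ p)]
    exact Exists.choose_spec (⟨x, rfl⟩ : ∃ y, y ^ p = x ^ p)
  let f : A → agemo p A × Ω := fun x => (⟨x ^ p, pow_mem_agemo x⟩,
    ⟨(r (x ^ p))⁻¹ * x, div_pow_eq_one_of_central hodd hA hΩ ⊤ _ (Subgroup.mem_top _) x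
      (Subgroup.mem_top _) (hrr x)⟩)
  have hf : Function.Injective f := fun x y hxy => by
    simp only [f, Prod.mk.injEq, Subtype.mk.injEq] at hxy
    rw [hxy.1] at hxy
    exact mul_left_cancel hxy.2
  have h1 := Nat.card_le_card_of_injective f hf
  rw [Nat.card_prod, ← (agemo p A).card_mul_index] at h1
  have htop := h (agemo p A) (agemo_characteristic p A)
    ((Nat.le_of_mul_le_mul_left h1 Nat.card_pos).trans hΩc)
  have hfr : frattini A = ⊤ := by
    rw [eq_top_iff, ← htop, agemo, Subgroup.closure_le]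
    rintro _ ⟨x, rfl⟩
    exact PGroup.pow_mem_frattini hA x
  exact (bot_ne_top : (⊥ : Subgroup A) ≠ ⊤) (frattini_nongenerating (by rw [hfr, sup_top_eq]))

/-- The `p`-chief factors of a group of `p`-rank at most two, `p` odd, have order at most `p²`. -/
theorem chief_relIndex {G : Type*} [Group G] [Finite G] (hp2 : p ≠ 2)
    (hr : Cfsg.PRankLE p 2 G) (H K : Subgroup G) [H.Normal] [K.Normal] (hKH : K < H)
    (hpow : ∃ n : ℕ, K.relIndex H = p ^ n)
    (hchief : ∀ L : Subgroup G, L.Normal → K ≤ L → L ≤ H → L = K ∨ L = H) :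
    K.relIndex H = p ∨ K.relIndex H = p ^ 2 := by
  obtain ⟨n, hn⟩ := hpow
  let f := QuotientGroup.mk' K
  have hf : Function.Surjective f := QuotientGroup.mk'_surjective K
  set V := H.map f with hV
  have hVn : V.Normal := Subgroup.Normal.map inferInstance f hf
  have hVc : Nat.card V = p ^ n := (PSolv.card_map_mk_eq_relIndex K H).trans hn
  have hVp : IsPGroup p V := IsPGroup.of_card hVc
  have hVne : V ≠ ⊥ := by
    rw [hV, Ne, Subgroup.map_eq_bot_iff, QuotientGroup.ker_mk']
    exact not_le_of_gt hKH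
  have hmin : ∀ W : Subgroup (G ⧸ K), W.Normal → W ≤ V → W = ⊥ ∨ W = V := by
    intro W hW hWV
    have hle : W.comap f ≤ H := by
      refine (Subgroup.comap_mono hWV).trans ?_
      rw [hV, Subgroup.comap_map_eq, QuotientGroup.ker_mk', sup_eq_left.mpr hKH.le]
    rcases hchief (W.comap f) (hW.comap f) (QuotientGroup.le_comap_mk' K W) hle with h | h
    · left
      rw [← Subgroup.map_comap_eq_self_of_surjective hf W, h, Subgroup.map_eq_bot_iff,
        QuotientGroup.ker_mk']
    · right
      rw [← Subgroup.map_comap_eq_self_of_surjective hf W, h]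
  have hVab : V ≤ Subgroup.centralizer (V : Set (G ⧸ K)) := by
    rcases hmin ⁅V, V⁆ inferInstance (Subgroup.commutator_le_left V V) with h | h
    · exact Subgroup.commutator_eq_bot_iff_le_centralizer.mp h
    · exfalso
      have : Nontrivial V := (Subgroup.nontrivial_iff_ne_bot V).mpr hVne
      have hlt := PGroup.commutator_top_lt (N := (⊤ : Subgroup V)) hVp top_ne_bot
      apply hlt.ne
      apply Subgroup.map_injective V.subtype_injective
      rw [Subgroup.map_commutator, ← MonoidHom.range_eq_map, Subgroup.range_subtype]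
      exact h
  obtain ⟨P⟩ := (inferInstance : Nonempty (Sylow p H))
  set Pg := (P : Subgroup H).map H.subtype with hPg
  have hPgV : Pg.map f = V := by
    refine le_antisymm (Subgroup.map_mono (Subgroup.map_subtype_le _)) ?_
    let g := f.subgroupMap H
    have hg : Function.Surjective g := f.subgroupMap_surjective H
    have h1 := (P.mapSurjective hg).is_maximal' (hVp.to_subgroup ⊤) le_top
    rintro _ ⟨x, hx, rfl⟩
    have hmem : g ⟨x, hx⟩ ∈ (P.mapSurjective hg : Subgroup V) := h1 ▸ Subgroup.mem_top _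
    rw [Sylow.coe_mapSurjective] at hmem
    obtain ⟨s, hs, hse⟩ := hmem
    exact ⟨s, ⟨s, hs, rfl⟩, congrArg Subtype.val hse⟩
  set N := Subgroup.normalizer (Pg : Set G) with hN
  have hGN : N ⊔ H = ⊤ := Sylow.normalizer_sup_eq_top P
  obtain ⟨Q, hQle, hQ⟩ := Finite.exists_le_minimal
    (p := fun Q : Subgroup G => Q ≤ Pg ∧ N ≤ Subgroup.normalizer (Q : Set G) ∧ Q.map f = V)
    (a := Pg) ⟨le_rfl, le_rfl, hPgV⟩
  have hQne : Q ≠ ⊥ := fun h => hVne (by rw [← hQ.prop.2.2, h, Subgroup.map_bot])
  have : Nontrivial Q := (Subgroup.nontrivial_iff_ne_bot Q).mpr hQne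
  have hQp : IsPGroup p Q := (P.2.map H.subtype).to_le hQle
  obtain ⟨X, hXc, hXi, hXt⟩ := exists_char_index_le hp2 hQp (PGroup.pRankLE_subgroup Q hr)
  set Xg := X.map Q.subtype with hXg
  have hXQ : Xg < Q := by
    refine lt_of_le_of_ne (Subgroup.map_subtype_le X) fun h => hXt ?_
    exact eq_top_iff.mpr fun w _ => by
      obtain ⟨v, hv, hvw⟩ := h.ge w.2
      exact Subtype.ext (a1 := v) (a2 := w) hvw ▸ hv
  have hNX : N ≤ Subgroup.normalizer (Xg : Set G) := by
    intro m hm
    rw [Subgroup.mem_normalizer_iff_map_conj_eq]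
    refine Subgroup.eq_of_le_of_card_ge ?_
      (Subgroup.card_map_of_injective (MulAut.conj m).injective).ge
    rintro _ ⟨_, ⟨x, hx, rfl⟩, rfl⟩
    have := Subgroup.characteristic_iff_le_comap.1 hXc
      (Q.normalizerMonoidHom ⟨m, hQ.prop.2.1 hm⟩) hx
    exact ⟨_, this, rfl⟩
  have hXn : (Xg.map f).Normal := by
    rw [← Subgroup.normalizer_eq_top_iff, eq_top_iff, ← Subgroup.map_top_of_surjective f hf, ← hGN,
      Subgroup.map_sup]
    refine sup_le ?_ ?_
    · exact (Subgroup.map_mono hNX).trans (Subgroup.le_normalizer_map f)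
    · refine (hVab.trans (Subgroup.centralizer_le ?_)).trans
        (Subgroup.centralizer_le_normalizer _)
      exact Subgroup.map_mono (hXQ.le.trans (hQle.trans (Subgroup.map_subtype_le _)))
  have hXb : Xg.map f = ⊥ := by
    refine (hmin _ hXn (Subgroup.map_mono (hXQ.le.trans (hQle.trans (Subgroup.map_subtype_le _))))).resolve_right ?_
    intro h
    exact not_le_of_gt hXQ (hQ.le_of_le ⟨hXQ.le.trans hQle, hNX, h⟩ hXQ.le)
  have hcard : Nat.card V ≤ p ^ 2 := by
    let g := f.comp Q.subtype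
    have hrange : g.range = V := by
      rw [MonoidHom.range_comp, Subgroup.range_subtype]; exact hQ.prop.2.2
    have hXk : X ≤ g.ker := by
      intro x hx
      rw [MonoidHom.mem_ker]
      exact (Subgroup.eq_bot_iff_forall _).mp hXb _ ⟨_, ⟨x, hx, rfl⟩, rfl⟩
    rw [← hrange, ← Subgroup.index_ker]
    exact (Nat.le_of_dvd (Nat.pos_of_ne_zero Subgroup.index_ne_zero_of_finite)
      (Subgroup.index_dvd_of_le hXk)).trans hXi
  rw [hn]
  have h2 : n ≤ 2 := (Nat.pow_le_pow_iff_right hp.out.one_lt).1 (hVc ▸ hcard)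
  have h0 : n ≠ 0 := fun h => hVne (Subgroup.eq_bot_of_card_eq V (by rw [hVc, h, pow_zero]))
  rcases (by omega : n = 1 ∨ n = 2) with rfl | rfl
  · exact Or.inl (pow_one p)
  · exact Or.inr rfl

end Cfsg.Agent.Tech.RankTwo
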