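import Cfsg.Agent.RecogA.ThreeSpectrum
import Cfsg.Agent.Linear.SmallIsoSeven

/-!
`PSL₂(7)` inside `SU₃(3)`: the image of a matrix `(a b; c d)` is given by its Bruhat form.
-/

set_option autoImplicit false

namespace Cfsg.Agent.Tech.UnitaryThree

open Matrix RecogA

/-- Powers of an element of order 7. -/
def tPow : Fin 7 → Matrix (Fin 3) (Fin 3) Q3 :=
  ![!![⟨1, 0⟩, ⟨0, 0⟩, ⟨0, 0⟩; ⟨0, 0⟩, ⟨1, 0⟩, ⟨0, 0⟩; ⟨0, 0⟩, ⟨0, 0⟩, ⟨1, 0⟩],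
    !![⟨0, 0⟩, ⟨1, 1⟩, ⟨1, 1⟩; ⟨0, 0⟩, ⟨1, 1⟩, ⟨2, 2⟩; ⟨0, 1⟩, ⟨0, 0⟩, ⟨0, 0⟩],
    !![⟨2, 1⟩, ⟨0, 2⟩, ⟨0, 1⟩; ⟨1, 2⟩, ⟨0, 2⟩, ⟨0, 1⟩; ⟨0, 0⟩, ⟨2, 1⟩, ⟨2, 1⟩],
    !![⟨2, 0⟩, ⟨2, 2⟩, ⟨0, 1⟩; ⟨2, 0⟩, ⟨0, 2⟩, ⟨1, 1⟩; ⟨2, 2⟩, ⟨1, 0⟩, ⟨2, 0⟩],
    !![⟨2, 0⟩, ⟨2, 0⟩, ⟨2, 1⟩; ⟨2, 1⟩, ⟨0, 1⟩, ⟨1, 0⟩; ⟨0, 2⟩, ⟨1, 2⟩, ⟨2, 0⟩],
    !![⟨2, 2⟩, ⟨1, 1⟩, ⟨0, 0⟩; ⟨0, 1⟩, ⟨0, 1⟩, ⟨2, 2⟩; ⟨0, 2⟩, ⟨0, 2⟩, ⟨2, 2⟩],
    !![⟨0, 0⟩, ⟨0, 0⟩, ⟨0, 2⟩; ⟨1, 2⟩, ⟨1, 2⟩, ⟨0, 0⟩; ⟨1, 2⟩, ⟨2, 1⟩, ⟨0, 0⟩]]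

/-- The image of the Weyl element. -/
def wImg : Matrix (Fin 3) (Fin 3) Q3 := !![⟨0, 0⟩, ⟨1, 2⟩, ⟨1, 1⟩; ⟨1, 1⟩, ⟨1, 0⟩, ⟨0, 2⟩; ⟨1, 2⟩, ⟨0, 1⟩, ⟨1, 0⟩]

/-- The image of the transvection below the diagonal. -/
def bImg : Matrix (Fin 3) (Fin 3) Q3 := !![⟨0, 2⟩, ⟨1, 0⟩, ⟨2, 2⟩; ⟨2, 0⟩, ⟨1, 2⟩, ⟨0, 1⟩; ⟨2, 2⟩, ⟨0, 2⟩, ⟨0, 1⟩]

/-- The images of the diagonal elements, indexed by the upper left entry. -/
def dImg : Fin 7 → Matrix (Fin 3) (Fin 3) Q3 :=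
  ![1, 1, !![⟨0, 1⟩, ⟨2, 2⟩, ⟨1, 0⟩; ⟨1, 2⟩, ⟨1, 0⟩, ⟨2, 0⟩; ⟨0, 2⟩, ⟨1, 0⟩, ⟨2, 2⟩],
    !![⟨0, 2⟩, ⟨1, 1⟩, ⟨0, 1⟩; ⟨2, 1⟩, ⟨1, 0⟩, ⟨1, 0⟩; ⟨1, 0⟩, ⟨2, 0⟩, ⟨2, 1⟩], !![⟨0, 2⟩, ⟨1, 1⟩, ⟨0, 1⟩; ⟨2, 1⟩, ⟨1, 0⟩, ⟨1, 0⟩; ⟨1, 0⟩, ⟨2, 0⟩, ⟨2, 1⟩],
    !![⟨0, 1⟩, ⟨2, 2⟩, ⟨1, 0⟩; ⟨1, 2⟩, ⟨1, 0⟩, ⟨2, 0⟩; ⟨0, 2⟩, ⟨1, 0⟩, ⟨2, 2⟩], 1]

/-- The image of `(a b; c d)`. -/
def img (a b c d : ZMod 7) : Matrix (Fin 3) (Fin 3) Q3 :=
  if c = 0 then dImg a * tPow (b * a ^ 5)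
  else tPow (a * c ^ 5) * wImg * dImg c * tPow (d * c ^ 5)

theorem img_mul_transvection : ∀ a b c d : ZMod 7, a * d - b * c = 1 →
    img a (a + b) c (c + d) = img a b c d * tPow 1 ∧ img (a + b) b (c + d) d = img a b c d * bImg := by
  decide +kernel

attribute [local instance] Linear.factPrimeSeven

open scoped MatrixGroups

theorem mem_of_generators {G : Type*} [Group G] [Finite G] {S : Set G}
    (hS : Subgroup.closure S = ⊤) (P : G → Prop) (h1 : P 1) (hmul : ∀ g h, P g → P h → P (g * h))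
    (hgen : ∀ s ∈ S, P s) (g : G) : P g := by
  have hg : g ∈ Subgroup.closure S := hS ▸ Subgroup.mem_top g
  induction hg using Subgroup.closure_induction with
  | mem x hx => exact hgen x hx
  | one => exact h1
  | mul x y _ _ hx hy => exact hmul x y hx hy
  | inv x _ hx =>
    have hpow : ∀ n : ℕ, P (x ^ n) := by
      intro n
      induction n with
      | zero => rw [pow_zero]; exact h1
      | succ n ih => rw [pow_succ]; exact hmul _ _ ih hx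
    rw [show x⁻¹ = x ^ (orderOf x - 1) from inv_eq_of_mul_eq_one_right (by
      rw [← pow_succ', Nat.sub_add_cancel (orderOf_pos x), pow_orderOf_eq_one])]
    exact hpow _

theorem exists_psl_two_seven_subgroup {F : Type*} [Field F] [Fintype F] (hF : Fintype.card F = 9)
    {K : Type*} [Field K] [Fintype K] (hK : Fintype.card K = 7) :
    ∃ H : Subgroup (Cfsg.PSU 3 F 3),
      Nonempty (H ≃* Matrix.ProjectiveSpecialLinearGroup (Fin 2) K) := by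
  obtain ⟨φ, hφ⟩ := exists_Q3_equiv hF
  have : CharP Q3 3 := charP_of_injective_algebraMap (fun a b h => congrArg QuadraticAlgebra.re h :
    Function.Injective (algebraMap (ZMod 3) Q3)) 3
  have : CharP F 3 := charP_of_injective_ringHom hφ.1 3
  have hadd : ∀ a b : F, (a + b) ^ 3 = a ^ 3 + b ^ 3 := fun a b => add_pow_char a b 3
  have hbot : Subgroup.center (Cfsg.SU 3 F 3) = ⊥ :=
    Subgroup.eq_bot_of_card_eq _
      (Classical.U.card_center_SU (Classical.U.sqField_of_fintype (q := 3) (by rw [hF]; norm_num))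
        (by norm_num))
  let a : SL(2, ZMod 7) := Matrix.SpecialLinearGroup.transvection zero_ne_one 1
  let b : SL(2, ZMod 7) := Matrix.SpecialLinearGroup.transvection one_ne_zero 1
  have hgen : Subgroup.closure ({a, b} : Set SL(2, ZMod 7)) = ⊤ := by
    refine Linear.eq_top_of_transvection_mem _ fun i j hij c => ?_
    rw [show c = c.val • (1 : ZMod 7) by rw [nsmul_eq_mul, mul_one, ZMod.natCast_zmod_val]]
    refine Linear.transvection_mem_of_nsmul hij _ ?_ _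
    fin_cases i <;> fin_cases j <;> first
      | exact absurd rfl hij
      | exact Subgroup.subset_closure (Or.inl rfl)
      | exact Subgroup.subset_closure (Or.inr rfl)
  let f : SL(2, ZMod 7) → Matrix (Fin 3) (Fin 3) Q3 := fun g => img (g 0 0) (g 0 1) (g 1 0) (g 1 1)
  have ha : (a : Matrix (Fin 2) (Fin 2) (ZMod 7)) = !![1, 1; 0, 1] := by decide +kernel
  have hb : (b : Matrix (Fin 2) (Fin 2) (ZMod 7)) = !![1, 0; 1, 1] := by decide +kernel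
  have hfa : f a = tPow 1 := by decide +kernel
  have hfb : f b = bImg := by decide +kernel
  have hf1 : f 1 = 1 := by decide +kernel
  have hdet : ∀ g : SL(2, ZMod 7), g 0 0 * g 1 1 - g 0 1 * g 1 0 = 1 := fun g => by
    have := g.2
    rwa [Matrix.det_fin_two] at this
  have hfmul : ∀ g h, f (g * h) = f g * f h := fun g h => by
    revert g
    refine mem_of_generators hgen (fun h => ∀ g, f (g * h) = f g * f h)
      (fun g => by rw [mul_one, hf1, mul_one]) (fun x y hx hy g => ?_) ?_ h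
    · rw [← mul_assoc, hy, hx, hy, mul_assoc]
    · rintro s (rfl | rfl) g
      · rw [hfa, ← (img_mul_transvection _ _ _ _ (hdet g)).1]
        simp only [f, Matrix.SpecialLinearGroup.coe_mul, ha, Matrix.mul_apply, Fin.sum_univ_two]
        simp
      · rw [hfb, ← (img_mul_transvection _ _ _ _ (hdet g)).2]
        simp only [f, Matrix.SpecialLinearGroup.coe_mul, hb, Matrix.mul_apply, Fin.sum_univ_two]
        simp
  have hmem : ∀ M : Matrix (Fin 3) (Fin 3) Q3, M.det = 1 → Mᵀ * M.map (· ^ 3) = 1 →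
      ∃ u : Cfsg.SU 3 F 3,
        ((u : Matrix.SpecialLinearGroup (Fin 3) F) : Matrix (Fin 3) (Fin 3) F) = φ.mapMatrix M := by
    intro M hM hMU
    let g : Matrix.SpecialLinearGroup (Fin 3) F :=
      ⟨φ.mapMatrix M, by rw [← RingHom.map_det, hM, map_one]⟩
    have hm : g ∈ Cfsg.SU 3 F 3 := by
      rw [mem_SU_iff (by norm_num) hadd]
      show (M.map φ)ᵀ * (M.map φ).map (· ^ 3) = 1
      rw [Matrix.map_map, ← Matrix.transpose_map,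
        show ((fun x : F => x ^ 3) ∘ φ) = φ ∘ (fun x : Q3 => x ^ 3) from
          funext fun x => (map_pow φ x 3).symm,
        ← Matrix.map_map, ← RingHom.mapMatrix_apply, ← RingHom.mapMatrix_apply, ← map_mul, hMU,
        map_one]
    exact ⟨⟨g, hm⟩, rfl⟩
  have hexists : ∀ g, ∃ u : Cfsg.SU 3 F 3,
      ((u : Matrix.SpecialLinearGroup (Fin 3) F) : Matrix (Fin 3) (Fin 3) F) = φ.mapMatrix (f g) := by
    refine mem_of_generators hgen _ ⟨1, ?_⟩ ?_ ?_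
    · rw [hf1, map_one]; rfl
    · rintro g h ⟨u, hu⟩ ⟨v, hv⟩
      refine ⟨u * v, ?_⟩
      rw [hfmul, map_mul, ← hu, ← hv]; rfl
    · rintro s (rfl | rfl)
      · rw [hfa]; exact hmem _ (by decide +kernel) (by decide +kernel)
      · rw [hfb]; exact hmem _ (by decide +kernel) (by decide +kernel)
  choose u hu using hexists
  let Φ : SL(2, ZMod 7) →* Cfsg.SU 3 F 3 := MonoidHom.mk' u fun g h => Subtype.ext (Subtype.ext (by
    rw [hu, hfmul, map_mul, ← hu, ← hu]; rfl))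
  have hker : Subgroup.center SL(2, ZMod 7) ≤ Φ.ker := by
    intro g hg
    obtain ⟨c, hc, he⟩ := Matrix.SpecialLinearGroup.mem_center_iff.mp hg
    rw [Fintype.card_fin] at hc
    have key : ∀ c : ZMod 7, c ^ 2 = 1 → img c 0 0 c = 1 := by decide +kernel
    rw [MonoidHom.mem_ker]
    apply Subtype.ext; apply Subtype.ext
    show ((u g : Matrix.SpecialLinearGroup (Fin 3) F) : Matrix (Fin 3) (Fin 3) F) = 1
    rw [hu, show f g = img c 0 0 c by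
      simp only [f]
      rw [← he]
      simp [Matrix.scalar_apply], key c hc, map_one]
  let ψ : Matrix.ProjectiveSpecialLinearGroup (Fin 2) (ZMod 7) →* Cfsg.PSU 3 F 3 :=
    (QuotientGroup.mk' _).comp (QuotientGroup.lift _ Φ hker)
  have hsimple : IsSimpleGroup (Matrix.ProjectiveSpecialLinearGroup (Fin 2) (ZMod 7)) :=
    Matrix.ProjectiveSpecialLinearGroup.rank_two_simple (by simp)
  have hψ : Function.Injective ψ := by
    rw [← MonoidHom.ker_eq_bot_iff]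
    refine (MonoidHom.normal_ker ψ).eq_bot_or_eq_top.resolve_right fun h => ?_
    have h1 : ψ (QuotientGroup.mk a) = 1 :=
      MonoidHom.mem_ker.mp (h.symm ▸ Subgroup.mem_top _)
    have h2 : Φ a = 1 := by
      have h3 : Φ a ∈ Subgroup.center (Cfsg.SU 3 F 3) := (QuotientGroup.eq_one_iff _).mp h1
      rwa [hbot, Subgroup.mem_bot] at h3
    have h4 : φ.mapMatrix (f a) = φ.mapMatrix 1 := by
      rw [← hu, map_one]
      show (((Φ a : Cfsg.SU 3 F 3) : Matrix.SpecialLinearGroup (Fin 3) F) :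
        Matrix (Fin 3) (Fin 3) F) = 1
      rw [h2]; rfl
    exact absurd ((Matrix.map_injective hφ.1 h4).symm.trans hfa) (by decide +kernel)
  obtain ⟨e⟩ : Nonempty (ZMod 7 ≃+* K) := ⟨FiniteField.ringEquivOfCardEq (by rw [ZMod.card, hK])⟩
  obtain ⟨g⟩ := Linear.psl_congr e (Fin 2)
  exact ⟨ψ.range, ⟨(MonoidHom.ofInjective hψ).symm.trans g⟩⟩

end Cfsg.Agent.Tech.UnitaryThree
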