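import Cfsg.Agent.Tech.RankOneFixed
import Cfsg.Agent.CharTwo.Constrained
import Cfsg.Agent.PSolv.HallHigman
import Cfsg.Agent.FusionAux.SeriesStab
import Cfsg.Agent.Coprime.Action
import Cfsg.Agent.Coprime.Generation
import Cfsg.Agent.SolvStruct.Nilpotent

/-!
In a `p`-soluble group (`p` odd), if `B ≅ Z_p × Z_p` is generated by the elements of order `p` of a
Sylow subgroup of the centralizer of one of its non-identity elements, the `B`-invariant `p'`-subgroups
lie in `O_{p'}(G)`.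
-/

set_option autoImplicit false

namespace Cfsg.Agent.Tech.RankTwoSignalizer

open Subgroup Cfsg.Agent
open scoped commutatorElement

variable {G : Type*} [Group G] [Finite G] {p : ℕ} [hp : Fact p.Prime]

theorem commute_of_normalizes {R Q : Subgroup G} [hR : R.Normal] (hQR : Q ⊓ R = ⊥) {r q : G}
    (hr : r ∈ R) (hrQ : r ∈ normalizer (Q : Set G)) (hq : q ∈ Q) : q * r = r * q := by
  have h1 : r * q * r⁻¹ * q⁻¹ ∈ Q ⊓ R := by
    refine ⟨Q.mul_mem ((mem_normalizer_iff.1 hrQ q).1 hq) (Q.inv_mem hq), ?_⟩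
    have e : r * q * r⁻¹ * q⁻¹ = r * (q * r⁻¹ * q⁻¹) := by group
    rw [e]
    exact R.mul_mem hr (hR.conj_mem _ (R.inv_mem hr) q)
  rw [hQR, mem_bot, mul_inv_eq_one, mul_inv_eq_iff_eq_mul] at h1
  exact h1.symm

/-- An abelian `Q` normalised by `b` is killed, given rank one fixed points. -/
theorem le_centralizer_of_rank_one (hp2 : p ≠ 2) {S Q : Subgroup G} (hS : IsPGroup p S)
    (hQc : ∀ a ∈ Q, ∀ c ∈ Q, a * c = c * a) (hQp : (Nat.card Q).Coprime p)
    (hQS : Q ≤ normalizer (S : Set G)) {b d : G} (hbp : b ^ p = 1)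
    (hbS : b ∈ normalizer (S : Set G)) (hbQ : b ∈ normalizer (Q : Set G))
    (hfpf : ∀ q ∈ Q, q * b = b * q → q = 1) (hd : d ∈ S) (hd1 : d ≠ 1) (hdp : d ^ p = 1)
    (hdb : b * d = d * b) (hdQ : ∀ q ∈ Q, q * d = d * q) (hdS : ∀ s ∈ S, s * d = d * s)
    (hfix : ∀ x ∈ S, x ^ p = 1 → b * x = x * b → x ∈ zpowers d) :
    Q ≤ centralizer (S : Set G) := by
  let : CommGroup Q :=
    { (inferInstance : Group Q) with mul_comm := fun a c => Subtype.ext (hQc a a.2 c c.2) }
  let θ : Q →* MulAut S := S.normalizerMonoidHom.comp (inclusion hQS)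
  let β : MulAut S := S.normalizerMonoidHom ⟨b, hbS⟩
  let σ : MulAut Q := Q.normalizerMonoidHom ⟨b, hbQ⟩
  have hσ : ∀ (i : ℕ) (q : Q), ((σ ^ i) q : G) = b ^ i * q * (b ^ i)⁻¹ := by
    intro i q
    show (((Q.normalizerMonoidHom ⟨b, hbQ⟩) ^ i) q : G) = _
    rw [← map_pow]
    rfl
  have hfpfσ : ∀ i, 0 < i → i < p → ∀ q : Q, (σ ^ i) q = q → q = 1 := by
    intro i hi hip q hq
    have h1 : b ^ i * (q : G) * (b ^ i)⁻¹ = q := by rw [← hσ, hq]
    rw [mul_inv_eq_iff_eq_mul] at h1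
    have hco : Nat.Coprime i p :=
      ((Nat.Prime.coprime_iff_not_dvd hp.out).2 fun h => by
        have := Nat.le_of_dvd hi h; omega).symm
    obtain ⟨m, hm⟩ := exists_pow_eq_self_of_coprime (x := b) (n := i)
      (Nat.Coprime.coprime_dvd_right (orderOf_dvd_of_pow_eq_one hbp) hco)
    have h2 : Commute (b ^ i) (q : G) := h1
    have h3 := h2.pow_left m
    rw [hm] at h3
    exact Subtype.ext (hfpf q q.2 h3.eq.symm)
  have hset : RankOneFixed.Setup p θ β σ (⟨d, hd⟩ : S) := by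
    refine ⟨hS, ?_, fun q x => ?_, fun h => hd1 (congrArg Subtype.val h), Subtype.ext hdp,
      fun q => ?_, ?_, fun x => Subtype.ext (hdS x x.2), fun x hx hx' => ?_⟩
    · show (S.normalizerMonoidHom ⟨b, hbS⟩) ^ p = 1
      rw [← map_pow, show (⟨b, hbS⟩ : normalizer (S : Set G)) ^ p = 1 from Subtype.ext hbp, map_one]
    · apply Subtype.ext
      show b * ((q : G) * x * (q : G)⁻¹) * b⁻¹ =
        (b * q * b⁻¹) * (b * x * b⁻¹) * (b * q * b⁻¹)⁻¹
      group
    · apply Subtype.ext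
      show (q : G) * d * (q : G)⁻¹ = d
      rw [hdQ q q.2, mul_inv_cancel_right]
    · apply Subtype.ext
      show b * d * b⁻¹ = d
      rw [hdb, mul_inv_cancel_right]
    · have h1 : b * (x : G) * b⁻¹ = x := congrArg Subtype.val hx'
      obtain ⟨i, hi⟩ := hfix x x.2 (by simpa using congrArg Subtype.val hx)
        (mul_inv_eq_iff_eq_mul.1 h1)
      exact ⟨i, Subtype.ext (by simpa using hi)⟩
  obtain ⟨D, hDchar, hDc, hDe, hDfaith⟩ := PGroup.exists_characteristic_exponent_prime hp2 hS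
  set dS : S := ⟨d, hd⟩
  have hdc : zpowers dS ≤ center S := zpowers_le.2 (mem_center_iff.2 fun s => Subtype.ext (hdS s s.2))
  have hzn : (zpowers dS).Normal := ⟨fun z hz g => by
    rwa [mem_center_iff.1 (hdc hz) g, mul_inv_cancel_right]⟩
  set T := D ⊔ zpowers dS
  have hmem : ∀ x ∈ T, ∃ a ∈ D, ∃ c ∈ zpowers dS, a * c = x := fun x hx =>
    mem_sup_of_normal_right.1 hx
  have hθT : ∀ q, ∀ x ∈ T, θ q x ∈ T := fun q => by
    show T ≤ T.comap (θ q).toMonoidHom
    refine sup_le (fun x hx => mem_sup_left (characteristic_iff_le_comap.1 hDchar (θ q) hx)) ?_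
    rw [zpowers_le, mem_comap]
    show θ q dS ∈ T
    rw [hset.d_fix]; exact mem_sup_right (mem_zpowers _)
  have hβT : ∀ x ∈ T, β x ∈ T := by
    show T ≤ T.comap β.toMonoidHom
    refine sup_le (fun x hx => mem_sup_left (characteristic_iff_le_comap.1 hDchar β hx)) ?_
    rw [zpowers_le, mem_comap]
    show β dS ∈ T
    rw [hset.d_beta]; exact mem_sup_right (mem_zpowers _)
  obtain ⟨β', hset', -⟩ := hset.restrict T hθT hβT (mem_sup_right (mem_zpowers _))
  have hexp : ∀ x : T, x ^ p = 1 := fun x => by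
    obtain ⟨a, ha, c, hc, hx⟩ := hmem x x.2
    apply Subtype.ext
    rw [SubmonoidClass.coe_pow, ← hx, (show Commute a c from mem_center_iff.1 (hdc hc) a).mul_pow,
      hDe a ha, OneMemClass.coe_one, one_mul]
    obtain ⟨i, rfl⟩ := hc
    rw [← zpow_natCast, ← zpow_mul, mul_comm, zpow_mul, zpow_natCast,
      show dS ^ p = 1 from Subtype.ext hdp, one_zpow]
  have hcl : commutator T ≤ center T := by
    rw [_root_.commutator_def, commutator_le]
    intro x _ y _
    obtain ⟨a, ha, c, hc, hx⟩ := hmem x x.2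
    obtain ⟨a', ha', c', hc', hy⟩ := hmem y y.2
    have h0 : ⁅(x : S), (y : S)⁆ = ⁅a, a'⁆ := by
      have hc0 := hdc hc
      have hc0' := hdc hc'
      have hcy : ∀ z : S, ⁅c, z⁆ = 1 := fun z =>
        commutatorElement_eq_one_iff_mul_comm.2 (mem_center_iff.1 hc0 z).symm
      have hzc : ∀ z : S, ⁅z, c'⁆ = 1 := fun z =>
        commutatorElement_eq_one_iff_mul_comm.2 (mem_center_iff.1 hc0' z)
      rw [← hx, ← hy, PGroup.commutatorElement_mul_left (by rw [hcy]; exact one_mem _), hcy, mul_one,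
        PGroup.commutatorElement_mul_right (by rw [hzc]; exact one_mem _), hzc, mul_one]
    refine mem_center_iff.2 fun z => Subtype.ext ?_
    obtain ⟨a'', ha'', c'', hc'', hz⟩ := hmem z z.2
    show (z : S) * ⁅(x : S), (y : S)⁆ = ⁅(x : S), (y : S)⁆ * z
    rw [h0, ← hz]
    have h1 : (⟨a, ha⟩ : D) ∈ (⊤ : Subgroup D) := mem_top _
    have h2 := mem_center_iff.1 (hDc (commutator_mem_commutator h1 (mem_top (⟨a', ha'⟩ : D))))
      ⟨a'', ha''⟩
    have h2' : a'' * ⁅a, a'⁆ = ⁅a, a'⁆ * a'' := congrArg Subtype.val h2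
    rw [mul_assoc, ← mem_center_iff.1 (hdc hc'') ⁅a, a'⁆, ← mul_assoc, h2', mul_assoc]
  intro q hq
  have hα : θ ⟨q, hq⟩ = 1 := by
    refine hDfaith _ ?_ fun x hx => ?_
    · exact Nat.Coprime.coprime_dvd_left
        ((orderOf_map_dvd θ _).trans (orderOf_dvd_natCard _)) hQp
    · exact congrArg Subtype.val (RankOneFixed.Setup.trivial_of_classTwo
        (hp.out.odd_of_ne_two hp2) hQp hfpfσ hset' hexp hcl ⟨q, hq⟩ ⟨x, mem_sup_left hx⟩)
  intro s hs
  have h1 : q * s * q⁻¹ = s :=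
    (congrArg Subtype.val (DFunLike.congr_fun hα (⟨s, hs⟩ : S)) :)
  exact (mul_inv_eq_iff_eq_mul.1 h1).symm

/-- The case of trivial `p'`-core. -/
theorem eq_bot_of_invariant (hp2 : p ≠ 2) (hG : CharTwo.CFCon p G) {B : Subgroup G}
    (hBc : ∀ a ∈ B, ∀ c ∈ B, a * c = c * a) (hBe : ∀ a ∈ B, a ^ p = 1) (hB : Nat.card B = p ^ 2)
    {b : G} (hb : b ∈ B) (hb1 : b ≠ 1)
    (hU : ∀ U : Subgroup G, IsPGroup p U → B ≤ U → U ≤ centralizer ({b} : Set G) →
      ∀ x ∈ U, x ^ p = 1 → x ∈ B)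
    {Q : Subgroup G} (hQp : (Nat.card Q).Coprime p) (hBQ : B ≤ normalizer (Q : Set G)) : Q = ⊥ := by
  set R := Cfsg.pCore p G with hR
  have hRn : R.Normal := inferInstance
  have hRp : IsPGroup p R := Cores.pCore_isPGroup
  have hQR : Q ⊓ R = ⊥ := by
    obtain ⟨k, hk⟩ := IsPGroup.iff_card.1 hRp
    exact PSolv.inf_eq_bot_of_coprime_card (by rw [hk]; exact hQp.pow_right k)
  rcases eq_or_ne R ⊥ with h0 | hR0
  · have htop : ∀ x : G, x = 1 := fun x => by
      have hx : x ∈ centralizer (R : Set G) := by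
        rw [h0]
        exact mem_centralizer_iff.2 fun y hy => by rw [mem_bot.1 hy, one_mul, mul_one]
      have := hG hx
      rwa [← hR, h0, mem_bot] at this
    exact (eq_bot_iff_forall Q).2 fun x _ => htop x
  have hBp : IsPGroup p B := fun a => ⟨1, Subtype.ext (by simpa using hBe a a.2)⟩
  have hQB : ∀ r ∈ B ⊓ R, ∀ q ∈ Q, q * r = r * q := fun r hr q hq =>
    commute_of_normalizes hQR hr.2 (hBQ hr.1) hq
  have horder : orderOf b = p := orderOf_eq_prime (hBe b hb) hb1
  have hzp : IsPGroup p (zpowers b) := hBp.to_le (zpowers_le.2 hb)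
  -- `C_Q(b) = 1`
  set C0 := R ⊓ centralizer ({b} : Set G) with hC0
  have hBC : B ≤ centralizer ({b} : Set G) := fun a ha =>
    mem_centralizer_singleton_iff.2 (hBc a ha b hb)
  have hC0B : ∀ x ∈ C0, x ^ p = 1 → x ∈ B := by
    intro x hx hxp
    refine hU (B ⊔ C0) (hBp.to_sup_of_normal_right' (hRp.to_le inf_le_left) ?_) le_sup_left
      (sup_le hBC inf_le_right) x (mem_sup_right hx) hxp
    intro a ha
    rw [mem_normalizer_iff]
    have hcomm : ∀ a' ∈ B, ∀ n ∈ C0, a' * n * a'⁻¹ ∈ C0 := fun a' ha' n hn =>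
      ⟨hRn.conj_mem n hn.1 a', (centralizer _).mul_mem
        ((centralizer _).mul_mem (hBC ha') hn.2) ((centralizer _).inv_mem (hBC ha'))⟩
    refine fun n => ⟨hcomm a ha n, fun hn => ?_⟩
    have := hcomm a⁻¹ (B.inv_mem ha) _ hn
    simpa [mul_assoc] using this
  have hfpf : ∀ q ∈ Q, q * b = b * q → q = 1 := by
    intro q hq hqb
    have hqC : q ∈ centralizer ({b} : Set G) := mem_centralizer_singleton_iff.2 hqb
    have hqN : q ∈ normalizer (C0 : Set G) := by
      rw [mem_normalizer_iff]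
      have hcomm : ∀ a ∈ centralizer ({b} : Set G), ∀ n ∈ C0, a * n * a⁻¹ ∈ C0 := fun a ha n hn =>
        ⟨hRn.conj_mem n hn.1 a, (centralizer _).mul_mem
          ((centralizer _).mul_mem ha hn.2) ((centralizer _).inv_mem ha)⟩
      refine fun n => ⟨hcomm q hqC n, fun hn => ?_⟩
      have := hcomm q⁻¹ ((centralizer _).inv_mem hqC) _ hn
      simpa [mul_assoc] using this
    have hqo : (orderOf q).Coprime p := hQp.coprime_dvd_left (orderOf_dvd_natCard Q hq)
    have hα : C0.normalizerMonoidHom ⟨q, hqN⟩ = 1 := by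
      refine FusionAux.eq_one_of_fix_omega hp2 (hRp.to_le inf_le_left) ?_ fun x hx => ?_
      · exact hqo.coprime_dvd_left ((orderOf_map_dvd _ _).trans
          (by rw [← orderOf_coe]))
      · apply Subtype.ext
        show q * (x : G) * q⁻¹ = x
        have hxp : (x : G) ^ p = 1 := by simpa using congrArg Subtype.val hx
        rw [hQB x ⟨hC0B x x.2 hxp, x.2.1⟩ q hq, mul_inv_cancel_right]
    have hqR : q ∈ centralizer (R : Set G) := by
      refine CharTwo.pxq hRp hzp
        (by rw [normalizer_eq_top (h := hRn)]; exact le_top)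
        (by rw [normalizer_eq_top (h := hRn)]; exact mem_top q) hqo ?_ ?_
      · rw [CharTwo.centralizer_zpowers]; exact hqC
      · rw [CharTwo.centralizer_zpowers]
        rintro r ⟨hr1, hr2⟩
        have h1 : q * r * q⁻¹ = r :=
          (congrArg Subtype.val (DFunLike.congr_fun hα (⟨r, hr2, hr1⟩ : C0)) :)
        exact (mul_inv_eq_iff_eq_mul.1 h1).symm
    have : q ∈ Q ⊓ R := ⟨hq, hG hqR⟩
    rwa [hQR, mem_bot] at this
  by_cases hbR : b ∈ R
  · exact (eq_bot_iff_forall Q).2 fun q hq => hfpf q hq (hQB b ⟨hb, hbR⟩ q hq)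
  -- `B ⊓ R` has order `p`
  obtain ⟨d, hdBR, hd1⟩ : ∃ d ∈ B ⊓ R, d ≠ 1 := by
    set H := R ⊔ zpowers b with hH
    have hHp : IsPGroup p H := hRp.to_sup_of_normal_left hzp
    have : Group.IsNilpotent H := hHp.isNilpotent
    have hne : R.subgroupOf H ≠ ⊥ := by
      intro he
      rw [subgroupOf_eq_bot] at he
      exact hR0 (he.eq_bot_of_le le_sup_left)
    have : (R.subgroupOf H).Normal := hRn.subgroupOf H
    obtain ⟨z, hz, hz1⟩ := (bot_or_exists_ne_one _).resolve_left
      (SolvStruct.nilpotent_inf_center_ne_bot (R.subgroupOf H) hne)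
    have hzR : (z : G) ∈ R := hz.1
    have hzb : (z : G) * b = b * z := congrArg Subtype.val
      (mem_center_iff.1 hz.2 ⟨b, mem_sup_right (mem_zpowers b)⟩).symm
    have hzne : (z : G) ≠ 1 := fun he => hz1 (Subtype.ext he)
    obtain ⟨k, hk⟩ := IsPGroup.iff_orderOf.1 hRp ⟨z, hzR⟩
    rw [← orderOf_coe] at hk
    have hk' : orderOf (z : G) = p ^ k := hk
    obtain ⟨m, rfl⟩ := Nat.exists_eq_succ_of_ne_zero (n := k) fun h0 => hzne
      (orderOf_eq_one_iff.1 (by rw [hk', h0, pow_zero]))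
    refine ⟨(z : G) ^ p ^ m, ⟨?_, R.pow_mem hzR _⟩, fun h1 => ?_⟩
    · refine hC0B _ ⟨R.pow_mem hzR _, mem_centralizer_singleton_iff.2 ?_⟩ ?_
      · exact (Commute.pow_left hzb _).eq
      · rw [← pow_mul, ← pow_succ, ← hk', pow_orderOf_eq_one]
    · have := orderOf_dvd_of_pow_eq_one h1
      rw [hk', Nat.pow_dvd_pow_iff_le_right hp.out.one_lt] at this
      omega
  have hdz : ∀ x ∈ B ⊓ R, x ∈ zpowers d := by
    have hle : zpowers d ≤ B ⊓ R := zpowers_le.2 hdBR
    have hcd : Nat.card (zpowers d) = p := by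
      rw [Nat.card_zpowers, orderOf_eq_prime (hBe d hdBR.1) hd1]
    obtain ⟨i, hi, hic⟩ := (Nat.dvd_prime_pow hp.out).1
      (hB ▸ card_dvd_of_le (inf_le_left : B ⊓ R ≤ B))
    have hi1 : i ≤ 1 := by
      by_contra hgt
      obtain rfl : i = 2 := by omega
      exact hbR ((eq_of_le_of_card_ge (inf_le_left : B ⊓ R ≤ B) (hB.le.trans hic.ge)).ge hb).2
    have := eq_of_le_of_card_ge hle (by
      rw [hcd, hic]; exact (Nat.pow_le_pow_right hp.out.pos hi1).trans_eq (pow_one p))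
    exact fun x hx => this.ge hx
  -- abelian invariant subgroups
  have aux : ∀ Q0 : Subgroup G, Q0 ≤ Q → (∀ a ∈ Q0, ∀ c ∈ Q0, a * c = c * a) →
      B ≤ normalizer (Q0 : Set G) → Q0 = ⊥ := by
    intro Q0 hle hQ0c hBQ0
    set S := R ⊓ centralizer ({d} : Set G) with hS
    have hCn : ∀ a ∈ centralizer ({d} : Set G), a ∈ normalizer (S : Set G) := by
      intro a ha
      rw [mem_normalizer_iff]
      have hcomm : ∀ a' ∈ centralizer ({d} : Set G), ∀ n ∈ S, a' * n * a'⁻¹ ∈ S :=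
        fun a' ha' n hn => ⟨hRn.conj_mem n hn.1 a', (centralizer _).mul_mem
          ((centralizer _).mul_mem ha' hn.2) ((centralizer _).inv_mem ha')⟩
      refine fun n => ⟨hcomm a ha n, fun hn => ?_⟩
      have := hcomm a⁻¹ ((centralizer _).inv_mem ha) _ hn
      simpa [mul_assoc] using this
    have hQd : ∀ q ∈ Q0, q * d = d * q := fun q hq => hQB d hdBR q (hle hq)
    have hQ0p : (Nat.card Q0).Coprime p := hQp.coprime_dvd_left (card_dvd_of_le hle)
    have hcS : Q0 ≤ centralizer (S : Set G) := by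
      refine le_centralizer_of_rank_one hp2 (hRp.to_le inf_le_left) hQ0c hQ0p
        (fun q hq => hCn q (mem_centralizer_singleton_iff.2 (hQd q hq))) (hBe b hb)
        (hCn b (mem_centralizer_singleton_iff.2 (hBc b hb d hdBR.1))) (hBQ0 hb)
        (fun q hq => hfpf q (hle hq))
        ⟨hdBR.2, mem_centralizer_singleton_iff.2 rfl⟩ hd1 (hBe d hdBR.1) (hBc b hb d hdBR.1) hQd
        (fun s hs => mem_centralizer_singleton_iff.1 hs.2) fun x hx hxp hxb => ?_
      exact hdz x ⟨hC0B x ⟨hx.1, mem_centralizer_singleton_iff.2 hxb.symm⟩ hxp, hx.1⟩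
    refine (eq_bot_iff_forall Q0).2 fun q hq => ?_
    have hqR : q ∈ centralizer (R : Set G) := by
      refine CharTwo.pxq hRp (hBp.to_le (zpowers_le.2 hdBR.1))
        (by rw [normalizer_eq_top (h := hRn)]; exact le_top)
        (by rw [normalizer_eq_top (h := hRn)]; exact mem_top q)
        (hQ0p.coprime_dvd_left (orderOf_dvd_natCard Q0 hq)) ?_ ?_
      · rw [CharTwo.centralizer_zpowers]; exact mem_centralizer_singleton_iff.2 (hQd q hq)
      · rw [CharTwo.centralizer_zpowers]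
        rintro r ⟨hr1, hr2⟩
        exact mem_centralizer_iff.1 (hcS hq) r ⟨hr2, hr1⟩
    have : q ∈ Q ⊓ R := ⟨hle hq, hG hqR⟩
    rwa [hQR, mem_bot] at this
  -- an invariant Sylow subgroup
  by_contra hQ
  have : Nontrivial Q := (nontrivial_iff_ne_bot Q).2 hQ
  obtain ⟨q, hq, hqd⟩ := Nat.exists_prime_and_dvd (Finite.one_lt_card (α := Q)).ne'
  have := Fact.mk hq
  have hcopBQ : (Nat.card B).Coprime (Nat.card Q) := by rw [hB]; exact (hQp.pow_right 2).symm
  obtain ⟨S, hBS⟩ := Coprime.exists_invariant_sylow q hBQ hcopBQ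
    (Or.inl (by
      have : IsMulCommutative B := ⟨⟨fun a c => Subtype.ext (hBc a a.2 c c.2)⟩⟩
      exact Group.isSolvable_of_comm fun a c => Subtype.ext (hBc a a.2 c c.2)))
  set Sg := (S : Subgroup Q).map Q.subtype with hSg
  have hSp : IsPGroup q Sg := S.2.map _
  have hSne : Sg ≠ ⊥ := by
    rw [hSg, Ne, map_eq_bot_iff_of_injective _ Q.subtype_injective]
    exact S.ne_bot_of_dvd_card hqd
  have : Nontrivial Sg := (nontrivial_iff_ne_bot Sg).2 hSne
  have : Nontrivial (center Sg) := hSp.center_nontrivial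
  have hZ : (center Sg).map Sg.subtype = ⊥ := by
    refine aux _ ((map_subtype_le _).trans (map_subtype_le _)) ?_
      (hBS.trans (Coprime.normalizer_le_normalizer_map_characteristic Sg (center Sg)))
    rintro _ ⟨a, ha, rfl⟩ _ ⟨c, hc, rfl⟩
    exact congrArg Subtype.val (mem_center_iff.1 hc a)
  rw [map_eq_bot_iff_of_injective _ Sg.subtype_injective] at hZ
  exact (nontrivial_iff_ne_bot _).1 inferInstance hZ

/-- `B`-invariant `p'`-subgroups lie in `O_{p'}(G)`. -/
theorem le_pPrimeCore (hp2 : p ≠ 2) (hG : Cfsg.IsPSolvable p G) {B : Subgroup G}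
    (hBc : ∀ a ∈ B, ∀ c ∈ B, a * c = c * a) (hBe : ∀ a ∈ B, a ^ p = 1) (hB : Nat.card B = p ^ 2)
    {b : G} (hb : b ∈ B) (hb1 : b ≠ 1)
    (hU : ∀ U : Subgroup G, IsPGroup p U → B ≤ U → U ≤ centralizer ({b} : Set G) →
      ∀ x ∈ U, x ^ p = 1 → x ∈ B)
    {Q : Subgroup G} (hQp : (Nat.card Q).Coprime p) (hBQ : B ≤ normalizer (Q : Set G)) :
    Q ≤ Cfsg.pPrimeCore p G := by
  set W := Cfsg.pPrimeCore p G with hW
  have hWc : (Nat.card W).Coprime p := PSolv.coprime_card_pPrimeCore p G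
  let π := QuotientGroup.mk' W
  have hπ : Function.Surjective π := QuotientGroup.mk'_surjective W
  have hinj : ∀ {x : G} {k : ℕ}, x ^ p ^ k = 1 → x ∈ W → x = 1 := by
    intro x k hx hxW
    exact orderOf_eq_one_iff.1 (Nat.eq_one_of_dvd_coprimes (hWc.pow_right k)
      (orderOf_dvd_natCard W hxW) (orderOf_dvd_of_pow_eq_one hx))
  have hcf : CharTwo.CFCon p (G ⧸ W) :=
    PSolv.centralizer_pCore_le (PSolv.isPSolvable_quotient hG W) (PSolv.pPrimeCore_quotient_eq_bot p G)
  have hBi : Nat.card (B.map π) = p ^ 2 := by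
    let f := π.comp B.subtype
    have hf : Function.Injective f := (injective_iff_map_eq_one f).2 fun a ha =>
      Subtype.ext (hinj (k := 1) (by rw [pow_one]; exact hBe a a.2)
        ((QuotientGroup.eq_one_iff _).1 ha))
    have : f.range = B.map π := by rw [MonoidHom.range_comp, range_subtype]
    rw [← this, ← hB]
    exact Nat.card_congr (MonoidHom.ofInjective hf).toEquiv.symm
  have hb' : π b ≠ 1 := fun he =>
    hb1 (hinj (k := 1) (by rw [pow_one]; exact hBe b hb) ((QuotientGroup.eq_one_iff _).1 he))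
  have key : Q.map π = ⊥ := by
    refine eq_bot_of_invariant hp2 hcf ?_ ?_ hBi (mem_map_of_mem π hb) hb' ?_
      (hQp.coprime_dvd_left (card_map_dvd Q π)) ((map_mono hBQ).trans (le_normalizer_map π))
    · rintro _ ⟨a, ha, rfl⟩ _ ⟨c, hc, rfl⟩
      rw [← map_mul, ← map_mul, hBc a ha c hc]
    · rintro _ ⟨a, ha, rfl⟩
      rw [← map_pow, hBe a ha, map_one]
    intro U hUp hBU hUC x hx hxp
    set M := U.comap π ⊓ centralizer ({b} : Set G) with hM
    have hBM : B ≤ M := le_inf (fun a ha => hBU (mem_map_of_mem π ha))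
      (fun a ha => mem_centralizer_singleton_iff.2 (hBc a ha b hb))
    have hMU : M.map π = U := by
      refine le_antisymm ((map_mono inf_le_left).trans (map_comap_le _ _)) fun u hu => ?_
      obtain ⟨y, rfl⟩ := hπ u
      have hy : y * b * y⁻¹ * b⁻¹ ∈ W := by
        rw [← QuotientGroup.eq_one_iff]
        show π (y * b * y⁻¹ * b⁻¹) = 1
        rw [map_mul, map_mul, map_mul, map_inv, map_inv,
          mem_centralizer_singleton_iff.1 (hUC hu), mul_inv_cancel_right, mul_inv_cancel]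
      have hzp : IsPGroup p (zpowers b) :=
        IsPGroup.to_le (fun a : B => ⟨1, Subtype.ext (by simpa using hBe a a.2)⟩) (zpowers_le.2 hb)
      obtain ⟨o, ho, hoy⟩ := CharTwo.exists_centralizer_lift hWc hzp hy
      have ho' : π o = 1 := (QuotientGroup.eq_one_iff _).2 ho
      refine ⟨o * y, ⟨?_, hoy⟩, by rw [map_mul, ho', one_mul]⟩
      show π (o * y) ∈ U
      rw [map_mul, ho', one_mul]; exact hu
    have hBp : IsPGroup p (B.subgroupOf M) := fun a => ⟨1, Subtype.ext (Subtype.ext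
      (by simpa using hBe _ a.2))⟩
    obtain ⟨S, hS⟩ := hBp.exists_le_sylow
    let f := π.subgroupMap M
    have hf : Function.Surjective f := π.subgroupMap_surjective M
    have hUp' : IsPGroup p (M.map π) := hMU ▸ hUp
    have htop := (S.mapSurjective hf).is_maximal' (hUp'.to_subgroup ⊤) le_top
    have hxm : f ⟨_, (hMU.ge hx).choose_spec.1⟩ ∈ (S.mapSurjective hf : Subgroup (M.map π)) :=
      htop ▸ mem_top _
    rw [Sylow.coe_mapSurjective] at hxm
    obtain ⟨s, hs, hse⟩ := hxm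
    have hse' : π (s : G) = x := (congrArg Subtype.val hse).trans (hMU.ge hx).choose_spec.2
    have hsp : (s : G) ^ p = 1 := by
      obtain ⟨k, hk⟩ := S.2 ⟨s, hs⟩
      refine hinj (k := k) ?_ ((QuotientGroup.eq_one_iff _).1 ?_)
      · rw [← pow_mul, mul_comm, pow_mul,
          show (s : G) ^ p ^ k = 1 from congrArg (fun t : (S : Subgroup M) => ((t : M) : G)) hk,
          one_pow]
      · show π ((s : G) ^ p) = 1
        rw [map_pow, hse', hxp]
    rw [← hse']
    refine mem_map_of_mem π (hU ((S : Subgroup M).map M.subtype) (S.2.map _) ?_ ?_ s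
      ⟨s, hs, rfl⟩ hsp)
    · exact fun a ha => ⟨⟨a, hBM ha⟩, hS ha, rfl⟩
    · exact (map_subtype_le _).trans inf_le_right
  intro q hq
  exact (QuotientGroup.eq_one_iff q).1 ((eq_bot_iff_forall _).1 key _ ⟨q, hq, rfl⟩)

end Cfsg.Agent.Tech.RankTwoSignalizer
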