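import Mathlib

/-!
Groups of order 320 generated by an element `c` with `c ^ 5 = 1` and an element `x` whose five
conjugates under `c` generate a special 2-group: they are determined up to isomorphism.
-/

set_option autoImplicit false

open scoped Pointwise commutatorElement

namespace Cfsg.Agent.Tech.ThreeTwenty

variable {G : Type*} [Group G]

/-- The conjugate `c ^ n * x * c ^ (-n)`. -/
def cj (x c : G) (n : ℕ) : G := c ^ n * x * (c ^ n)⁻¹

/-- The commutator `u v u⁻¹ v⁻¹`. -/
def cc (u v : G) : G := u * v * u⁻¹ * v⁻¹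

/-- The relations of the group of order 320. -/
structure Rel (x c : G) : Prop where
  hc : c ^ 5 = 1
  prod : cj x c 0 * cj x c 1 * cj x c 2 * cj x c 3 * cj x c 4 = 1
  sq_two : x * x * (x * x) = 1
  sq_comm : Commute (x * x) c
  z1_two : cc x (cj x c 1) * cc x (cj x c 1) = 1
  z1_x : Commute (cc x (cj x c 1)) x
  z1_c : Commute (cc x (cj x c 1)) c
  z2_two : cc x (cj x c 2) * cc x (cj x c 2) = 1
  z2_x : Commute (cc x (cj x c 2)) x
  z2_c : Commute (cc x (cj x c 2)) c

theorem cj_zero (x c : G) : cj x c 0 = x := by simp [cj]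

theorem cj_add (x c : G) (m n : ℕ) : cj x c (m + n) = c ^ m * cj x c n * (c ^ m)⁻¹ := by
  simp only [cj, pow_add, mul_inv_rev, mul_assoc]

theorem cc_mul (u v : G) : cc u v * (v * u) = u * v := by simp only [cc]; group

theorem cc_conj (g u v : G) : cc (g * u * g⁻¹) (g * v * g⁻¹) = g * cc u v * g⁻¹ := by
  simp only [cc]; group

theorem cc_symm (u v : G) : cc v u = (cc u v)⁻¹ := by simp only [cc]; group

namespace Rel

variable {x c : G} (h : Rel x c)
include h

theorem cj_period (n : ℕ) : cj x c (n + 5) = cj x c n := by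
  simp only [cj, pow_add, h.hc, mul_one]

theorem shift_one (i : ℕ) : cc (cj x c i) (cj x c (i + 1)) = cc x (cj x c 1) := by
  have h0 : cj x c i = c ^ i * x * (c ^ i)⁻¹ := rfl
  rw [cj_add, h0, cc_conj, ← (h.z1_c.pow_right i).eq, mul_inv_cancel_right]

theorem shift_two (i : ℕ) : cc (cj x c i) (cj x c (i + 2)) = cc x (cj x c 2) := by
  have h0 : cj x c i = c ^ i * x * (c ^ i)⁻¹ := rfl
  rw [cj_add, h0, cc_conj, ← (h.z2_c.pow_right i).eq, mul_inv_cancel_right]

theorem swap_one (i : ℕ) :
    cj x c (i + 1) * cj x c i = cc x (cj x c 1) * (cj x c i * cj x c (i + 1)) := by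
  rw [← cc_mul (cj x c i) (cj x c (i + 1)), h.shift_one, ← mul_assoc, h.z1_two, one_mul]

theorem swap_two (i : ℕ) :
    cj x c (i + 2) * cj x c i = cc x (cj x c 2) * (cj x c i * cj x c (i + 2)) := by
  rw [← cc_mul (cj x c i) (cj x c (i + 2)), h.shift_two, ← mul_assoc, h.z2_two, one_mul]

theorem swap_three (i : ℕ) :
    cj x c (i + 3) * cj x c i = cc x (cj x c 2) * (cj x c i * cj x c (i + 3)) := by
  have := cc_mul (cj x c (i + 3)) (cj x c i)
  rw [← this, ← h.cj_period i, show i + 5 = i + 3 + 2 by omega, h.shift_two]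

theorem cj_sq (i : ℕ) : cj x c i * cj x c i = x * x := by
  calc cj x c i * cj x c i = c ^ i * (x * x) * (c ^ i)⁻¹ := by simp only [cj]; group
    _ = x * x := by rw [← (h.sq_comm.pow_right i).eq, mul_inv_cancel_right]

/-- The square of `x` is the product of the two commutators. -/
theorem sq_eq (hgen : Subgroup.closure {x, c} = ⊤) :
    x * x = cc x (cj x c 1) * cc x (cj x c 2) := by
  set z1 := cc x (cj x c 1)
  set z2 := cc x (cj x c 2)
  set s := x * x with hs
  have hc1 : ∀ g, Commute z1 g := by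
    intro g
    have hg : g ∈ Subgroup.closure {x, c} := by rw [hgen]; trivial
    induction hg using Subgroup.closure_induction with
    | mem y hy => rcases hy with rfl | rfl; exacts [h.z1_x, h.z1_c]
    | one => exact Commute.one_right _
    | mul y z _ _ hy hz => exact hy.mul_right hz
    | inv y _ hy => exact hy.inv_right
  have hc2 : ∀ g, Commute z2 g := by
    intro g
    have hg : g ∈ Subgroup.closure {x, c} := by rw [hgen]; trivial
    induction hg using Subgroup.closure_induction with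
    | mem y hy => rcases hy with rfl | rfl; exacts [h.z2_x, h.z2_c]
    | one => exact Commute.one_right _
    | mul y z _ _ hy hz => exact hy.mul_right hz
    | inv y _ hy => exact hy.inv_right
  have hcs : ∀ g, Commute s g := by
    intro g
    have hg : g ∈ Subgroup.closure {x, c} := by rw [hgen]; trivial
    induction hg using Subgroup.closure_induction with
    | mem y hy =>
      rcases hy with rfl | rfl
      exacts [(Commute.refl _).mul_left (Commute.refl _), h.sq_comm]
    | one => exact Commute.one_right _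
    | mul y z _ _ hy hz => exact hy.mul_right hz
    | inv y _ hy => exact hy.inv_right
  set a := cj x c 0
  set b := cj x c 1
  set u := cj x c 2
  set d := cj x c 3
  have hda : d * a = z2 * (a * d) := h.swap_three 0
  have hua : u * a = z2 * (a * u) := h.swap_two 0
  have hba : b * a = z1 * (a * b) := h.swap_one 0
  have hdb : d * b = z2 * (b * d) := h.swap_two 1
  have hub : u * b = z1 * (b * u) := h.swap_one 1
  have hdu : d * u = z1 * (u * d) := h.swap_one 2
  have h4 : cj x c 4 * cj x c 4 = s := h.cj_sq 4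
  have h4' : cj x c 4 = (a * b * u * d)⁻¹ := eq_inv_of_mul_eq_one_right h.prod
  rw [h4', ← mul_inv_rev, inv_eq_iff_eq_inv, eq_comm, inv_eq_of_mul_eq_one_right h.sq_two] at h4
  have e1 : b * u * d * a = z1 * (z2 * (z2 * (a * (b * u * d)))) := by
    calc b * u * d * a = b * u * (d * a) := by group
      _ = b * u * (z2 * (a * d)) := by rw [hda]
      _ = z2 * (b * (u * a) * d) := by rw [← mul_assoc, ← (hc2 _).eq]; group
      _ = z2 * (b * (z2 * (a * u)) * d) := by rw [hua]
      _ = z2 * (z2 * ((b * a) * u * d)) := by rw [← mul_assoc b, ← (hc2 b).eq]; group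
      _ = z2 * (z2 * ((z1 * (a * b)) * u * d)) := by rw [hba]
      _ = z1 * (z2 * (z2 * (a * (b * u * d)))) := by
        rw [← mul_assoc z1 z2, (hc1 z2).eq, mul_assoc z2 z1, ← mul_assoc z1 z2, (hc1 z2).eq]; group
  rw [← mul_assoc z2 z2, h.z2_two, one_mul] at e1
  have e2 : u * d * b = z1 * (z2 * (b * (u * d))) := by
    calc u * d * b = u * (d * b) := by group
      _ = u * (z2 * (b * d)) := by rw [hdb]
      _ = z2 * ((u * b) * d) := by rw [← mul_assoc, ← (hc2 u).eq]; group
      _ = z2 * ((z1 * (b * u)) * d) := by rw [hub]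
      _ = z1 * (z2 * (b * (u * d))) := by
        rw [← mul_assoc z1 z2, (hc1 z2).eq]; group
  have e3 : d * u * d = z1 * (u * s) := by
    rw [hdu, mul_assoc, mul_assoc, h.cj_sq 3]
  calc s = (a * b * u * d) * (a * b * u * d) := h4
    _ = a * (b * u * d * a) * (b * u * d) := by group
    _ = a * (z1 * (a * (b * u * d))) * (b * u * d) := by rw [e1]
    _ = z1 * ((a * a) * b * (u * d * b) * (u * d)) := by rw [← mul_assoc a z1, ← (hc1 a).eq]; group
    _ = z1 * ((a * a) * b * (z1 * (z2 * (b * (u * d)))) * (u * d)) := by rw [e2]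
    _ = z1 * ((a * a) * (z1 * (z2 * ((b * b) * (u * (d * u * d)))))) := by
      rw [mul_assoc (a * a) b, ← mul_assoc b z1, ← (hc1 b).eq, mul_assoc z1 b, ← mul_assoc b z2,
        ← (hc2 b).eq]
      group
    _ = z1 * (s * (z1 * (z2 * (s * (u * (z1 * (u * s))))))) := by
      rw [e3, h.cj_sq 0, h.cj_sq 1]
    _ = z1 * (s * (z1 * (z2 * (s * (z1 * ((u * u) * s)))))) := by
      rw [← mul_assoc u z1, ← (hc1 u).eq]; group
    _ = z1 * (s * (z1 * (z2 * (s * z1)))) := by rw [h.cj_sq 2, h.sq_two, mul_one]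
    _ = z1 * z2 := by
      rw [(hcs z1).left_comm, ← mul_assoc z1 z1, h.z1_two, one_mul, (hcs z2).left_comm,
        ← mul_assoc s s, h.sq_two, one_mul, (hc2 z1).eq]

end Rel

theorem mem_center_of_gen {x c z : G} (hgen : Subgroup.closure {x, c} = ⊤) (hx : Commute z x)
    (hc : Commute z c) : z ∈ Subgroup.center G := by
  refine Subgroup.mem_center_iff.2 fun g => ?_
  have hg : g ∈ Subgroup.closure {x, c} := by rw [hgen]; trivial
  suffices Commute z g from this.eq.symm
  induction hg using Subgroup.closure_induction with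
  | mem y hy => rcases hy with rfl | rfl; exacts [hx, hc]
  | one => exact Commute.one_right _
  | mul y z _ _ hy hz => exact hy.mul_right hz
  | inv y _ hy => exact hy.inv_right

theorem card_sup_le [Finite G] {H K : Subgroup G} (h : K ≤ Subgroup.normalizer (H : Set G)) :
    Nat.card (H ⊔ K : Subgroup G) ≤ Nat.card H * Nat.card K := by
  have e := Subgroup.coe_mul_of_right_le_normalizer_left H K h
  calc Nat.card (H ⊔ K : Subgroup G) = Nat.card ((H : Set G) * (K : Set G) : Set G) := by
        rw [← e]; rfl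
    _ ≤ _ := Set.natCard_mul_le

theorem card_zpowers_le {g : G} {n : ℕ} (hn : 0 < n) (h : g ^ n = 1) :
    Nat.card (Subgroup.zpowers g) ≤ n := by
  rw [Nat.card_zpowers]
  exact Nat.le_of_dvd hn (orderOf_dvd_of_pow_eq_one h)

theorem Rel.card_le [Finite G] {x c : G} (h : Rel x c)
    (hgen : Subgroup.closure {x, c} = ⊤) : Nat.card G ≤ 320 := by
  set z1 := cc x (cj x c 1) with hz1
  set z2 := cc x (cj x c 2) with hz2
  have m1 : z1 ∈ Subgroup.center G := mem_center_of_gen hgen h.z1_x h.z1_c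
  have m2 : z2 ∈ Subgroup.center G := mem_center_of_gen hgen h.z2_x h.z2_c
  set N := Subgroup.zpowers z1 ⊔ Subgroup.zpowers z2 with hNdef
  have hNc : N ≤ Subgroup.center G :=
    sup_le (Subgroup.zpowers_le.2 m1) (Subgroup.zpowers_le.2 m2)
  have : N.Normal := ⟨fun n hn g => by
    rwa [Subgroup.mem_center_iff.1 (hNc hn) g, mul_inv_cancel_right]⟩
  have hN : Nat.card N ≤ 4 := by
    refine (card_sup_le ((Subgroup.zpowers_le.2 m2).trans
      (Subgroup.center_le_normalizer _))).trans ?_
    exact Nat.mul_le_mul (card_zpowers_le two_pos (by rw [pow_two]; exact h.z1_two))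
      (card_zpowers_le two_pos (by rw [pow_two]; exact h.z2_two))
  have hn1 : z1 ∈ N := le_sup_left (a := Subgroup.zpowers z1) (Subgroup.mem_zpowers z1)
  have hn2 : z2 ∈ N := le_sup_right (a := Subgroup.zpowers z1) (Subgroup.mem_zpowers z2)
  let q : G →* G ⧸ N := QuotientGroup.mk' N
  have hq : ∀ g ∈ N, q g = 1 := fun g hg => (QuotientGroup.eq_one_iff g).2 hg
  let e : ℕ → G ⧸ N := fun i => q (cj x c i)
  have he2 : ∀ i, e i ^ 2 = 1 := fun i => by
    rw [pow_two, ← map_mul, h.cj_sq, h.sq_eq hgen]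
    exact hq _ (N.mul_mem hn1 hn2)
  have c1 : ∀ i, Commute (e (i + 1)) (e i) := fun i => by
    show q _ * q _ = q _ * q _
    rw [← map_mul, h.swap_one, map_mul, hq _ hn1, one_mul, map_mul]
  have c2 : ∀ i, Commute (e (i + 2)) (e i) := fun i => by
    show q _ * q _ = q _ * q _
    rw [← map_mul, h.swap_two, map_mul, hq _ hn2, one_mul, map_mul]
  have c3 : ∀ i, Commute (e (i + 3)) (e i) := fun i => by
    show q _ * q _ = q _ * q _
    rw [← map_mul, h.swap_three, map_mul, hq _ hn2, one_mul, map_mul]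
  have key : ∀ (H : Subgroup (G ⧸ N)) (a : G ⧸ N), a ^ 2 = 1 →
      H ≤ Subgroup.centralizer {a} → Nat.card (H ⊔ Subgroup.zpowers a : Subgroup _) ≤
        Nat.card H * 2 := fun H a ha hH => by
    refine (card_sup_le ?_).trans (Nat.mul_le_mul_left _ (card_zpowers_le two_pos ha))
    refine le_trans ?_ (Subgroup.centralizer_le_normalizer _)
    exact Subgroup.zpowers_le.2 (Subgroup.mem_centralizer_iff.2 fun u hu =>
      (Subgroup.mem_centralizer_singleton_iff.1 (hH hu)))
  have hcz : ∀ {a b : G ⧸ N}, Commute b a → Subgroup.zpowers a ≤ Subgroup.centralizer {b} :=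
    fun hab => Subgroup.zpowers_le.2 (Subgroup.mem_centralizer_singleton_iff.2 hab.eq.symm)
  set R := Subgroup.zpowers (e 0) ⊔ Subgroup.zpowers (e 1) ⊔ Subgroup.zpowers (e 2) ⊔
    Subgroup.zpowers (e 3) with hR
  have hRc : Nat.card R ≤ 16 := by
    have h3 := key _ (e 3) (he2 3) (sup_le (sup_le (hcz (c3 0)) (hcz (c2 1))) (hcz (c1 2)))
    have h2 := key _ (e 2) (he2 2) (sup_le (hcz (c2 0)) (hcz (c1 1)))
    have h1 := key _ (e 1) (he2 1) (hcz (c1 0))
    have h0 : Nat.card (Subgroup.zpowers (e 0)) ≤ 2 := card_zpowers_le two_pos (he2 0)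
    calc Nat.card R ≤ _ * 2 := h3
      _ ≤ 16 := by omega
  have m0 : e 0 ∈ R := Subgroup.mem_sup_left (Subgroup.mem_sup_left (Subgroup.mem_sup_left
    (Subgroup.mem_zpowers _)))
  have m1' : e 1 ∈ R := Subgroup.mem_sup_left (Subgroup.mem_sup_left (Subgroup.mem_sup_right
    (Subgroup.mem_zpowers _)))
  have m2' : e 2 ∈ R := Subgroup.mem_sup_left (Subgroup.mem_sup_right (Subgroup.mem_zpowers _))
  have m3 : e 3 ∈ R := Subgroup.mem_sup_right (Subgroup.mem_zpowers _)
  have m4 : e 4 ∈ R := by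
    have h4 : e 4 = (e 0 * e 1 * e 2 * e 3)⁻¹ := by
      show q _ = (q _ * q _ * q _ * q _)⁻¹
      rw [← map_mul, ← map_mul, ← map_mul, ← map_inv,
        eq_inv_of_mul_eq_one_right h.prod]
    rw [h4]
    exact R.inv_mem (R.mul_mem (R.mul_mem (R.mul_mem m0 m1') m2') m3)
  have hshift : ∀ i, q c * e i * (q c)⁻¹ = e (i + 1) := fun i => by
    show _ = q _
    rw [← map_mul, ← map_inv, ← map_mul, add_comm i, cj_add, pow_one]
  have hcR : q c ∈ Subgroup.normalizer (R : Set (G ⧸ N)) := by
    have hle : R.map (MulAut.conj (q c)).toMonoidHom ≤ R := by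
      simp only [hR, Subgroup.map_sup, MonoidHom.map_zpowers, sup_le_iff, Subgroup.zpowers_le,
        MulEquiv.coe_toMonoidHom, MulAut.conj_apply, hshift]
      exact ⟨⟨⟨m1', m2'⟩, m3⟩, m4⟩
    have heq : R.map (MulAut.conj (q c)).toMonoidHom = R := Subgroup.eq_of_le_of_card_ge hle
      (Subgroup.card_map_of_injective (MulAut.conj (q c)).injective).ge
    rw [Subgroup.mem_normalizer_iff]
    intro g
    constructor
    · exact fun hg => heq.le ⟨g, hg, rfl⟩
    · intro hg
      obtain ⟨g', hg', he⟩ := heq.ge hg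
      rwa [← (MulAut.conj (q c)).injective he]
  have htop : R ⊔ Subgroup.zpowers (q c) = ⊤ := by
    rw [eq_top_iff, ← (MonoidHom.range_eq_top.2 (QuotientGroup.mk'_surjective N)),
      MonoidHom.range_eq_map, ← hgen, MonoidHom.map_closure, Subgroup.closure_le]
    rintro _ ⟨y, hy, rfl⟩
    rcases hy with rfl | rfl
    · refine Subgroup.mem_sup_left ?_
      have : e 0 = q y := congrArg q (cj_zero y c)
      exact this ▸ m0
    · exact Subgroup.mem_sup_right (Subgroup.mem_zpowers _)
  have hQ : Nat.card (G ⧸ N) ≤ 80 := by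
    have := card_sup_le (K := Subgroup.zpowers (q c)) (Subgroup.zpowers_le.2 hcR)
    rw [htop, Subgroup.card_top] at this
    refine this.trans ((Nat.mul_le_mul hRc (card_zpowers_le (n := 5) (by norm_num) ?_)).trans le_rfl)
    rw [← map_pow, h.hc, map_one]
  rw [Subgroup.card_eq_card_quotient_mul_card_subgroup N]
  exact (Nat.mul_le_mul hQ hN).trans le_rfl

theorem Rel.of_injective {G' : Type*} [Group G'] (f : G →* G') (hf : Function.Injective f)
    {x c : G} (h : Rel (f x) (f c)) : Rel x c := by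
  have hc : ∀ i, f (cj x c i) = cj (f x) (f c) i := fun i => by simp [cj]
  have hk : ∀ u v, f (cc u v) = cc (f u) (f v) := fun u v => by simp [cc]
  exact
    { hc := hf (by simp [h.hc])
      prod := hf (by simp only [map_mul, hc, map_one, h.prod])
      sq_two := hf (by simp only [map_mul, map_one, h.sq_two])
      sq_comm := hf (by simpa only [map_mul] using h.sq_comm.eq)
      z1_two := hf (by simp only [map_mul, hk, hc, map_one, h.z1_two])
      z1_x := hf (by simpa only [map_mul, hk, hc] using h.z1_x.eq)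
      z1_c := hf (by simpa only [map_mul, hk, hc] using h.z1_c.eq)
      z2_two := hf (by simp only [map_mul, hk, hc, map_one, h.z2_two])
      z2_x := hf (by simpa only [map_mul, hk, hc] using h.z2_x.eq)
      z2_c := hf (by simpa only [map_mul, hk, hc] using h.z2_c.eq) }

theorem Rel.prodMk {G' : Type*} [Group G'] {x c : G} {x' c' : G'} (h : Rel x c) (h' : Rel x' c') :
    Rel (x, x') (c, c') :=
  { hc := Prod.ext h.hc h'.hc
    prod := Prod.ext h.prod h'.prod
    sq_two := Prod.ext h.sq_two h'.sq_two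
    sq_comm := Prod.ext h.sq_comm.eq h'.sq_comm.eq
    z1_two := Prod.ext h.z1_two h'.z1_two
    z1_x := Prod.ext h.z1_x.eq h'.z1_x.eq
    z1_c := Prod.ext h.z1_c.eq h'.z1_c.eq
    z2_two := Prod.ext h.z2_two h'.z2_two
    z2_x := Prod.ext h.z2_x.eq h'.z2_x.eq
    z2_c := Prod.ext h.z2_c.eq h'.z2_c.eq }

/-- Uniqueness of the group of order 320 with these relations. -/
theorem nonempty_mulEquiv {G' : Type*} [Group G'] [Finite G] [Finite G'] {x c : G} {x' c' : G'}
    (h : Rel x c) (h' : Rel x' c') (hgen : Subgroup.closure {x, c} = ⊤)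
    (hgen' : Subgroup.closure {x', c'} = ⊤) (hG : Nat.card G = 320) (hG' : Nat.card G' = 320) :
    Nonempty (G ≃* G') := by
  set H : Subgroup (G × G') := Subgroup.closure {(x, x'), (c, c')}
  let X : H := ⟨(x, x'), Subgroup.subset_closure (Or.inl rfl)⟩
  let C : H := ⟨(c, c'), Subgroup.subset_closure (Or.inr rfl)⟩
  have hr : Rel X C := Rel.of_injective H.subtype H.subtype_injective (h.prodMk h')
  have hgH : Subgroup.closure {X, C} = ⊤ := by
    apply Subgroup.map_injective H.subtype_injective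
    rw [MonoidHom.map_closure, ← MonoidHom.range_eq_map, Subgroup.range_subtype, Set.image_pair]
    rfl
  have hle := hr.card_le hgH
  let f : H →* G := (MonoidHom.fst G G').comp H.subtype
  let f' : H →* G' := (MonoidHom.snd G G').comp H.subtype
  have hs : Function.Surjective f := by
    rw [← MonoidHom.range_eq_top, eq_top_iff, ← hgen, Subgroup.closure_le]
    rintro y (rfl | rfl)
    exacts [⟨X, rfl⟩, ⟨C, rfl⟩]
  have hs' : Function.Surjective f' := by
    rw [← MonoidHom.range_eq_top, eq_top_iff, ← hgen', Subgroup.closure_le]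
    rintro y (rfl | rfl)
    exacts [⟨X, rfl⟩, ⟨C, rfl⟩]
  have h1 : Function.Bijective f := (Nat.bijective_iff_surjective_and_card f).2 ⟨hs,
    le_antisymm (hle.trans hG.ge) (Nat.card_le_card_of_surjective f hs)⟩
  have h2 : Function.Bijective f' := (Nat.bijective_iff_surjective_and_card f').2 ⟨hs',
    le_antisymm (hle.trans hG'.ge) (Nat.card_le_card_of_surjective f' hs')⟩
  exact ⟨(MulEquiv.ofBijective f h1).symm.trans (MulEquiv.ofBijective f' h2)⟩

theorem conj_pow_apply (c y : G) (n : ℕ) :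
    c * (c ^ n * y * (c ^ n)⁻¹) * c⁻¹ = c ^ (n + 1) * y * (c ^ (n + 1))⁻¹ := by
  rw [pow_succ']; group

theorem card_modEq_fixed [Finite G] {c : G} (hc : c ^ 5 = 1) (Y : Subgroup G)
    (hY : ∀ y ∈ Y, c * y * c⁻¹ ∈ Y) :
    Nat.card Y ≡ Nat.card (Y ⊓ Subgroup.centralizer {c} : Subgroup G) [MOD 5] := by
  classical
  have : Fact (Nat.Prime 5) := ⟨by norm_num⟩
  let f : Function.End Y := fun y => ⟨c * y * c⁻¹, hY y y.2⟩
  have hf : ∀ (n : ℕ) (y : Y), ((f ^ n) y : G) = c ^ n * y * (c ^ n)⁻¹ := by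
    intro n
    induction n with
    | zero => intro y; show (y : G) = _; simp
    | succ n ih =>
      intro y
      rw [pow_succ', ← conj_pow_apply, ← ih]
      rfl
  have : Fintype Y := Fintype.ofFinite Y
  have h := Equiv.Perm.card_fixedPoints_modEq (p := 5) (n := 1) (f := f) (by
    refine funext fun y => Subtype.ext ?_
    show ((f ^ (5 ^ 1)) y : G) = y
    rw [hf, pow_one, hc]; simp)
  rw [← Nat.card_eq_fintype_card, ← Nat.card_eq_fintype_card] at h
  refine h.trans (congrArg (· % 5) ?_)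
  exact Nat.card_congr
    { toFun := fun y => ⟨y.1, y.1.2, Subgroup.mem_centralizer_singleton_iff.2 (by
        have := congrArg Subtype.val (show f y.1 = y.1 from y.2)
        exact (mul_inv_eq_iff_eq_mul.1 this).symm)⟩
      invFun := fun y => ⟨⟨y.1, y.2.1⟩, Subtype.ext (mul_inv_eq_iff_eq_mul.2
        (Subgroup.mem_centralizer_singleton_iff.1 y.2.2).symm)⟩
      left_inv := fun _ => rfl
      right_inv := fun _ => rfl }

/-- A group with derived subgroup of order 64 and index 5 with four-group centre has such generators. -/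
theorem exists_rel [Finite G] (hG : Nat.card G = 320) (hD : Nat.card (commutator G) = 64)
    (hZ : IsKleinFour (Subgroup.center (commutator G))) :
    ∃ x c : G, Rel x c ∧ Subgroup.closure {x, c} = ⊤ := by
  classical
  have : Fact (Nat.Prime 5) := ⟨by norm_num⟩
  have : Fact (Nat.Prime 2) := ⟨Nat.prime_two⟩
  set D := commutator G with hDdef
  set Z := (Subgroup.center D).map D.subtype with hZdef
  have hZD : Z ≤ D := Subgroup.map_subtype_le _
  have hZ4 : Nat.card Z = 4 := by
    rw [hZdef, Subgroup.card_map_of_injective D.subtype_injective]; exact hZ.card_four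
  have hz2 : ∀ z ∈ Z, z * z = 1 := by
    rintro _ ⟨z, hz, rfl⟩
    exact congrArg (fun u : Subgroup.center D => ((u : D) : G)) (IsKleinFour.mul_self ⟨z, hz⟩)
  have hZcD : ∀ z ∈ Z, ∀ d ∈ D, Commute z d := by
    rintro _ ⟨z, hz, rfl⟩ d hd
    exact (congrArg Subtype.val (Subgroup.mem_center_iff.1 hz ⟨d, hd⟩)).symm
  have hmemZ : ∀ d ∈ D, (∀ e ∈ D, d * e = e * d) → d ∈ Z := fun d hd h => ⟨⟨d, hd⟩,
    Subgroup.mem_center_iff.2 fun e => Subtype.ext (h e e.2).symm, rfl⟩
  obtain ⟨c, hc⟩ := exists_prime_orderOf_dvd_card' (G := G) 5 (by rw [hG]; norm_num)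
  have hc5 : c ^ 5 = 1 := hc ▸ pow_orderOf_eq_one c
  have hDc : ∀ d ∈ D, c * d * c⁻¹ ∈ D := fun d hd =>
    (inferInstance : (commutator G).Normal).conj_mem d hd c
  have hZc : ∀ z ∈ Z, c * z * c⁻¹ ∈ Z := by
    intro z hz
    refine hmemZ _ (hDc z (hZD hz)) fun e he => ?_
    have he' : c⁻¹ * e * c ∈ D := by
      simpa using (inferInstance : (commutator G).Normal).conj_mem e he c⁻¹
    calc c * z * c⁻¹ * e = c * (z * (c⁻¹ * e * c)) * c⁻¹ := by group
      _ = c * ((c⁻¹ * e * c) * z) * c⁻¹ := by rw [(hZcD z hz _ he').eq]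
      _ = e * (c * z * c⁻¹) := by group
  have hfixZ : ∀ z ∈ Z, Commute z c := by
    have h := card_modEq_fixed hc5 Z hZc
    have hle := Subgroup.card_le_of_le (inf_le_left : Z ⊓ Subgroup.centralizer {c} ≤ Z)
    rw [hZ4] at h hle
    have hpos : 0 < Nat.card (Z ⊓ Subgroup.centralizer {c} : Subgroup G) := Nat.card_pos
    have heq : Z ⊓ Subgroup.centralizer {c} = Z := Subgroup.eq_of_le_of_card_ge inf_le_left (by
      rw [hZ4]; unfold Nat.ModEq at h; omega)
    exact fun z hz => Subgroup.mem_centralizer_singleton_iff.1 (heq.ge hz).2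
  have htop : D ⊔ Subgroup.zpowers c = ⊤ := by
    apply Subgroup.eq_top_of_le_card
    rw [hG]
    refine Nat.le_of_dvd Nat.card_pos ?_
    have h1 : 64 ∣ Nat.card (D ⊔ Subgroup.zpowers c : Subgroup G) :=
      hD ▸ Subgroup.card_dvd_of_le le_sup_left
    have h2 : 5 ∣ Nat.card (D ⊔ Subgroup.zpowers c : Subgroup G) := by
      have := Subgroup.card_dvd_of_le (le_sup_right : Subgroup.zpowers c ≤ D ⊔ Subgroup.zpowers c)
      rwa [Nat.card_zpowers, hc] at this
    exact (show Nat.Coprime 64 5 by norm_num).mul_dvd_of_dvd_of_dvd h1 h2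
  have hcentral : ∀ z ∈ Z, z ∈ Subgroup.center G := fun z hz => by
    refine Subgroup.mem_center_iff.2 fun g => ?_
    have hle : D ⊔ Subgroup.zpowers c ≤ Subgroup.centralizer {z} := sup_le
      (fun d hd => Subgroup.mem_centralizer_singleton_iff.2 (hZcD z hz d hd).eq.symm)
      (Subgroup.zpowers_le.2 (Subgroup.mem_centralizer_singleton_iff.2 (hfixZ z hz).eq.symm))
    exact Subgroup.mem_centralizer_singleton_iff.1 (hle (htop.ge (Subgroup.mem_top g)))
  have hpow : ∀ Y : Subgroup G, Y ≤ D → ∃ k ≤ 6, Nat.card Y = 2 ^ k := fun Y hY =>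
    (Nat.dvd_prime_pow Nat.prime_two).1 (by
      rw [show (2 : ℕ) ^ 6 = Nat.card D by rw [hD]; norm_num]
      exact Subgroup.card_dvd_of_le hY)
  -- the fixed points of `c` on `D`
  have hW : D ⊓ Subgroup.centralizer {c} = Z := by
    have hge : Z ≤ D ⊓ Subgroup.centralizer {c} :=
      le_inf hZD fun z hz => Subgroup.mem_centralizer_singleton_iff.2 (hfixZ z hz)
    refine (Subgroup.eq_of_le_of_card_ge hge ?_).symm
    obtain ⟨k, hk, hk'⟩ := hpow _ (inf_le_left : D ⊓ Subgroup.centralizer {c} ≤ D)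
    have h := card_modEq_fixed hc5 D hDc
    rw [hD, hk'] at h
    have h4 := Subgroup.card_le_of_le hge
    rw [hZ4, hk'] at h4
    rw [hZ4, hk']
    have hk6 : k ≠ 6 := by
      intro h6
      have hall : D ≤ Subgroup.centralizer {c} := by
        have : D ⊓ Subgroup.centralizer {c} = D :=
          Subgroup.eq_of_le_of_card_ge inf_le_left (by rw [hD, hk', h6]; norm_num)
        exact fun d hd => (this.ge hd).2
      have hle : commutator G ≤ (commutator D).map D.subtype := by
        rw [_root_.commutator_def, ← htop]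
        refine Subgroup.commutator_le.2 fun g hg g' hg' => ?_
        have hn : Subgroup.zpowers c ≤ Subgroup.normalizer (D : Set G) := by
          rw [Subgroup.normalizer_eq_top (h := inferInstanceAs (commutator G).Normal)]; exact le_top
        have e := Subgroup.coe_mul_of_right_le_normalizer_left D (Subgroup.zpowers c) hn
        rw [← SetLike.mem_coe, e] at hg hg'
        obtain ⟨d, hd, w, hw, rfl⟩ := hg
        obtain ⟨d', hd', w', hw', rfl⟩ := hg'
        have hcc : ∀ w ∈ Subgroup.zpowers c, ∀ d ∈ D, Commute w d := by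
          rintro _ ⟨j, rfl⟩ d hd
          exact (Commute.symm (Subgroup.mem_centralizer_singleton_iff.1 (hall hd))).zpow_left j
        refine ⟨⁅(⟨d, hd⟩ : D), (⟨d', hd'⟩ : D)⁆,
          Subgroup.commutator_mem_commutator (Subgroup.mem_top _) (Subgroup.mem_top _), ?_⟩
        have a1 := (hcc w hw d' hd').eq
        have a2 : Commute w w' := by
          obtain ⟨j, rfl⟩ := hw; obtain ⟨j', rfl⟩ := hw'
          exact (Commute.refl c).zpow_zpow j j'
        have a3 := (hcc w' hw' d⁻¹ (D.inv_mem hd)).eq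
        show d * d' * d⁻¹ * d'⁻¹ = d * w * (d' * w') * (d * w)⁻¹ * (d' * w')⁻¹
        symm
        calc d * w * (d' * w') * (d * w)⁻¹ * (d' * w')⁻¹
            = d * (w * d') * (w' * w⁻¹) * d⁻¹ * w'⁻¹ * d'⁻¹ := by group
          _ = d * (d' * w) * (w⁻¹ * w') * d⁻¹ * w'⁻¹ * d'⁻¹ := by
              rw [a1, (a2.inv_left).eq]
          _ = d * d' * (w' * d⁻¹) * w'⁻¹ * d'⁻¹ := by group
          _ = d * d' * (d⁻¹ * w') * w'⁻¹ * d'⁻¹ := by rw [a3]
          _ = d * d' * d⁻¹ * d'⁻¹ := by group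
      have : Nontrivial D := by
        rw [← Finite.one_lt_card_iff_nontrivial, hD]; norm_num
      have : Group.IsNilpotent D := (IsPGroup.of_card (p := 2) (n := 6) (by rw [hD]; norm_num)).isNilpotent
      have hne : commutator D ≠ ⊤ := (Group.IsSolvable.commutator_lt_top_of_nontrivial D).ne
      apply hne
      rw [eq_top_iff]
      intro d _
      obtain ⟨d', hd', he⟩ := hle d.2
      rwa [← D.subtype_injective he]
    unfold Nat.ModEq at h
    interval_cases k <;> simp at h h4 hk6 ⊢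
  -- invariant subgroups properly containing `Z`
  have hbig : ∀ Y : Subgroup G, Y ≤ D → Z ≤ Y → (∀ y ∈ Y, c * y * c⁻¹ ∈ Y) →
      (∃ y ∈ Y, y ∉ Z) → Y = D := by
    intro Y hYD hZY hYc ⟨y, hy, hyZ⟩
    obtain ⟨k, hk, hk'⟩ := hpow Y hYD
    refine Subgroup.eq_of_le_of_card_ge hYD ?_
    have h := card_modEq_fixed hc5 Y hYc
    rw [show Y ⊓ Subgroup.centralizer {c} = Z from le_antisymm
      (le_trans (inf_le_inf_right _ hYD) hW.le) (le_inf hZY (hW.ge.trans inf_le_right)),
      hZ4, hk'] at h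
    have hlt : Nat.card Z < Nat.card Y := by
      by_contra hcon
      exact hyZ (Subgroup.eq_of_le_of_card_ge hZY (not_lt.1 hcon) ▸ hy)
    rw [hZ4, hk'] at hlt
    rw [hD, hk']
    unfold Nat.ModEq at h
    interval_cases k <;> simp at h hlt ⊢
  obtain ⟨d0, hd0, hd0Z⟩ : ∃ d ∈ D, d ∉ Z := by
    by_contra hcon
    push Not at hcon
    have := Subgroup.card_le_of_le (show D ≤ Z from hcon)
    rw [hD, hZ4] at this
    omega
  -- commutators of `D` lie in `Z`
  have hcomm : ∀ g ∈ D, ∀ e ∈ D, cc g e ∈ Z := by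
    let Y : Subgroup G :=
      { carrier := {g | g ∈ D ∧ ∀ e ∈ D, cc g e ∈ Z}
        one_mem' := ⟨D.one_mem, fun e _ => by simp [cc, Z.one_mem]⟩
        mul_mem' := fun {a b} ha hb => ⟨D.mul_mem ha.1 hb.1, fun e he => by
          have e1 : cc (a * b) e = a * cc b e * a⁻¹ * cc a e := by simp only [cc]; group
          rw [e1, ← (hZcD _ (hb.2 e he) a ha.1).eq, mul_inv_cancel_right]
          exact Z.mul_mem (hb.2 e he) (ha.2 e he)⟩
        inv_mem' := fun {a} ha => ⟨D.inv_mem ha.1, fun e he => by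
          have e1 : cc a⁻¹ e = a⁻¹ * (cc a e)⁻¹ * a := by simp only [cc]; group
          rw [e1, ← (hZcD _ (Z.inv_mem (ha.2 e he)) a⁻¹ (D.inv_mem ha.1)).eq, inv_mul_cancel_right]
          exact Z.inv_mem (ha.2 e he)⟩ }
    have hYD : Y ≤ D := fun g hg => hg.1
    have hZY : Z ≤ Y := fun z hz => ⟨hZD hz, fun e he => by
      simp [cc, (hZcD z hz e he).eq, Z.one_mem]⟩
    have hYc : ∀ y ∈ Y, c * y * c⁻¹ ∈ Y := fun y hy => ⟨hDc y hy.1, fun e he => by
      have he' : c⁻¹ * e * c ∈ D := by
        simpa using (inferInstance : (commutator G).Normal).conj_mem e he c⁻¹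
      have e1 : cc (c * y * c⁻¹) e = c * cc y (c⁻¹ * e * c) * c⁻¹ := by simp only [cc]; group
      rw [e1]
      exact hZc _ (hy.2 _ he')⟩
    have hY : Y = D := by
      refine hbig Y hYD hZY hYc ?_
      have : Group.IsNilpotent D := (IsPGroup.of_card (p := 2) (n := 6) (by rw [hD]; norm_num)).isNilpotent
      have : Nontrivial (D ⧸ Subgroup.center D) := by
        rw [QuotientGroup.nontrivial_iff]
        intro h
        exact hd0Z ⟨⟨d0, hd0⟩, h ▸ Subgroup.mem_top _, rfl⟩
      have hcn : Nontrivial (Subgroup.center (D ⧸ Subgroup.center D)) := by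
        have hp : IsPGroup 2 (D ⧸ Subgroup.center D) :=
          (IsPGroup.of_card (p := 2) (n := 6) (G := D) (by rw [hD]; norm_num)).to_quotient _
        exact hp.center_nontrivial
      obtain ⟨⟨u, hu⟩, hu1⟩ := exists_ne (1 : Subgroup.center (D ⧸ Subgroup.center D))
      obtain ⟨y, rfl⟩ := QuotientGroup.mk_surjective u
      refine ⟨(y : G), ⟨y.2, fun e he => ⟨cc y ⟨e, he⟩, ?_, rfl⟩⟩, fun hyZ => ?_⟩
      · show cc y ⟨e, he⟩ ∈ Subgroup.center D
        rw [← QuotientGroup.eq_one_iff]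
        have := Subgroup.mem_center_iff.1 hu (QuotientGroup.mk ⟨e, he⟩)
        simp only [cc, QuotientGroup.mk_mul, QuotientGroup.mk_inv]
        rw [← this]; group
      · obtain ⟨y', hy', he'⟩ := hyZ
        apply hu1
        exact Subtype.ext ((QuotientGroup.eq_one_iff y).2 (D.subtype_injective he' ▸ hy'))
    exact fun g hg => (hY.ge hg : g ∈ Y).2
  -- squares lie in `Z`
  have hsq : ∀ g ∈ D, g * g ∈ Z := by
    let Y : Subgroup G :=
      { carrier := {g | g ∈ D ∧ g * g ∈ Z}
        one_mem' := ⟨D.one_mem, by simp [Z.one_mem]⟩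
        mul_mem' := fun {a b} ha hb => ⟨D.mul_mem ha.1 hb.1, by
          have e1 : a * b * (a * b) = a * cc b a * a⁻¹ * ((a * a) * (b * b)) := by
            simp only [cc]; group
          rw [e1, ← (hZcD _ (hcomm b hb.1 a ha.1) a ha.1).eq, mul_inv_cancel_right]
          exact Z.mul_mem (hcomm b hb.1 a ha.1) (Z.mul_mem ha.2 hb.2)⟩
        inv_mem' := fun {a} ha => ⟨D.inv_mem ha.1, by
          rw [← mul_inv_rev]; exact Z.inv_mem ha.2⟩ }
    have hYD : Y ≤ D := fun g hg => hg.1
    have hZY : Z ≤ Y := fun z hz => ⟨hZD hz, by rw [hz2 z hz]; exact Z.one_mem⟩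
    have hYc : ∀ y ∈ Y, c * y * c⁻¹ ∈ Y := fun y hy => ⟨hDc y hy.1, by
      rw [show c * y * c⁻¹ * (c * y * c⁻¹) = c * (y * y) * c⁻¹ by group]
      exact hZc _ hy.2⟩
    have hY : Y = D := by
      refine hbig Y hYD hZY hYc ?_
      have hex : ∃ n, d0 ^ (2 ^ n) ∈ Z := ⟨6, by
        have : d0 ^ 64 = 1 := by
          rw [← orderOf_dvd_iff_pow_eq_one, ← hD]; exact Subgroup.orderOf_dvd_natCard _ hd0
        show d0 ^ 64 ∈ Z
        rw [this]; exact Z.one_mem⟩
      have hn : Nat.find hex ≠ 0 := fun h0 => hd0Z (by simpa [h0] using Nat.find_spec hex)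
      obtain ⟨m, hm⟩ := Nat.exists_eq_succ_of_ne_zero hn
      refine ⟨d0 ^ 2 ^ m, ⟨D.pow_mem hd0 _, ?_⟩, Nat.find_min hex (by omega)⟩
      rw [← pow_add, ← two_mul, ← pow_succ']
      have := Nat.find_spec hex
      rwa [hm] at this
    exact fun g hg => (hY.ge hg : g ∈ Y).2
  have hcjD : ∀ x ∈ D, ∀ i, cj x c i ∈ D := fun x hx i =>
    (inferInstance : (commutator G).Normal).conj_mem x hx _
  have hgen : ∀ x ∈ D, x ∉ Z → Subgroup.closure {x, c} = ⊤ := by
    intro x hx hxZ
    set T := Subgroup.closure {x, c} with hT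
    have hxT : x ∈ T := Subgroup.subset_closure (Or.inl rfl)
    have hcT : c ∈ T := Subgroup.subset_closure (Or.inr rfl)
    have hN : (D ⊓ T) ⊔ Z = D := by
      refine hbig _ (sup_le inf_le_left hZD) le_sup_right (fun y hy => ?_)
        ⟨x, Subgroup.mem_sup_left ⟨hx, hxT⟩, hxZ⟩
      have hle : ((D ⊓ T) ⊔ Z).map (MulAut.conj c).toMonoidHom ≤ (D ⊓ T) ⊔ Z := by
        rw [Subgroup.map_sup]
        refine sup_le_sup ?_ ?_
        · rintro _ ⟨w, hw, rfl⟩
          exact ⟨hDc w hw.1, T.mul_mem (T.mul_mem hcT hw.2) (T.inv_mem hcT)⟩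
        · rintro _ ⟨w, hw, rfl⟩
          exact hZc w hw
      exact hle ⟨y, hy, rfl⟩
    have hTZ : T ⊔ Z = ⊤ := by
      rw [eq_top_iff, ← htop]
      refine sup_le ?_ ((Subgroup.zpowers_le.2 hcT).trans le_sup_left)
      exact hN.ge.trans (sup_le_sup_right inf_le_right _)
    have hDT : D ≤ T := by
      rw [hDdef, _root_.commutator_def, ← hTZ]
      refine Subgroup.commutator_le.2 fun g hg g' hg' => ?_
      have hn : Z ≤ Subgroup.normalizer (T : Set G) :=
        (show Z ≤ Subgroup.center G from hcentral).trans (Subgroup.center_le_normalizer _)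
      have e := Subgroup.coe_mul_of_right_le_normalizer_left T Z hn
      rw [← SetLike.mem_coe, e] at hg hg'
      obtain ⟨t, ht, z, hz, rfl⟩ := hg
      obtain ⟨t', ht', z', hz', rfl⟩ := hg'
      have cz := fun g => Subgroup.mem_center_iff.1 (hcentral z hz) g
      have cz' := fun g => Subgroup.mem_center_iff.1 (hcentral z' hz') g
      show t * z * (t' * z') * (t * z)⁻¹ * (t' * z')⁻¹ ∈ T
      have e2 : t * z * (t' * z') * (t * z)⁻¹ * (t' * z')⁻¹ = t * t' * t⁻¹ * t'⁻¹ := by
        calc t * z * (t' * z') * (t * z)⁻¹ * (t' * z')⁻¹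
            = t * (z * (t' * z')) * z⁻¹ * t⁻¹ * z'⁻¹ * t'⁻¹ := by group
          _ = t * (t' * z' * z) * z⁻¹ * t⁻¹ * z'⁻¹ * t'⁻¹ := by rw [← cz (t' * z')]
          _ = t * t' * (z' * t⁻¹) * z'⁻¹ * t'⁻¹ := by group
          _ = t * t' * (t⁻¹ * z') * z'⁻¹ * t'⁻¹ := by rw [cz' t⁻¹]
          _ = t * t' * t⁻¹ * t'⁻¹ := by group
      rw [e2]
      exact T.mul_mem (T.mul_mem (T.mul_mem ht ht') (T.inv_mem ht)) (T.inv_mem ht')
    rw [eq_top_iff, ← htop]
    exact sup_le hDT (Subgroup.zpowers_le.2 hcT)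
  -- normalise the product of the conjugates
  set w := cj d0 c 0 * cj d0 c 1 * cj d0 c 2 * cj d0 c 3 * cj d0 c 4 with hw
  have hwD : w ∈ D := D.mul_mem (D.mul_mem (D.mul_mem (D.mul_mem (hcjD _ hd0 0) (hcjD _ hd0 1))
    (hcjD _ hd0 2)) (hcjD _ hd0 3)) (hcjD _ hd0 4)
  have hwZ : w ∈ Z := by
    set z := cc d0⁻¹ w
    have hzZ : z ∈ Z := hcomm _ (D.inv_mem hd0) w hwD
    have hcw : c * w * c⁻¹ = z * w := by
      have e1 : cj d0 c 5 = d0 := by simp [cj, hc5]
      have e2 : c * w * c⁻¹ =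
          cj d0 c 1 * cj d0 c 2 * cj d0 c 3 * cj d0 c 4 * cj d0 c 5 := by
        simp only [hw, cj, pow_succ, pow_zero, one_mul]; group
      rw [e2, e1]
      show _ = cc d0⁻¹ w * w
      simp only [hw, cc, cj_zero]; group
    have hn : ∀ n, c ^ n * w * (c ^ n)⁻¹ = z ^ n * w := by
      intro n
      induction n with
      | zero => simp
      | succ n ih =>
        rw [← conj_pow_apply, ih, show c * (z ^ n * w) * c⁻¹ = c * z ^ n * c⁻¹ * (c * w * c⁻¹) by
          group, hcw, ← ((hfixZ z hzZ).pow_left n).eq, mul_inv_cancel_right, ← mul_assoc,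
          ← pow_succ]
    have h5 := hn 5
    rw [hc5, one_mul, inv_one, mul_one, eq_comm, mul_eq_right] at h5
    have hz1 : z = 1 := by
      rw [show z ^ 5 = z * z * (z * z) * z by simp only [pow_succ, pow_zero, one_mul, mul_assoc], hz2 z hzZ, one_mul, one_mul] at h5
      exact h5
    rw [hz1, one_mul] at hcw
    exact hW.le ⟨hwD, Subgroup.mem_centralizer_singleton_iff.2
      (mul_inv_eq_iff_eq_mul.1 hcw).symm⟩
  set x := d0 * w with hx
  have hxD : x ∈ D := D.mul_mem hd0 hwD
  have hxZ : x ∉ Z := fun h => hd0Z (by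
    have := Z.mul_mem h (Z.inv_mem hwZ)
    rwa [hx, mul_inv_cancel_right] at this)
  have hwc : ∀ g, Commute w g := fun g => (Subgroup.mem_center_iff.1 (hcentral w hwZ) g).symm
  have hcj : ∀ i, cj x c i = w * cj d0 c i := fun i => by
    simp only [hx, cj]
    rw [← (hwc d0).eq, show c ^ i * (w * d0) * (c ^ i)⁻¹ = c ^ i * w * d0 * (c ^ i)⁻¹ by group,
      ← (hwc (c ^ i)).eq]
    group
  have hccZ : ∀ i, cc x (cj x c i) ∈ Z := fun i => hcomm x hxD _ (hcjD x hxD i)
  refine ⟨x, c, ?_, hgen x hxD hxZ⟩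
  exact
    { hc := hc5
      prod := by
        have hw2 : w * w = 1 := hz2 w hwZ
        have hw5 : w ^ 5 = w := by
          rw [show w ^ 5 = w * w * (w * w) * w by simp only [pow_succ, pow_zero, one_mul, mul_assoc], hw2, one_mul, one_mul]
        rw [hcj 0, hcj 1, hcj 2, hcj 3, hcj 4]
        generalize cj d0 c 0 = a0, cj d0 c 1 = a1, cj d0 c 2 = a2, cj d0 c 3 = a3, cj d0 c 4 = a4 at hw
        have key : ∀ g h : G, g * (w * h) = w * (g * h) := fun g h => by
          rw [← mul_assoc, ← (hwc g).eq, mul_assoc]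
        simp only [mul_assoc, key]
        rw [show a0 * (a1 * (a2 * (a3 * a4))) = w by rw [hw]; simp only [mul_assoc]]
        rw [← mul_assoc w w, hw2, one_mul, ← mul_assoc w w, hw2, one_mul]
      sq_two := hz2 _ (hsq x hxD)
      sq_comm := hfixZ _ (hsq x hxD)
      z1_two := hz2 _ (hccZ 1)
      z1_x := hZcD _ (hccZ 1) x hxD
      z1_c := hfixZ _ (hccZ 1)
      z2_two := hz2 _ (hccZ 2)
      z2_x := hZcD _ (hccZ 2) x hxD
      z2_c := hfixZ _ (hccZ 2) }

end Cfsg.Agent.Tech.ThreeTwenty
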