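import Cfsg.Prelude.Def_Classical
import Cfsg.Agent.Classical.UBasic
import Cfsg.Agent.Classical.USimple
import Cfsg.Agent.Tech.OrderThreeTwenty

/-!
The centralizer of an involution of `PSU₃(4)` has order 320 and satisfies the relations of
`Tech.OrderThreeTwenty`.
-/

set_option autoImplicit false
set_option linter.style.longLine false

namespace Cfsg.Agent.Tech.UnitaryFour

open Cfsg Cfsg.Agent.Classical.U Cfsg.Agent.Tech.ThreeTwenty
open Matrix

universe u

variable {F : Type u} [Field F] [CharP F 2]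

theorem numerals (m : ℕ) [m.AtLeastTwo] : (OfNat.ofNat m : F) = ((m % 2 : ℕ) : F) := by
  rw [← CharP.cast_eq_mod F 2 m]
  exact Nat.cast_ofNat.symm

/-- The matrix of the root element with parameters `a`, `y`. -/
def mMat (a y : F) : Matrix (Fin 3) (Fin 3) F :=
  !![1 + y, y, a ^ 4; y, 1 + y, a ^ 4; a, a, 1]

theorem det_mMat (a y : F) : (mMat a y).det = 1 := by
  simp [mMat, Matrix.det_fin_three]
  ring_nf
  simp [numerals]

/-- The root element in `SL₃`. -/
def M (a y : F) : SpecialLinearGroup (Fin 3) F := ⟨mMat a y, det_mMat a y⟩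

theorem M_one : M (0 : F) 0 = 1 := by
  refine Subtype.ext ?_
  show mMat (0 : F) 0 = 1
  ext i j
  fin_cases i <;> fin_cases j <;> simp [mMat]

theorem M_inj {a y a' y' : F} (h : M a y = M a' y') : a = a' ∧ y = y' := by
  have h' : mMat a y = mMat a' y' := congrArg Subtype.val h
  exact ⟨by simpa [mMat] using congrFun (congrFun h' 2) 0,
    by simpa [mMat] using congrFun (congrFun h' 0) 1⟩

variable (hS : SqField F 4)
include hS

theorem M_mul (a y a' y' : F) : M a y * M a' y' = M (a + a') (y + y' + a ^ 4 * a') := by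
  refine Subtype.ext ?_
  show mMat a y * mMat a' y' = mMat _ _
  ext i j
  fin_cases i <;> fin_cases j <;>
    simp [mMat, Matrix.mul_apply, Fin.sum_univ_three, hS.add_pow] <;>
    (ring_nf <;> simp [numerals])

theorem M_mem {a y : F} (h : y + y ^ 4 = a ^ 5) : M a y ∈ SU 3 F 4 := by
  intro u v
  show hermForm 3 F 4 ((mMat a y).mulVec u) ((mMat a y).mulVec v) = _
  simp [hermForm, Fin.sum_univ_three, mMat, Matrix.mulVec, dotProduct, hS.add_pow, mul_pow,
    hS.pow_pow]
  linear_combination (norm := (ring_nf; simp [numerals])) (u 0 + u 1) * (v 0 ^ 4 + v 1 ^ 4) * h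

theorem central (β a y : F) : Commute (M (0 : F) β) (M a y) := by
  show _ = _
  rw [M_mul hS, M_mul hS]
  simp [add_comm β y]

omit hS

/-- The involution. -/
def sw (F : Type u) [Field F] [CharP F 2] : SpecialLinearGroup (Fin 3) F := M 0 1

/-- The centralizer of the involution in `SU₃(4)`, inside `SL₃`. -/
def cen (F : Type u) [Field F] [CharP F 2] : Subgroup (SpecialLinearGroup (Fin 3) F) :=
  SU 3 F 4 ⊓ Subgroup.centralizer {sw F}

theorem entries {g : SpecialLinearGroup (Fin 3) F} (hg : Commute g (sw F)) :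
    g.1 0 1 = g.1 1 0 ∧ g.1 1 1 = g.1 0 0 ∧ g.1 1 2 = g.1 0 2 ∧ g.1 2 1 = g.1 2 0 := by
  have h : g.1 * mMat (0 : F) 1 = mMat (0 : F) 1 * g.1 := congrArg Subtype.val hg.eq
  have h1 := congrFun (congrFun h 1) 1
  have h2 := congrFun (congrFun h 1) 0
  have h3 := congrFun (congrFun h 0) 2
  have h4 := congrFun (congrFun h 2) 0
  simp [mMat, Matrix.mul_apply, Fin.sum_univ_three, CharTwo.add_self_eq_zero] at h1 h2 h3 h4
  exact ⟨h1.symm, h2, h3.symm, h4⟩

include hS

theorem herm_col {g : SpecialLinearGroup (Fin 3) F} (hg : g ∈ SU 3 F 4) (i j : Fin 3) :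
    g.1 0 i * g.1 0 j ^ 4 + g.1 1 i * g.1 1 j ^ 4 + g.1 2 i * g.1 2 j ^ 4 =
      if i = j then 1 else 0 := by
  have h : hermForm 3 F 4 (g.1 *ᵥ Pi.single i 1) (g.1 *ᵥ Pi.single j 1) =
      hermForm 3 F 4 (Pi.single i 1) (Pi.single j 1) := hg _ _
  simp [hermForm, Fin.sum_univ_three, Matrix.mulVec_single_one] at h
  rw [h]
  fin_cases i <;> fin_cases j <;> simp

/-- The eigenvalue on the fixed isotropic vector has norm one. -/
theorem lam_pow {g : SpecialLinearGroup (Fin 3) F} (hg : g ∈ cen F) :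
    (g.1 0 0 + g.1 1 0) ^ 5 = 1 := by
  obtain ⟨h1, h2, -, h4⟩ := entries (Subgroup.mem_centralizer_singleton_iff.1 hg.2)
  have e1 := herm_col hS hg.1 0 0
  have e2 := herm_col hS hg.1 1 0
  rw [h1, h2, h4] at e2
  simp at e1 e2
  rw [pow_succ', hS.add_pow]
  linear_combination (norm := (ring_nf; simp [numerals])) e1 + e2

theorem eq_M {g : SpecialLinearGroup (Fin 3) F} (hg : g ∈ cen F) (hl : g.1 0 0 + g.1 1 0 = 1) :
    g.1 1 0 + g.1 1 0 ^ 4 = g.1 2 0 ^ 5 ∧ g = M (g.1 2 0) (g.1 1 0) := by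
  obtain ⟨h1, h2, h3, h4⟩ := entries (Subgroup.mem_centralizer_singleton_iff.1 hg.2)
  have h0 : g.1 0 0 = 1 + g.1 1 0 := CharTwo.eq_add_iff_add_eq.2 hl
  have hd := g.2
  rw [Matrix.det_fin_three, h1, h2, h3, h4] at hd
  have h22 : g.1 2 2 = 1 := by
    linear_combination (norm := (ring_nf; simp [numerals]))
      hd + (g.1 2 2 * (g.1 0 0 + g.1 1 0 + 1)) * hl
  have e1 := herm_col hS hg.1 0 0
  have e2 := herm_col hS hg.1 0 2
  simp [h3, h22] at e1 e2
  have h02 : g.1 0 2 = g.1 2 0 ^ 4 := by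
    have : g.1 0 2 ^ 4 = g.1 2 0 := by
      linear_combination (norm := (ring_nf; simp [numerals])) e2 + g.1 0 2 ^ 4 * hl
    rw [← this, hS.pow_pow]
  refine ⟨?_, Subtype.ext ?_⟩
  · rw [h0, hS.add_pow, one_pow] at e1
    linear_combination (norm := (ring_nf; simp [numerals])) e1
  · show g.1 = mMat _ _
    ext i j
    fin_cases i <;> fin_cases j <;> simp [mMat, h0, h1, h2, h3, h4, h22, h02]

variable {η : F} (h5 : η ^ 5 = 1) (hne : η ≠ 1)
include h5

omit hS in
theorem det_dMat : (Matrix.diagonal ![η ^ 3, η ^ 3, η ^ 4]).det = 1 := by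
  simp [Matrix.det_diagonal, Fin.prod_univ_three]
  linear_combination (η ^ 5 + 1) * h5

omit hS in
/-- The element of order five. -/
def dSL : SpecialLinearGroup (Fin 3) F := ⟨_, det_dMat h5⟩

theorem d_mul (a y : F) : dSL h5 * M a y = M (η * a) y * dSL h5 := by
  refine Subtype.ext ?_
  show Matrix.diagonal _ * mMat a y = mMat (η * a) y * Matrix.diagonal _
  ext i j
  fin_cases i <;> fin_cases j <;> simp [mMat, mul_pow, Matrix.mul_diagonal] <;>
    first
      | ring1
      | (linear_combination (-(η ^ 3 * a ^ 4)) * h5)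

theorem d_pow_mul (a y : F) (n : ℕ) : dSL h5 ^ n * M a y = M (η ^ n * a) y * dSL h5 ^ n := by
  induction n with
  | zero => simp
  | succ n ih =>
    rw [pow_succ', mul_assoc, ih, ← mul_assoc, d_mul hS h5, mul_assoc,
      show η * (η ^ n * a) = η ^ (n + 1) * a by ring]

theorem d_mem : dSL h5 ∈ cen F := by
  refine ⟨fun u v => ?_, ?_⟩
  · show hermForm 3 F 4 (Matrix.diagonal _ *ᵥ u) (Matrix.diagonal _ *ᵥ v) = _
    simp [hermForm, Fin.sum_univ_three, Matrix.mulVec_diagonal, mul_pow]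
    linear_combination (u 0 * v 0 ^ 4 + u 1 * v 1 ^ 4) * (η ^ 10 + η ^ 5 + 1) * h5 +
      u 2 * v 2 ^ 4 * (η ^ 15 + η ^ 10 + η ^ 5 + 1) * h5
  · show dSL h5 ∈ Subgroup.centralizer {sw F}
    rw [Subgroup.mem_centralizer_singleton_iff, sw, d_mul hS h5, mul_zero]

omit hS in
theorem d_five : dSL h5 ^ 5 = 1 := by
  refine Subtype.ext ?_
  show (Matrix.diagonal ![η ^ 3, η ^ 3, η ^ 4]) ^ 5 = 1
  rw [Matrix.diagonal_pow, ← Matrix.diagonal_one]
  congr 1
  funext i
  fin_cases i <;> simp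
  · linear_combination (η ^ 10 + η ^ 5 + 1) * h5
  · linear_combination (η ^ 10 + η ^ 5 + 1) * h5
  · linear_combination (η ^ 15 + η ^ 10 + η ^ 5 + 1) * h5

include hne

omit hS [CharP F 2] in
theorem sum_eq : 1 + η + η ^ 2 + η ^ 3 + η ^ 4 = 0 := by
  have : (η - 1) * (1 + η + η ^ 2 + η ^ 3 + η ^ 4) = 0 := by linear_combination h5
  rcases mul_eq_zero.1 this with h | h
  · exact absurd (sub_eq_zero.1 h) hne
  · exact h

theorem cj_eq (n : ℕ) :
    cj (M (1 : F) (η ^ 2 + η ^ 4)) (dSL h5) n = M (η ^ n) (η ^ 2 + η ^ 4) := by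
  rw [cj, d_pow_mul hS h5, mul_one, mul_inv_cancel_right]

theorem x_cond : (η ^ 2 + η ^ 4) + (η ^ 2 + η ^ 4) ^ 4 = (1 : F) ^ 5 := by
  rw [hS.add_pow]
  linear_combination (norm := (ring_nf; simp [numerals]))
    (η ^ 3 + η ^ 11 + η ^ 6 + η) * h5 + sum_eq h5 hne

theorem relations :
    Rel (M (1 : F) (η ^ 2 + η ^ 4)) (dSL h5) ∧
      M (1 : F) (η ^ 2 + η ^ 4) * M (1 : F) (η ^ 2 + η ^ 4) = sw F ∧
      cc (M (1 : F) (η ^ 2 + η ^ 4)) (cj (M (1 : F) (η ^ 2 + η ^ 4)) (dSL h5) 1) =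
        M 0 (η + η ^ 4) ∧
      cc (M (1 : F) (η ^ 2 + η ^ 4)) (cj (M (1 : F) (η ^ 2 + η ^ 4)) (dSL h5) 2) =
        M 0 (η ^ 2 + η ^ 3) := by
  have hs := sum_eq h5 hne
  have hsq : M (1 : F) (η ^ 2 + η ^ 4) * M (1 : F) (η ^ 2 + η ^ 4) = sw F := by
    rw [M_mul hS, sw, CharTwo.add_self_eq_zero, CharTwo.add_self_eq_zero]; simp
  have hcc : ∀ n : ℕ, cc (M (1 : F) (η ^ 2 + η ^ 4)) (M (η ^ n) (η ^ 2 + η ^ 4)) =
      M 0 (η ^ n + η ^ (4 * n)) := by
    intro n
    have e : M (1 : F) (η ^ 2 + η ^ 4) * M (η ^ n) (η ^ 2 + η ^ 4) = M 0 (η ^ n + η ^ (4 * n)) *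
        (M (η ^ n) (η ^ 2 + η ^ 4) * M (1 : F) (η ^ 2 + η ^ 4)) := by
      simp only [M_mul hS]
      congr 1 <;> ring_nf <;> simp [numerals]
    rw [cc, mul_assoc, ← _root_.mul_inv_rev, e, mul_inv_cancel_right]
  have h1 : cc (M (1 : F) (η ^ 2 + η ^ 4)) (cj (M (1 : F) (η ^ 2 + η ^ 4)) (dSL h5) 1) =
      M 0 (η + η ^ 4) := by
    rw [cj_eq hS h5 hne, hcc, pow_one]
  have h2 : cc (M (1 : F) (η ^ 2 + η ^ 4)) (cj (M (1 : F) (η ^ 2 + η ^ 4)) (dSL h5) 2) =
      M 0 (η ^ 2 + η ^ 3) := by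
    rw [cj_eq hS h5 hne, hcc]
    congr 2
    linear_combination η ^ 3 * h5
  have hz : ∀ β : F, M 0 β * M 0 β = (1 : SpecialLinearGroup (Fin 3) F) := fun β => by
    rw [M_mul hS, CharTwo.add_self_eq_zero]
    simp [M_one, CharTwo.add_self_eq_zero]
  have hzd : ∀ β : F, Commute (M 0 β) (dSL h5) := fun β => by
    show _ = _
    rw [d_mul hS h5, mul_zero]
  refine ⟨?_, hsq, h1, h2⟩
  exact
    { hc := d_five h5
      prod := by
        have p1 : M (η ^ 0) (η ^ 2 + η ^ 4) * M (η ^ 1) (η ^ 2 + η ^ 4) = M (1 + η) η := by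
          rw [M_mul hS]; congr 1 <;> ring_nf <;> simp [numerals]
        have p2 : M (1 + η) η * M (η ^ 2) (η ^ 2 + η ^ 4) = M (1 + η + η ^ 2) (η ^ 4) := by
          rw [M_mul hS, hS.add_pow]; congr 1
          linear_combination (norm := (ring_nf <;> simp [numerals])) η * h5
        have p3 : M (1 + η + η ^ 2) (η ^ 4) * M (η ^ 3) (η ^ 2 + η ^ 4) =
            M (η ^ 4) (η + η ^ 3) := by
          rw [M_mul hS, hS.add_pow, hS.add_pow]; congr 1
          · linear_combination (norm := (ring_nf <;> simp [numerals])) hs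
          · linear_combination (norm := (ring_nf <;> simp [numerals])) (η ^ 2 + η ^ 6 + η) * h5
        have p4 : M (η ^ 4) (η + η ^ 3) * M (η ^ 4) (η ^ 2 + η ^ 4) = 1 := by
          rw [M_mul hS, CharTwo.add_self_eq_zero, ← M_one]; congr 1
          linear_combination (norm := (ring_nf <;> simp [numerals]))
            (η ^ 15 + η ^ 10 + η ^ 5 + 1) * h5 + hs
        simp only [cj_eq hS h5 hne]
        rw [p1, p2, p3, p4]
      sq_two := by rw [hsq, sw, hz]
      sq_comm := by rw [hsq]; exact hzd 1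
      z1_two := by rw [h1, hz]
      z1_x := by rw [h1]; exact central hS _ _ _
      z1_c := by rw [h1]; exact hzd _
      z2_two := by rw [h2, hz]
      z2_x := by rw [h2]; exact central hS _ _ _
      z2_c := by rw [h2]; exact hzd _ }

theorem x_mem : M (1 : F) (η ^ 2 + η ^ 4) ∈ cen F :=
  ⟨M_mem hS (x_cond hS h5 hne), Subgroup.mem_centralizer_singleton_iff.2
    (central hS 1 1 (η ^ 2 + η ^ 4)).eq.symm⟩

omit hS in
theorem fixed_cases {β : F} (hβ : β ^ 4 = β) :
    β = 0 ∨ β = 1 ∨ β = η + η ^ 4 ∨ β = η ^ 2 + η ^ 3 := by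
  have hs := sum_eq h5 hne
  have : β * ((β - 1) * ((β + (η + η ^ 4)) * (β + (η ^ 2 + η ^ 3)))) = 0 := by
    linear_combination (norm := (ring_nf <;> simp [numerals]))
      hβ + (β * (β - 1) * β) * hs +
        (β * (β - 1)) * ((η ^ 2 + η) * h5) + (β * (β - 1)) * hs
  rcases mul_eq_zero.1 this with h | h
  · exact Or.inl h
  rcases mul_eq_zero.1 h with h | h
  · exact Or.inr (Or.inl (sub_eq_zero.1 h))
  rcases mul_eq_zero.1 h with h | h
  · exact Or.inr (Or.inr (Or.inl (CharTwo.add_eq_zero.1 h)))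
  · exact Or.inr (Or.inr (Or.inr (CharTwo.add_eq_zero.1 h)))

omit hS hne [CharP F 2] in
theorem fixed_pow_root {i : ℕ} : (η ^ i) ^ 5 = 1 := by
  rw [← pow_mul, mul_comm, pow_mul, h5, one_pow]

omit hS hne in
theorem d_pow_apply (k : ℕ) : (dSL h5 ^ k).1 =
    Matrix.diagonal ![η ^ (3 * k), η ^ (3 * k), η ^ (4 * k)] := by
  show (Matrix.diagonal ![η ^ 3, η ^ 3, η ^ 4]) ^ k = _
  rw [Matrix.diagonal_pow]
  congr 1
  funext i
  fin_cases i <;> simp [← pow_mul]

/-- The centralizer has order 320 and satisfies the relations. -/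
theorem exists_gens [Finite F] (hc : Nat.card F = 16) :
    ∃ x c : cen F, Rel x c ∧ Subgroup.closure {x, c} = ⊤ ∧ Nat.card (cen F) = 320 := by
  classical
  obtain ⟨hrel, hsq, hz1, hz2⟩ := relations hS h5 hne
  set x := M (1 : F) (η ^ 2 + η ^ 4) with hx
  set d := dSL h5 with hd
  have hs := sum_eq h5 hne
  set T := Subgroup.closure {x, d} with hT
  have hxT : x ∈ T := Subgroup.subset_closure (Or.inl rfl)
  have hdT : d ∈ T := Subgroup.subset_closure (Or.inr rfl)
  have hTc : T ≤ cen F := by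
    rw [hT, Subgroup.closure_le]
    rintro g (rfl | rfl)
    exacts [x_mem hS h5 hne, d_mem hS h5]
  have hccT : ∀ u v, u ∈ T → v ∈ T → cc u v ∈ T := fun u v hu hv =>
    T.mul_mem (T.mul_mem (T.mul_mem hu hv) (T.inv_mem hu)) (T.inv_mem hv)
  have hcjT : ∀ n, cj x d n ∈ T := fun n =>
    T.mul_mem (T.mul_mem (T.pow_mem hdT n) hxT) (T.inv_mem (T.pow_mem hdT n))
  have hzT : ∀ β : F, β ^ 4 = β → M 0 β ∈ T := by
    intro β hβ
    rcases fixed_cases h5 hne hβ with h | h | h | h <;> rw [h]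
    · rw [M_one]; exact T.one_mem
    · have e : (M (0 : F) 1 : SpecialLinearGroup (Fin 3) F) = x * x := hsq.symm
      rw [e]; exact T.mul_mem hxT hxT
    · rw [← hz1]; exact hccT _ _ hxT (hcjT 1)
    · rw [← hz2]; exact hccT _ _ hxT (hcjT 2)
  let A : AddSubgroup F :=
    { carrier := {a | ∃ y, y + y ^ 4 = a ^ 5 ∧ M a y ∈ T}
      zero_mem' := ⟨0, by simp, by rw [M_one]; exact T.one_mem⟩
      add_mem' := fun {a b} => by
        rintro ⟨y, hy, hyT⟩ ⟨y', hy', hyT'⟩
        refine ⟨y + y' + a ^ 4 * b, ?_, ?_⟩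
        · rw [pow_succ' (a + b), hS.add_pow a b, hS.add_pow, hS.add_pow, mul_pow, hS.pow_pow]
          linear_combination (norm := (ring_nf <;> simp [numerals])) hy + hy'
        · rw [← M_mul hS]; exact T.mul_mem hyT hyT'
      neg_mem' := fun {a} h => by simpa [CharTwo.neg_eq] using h }
  have hA1 : (1 : F) ∈ A := ⟨_, x_cond hS h5 hne, hxT⟩
  have hAη : ∀ a ∈ A, η * a ∈ A := by
    rintro a ⟨y, hy, hyT⟩
    refine ⟨y, ?_, ?_⟩
    · rw [mul_pow, h5, one_mul]; exact hy
    · have := T.mul_mem (T.mul_mem hdT hyT) (T.inv_mem hdT)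
      rwa [hd, d_mul hS h5, mul_inv_cancel_right] at this
  have hAall : ∀ a : F, a ∈ A := by
    have : Fact (Nat.Prime 5) := ⟨by norm_num⟩
    have : Fintype A := Fintype.ofFinite A
    let f : Function.End A := fun a => ⟨η * a, hAη a a.2⟩
    have hf : ∀ (n : ℕ) (a : A), ((f ^ n) a : F) = η ^ n * a := by
      intro n
      induction n with
      | zero => intro a; show (a : F) = _; simp
      | succ n ih =>
        intro a
        rw [pow_succ', pow_succ', mul_assoc, ← ih]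
        rfl
    have h := Equiv.Perm.card_fixedPoints_modEq (p := 5) (n := 1) (f := f) (by
      refine funext fun a => Subtype.ext ?_
      show ((f ^ (5 ^ 1)) a : F) = a
      rw [hf, pow_one, h5, one_mul])
    have hfix : Fintype.card f.fixedPoints = 1 := by
      rw [Fintype.card_eq_one_iff]
      refine ⟨⟨0, Subtype.ext (mul_zero η)⟩, fun a => Subtype.ext (Subtype.ext ?_)⟩
      have : η * ((a : A) : F) = (a : A) := congrArg Subtype.val a.2
      have h0 : (η - 1) * ((a : A) : F) = 0 := by linear_combination this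
      exact (mul_eq_zero.1 h0).resolve_left (sub_ne_zero.2 hne)
    rw [hfix, ← Nat.card_eq_fintype_card] at h
    have hdvd : Nat.card A ∣ 2 ^ 4 := by
      rw [show (2 : ℕ) ^ 4 = Nat.card F by rw [hc]; norm_num]
      exact AddSubgroup.card_addSubgroup_dvd_card A
    obtain ⟨k, hk, hk'⟩ := (Nat.dvd_prime_pow Nat.prime_two).1 hdvd
    have h2 : 1 < Nat.card A := Finite.one_lt_card_iff_nontrivial.2
      ⟨⟨1, hA1⟩, 0, fun h => one_ne_zero (congrArg Subtype.val h)⟩
    have hAtop : A = ⊤ := AddSubgroup.eq_top_of_card_eq A (by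
      rw [hk'] at h h2 ⊢
      rw [hc]
      unfold Nat.ModEq at h
      interval_cases k <;> simp at h h2 ⊢)
    exact fun a => hAtop ▸ AddSubgroup.mem_top a
  have hMT : ∀ a y : F, y + y ^ 4 = a ^ 5 → M a y ∈ T := by
    intro a y hy
    obtain ⟨y₀, hy₀, hT₀⟩ := hAall a
    have e : M a y = M 0 (y + y₀) * M a y₀ := by
      rw [M_mul hS]; simp [add_assoc, CharTwo.add_self_eq_zero]
    rw [e]
    refine T.mul_mem (hzT _ ?_) hT₀
    rw [hS.add_pow]
    linear_combination (norm := (ring_nf <;> simp [numerals])) hy + hy₀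
  have hroot : IsPrimitiveRoot η 5 := by
    have : Fact (Nat.Prime 5) := ⟨by norm_num⟩
    exact (orderOf_eq_prime h5 hne) ▸ IsPrimitiveRoot.orderOf η
  have hcT : cen F ≤ T := by
    intro g hg
    obtain ⟨i, hi, hi'⟩ := hroot.eq_pow_of_pow_eq_one (lam_pow hS hg)
    have hdk : (d ^ (2 * i))⁻¹ = d ^ (3 * i) := by
      refine inv_eq_of_mul_eq_one_right ?_
      rw [← pow_add, show 2 * i + 3 * i = 5 * i by ring, pow_mul, hd, d_five h5, one_pow]
    set g' := g * (d ^ (2 * i))⁻¹ with hg'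
    have hg'c : g' ∈ cen F :=
      mul_mem hg (inv_mem (pow_mem (d_mem hS h5) _))
    have hl : g'.1 0 0 + g'.1 1 0 = 1 := by
      have e : g'.1 = g.1 * Matrix.diagonal ![η ^ (3 * (3 * i)), η ^ (3 * (3 * i)),
          η ^ (4 * (3 * i))] := by
        rw [hg', hdk, hd, ← d_pow_apply h5]; rfl
      rw [e]
      simp [Matrix.mul_diagonal, ← add_mul]
      rw [← hi', ← pow_add, show i + 3 * (3 * i) = 5 * (2 * i) by ring, pow_mul, h5, one_pow]
    obtain ⟨hy, heq⟩ := eq_M hS hg'c hl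
    have hgT : g' ∈ T := heq ▸ hMT _ _ hy
    have := T.mul_mem hgT (T.pow_mem hdT (2 * i))
    rwa [hg', inv_mul_cancel_right] at this
  -- lower bound
  choose y hy _ using hAall
  let b : Fin 4 → F := ![0, 1, η + η ^ 4, η ^ 2 + η ^ 3]
  have hb : ∀ j, b j ^ 4 = b j := by
    intro j
    fin_cases j <;> simp [b, hS.add_pow]
    · linear_combination (η + η ^ 6 + η ^ 11) * h5
    · linear_combination (η ^ 3 + η ^ 2 + η ^ 7) * h5
  have hω : η + η ^ 4 ≠ 0 := fun h => hne (by
    have h0 : η * (1 + η ^ 3) = 0 := by linear_combination h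
    rcases mul_eq_zero.1 h0 with h1 | h1
    · exact absurd h1 (fun h2 => by simp [h2] at h5)
    · have h3 : η ^ 3 = 1 := (CharTwo.add_eq_zero.1 h1).symm
      linear_combination (η ^ 3 + 1) * h3 - η * h5)
  have hω' : η ^ 2 + η ^ 3 ≠ 0 := fun h => hne (by
    have h0 : η ^ 2 * (1 + η) = 0 := by linear_combination h
    rcases mul_eq_zero.1 h0 with h1 | h1
    · exact absurd (eq_zero_of_pow_eq_zero h1 : η = 0) (fun h2 => by simp [h2] at h5)
    · exact (CharTwo.add_eq_zero.1 h1).symm)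
  have hsum : η + η ^ 4 + (η ^ 2 + η ^ 3) = 1 := by
    linear_combination (norm := (ring_nf <;> simp [numerals])) hs
  have hbinj : Function.Injective b := by
    have h1 : η + η ^ 4 ≠ 1 := fun h => hω' (by
      linear_combination (norm := (ring_nf <;> simp [numerals])) hsum + h)
    have h2 : η ^ 2 + η ^ 3 ≠ 1 := fun h => hω (by
      linear_combination (norm := (ring_nf <;> simp [numerals])) hsum + h)
    have h3 : η + η ^ 4 ≠ η ^ 2 + η ^ 3 := fun h => by
      rw [h, CharTwo.add_self_eq_zero] at hsum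
      exact zero_ne_one hsum
    intro i j hij
    fin_cases i <;> fin_cases j <;>
      simp_all [b, Fin.ext_iff, hω.symm, hω'.symm, h1.symm, h2.symm, h3.symm]
  let Φ : F × Fin 4 × Fin 5 → cen F := fun t =>
    ⟨M t.1 (y t.1 + b t.2.1) * d ^ (t.2.2 : ℕ), mul_mem ⟨M_mem hS (by
        rw [hS.add_pow]
        linear_combination (norm := (ring_nf <;> simp [numerals])) hy t.1 + hb t.2.1),
      Subgroup.mem_centralizer_singleton_iff.2 (central hS 1 _ _).eq.symm⟩
      (pow_mem (d_mem hS h5) _)⟩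
  have hΦ : Function.Injective Φ := by
    rintro ⟨a, j, k⟩ ⟨a', j', k'⟩ h
    have h' : M a (y a + b j) * d ^ (k : ℕ) = M a' (y a' + b j') * d ^ (k' : ℕ) :=
      congrArg Subtype.val h
    have hm : mMat a (y a + b j) * (d ^ (k : ℕ)).1 = mMat a' (y a' + b j') * (d ^ (k' : ℕ)).1 :=
      congrArg Subtype.val h'
    rw [hd, d_pow_apply h5, d_pow_apply h5] at hm
    have e0 := congrFun (congrFun hm 0) 0
    have e1 := congrFun (congrFun hm 1) 0
    simp [mMat, Matrix.mul_diagonal] at e0 e1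
    have ek : η ^ (3 * (k : ℕ) % 5) = η ^ (3 * (k' : ℕ) % 5) := by
      rw [← pow_eq_pow_mod _ h5, ← pow_eq_pow_mod _ h5]
      linear_combination (norm := (ring_nf <;> simp [numerals])) e0 + e1
    have hk : k = k' := by
      have := hroot.pow_inj (Nat.mod_lt _ (by norm_num)) (Nat.mod_lt _ (by norm_num)) ek
      ext; omega
    subst hk
    obtain ⟨ha, hyy⟩ := M_inj (mul_right_cancel h')
    subst ha
    rw [add_right_inj] at hyy
    rw [hbinj hyy]
  have hge : 320 ≤ Nat.card (cen F) := by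
    have := Nat.card_le_card_of_injective Φ hΦ
    simpa [Nat.card_prod, hc] using this
  let X : cen F := ⟨x, x_mem hS h5 hne⟩
  let C : cen F := ⟨d, d_mem hS h5⟩
  have hR : Rel X C := Rel.of_injective (cen F).subtype (cen F).subtype_injective hrel
  have hgen : Subgroup.closure {X, C} = ⊤ := by
    apply Subgroup.map_injective (cen F).subtype_injective
    rw [MonoidHom.map_closure, ← MonoidHom.range_eq_map, Subgroup.range_subtype, Set.image_pair]
    exact le_antisymm hTc hcT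
  exact ⟨X, C, hR, hgen, le_antisymm (hR.card_le hgen) hge⟩

end Cfsg.Agent.Tech.UnitaryFour
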