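import Cfsg.Agent.Lib.Hall

/-!
Hall π-subgroups of π-separable groups, given that groups of odd order are solvable.
-/

set_option autoImplicit false

namespace Cfsg.Agent.Tech.PiSep

open Subgroup Pointwise Cfsg.Agent

universe v

/-- A normal series with π and π' factors. -/
def Series (π : Set ℕ) (G : Type*) [Group G] (n : ℕ) : Prop :=
  ∃ H : Fin (n + 1) → Subgroup G, H 0 = ⊥ ∧ H (Fin.last n) = ⊤ ∧ Monotone H ∧ (∀ i, (H i).Normal) ∧
    ∀ i : Fin n, (∀ q : ℕ, q.Prime → q ∣ (H i.castSucc).relIndex (H i.succ) → q ∈ π) ∨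
      (∀ q : ℕ, q.Prime → q ∣ (H i.castSucc).relIndex (H i.succ) → q ∉ π)

theorem relIndex_map_dvd {G G' : Type*} [Group G] [Group G'] (f : G →* G') {A B : Subgroup G}
    (hAB : A ≤ B) : (A.map f).relIndex (B.map f) ∣ A.relIndex B := by
  have e : (A.map f).subgroupOf (B.map f) = (A.subgroupOf B).map (f.subgroupMap B) := by
    ext ⟨x, hx⟩
    constructor
    · rintro ⟨a, ha, he⟩
      exact ⟨⟨a, hAB ha⟩, ha, Subtype.ext he⟩
    · rintro ⟨b, hb, he⟩
      exact ⟨b, hb, congrArg Subtype.val he⟩
  show ((A.map f).subgroupOf (B.map f)).index ∣ _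
  rw [e]
  exact index_map_dvd (A.subgroupOf B) (f.subgroupMap_surjective B)

theorem series_quotient {π : Set ℕ} {G : Type*} [Group G] {n : ℕ} (h : Series π G (n + 1)) :
    ∃ (N : Subgroup G) (_ : N.Normal), ((∀ q : ℕ, q.Prime → q ∣ Nat.card N → q ∈ π) ∨
      (∀ q : ℕ, q.Prime → q ∣ Nat.card N → q ∉ π)) ∧ Series π (G ⧸ N) n := by
  obtain ⟨H, h0, hlast, hmono, hn, hf⟩ := h
  haveI := hn 1
  refine ⟨H 1, hn 1, ?_, fun i => (H i.succ).map (QuotientGroup.mk' (H 1)), ?_, ?_, ?_, ?_, ?_⟩
  · have h1 := hf 0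
    simp only [Fin.castSucc_zero, Fin.succ_zero_eq_one, h0, relIndex_bot_left] at h1
    exact h1
  · exact QuotientGroup.map_mk'_self _
  · show (H (Fin.last n).succ).map _ = ⊤
    rw [Fin.succ_last, hlast]
    exact map_top_of_surjective _ (QuotientGroup.mk'_surjective _)
  · exact fun i j hij => map_mono (hmono (Fin.succ_le_succ_iff.2 hij))
  · exact fun i => Normal.map (hn _) _ (QuotientGroup.mk'_surjective _)
  · intro i
    have hd : ((H i.castSucc.succ).map (QuotientGroup.mk' (H 1))).relIndex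
        ((H i.succ.succ).map (QuotientGroup.mk' (H 1))) ∣ (H i.succ.castSucc).relIndex (H i.succ.succ) := by
      rw [Fin.succ_castSucc]
      exact relIndex_map_dvd _ (hmono (Fin.castSucc_lt_succ (i := i.succ)).le)
    rcases hf i.succ with h' | h'
    · exact Or.inl fun q hq hqd => h' q hq (hqd.trans hd)
    · exact Or.inr fun q hq hqd => h' q hq (hqd.trans hd)

theorem solvable_of_coprime
    (hFT : ∀ (X : Type v) [Group X] [Finite X], Odd (Nat.card X) → Group.IsSolvable X)
    {G : Type v} [Group G] [Finite G] {A B : Subgroup G} (h : (Nat.card A).Coprime (Nat.card B)) :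
    Group.IsSolvable A ∨ Group.IsSolvable B := by
  rcases Nat.even_or_odd (Nat.card A) with hA | hA
  · right
    refine hFT B ?_
    rcases Nat.even_or_odd (Nat.card B) with hB | hB
    · exact absurd (Nat.eq_one_of_dvd_coprimes h hA.two_dvd hB.two_dvd) (by norm_num)
    · exact hB
  · exact Or.inl (hFT A hA)

theorem card_comap_mk {G : Type*} [Group G] (N : Subgroup G) [N.Normal] (K : Subgroup (G ⧸ N)) :
    Nat.card (K.comap (QuotientGroup.mk' N)) = Nat.card N * Nat.card K := by
  have hN : N ≤ K.comap (QuotientGroup.mk' N) := fun x hx => by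
    rw [mem_comap, QuotientGroup.mk'_apply, (QuotientGroup.eq_one_iff x).2 hx]
    exact K.one_mem
  rw [← card_mul_index (N.subgroupOf (K.comap (QuotientGroup.mk' N))),
    Nat.card_congr (subgroupOfEquivOfLe hN).toEquiv, ← relIndex]
  congr 1
  have h := relIndex_ker (f := QuotientGroup.mk' N) (K := K.comap (QuotientGroup.mk' N))
  rwa [QuotientGroup.ker_mk', map_comap_eq_self_of_surjective (QuotientGroup.mk'_surjective N)] at h

/-- Existence and containment up to conjugacy. -/
theorem hall_main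
    (hFT : ∀ (X : Type v) [Group X] [Finite X], Odd (Nat.card X) → Group.IsSolvable X)
    (π : Set ℕ) : ∀ (n : ℕ) (G : Type v) [Group G] [Finite G], Series π G n →
      (∃ K : Subgroup G, Cfsg.IsPiHall π K) ∧ ∀ H S : Subgroup G, Cfsg.IsPiHall π H →
        Hall.PiNum π (Nat.card S) → ∃ g : G, MulAut.conj g • S ≤ H := by
  intro n
  induction n with
  | zero =>
    intro G _ _ h
    obtain ⟨H, h0, hlast, -⟩ := h
    have htop : (⊤ : Subgroup G) = ⊥ := by rw [← hlast, ← h0]; rfl
    have hall : ∀ A : Subgroup G, A = ⊥ := fun A => le_bot_iff.1 (htop ▸ le_top)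
    refine ⟨⟨⊥, fun p hp hd => absurd (Nat.dvd_one.1 (by simpa using hd)) hp.ne_one,
      fun p hp _ hd => ?_⟩, fun A S _ _ => ⟨1, by rw [hall (MulAut.conj (1 : G) • S)]; exact bot_le⟩⟩
    rw [← htop, index_top] at hd
    exact hp.ne_one (Nat.dvd_one.1 hd)
  | succ n ih =>
    intro G _ _ h
    obtain ⟨N, hNn, hN, hser⟩ := series_quotient h
    obtain ⟨⟨K₀, hK₀⟩, hconj⟩ := ih (G ⧸ N) hser
    have hf := QuotientGroup.mk'_surjective N
    set X := K₀.comap (QuotientGroup.mk' N) with hX
    have hXi : X.index = K₀.index := index_comap_of_surjective K₀ hf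
    have hXc : Nat.card X = Nat.card N * Nat.card K₀ := card_comap_mk N K₀
    have hNX : N ≤ X := fun x hx => by
      rw [hX, mem_comap, QuotientGroup.mk'_apply, (QuotientGroup.eq_one_iff x).2 hx]
      exact K₀.one_mem
    have hNcX : Nat.card (N.subgroupOf X) = Nat.card N :=
      Nat.card_congr (subgroupOfEquivOfLe hNX).toEquiv
    rcases hN with hN | hN
    · refine ⟨⟨X, ?_, fun p hp hpπ hd => hK₀.2 p hp hpπ (hXi ▸ hd)⟩, fun H S hH hS => ?_⟩
      · rw [hXc]
        exact Hall.PiNum.mul hN hK₀.1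
      · obtain ⟨q, hq⟩ := hconj (H.map (QuotientGroup.mk' N)) (S.map (QuotientGroup.mk' N))
          (Hall.isPiHall_map hf hH) (Hall.piNum_card_map _ hS)
        obtain ⟨g, rfl⟩ := hf q
        rw [← SZ.map_conj_smul, Subgroup.map_le_map_iff, QuotientGroup.ker_mk'] at hq
        refine ⟨g, ?_⟩
        have hcard : Hall.PiNum π (Nat.card (H ⊔ N : Subgroup G)) := by
          rw [← card_mul_index (N.subgroupOf (H ⊔ N)), ← relIndex, relIndex_sup_right,
            Nat.card_congr (subgroupOfEquivOfLe (le_sup_right : N ≤ H ⊔ N)).toEquiv]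
          exact Hall.PiNum.mul hN (Hall.PiNum.of_dvd hH.1 (relIndex_dvd_card N H))
        rwa [← Hall.eq_of_le_of_isPiHall hH hcard le_sup_left] at hq
    · have hpN : ∀ m, Hall.PiNum π m → (Nat.card N).Coprime m := fun m hm =>
        Nat.coprime_of_dvd fun p hp hp1 hp2 => hN p hp hp1 (hm p hp hp2)
      refine ⟨?_, fun H S hH hS => ?_⟩
      · have hidx : (N.subgroupOf X).index = Nat.card K₀ := by
          have h1 := card_mul_index (N.subgroupOf X)
          rw [hNcX, hXc] at h1
          exact Nat.eq_of_mul_eq_mul_left Nat.card_pos h1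
        have hcop : (Nat.card (N.subgroupOf X)).Coprime (N.subgroupOf X).index := by
          rw [hNcX, hidx]; exact hpN _ hK₀.1
        obtain ⟨K, hK⟩ := exists_right_complement'_of_coprime hcop
        refine ⟨K.map X.subtype, ?_, fun p hp hpπ hd => ?_⟩
        · rw [card_map_of_injective X.subtype_injective, ← hK.symm.index_eq_card, hidx]
          exact hK₀.1
        · rw [index_map_subtype, hK.index_eq_card, hNcX, hXi] at hd
          rcases hp.dvd_mul.1 hd with h | h
          · exact hN p hp h hpπ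
          · exact hK₀.2 p hp hpπ h
      · obtain ⟨q, hq⟩ := hconj (H.map (QuotientGroup.mk' N)) (S.map (QuotientGroup.mk' N))
          (Hall.isPiHall_map hf hH) (Hall.piNum_card_map _ hS)
        obtain ⟨g, rfl⟩ := hf q
        rw [← SZ.map_conj_smul, Subgroup.map_le_map_iff, QuotientGroup.ker_mk'] at hq
        set L := H ⊔ N
        set S' : Subgroup G := MulAut.conj g • S with hS'
        have hcN : Nat.card (N.subgroupOf L) = Nat.card N :=
          Nat.card_congr (subgroupOfEquivOfLe (le_sup_right : N ≤ L)).toEquiv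
        have hidx : (N.subgroupOf L).index ∣ Nat.card H := by
          show N.relIndex (H ⊔ N) ∣ _
          rw [relIndex_sup_right]
          exact relIndex_dvd_card N H
        have hcop : (Nat.card (N.subgroupOf L)).Coprime (N.subgroupOf L).index := by
          rw [hcN]; exact (hpN _ hH.1).coprime_dvd_right hidx
        have hc : IsComplement' (N.subgroupOf L) (H.subgroupOf L) := by
          refine isComplement'_of_disjoint_and_mul_eq_univ ?_ (Set.eq_univ_of_forall fun x => ?_)
          · rw [disjoint_def]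
            intro x hx hx'
            exact Subtype.ext (disjoint_def.mp (disjoint_of_coprime_natCard (hpN _ hH.1)) hx hx')
          · have hx : (x : G) ∈ H ⊔ N := x.2
            rw [sup_comm, mem_sup_of_normal_left] at hx
            obtain ⟨a, ha, b, hb, e⟩ := hx
            exact ⟨⟨a, le_sup_right (a := H) ha⟩, ha, ⟨b, le_sup_left (b := N) hb⟩, hb, Subtype.ext e⟩
        have hcS : Nat.card (S'.subgroupOf L) = Nat.card S := by
          rw [Nat.card_congr (subgroupOfEquivOfLe hq).toEquiv, hS', SZ.card_conj_smul]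
        have hcop' : (Nat.card (N.subgroupOf L)).Coprime (Nat.card (S'.subgroupOf L)) := by
          rw [hcN, hcS]; exact hpN _ hS
        obtain ⟨x, -, hx⟩ := SZ.le_conj_complement (N.subgroupOf L) (H.subgroupOf L) (S'.subgroupOf L)
          hc hcop hcop' (solvable_of_coprime hFT hcop')
        refine ⟨(x : G) * g, ?_⟩
        have h := map_mono (f := L.subtype) hx
        rw [SZ.map_conj_smul, map_subgroupOf_eq_of_le hq, map_subgroupOf_eq_of_le le_sup_left,
          Subgroup.coe_subtype] at h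
        rwa [← SZ.conj_smul_smul]

/-- Existence, conjugacy and domination. -/
theorem dPi
    (hFT : ∀ (X : Type v) [Group X] [Finite X], Odd (Nat.card X) → Group.IsSolvable X)
    (π : Set ℕ) (G : Type v) [Group G] [Finite G] (n : ℕ) (h : Series π G n) :
    (∃ K : Subgroup G, Cfsg.IsPiHall π K) ∧
      (∀ K L : Subgroup G, Cfsg.IsPiHall π K → Cfsg.IsPiHall π L →
        ∃ g : G, L = K.map (MulAut.conj g).toMonoidHom) ∧
      ∀ U : Subgroup G, (∀ q : ℕ, q.Prime → q ∣ Nat.card U → q ∈ π) →
        ∃ K : Subgroup G, Cfsg.IsPiHall π K ∧ U ≤ K := by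
  obtain ⟨⟨K₀, hK₀⟩, hconj⟩ := hall_main hFT π n G h
  refine ⟨⟨K₀, hK₀⟩, fun K L hK hL => ?_, fun U hU => ?_⟩
  · obtain ⟨g, hg⟩ := hconj L K hL hK.1
    exact ⟨g, (Hall.eq_of_le_of_isPiHall (Hall.isPiHall_conj hK g) hL.1 hg).symm⟩
  · obtain ⟨g, hg⟩ := hconj K₀ U hK₀ hU
    refine ⟨MulAut.conj g⁻¹ • K₀, Hall.isPiHall_conj hK₀ _, fun x hx => ?_⟩
    rw [SZ.mem_conj_smul, inv_inv]
    apply hg
    rw [SZ.mem_conj_smul]
    simpa [mul_assoc] using hx

end Cfsg.Agent.Tech.PiSep
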