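import Mathlib.GroupTheory.Perm.Cycle.Type
import Mathlib.GroupTheory.SpecificGroups.Dihedral
import Mathlib.GroupTheory.Sylow
import Mathlib.Data.Fintype.Units
import Cfsg.Agent.Transfer.Residual
import Cfsg.Agent.Tech.Basic

/-!
Transfer arguments isolating a dihedral factor of a Sylow 2-subgroup.
-/

set_option autoImplicit false
set_option linter.style.haveILetI false

namespace Cfsg.Agent.Tech.DihTransfer

variable {G : Type*} [Group G] [Finite G]

omit [Finite G] in
theorem card_mul_rel {K L : Subgroup G} (h : K ≤ L) :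
    Nat.card K * K.relIndex L = Nat.card L := by
  rw [Subgroup.relIndex, ← Nat.card_congr (Subgroup.subgroupOfEquivOfLe h).toEquiv]
  exact (K.subgroupOf L).card_mul_index

theorem sylow_inf_normal {S R : Subgroup G} [R.Normal] (hS2 : IsPGroup 2 S) (hSsyl : ¬ 2 ∣ S.index) :
    ¬ 2 ∣ (S ⊓ R).relIndex R := by
  haveI : Fact (Nat.Prime 2) := ⟨Nat.prime_two⟩
  obtain ⟨Q, hQ⟩ := exists_sylow_of_inf_normal (hS2.toSylow hSsyl) R
  have h : (S ⊓ R).subgroupOf R = (Q : Subgroup R) := by
    rw [show S ⊓ R = (Q : Subgroup R).map R.subtype from hQ.symm, Subgroup.subgroupOf,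
      Subgroup.comap_map_eq_self_of_injective R.subtype_injective]
  rw [Subgroup.relIndex, h]
  exact Q.not_dvd_index

/-- In a dihedral group the elements outside a cyclic subgroup of index two are involutions. -/
theorem sq_eq_one_of_not_mem {n : ℕ} (hn : 2 ≤ n) (C : Subgroup (DihedralGroup n)) [IsCyclic C]
    (hC : C.index = 2) {d : DihedralGroup n} (hd : d ∉ C) : d * d = 1 := by
  have : NeZero n := ⟨by omega⟩
  cases d with
  | sr i => exact DihedralGroup.sr_mul_self i
  | r i =>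
    -- `C` has a generator that is a reflection, so the group has order at most four
    obtain ⟨g, hg⟩ := IsCyclic.exists_zpow_surjective (G := C)
    have hcard : 2 * Nat.card C = 2 * n := by
      have h := C.card_mul_index
      rw [hC, DihedralGroup.nat_card, mul_comm] at h
      exact h
    rcases hgv : (g : DihedralGroup n) with j | j
    · exfalso
      let K : Subgroup (DihedralGroup n) := Subgroup.zpowers (DihedralGroup.r 1)
      have hle : C ≤ K := by
        intro y hy
        obtain ⟨k, hk⟩ := hg ⟨y, hy⟩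
        have hk' : (g : DihedralGroup n) ^ k = y := by simpa using congrArg Subtype.val hk
        rw [← hk', hgv]
        refine K.zpow_mem ?_ k
        exact ⟨(j.val : ℤ), by simp [DihedralGroup.r_one_pow]⟩
      have heq : C = K := Subgroup.eq_of_le_of_card_ge hle (by
        rw [Nat.card_zpowers, DihedralGroup.orderOf_r_one]; omega)
      exact hd (heq ▸ ⟨(i.val : ℤ), by
        show (DihedralGroup.r 1 : DihedralGroup n) ^ (i.val : ℤ) = DihedralGroup.r i
        rw [zpow_natCast, DihedralGroup.r_one_pow, ZMod.natCast_zmod_val]⟩)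
    · have hz : Subgroup.zpowers g = ⊤ := eq_top_iff.2 fun y _ => hg y
      have h2 : Nat.card C = 2 := by
        rw [← Subgroup.card_top (G := C), ← hz, Nat.card_zpowers, ← Subgroup.orderOf_coe, hgv,
          DihedralGroup.orderOf_sr]
      obtain rfl : n = 2 := by omega
      rw [DihedralGroup.r_mul_r, DihedralGroup.one_def]
      congr 1
      clear hd
      revert i
      decide

/-- An element of order `2 ^ k` acting freely with oddly many orbits is an odd permutation. -/
theorem sign_eq_neg_one {α : Type*} [Fintype α] [DecidableEq α] (σ : Equiv.Perm α) {k m : ℕ}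
    (hk : k ≠ 0) (hm : Odd m) (hcard : Fintype.card α = 2 ^ k * m) (hσ : σ ^ 2 ^ k = 1)
    (hfree : ∀ (j : ℕ) (a : α), (σ ^ j) a = a → 2 ^ k ∣ j) : Equiv.Perm.sign σ = -1 := by
  have hall : ∀ n ∈ σ.cycleType, n = 2 ^ k := by
    intro n hn
    rw [Equiv.Perm.cycleType_def, Multiset.mem_map] at hn
    obtain ⟨τ, hτ, rfl⟩ := hn
    rw [Finset.mem_val, Equiv.Perm.mem_cycleFactorsFinset_iff] at hτ
    obtain ⟨a, ha⟩ := hτ.1.nonempty_support
    have hord : orderOf τ = τ.support.card := hτ.1.orderOf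
    have hpow : ∀ j : ℕ, (σ ^ j) a = (τ ^ j) a := by
      intro j
      induction j with
      | zero => simp
      | succ j ih =>
        rw [pow_succ', pow_succ', Equiv.Perm.mul_apply, Equiv.Perm.mul_apply, ih]
        exact (hτ.2 _ (Equiv.Perm.pow_apply_mem_support.2 ha)).symm
    refine Nat.dvd_antisymm ?_ (hfree _ a ?_)
    · show τ.support.card ∣ 2 ^ k
      rw [← hord, orderOf_dvd_iff_pow_eq_one]
      refine hτ.1.pow_eq_one_iff.2 ⟨a, Equiv.Perm.mem_support.1 ha, ?_⟩
      rw [← hpow, hσ, Equiv.Perm.one_apply]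
    · rw [hpow]
      show (τ ^ τ.support.card) a = a
      rw [← hord, pow_orderOf_eq_one, Equiv.Perm.one_apply]
  have hsum : σ.cycleType.sum = Fintype.card α := by
    rw [Equiv.Perm.sum_cycleType]
    refine congrArg Finset.card (Finset.eq_univ_iff_forall.2 fun a => Equiv.Perm.mem_support.2 fun h => ?_)
    have h2 := hfree 1 a (by rwa [pow_one])
    exact absurd (Nat.le_of_dvd one_pos h2) (not_le.2 (Nat.one_lt_two_pow hk))
  have hs : σ.cycleType.sum = σ.cycleType.card * 2 ^ k := by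
    rw [Multiset.eq_replicate_of_mem hall, Multiset.sum_replicate, Multiset.card_replicate]
    rfl
  have hc : σ.cycleType.card = m := by
    apply Nat.eq_of_mul_eq_mul_right (Nat.two_pow_pos k)
    rw [← hs, hsum, hcard, mul_comm]
  rw [Equiv.Perm.sign_of_cycleType, hsum, hcard, hc]
  refine Odd.neg_one_pow (Even.add_odd (Even.mul_right ?_ m) hm)
  exact (Nat.even_pow.2 ⟨even_two, hk⟩)

/-- A homomorphism to `ℤˣ` not trivial on an element acting freely on cosets with oddly many
orbits. -/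
theorem exists_hom_of_free (H : Subgroup G) (x : G) {k m : ℕ} (hk : k ≠ 0) (hm : Odd m)
    (hidx : H.index = 2 ^ k * m) (hx : x ^ 2 ^ k = 1)
    (hfree : ∀ (j : ℕ) (g : G), g⁻¹ * x ^ j * g ∈ H → 2 ^ k ∣ j) :
    ∃ f : G →* ℤˣ, f x = -1 := by
  classical
  letI := Fintype.ofFinite (G ⧸ H)
  refine ⟨Equiv.Perm.sign.comp (MulAction.toPermHom G (G ⧸ H)),
    sign_eq_neg_one _ hk hm ?_ (by rw [← map_pow, hx, map_one]) fun j a ha => ?_⟩
  · rw [← Nat.card_eq_fintype_card, ← Subgroup.index_eq_card, hidx]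
  · induction a using QuotientGroup.induction_on with
    | H g =>
      rw [← map_pow] at ha
      have h1 : ((x ^ j * g : G) : G ⧸ H) = (g : G ⧸ H) := ha
      rw [eq_comm, QuotientGroup.eq, ← mul_assoc] at h1
      exact hfree j g h1

theorem exists_complement (L T S D C : Subgroup G) (hL : Cfsg.pResidual 2 ↥L = ⊤)
    (hTL : T ≤ L) (hT2 : IsPGroup 2 T) (hTsyl : ¬ 2 ∣ T.relIndex L)
    (hS2 : IsPGroup 2 S) (hSsyl : ¬ 2 ∣ S.index) (hTS : T ≤ S)
    (hDS : D ≤ S) (hDih : ∃ n : ℕ, 2 ≤ n ∧ Nonempty (↥D ≃* DihedralGroup n)) (hDT : D ⊓ T = ⊥)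
    (hTD : T ⊔ D = S) (hTDc : Nat.card T * Nat.card D = Nat.card S)
    (hCD : C ≤ D) (hC : IsCyclic ↥C) (hCi : C.relIndex D = 2)
    (h1 : ∀ x ∈ D, x ∉ C → orderOf x = 2 → ∀ g : G, g * x * g⁻¹ ∈ T ⊔ C → False)
    (h2 : ∀ c ∈ C, orderOf c = 2 → ∀ g : G, g * c * g⁻¹ ∈ T → False) :
    ∃ K : Subgroup G, K.Normal ∧ K ⊔ D = ⊤ ∧
      ∀ T' : Subgroup G, T' ≤ L → IsPGroup 2 T' → ¬ 2 ∣ T'.relIndex L →
        T' ≤ K ∧ ¬ 2 ∣ T'.relIndex K := by
  haveI : Fact (Nat.Prime 2) := ⟨Nat.prime_two⟩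
  set R := Cfsg.pResidual 2 G with hR
  haveI hRn : R.Normal := by
    refine ⟨fun r hr g => ?_⟩
    exact Transfer.map_pResidual_le (MulAut.conj g).toMonoidHom ⟨r, hr, rfl⟩
  have hLR : L ≤ R := by
    intro l hl
    have h := Transfer.pResidual_le_ker (p := 2) (Transfer.isPGroup_quotient_pResidual (p := 2) (G := G))
      ((QuotientGroup.mk' R).comp L.subtype) (hL.ge (Subgroup.mem_top (⟨l, hl⟩ : L)))
    exact (QuotientGroup.eq_one_iff l).1 h
  have hTR : T ≤ R := hTL.trans hLR
  -- elements of `D` outside `C` are involutions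
  obtain ⟨n, hn, ⟨e⟩⟩ := hDih
  have hinv : ∀ d ∈ D, d ∉ C → d * d = 1 ∧ orderOf d = 2 := by
    intro d hd hdC
    have hidx : ((C.subgroupOf D).map e.toMonoidHom).index = 2 := by
      rw [← hCi, Subgroup.relIndex]; exact Subgroup.index_map_equiv _ e
    haveI : IsCyclic ((C.subgroupOf D).map e.toMonoidHom) :=
      isCyclic_of_surjective (((Subgroup.subgroupOfEquivOfLe hCD).symm).trans
        ((C.subgroupOf D).equivMapOfInjective e.toMonoidHom e.injective)).toMonoidHom
        (MulEquiv.surjective _)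
    have h := sq_eq_one_of_not_mem hn ((C.subgroupOf D).map e.toMonoidHom) hidx (d := e ⟨d, hd⟩)
      (by
        rintro ⟨y, hy, hyd⟩
        have hy' : y = ⟨d, hd⟩ := e.injective hyd
        subst hy'
        exact hdC hy)
    have h' : d * d = 1 := by
      rw [← map_mul, ← map_one e] at h
      exact congrArg Subtype.val (e.injective h)
    exact ⟨h', orderOf_eq_prime (by rw [pow_two, h']) fun h0 => hdC (h0 ▸ C.one_mem)⟩
  have hcardS : ∀ s ∈ S, ∃ t ∈ T, ∃ d ∈ D, t * d = s := by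
    intro s hs
    let f : T × D → S := fun x => ⟨x.1 * x.2, S.mul_mem (hTS x.1.2) (hDS x.2.2)⟩
    have hf : Function.Bijective f := by
      refine (Nat.bijective_iff_injective_and_card f).2 ⟨?_, by rw [Nat.card_prod, hTDc]⟩
      rintro ⟨t, d⟩ ⟨t', d'⟩ hh
      have h : (t : G) * d = t' * d' := congrArg Subtype.val hh
      have hz : (t' : G)⁻¹ * t = d' * (d : G)⁻¹ := by
        rw [eq_mul_inv_iff_mul_eq, mul_assoc, h, inv_mul_cancel_left]
      have hz1 : (t' : G)⁻¹ * t = 1 := Subgroup.mem_bot.1 (hDT.le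
        ⟨hz ▸ D.mul_mem d'.2 (D.inv_mem d.2), T.mul_mem (T.inv_mem t'.2) t.2⟩)
      have ht : t = t' := Subtype.ext (inv_mul_eq_one.1 hz1).symm
      subst ht
      simp only [mul_right_inj] at h
      exact Prod.ext rfl (Subtype.ext h)
    obtain ⟨⟨t, d⟩, htd⟩ := hf.2 ⟨s, hs⟩
    exact ⟨t, t.2, d, d.2, congrArg Subtype.val htd⟩
  obtain ⟨m, hm, hSm⟩ : ∃ m : ℕ, Odd m ∧ S.index = m := ⟨_, Nat.odd_iff.2 (by omega), rfl⟩
  -- involutions of `D` outside `C` are outside `R`
  have hout : ∀ x ∈ D, x ∉ C → x ∉ R := by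
    intro x hx hxC hxR
    have hxi := (hinv x hx hxC).2
    set M := T ⊔ C with hM
    have hMS : M ≤ S := sup_le hTS (hCD.trans hDS)
    have hMidx : M.index = 2 ^ 1 * m := by
      rw [← Subgroup.relIndex_mul_index hMS, hSm]
      congr 1
      have h3 : M.relIndex S ≠ 1 := fun h =>
        h1 x hx hxC hxi 1 (by simpa using Subgroup.relIndex_eq_one.1 h (hDS hx))
      have h4 : M.relIndex S ∣ 2 := by
        have hle : Nat.card T * Nat.card C ≤ Nat.card M := by
          rw [← Nat.card_prod]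
          refine Nat.card_le_card_of_injective
            (fun x : T × C => (⟨x.1 * x.2, M.mul_mem (Subgroup.mem_sup_left x.1.2)
              (Subgroup.mem_sup_right x.2.2)⟩ : M)) ?_
          rintro ⟨t, d⟩ ⟨t', d'⟩ hh
          have h : (t : G) * d = t' * d' := congrArg Subtype.val hh
          have hz : (t' : G)⁻¹ * t = d' * (d : G)⁻¹ := by
            rw [eq_mul_inv_iff_mul_eq, mul_assoc, h, inv_mul_cancel_left]
          have hz1 : (t' : G)⁻¹ * t = 1 := Subgroup.mem_bot.1 (hDT.le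
            ⟨hz ▸ D.mul_mem (hCD d'.2) (D.inv_mem (hCD d.2)), T.mul_mem (T.inv_mem t'.2) t.2⟩)
          have ht : t = t' := Subtype.ext (inv_mul_eq_one.1 hz1).symm
          subst ht
          simp only [mul_right_inj] at h
          exact Prod.ext rfl (Subtype.ext h)
        have e1 := card_mul_rel hMS
        have e2 := card_mul_rel hCD
        rw [hCi] at e2
        rw [← hTDc, ← e2, ← mul_assoc] at e1
        have h5 : Nat.card T * Nat.card C * M.relIndex S ≤ Nat.card T * Nat.card C * 2 :=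
          (Nat.mul_le_mul_right _ hle).trans e1.le
        have h6 : M.relIndex S ≤ 2 := Nat.le_of_mul_le_mul_left h5 (Nat.mul_pos Nat.card_pos Nat.card_pos)
        have h7 : M.relIndex S ≠ 0 := Subgroup.index_ne_zero_of_finite
        have h8 : M.relIndex S = 1 ∨ M.relIndex S = 2 := by omega
        rcases h8 with h8 | h8 <;> rw [h8] <;> norm_num
      rw [pow_one]
      exact ((Nat.dvd_prime Nat.prime_two).1 h4).resolve_left h3
    obtain ⟨f, hf⟩ := exists_hom_of_free M x one_ne_zero hm hMidx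
      (by rw [pow_one, ← hxi, pow_orderOf_eq_one]) fun j g hg => by
        rw [pow_one]
        by_contra hj
        obtain ⟨i, hi⟩ := Nat.odd_iff.2 (Nat.two_dvd_ne_zero.1 hj)
        rw [hi, pow_succ, pow_mul, pow_two, (hinv x hx hxC).1, one_pow, one_mul] at hg
        exact h1 x hx hxC hxi g⁻¹ (by rwa [inv_inv])
    have hA : IsPGroup 2 ℤˣ := IsPGroup.of_card (n := 1) (by
      rw [Nat.card_eq_fintype_card, Fintype.card_units_int, pow_one])
    have h := MonoidHom.mem_ker.1 (Transfer.pResidual_le_ker hA f hxR)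
    rw [hf] at h
    exact absurd h (by decide)
  -- `D ⊓ R` is trivial
  have hDR : D ⊓ R = ⊥ := by
    by_contra hne
    have hle : D ⊓ R ≤ C := fun d hd => by_contra fun h => hout d hd.1 h hd.2
    haveI : IsCyclic ↥(D ⊓ R) := isCyclic_of_injective (Subgroup.inclusion hle)
      (Subgroup.inclusion_injective hle)
    obtain ⟨c, hc⟩ := IsCyclic.exists_zpow_surjective (G := ↥(D ⊓ R))
    obtain ⟨k, hk⟩ := IsPGroup.iff_card.1 (hS2.to_le (inf_le_left.trans hDS) : IsPGroup 2 ↥(D ⊓ R))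
    have hk0 : k ≠ 0 := fun h => hne (Subgroup.card_eq_one.1 (by rw [hk, h, pow_zero]))
    have hoc : orderOf c = 2 ^ k := by
      rw [← hk, ← Nat.card_zpowers, show Subgroup.zpowers c = ⊤ from eq_top_iff.2 fun y _ => hc y,
        Subgroup.card_top]
    have hodd' : ¬ 2 ∣ (S ⊓ R).relIndex R := sylow_inf_normal hS2 hSsyl
    have hSR : Nat.card ↥(S ⊓ R) = Nat.card T * 2 ^ k := by
      rw [← hk, ← Nat.card_prod]
      refine (Nat.card_congr (Equiv.ofBijective
        (fun x : T × ↥(D ⊓ R) => (⟨x.1 * x.2, S.mul_mem (hTS x.1.2) (hDS x.2.2.1),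
          R.mul_mem (hTR x.1.2) x.2.2.2⟩ : ↥(S ⊓ R))) ⟨?_, ?_⟩)).symm
      · rintro ⟨t, d⟩ ⟨t', d'⟩ hh
        have h : (t : G) * d = t' * d' := congrArg Subtype.val hh
        have hz : (t' : G)⁻¹ * t = d' * (d : G)⁻¹ := by
          rw [eq_mul_inv_iff_mul_eq, mul_assoc, h, inv_mul_cancel_left]
        have hz1 : (t' : G)⁻¹ * t = 1 := Subgroup.mem_bot.1 (hDT.le
          ⟨hz ▸ D.mul_mem d'.2.1 (D.inv_mem d.2.1), T.mul_mem (T.inv_mem t'.2) t.2⟩)
        have ht : t = t' := Subtype.ext (inv_mul_eq_one.1 hz1).symm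
        subst ht
        simp only [mul_right_inj] at h
        exact Prod.ext rfl (Subtype.ext h)
      · rintro ⟨s, hs, hsR⟩
        obtain ⟨t, ht, d, hd, rfl⟩ := hcardS s hs
        have hdR : d ∈ R := by
          have := R.mul_mem (R.inv_mem (hTR ht)) hsR
          rwa [inv_mul_cancel_left] at this
        exact ⟨(⟨t, ht⟩, ⟨d, hd, hdR⟩), rfl⟩
    have hidx : (T.subgroupOf R).index = 2 ^ k * (S ⊓ R).relIndex R := by
      rw [← Subgroup.relIndex, ← Subgroup.relIndex_mul_relIndex T (S ⊓ R) R (le_inf hTS hTR) inf_le_right]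
      congr 1
      refine Nat.eq_of_mul_eq_mul_left (Nat.card_pos (α := T)) ?_
      rw [← hSR, ← card_mul_rel (le_inf hTS hTR)]
    obtain ⟨f, hf⟩ := exists_hom_of_free (G := ↥R) (T.subgroupOf R) ⟨(c : G), c.2.2⟩ hk0
      (Nat.odd_iff.2 (Nat.two_dvd_ne_zero.1 hodd')) hidx
      (Subtype.ext (by
        rw [SubgroupClass.coe_pow]
        show (c : G) ^ 2 ^ k = 1
        rw [← hoc, ← SubgroupClass.coe_pow, pow_orderOf_eq_one]; rfl))
      (fun j g hg => by
        rw [← hoc, orderOf_dvd_iff_pow_eq_one]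
        by_contra hj
        obtain ⟨i, hi⟩ := (IsPGroup.iff_orderOf.1 (hS2.to_le (inf_le_left.trans hDS) :
          IsPGroup 2 ↥(D ⊓ R))) (c ^ j)
        have hi0 : i ≠ 0 := fun h => hj (orderOf_eq_one_iff.1 (by rw [hi, h, pow_zero]))
        set y := (c ^ j) ^ 2 ^ (i - 1) with hy
        have hy2 : orderOf y = 2 := by
          rw [hy, orderOf_pow_of_dvd (by simp) (hi ▸ pow_dvd_pow 2 (Nat.sub_le i 1)), hi,
            Nat.pow_div (Nat.sub_le i 1) two_pos, show i - (i - 1) = 1 by omega, pow_one]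
        refine h2 (y : G) (hle y.2) (by rw [Subgroup.orderOf_coe, hy2]) (g : G)⁻¹ ?_
        have hg' : (g : G)⁻¹ * ((c : G) ^ j) * g ∈ T := hg
        have : (g : G)⁻¹ * (y : G) * (g : G)⁻¹⁻¹ = ((g : G)⁻¹ * ((c : G) ^ j) * (g : G)⁻¹⁻¹) ^ 2 ^ (i - 1) := by
          rw [conj_pow, hy, SubgroupClass.coe_pow, SubgroupClass.coe_pow]
        rw [this, inv_inv]
        exact T.pow_mem hg' _)
    have hA : IsPGroup 2 ℤˣ := IsPGroup.of_card (n := 1) (by
      rw [Nat.card_eq_fintype_card, Fintype.card_units_int, pow_one])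
    rw [Transfer.hom_pResidual_eq_one hA f] at hf
    exact absurd hf (by decide)
  refine ⟨R, hRn, ?_, fun T' hT'L hT'2 hT'syl => ⟨hT'L.trans hLR, ?_⟩⟩
  · refine top_le_iff.1 fun g _ => ?_
    obtain ⟨w, hw, s, hs, rfl⟩ := Transfer.exists_mul_eq_of_not_dvd_index (p := 2) hSsyl g
    obtain ⟨t, ht, d, hd, rfl⟩ := hcardS s hs
    exact (R ⊔ D).mul_mem (Subgroup.mem_sup_left hw)
      ((R ⊔ D).mul_mem (Subgroup.mem_sup_left (hTR ht)) (Subgroup.mem_sup_right hd))
  · -- `T` is Sylow in `R`, and `|T'| = |T|`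
    have hSRT : S ⊓ R = T := by
      refine le_antisymm ?_ (le_inf hTS hTR)
      rintro s ⟨hs, hsR⟩
      obtain ⟨t, ht, d, hd, rfl⟩ := hcardS s hs
      have hdR : d ∈ R := by
        have := R.mul_mem (R.inv_mem (hTR ht)) hsR
        rwa [inv_mul_cancel_left] at this
      rw [Subgroup.mem_bot.1 (hDR.le ⟨hd, hdR⟩), mul_one]
      exact ht
    have hTR' : ¬ 2 ∣ T.relIndex R := by
      rw [← hSRT]
      exact sylow_inf_normal hS2 hSsyl
    have hcards : Nat.card T' = Nat.card T := by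
      obtain ⟨a, ha⟩ := IsPGroup.iff_card.1 hT'2
      obtain ⟨b, hb⟩ := IsPGroup.iff_card.1 hT2
      have e1 := card_mul_rel hT'L
      have e2 := card_mul_rel hTL
      rw [ha] at e1
      rw [hb] at e2
      have c1 : Nat.Coprime (2 ^ b) (T'.relIndex L) :=
        Nat.Coprime.pow_left b (Nat.prime_two.coprime_iff_not_dvd.2 hT'syl)
      have c2 : Nat.Coprime (2 ^ a) (T.relIndex L) :=
        Nat.Coprime.pow_left a (Nat.prime_two.coprime_iff_not_dvd.2 hTsyl)
      rw [ha, hb]
      exact Nat.dvd_antisymm (c2.dvd_of_dvd_mul_right (e2.trans e1.symm ▸ dvd_mul_right _ _))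
        (c1.dvd_of_dvd_mul_right (e1.trans e2.symm ▸ dvd_mul_right _ _))
    intro hd
    apply hTR'
    have e1 := card_mul_rel (hT'L.trans hLR)
    have e2 := card_mul_rel hTR
    rw [hcards] at e1
    rwa [Nat.eq_of_mul_eq_mul_left Nat.card_pos (e2.trans e1.symm)]

end Cfsg.Agent.Tech.DihTransfer
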