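import Cfsg.Agent.Tech.QuadFF
import Cfsg.Agent.EvenLocal.InvolvedS4
import Cfsg.Agent.Modules.Thompson
import Cfsg.Agent.CharTwo.Constrained
import Cfsg.Agent.Coprime.Action
import Cfsg.Agent.PSolv.HallHigman
import Cfsg.Agent.Tech.Basic

/-!
Thompson factorization for `S₄`-free 2-constrained groups with Sylow 2-subgroups of class at most two.
-/

set_option autoImplicit false
set_option linter.style.haveILetI false

namespace Cfsg.Agent.Tech.ClassTwo

open Subgroup Cfsg.Agent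
open scoped commutatorElement

variable {G : Type*} [Group G] [Finite G]

theorem perm_three_eq_top {K : Subgroup (Equiv.Perm (Fin 3))} {x y : Equiv.Perm (Fin 3)}
    (hx : x ∈ K) (hy : y ∈ K) (h : x * y ≠ y * x) : K = ⊤ := by
  rw [← card_eq_iff_eq_top]
  have h6 : Nat.card (Equiv.Perm (Fin 3)) = 6 := by simp [Nat.card_eq_fintype_card, Fintype.card_perm, Nat.factorial]
  have hd : Nat.card K ∣ 6 := h6 ▸ K.card_subgroup_dvd_card
  by_contra hne
  rw [h6] at hne
  apply h
  have hc : IsCyclic K := by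
    have hpos : 0 < Nat.card K := Nat.card_pos
    have hle : Nat.card K ≤ 6 := Nat.le_of_dvd (by norm_num) hd
    by_cases h1 : Nat.card K = 1
    · haveI : Subsingleton K := (Nat.card_eq_one_iff_unique.1 h1).1
      exact isCyclic_of_subsingleton
    have hp : (Nat.card K).Prime := by
      generalize Nat.card K = n at *
      interval_cases n <;> first | (exact absurd hd (by decide)) | omega | norm_num
    haveI := Fact.mk hp
    exact isCyclic_of_prime_card rfl
  obtain ⟨g, hg⟩ := hc.exists_generator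
  obtain ⟨i, hi⟩ := mem_zpowers_iff.1 (hg ⟨x, hx⟩)
  obtain ⟨j, hj⟩ := mem_zpowers_iff.1 (hg ⟨y, hy⟩)
  have e1 := congrArg Subtype.val hi
  have e2 := congrArg Subtype.val hj
  simp only [SubgroupClass.coe_zpow] at e1 e2
  rw [← e1, ← e2, ← zpow_add, ← zpow_add, add_comm]

/-- Two elements inducing two transpositions on a four-group give an `S₄` section. -/
theorem involves_of_config {b c p w : G} (hp1 : p ≠ 1) (hw1 : w ≠ 1) (hpw : p ≠ w)
    (hp2 : p * p = 1) (hw2 : w * w = 1) (hc : p * w = w * p)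
    (bp : b * p * b⁻¹ = p) (bw : b * w * b⁻¹ = p * w) (cw : c * w * c⁻¹ = w)
    (cp : c * p * c⁻¹ = p * w) : Cfsg.Involves (Equiv.Perm (Fin 4)) G := by
  classical
  set M := closure ({p, w} : Set G) with hM
  have hpM : p ∈ M := subset_closure (by simp)
  have hwM : w ∈ M := subset_closure (by simp)
  have hp' : p⁻¹ = p := inv_eq_of_mul_eq_one_right hp2
  have hw' : w⁻¹ = w := inv_eq_of_mul_eq_one_right hw2
  have hwpw : w * (p * w) = p := by rw [← mul_assoc, ← hc, mul_assoc, hw2, mul_one]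
  have hppw : p * (p * w) = w := by rw [← mul_assoc, hp2, one_mul]
  have hall : ∀ m ∈ M, m = 1 ∨ m = p ∨ m = w ∨ m = p * w := by
    intro m hm
    induction hm using closure_induction with
    | mem x hx => rcases hx with rfl | rfl <;> simp
    | one => simp
    | mul x y _ _ hx hy =>
      rcases hx with rfl | rfl | rfl | rfl <;> rcases hy with rfl | rfl | rfl | rfl <;>
        simp [hp2, hw2, hwpw, hppw, hc.symm, mul_assoc]
    | inv x _ hx =>
      rcases hx with rfl | rfl | rfl | rfl <;> simp [hp', hw', hc.symm, mul_inv_rev]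
  have hM2 : IsPGroup 2 M := by
    intro ⟨m, hm⟩
    refine ⟨1, Subtype.ext ?_⟩
    show m ^ 2 ^ 1 = 1
    rw [pow_one, sq]
    rcases hall m hm with rfl | rfl | rfl | rfl
    · exact one_mul 1
    · exact hp2
    · exact hw2
    · rw [mul_assoc, hwpw, hp2]
  rw [EvenLocal.involves_perm_four_iff]
  refine ⟨M, hM2, ?_⟩
  set N := normalizer (M : Set G) with hN
  let Ω := {m : G // m ∈ M ∧ m ≠ 1}
  letI act : MulAction N Ω :=
    { smul := fun n m => ⟨(n : G) * m * (n : G)⁻¹, (mem_normalizer_iff.1 n.2 _).1 m.2.1,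
        fun h => m.2.2 (conj_eq_one_iff.1 h)⟩
      one_smul := fun m => Subtype.ext (show (1 : G) * m * (1 : G)⁻¹ = (m : G) by simp)
      mul_smul := fun n k m => Subtype.ext (show (n : G) * k * m * ((n : G) * k)⁻¹ =
        (n : G) * ((k : G) * m * (k : G)⁻¹) * (n : G)⁻¹ by group) }
  let pp : Ω := ⟨p, hpM, hp1⟩
  let ww : Ω := ⟨w, hwM, hw1⟩
  let tt : Ω := ⟨p * w, M.mul_mem hpM hwM, fun h => hpw (by
    rw [← hp'] ; exact (inv_eq_of_mul_eq_one_right h))⟩
  let e0 : Fin 3 → Ω := ![pp, ww, tt]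
  have he0 : Function.Bijective e0 := by
    have h3 : p ≠ p * w := fun h => hw1 (left_eq_mul.1 h)
    have h4 : w ≠ p * w := fun h => hp1 (right_eq_mul.1 h)
    refine ⟨fun i j hij => ?_, fun ⟨m, hm, hm1⟩ => ?_⟩
    · have h := congrArg Subtype.val hij
      fin_cases i <;> fin_cases j <;>
        simp [e0, pp, ww, tt, hpw, Ne.symm hpw, hp1, hw1, h3, h4, h3.symm, h4.symm] at h ⊢
    · rcases hall m hm with rfl | rfl | rfl | rfl
      · exact absurd rfl hm1
      · exact ⟨0, rfl⟩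
      · exact ⟨1, rfl⟩
      · exact ⟨2, rfl⟩
  let e : Fin 3 ≃ Ω := Equiv.ofBijective e0 he0
  let ψ : N →* Equiv.Perm (Fin 3) := e.symm.permCongrHom.toMonoidHom.comp (MulAction.toPermHom N Ω)
  have hgen : ∀ g : G, g * p * g⁻¹ ∈ M → g * w * g⁻¹ ∈ M → g ∈ N := by
    intro g h1 h2
    refine mem_normalizer_fintype (S := (M : Set G)) fun m hm => ?_
    rcases hall m hm with rfl | rfl | rfl | rfl
    · simp
    · exact h1
    · exact h2
    · rw [← conj_mul]; exact M.mul_mem h1 h2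
  let bb : N := ⟨b, hgen b (bp.symm ▸ hpM) (bw.symm ▸ M.mul_mem hpM hwM)⟩
  let cc : N := ⟨c, hgen c (cp.symm ▸ M.mul_mem hpM hwM) (cw.symm ▸ hwM)⟩
  have hne : ψ bb * ψ cc ≠ ψ cc * ψ bb := by
    intro h
    rw [← map_mul, ← map_mul] at h
    have h' : MulAction.toPermHom N Ω (bb * cc) = MulAction.toPermHom N Ω (cc * bb) :=
      e.symm.permCongrHom.injective h
    have h1 := congrArg Subtype.val (Equiv.congr_fun h' pp)
    change (b * c) * p * (b * c)⁻¹ = (c * b) * p * (c * b)⁻¹ at h1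
    have l : b * c * p * (b * c)⁻¹ = w := by
      calc b * c * p * (b * c)⁻¹ = b * (c * p * c⁻¹) * b⁻¹ := by group
        _ = (b * p * b⁻¹) * (b * w * b⁻¹) := by rw [cp]; group
        _ = w := by rw [bp, bw, hppw]
    have r : c * b * p * (c * b)⁻¹ = p * w := by
      calc c * b * p * (c * b)⁻¹ = c * (b * p * b⁻¹) * c⁻¹ := by group
        _ = p * w := by rw [bp, cp]
    rw [l, r] at h1
    exact hp1 (right_eq_mul.1 h1)
  have hsurj : Function.Surjective ψ :=
    MonoidHom.range_eq_top.1 (perm_three_eq_top ⟨bb, rfl⟩ ⟨cc, rfl⟩ hne)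
  let C := (centralizer (M : Set G)).subgroupOf N
  have hker : C ≤ ψ.ker := by
    intro n hn
    refine MonoidHom.mem_ker.2 ?_
    have h1 : MulAction.toPermHom N Ω n = 1 := Equiv.ext fun m => Subtype.ext (by
      show (n : G) * m * (n : G)⁻¹ = m
      rw [← mem_centralizer_iff.1 (mem_subgroupOf.1 hn) m m.2.1, mul_inv_cancel_right])
    show e.symm.permCongrHom (MulAction.toPermHom N Ω n) = 1
    rw [h1, map_one]
  exact EvenLocal.involves_of_surjective (A := (⊤ : Subgroup (N ⧸ C)))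
    ((QuotientGroup.lift C ψ hker).comp topEquiv.toMonoidHom)
    (fun q => by
      obtain ⟨x, rfl⟩ := QuotientGroup.lift_surjective_of_surjective C ψ hsurj hker q
      exact ⟨⟨x, mem_top _⟩, rfl⟩)

theorem eq_one_of_odd_two {u : G} {n : ℕ} (hn : Odd n) {k : ℕ} (hk : u ^ 2 ^ k = 1)
    (h : u ^ n = 1) : u = 1 :=
  orderOf_eq_one_iff.1 (Nat.eq_one_of_dvd_coprimes
    ((Nat.coprime_two_left.2 hn).pow_left k) (orderOf_dvd_of_pow_eq_one hk) (orderOf_dvd_of_pow_eq_one h))

/-- An element of odd order fixing `d` with `y u = d u` fixes `u` when `d` is a 2-element. -/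
theorem fix_of_odd {y u d : G} {n : ℕ} (hn : Odd n) (hy : y ^ n = 1) {k : ℕ} (hk : d ^ 2 ^ k = 1)
    (hd : y * d * y⁻¹ = d) (hu : y * u * y⁻¹ = d * u) : y * u * y⁻¹ = u := by
  have key : ∀ i : ℕ, y ^ i * u * (y ^ i)⁻¹ = d ^ i * u := by
    intro i
    induction i with
    | zero => simp
    | succ i ih =>
      calc y ^ (i + 1) * u * (y ^ (i + 1))⁻¹ = y * (y ^ i * u * (y ^ i)⁻¹) * y⁻¹ := by
            rw [pow_succ']; group
        _ = (y * d * y⁻¹) ^ i * (y * u * y⁻¹) := by rw [ih, conj_pow]; group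
        _ = d ^ (i + 1) * u := by rw [hd, hu, ← mul_assoc, ← pow_succ]
  have h := key n
  rw [hy, one_mul, inv_one, mul_one] at h
  rw [hu, eq_one_of_odd_two hn hk (right_eq_mul.1 h), one_mul]

/-- The constrained case with trivial odd core. -/
theorem thompson_normal (hc : centralizer (Cfsg.pCore 2 G : Set G) ≤ Cfsg.pCore 2 G)
    (hS4 : ¬ Cfsg.Involves (Equiv.Perm (Fin 4)) G) (S : Sylow 2 G)
    (hcl : ∀ a ∈ (S : Subgroup G), ∀ b ∈ (S : Subgroup G), ∀ c ∈ (S : Subgroup G),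
      c * ⁅a, b⁆ = ⁅a, b⁆ * c) :
    (Cfsg.thompsonSubgroupOf 2 (S : Subgroup G)).Normal := by
  classical
  set U := Cfsg.pCore 2 G with hU
  set S0 := (S : Subgroup G) with hS0
  have hUS : U ≤ S0 := Cores.pCore_le_sylow S
  have hU2 : IsPGroup 2 U := Cores.pCore_isPGroup
  suffices hJ : Cfsg.thompsonSubgroupOf 2 S0 ≤ U by
    rw [← Modules.thompsonSubgroupOf_eq_of_le hUS hJ]
    refine normalizer_eq_top_iff.1 (eq_top_iff.2 ?_)
    rw [← normalizer_eq_top U]
    exact Modules.normalizer_le_normalizer_thompsonSubgroupOf 2 U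
  rw [Modules.thompsonSubgroupOf_eq_sSup]
  refine sSup_le fun A hA => ?_
  -- the module
  set ZU := U ⊓ centralizer (U : Set G) with hZU
  have hZUcomm : ∀ x ∈ ZU, ∀ y ∈ ZU, x * y = y * x := fun x hx y hy =>
    (mem_centralizer_iff.1 hx.2 y hy.1).symm
  haveI hZUn : ZU.Normal := inferInstance
  let V : Subgroup G :=
    { carrier := {x | x ∈ ZU ∧ x * x = 1}
      one_mem' := ⟨ZU.one_mem, one_mul 1⟩
      mul_mem' := fun {x y} hx hy => ⟨ZU.mul_mem hx.1 hy.1, by
        rw [mul_assoc, ← mul_assoc y x y, hZUcomm y hy.1 x hx.1, mul_assoc x y y, hy.2, mul_one,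
          hx.2]⟩
      inv_mem' := fun {x} hx => ⟨ZU.inv_mem hx.1, by rw [← mul_inv_rev, hx.2, inv_one]⟩ }
  haveI hVn : V.Normal := ⟨fun x hx g => ⟨hZUn.conj_mem x hx.1 g, by
    rw [show g * x * g⁻¹ * (g * x * g⁻¹) = g * (x * x) * g⁻¹ by group, hx.2, mul_one,
      mul_inv_cancel]⟩⟩
  letI : CommGroup V :=
    { (inferInstance : Group V) with
      mul_comm := fun x y => Subtype.ext (hZUcomm x x.2.1 y y.2.1) }
  have hVsq : ∀ v : V, v * v = 1 := fun v => Subtype.ext v.2.2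
  let φ : G →* MulAut V := MulAut.conjNormal
  have hφ : ∀ (g : G) (v : V), ((φ g v : V) : G) = g * v * g⁻¹ := fun g v =>
    MulAut.conjNormal_apply g v
  have hdcomm : ∀ (g : G) (v : V), ((QuadFF.d (φ g) v : V) : G) = ⁅g, (v : G)⁆ := fun g v => by
    show ((φ g v : V) : G) * (v : G)⁻¹ = _
    rw [hφ, commutatorElement_def]
  set H := φ.range with hH
  -- quadratic action of all 2-subgroups
  have hq : QuadFF.QuadH H := by
    intro T hT hT2 s hs t ht v
    set W := T.comap φ with hW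
    obtain ⟨P⟩ : Nonempty (Sylow 2 W) := inferInstance
    have hsurj : Function.Surjective (φ.subgroupComap T) := by
      rintro ⟨x, hx⟩
      obtain ⟨g, rfl⟩ := hT hx
      exact ⟨⟨g, hx⟩, rfl⟩
    have htop : (P : Subgroup W).map (φ.subgroupComap T) = ⊤ :=
      ((P.mapSurjective hsurj).3 (hT2.to_subgroup ⊤) le_top).symm
    obtain ⟨S1, hS1⟩ := (P.2.map W.subtype).exists_le_sylow
    obtain ⟨h, hh⟩ := Fusion.exists_cj_sylow S1 S
    obtain ⟨s0, hs0, hse⟩ := htop.ge (mem_top ⟨s, hs⟩)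
    obtain ⟨t0, ht0, hte⟩ := htop.ge (mem_top ⟨t, ht⟩)
    have hse' : φ (s0 : G) = s := congrArg Subtype.val hse
    have hte' : φ (t0 : G) = t := congrArg Subtype.val hte
    rw [← hse', ← hte']
    apply Subtype.ext
    rw [hφ, hdcomm]
    have hs1 : h * s0 * h⁻¹ ∈ S0 := hh.le (Fusion.conj_mem_cj.mpr (hS1 (mem_map_of_mem _ hs0)))
    have ht1 : h * t0 * h⁻¹ ∈ S0 := hh.le (Fusion.conj_mem_cj.mpr (hS1 (mem_map_of_mem _ ht0)))
    have hv1 : h * v * h⁻¹ ∈ S0 := hUS (hVn.conj_mem v v.2 h).1.1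
    have key := hcl _ ht1 _ hv1 _ hs1
    have e : ⁅h * (t0 : G) * h⁻¹, h * (v : G) * h⁻¹⁆ = h * ⁅(t0 : G), (v : G)⁆ * h⁻¹ := by
      simp only [commutatorElement_def]; group
    rw [e] at key
    calc (s0 : G) * ⁅(t0 : G), (v : G)⁆ * (s0 : G)⁻¹
        = h⁻¹ * ((h * s0 * h⁻¹) * (h * ⁅(t0 : G), (v : G)⁆ * h⁻¹)) * h * (s0 : G)⁻¹ := by group
      _ = ⁅(t0 : G), (v : G)⁆ := by rw [key]; group
  -- no configuration
  have hnc : ¬ QuadFF.Config H := by
    rintro ⟨b, ⟨b0, rfl⟩, c, ⟨c0, rfl⟩, p, w, hp1, hw1, hpw, bp, bw, cw, cp⟩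
    refine hS4 (involves_of_config (b := b0) (c := c0) (p := (p : G)) (w := (w : G))
      (fun h => hp1 (Subtype.ext h)) (fun h => hw1 (Subtype.ext h)) (fun h => hpw (Subtype.ext h))
      p.2.2 w.2.2 (hZUcomm _ p.2.1 _ w.2.1) ?_ ?_ ?_ ?_) <;> rw [← hφ]
    · rw [bp]
    · rw [bw]; rfl
    · rw [cw]
    · rw [cp]; rfl
  -- `A` gives a best offender
  have hAS : A ≤ S0 := hA.1
  have hA2 : IsPGroup 2 A := S.2.to_le hAS
  have hbest : QuadFF.Best H (A.map φ) := by
    refine ⟨map_le_range φ A, hA2.map φ, fun D hD => ?_⟩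
    set D' := A ⊓ D.comap φ with hD'
    have hDmap : D'.map φ = D := by
      refine le_antisymm ?_ fun x hx => ?_
      · rintro _ ⟨g, hg, rfl⟩; exact hg.2
      · obtain ⟨g, hg, rfl⟩ := hD hx
        exact ⟨g, ⟨hg, hx⟩, rfl⟩
    set F := (QuadFF.fixS D).map V.subtype with hF
    have hFc : D' ≤ centralizer (F : Set G) := fun g hg => by
      rw [mem_centralizer_iff]
      rintro _ ⟨v, hv, rfl⟩
      have h := congrArg Subtype.val (hv (φ g) hg.2)
      rw [hφ] at h
      exact (mul_inv_eq_iff_eq_mul.1 h).symm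
    have hFS : F ≤ S0 := by
      rintro _ ⟨v, -, rfl⟩
      exact hUS v.2.1.1
    have hFel : Cfsg.IsElementaryAbelian 2 F := by
      refine ⟨⟨⟨?_⟩⟩, ?_⟩
      · rintro ⟨_, v, -, rfl⟩ ⟨_, v', -, rfl⟩
        exact Subtype.ext (hZUcomm v v.2.1 v' v'.2.1)
      · rintro _ ⟨v, -, rfl⟩
        rw [sq]; exact v.2.2
    have hD'el : Cfsg.IsElementaryAbelian 2 D' :=
      ⟨Modules.comm_mono inf_le_left hA.2.1.1, fun x hx => hA.2.1.2 x hx.1⟩
    have hE : Cfsg.IsElementaryAbelian 2 (D' ⊔ F) := Modules.elemAb_sup hD'el hFel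
      (fun x hx => mem_centralizer_iff.2 fun y hy => (mem_centralizer_iff.1 (hFc hy) x hx).symm)
    have hcardE := hA.2.2 _ (sup_le (inf_le_left.trans hAS) hFS) hE
    have hAV : D' ⊓ F ≤ (QuadFF.fixS (A.map φ)).map V.subtype := by
      rintro x ⟨hxA, v, -, rfl⟩
      refine ⟨v, ?_, rfl⟩
      rintro _ ⟨a, ha, rfl⟩
      apply Subtype.ext
      rw [hφ, mul_inv_eq_iff_eq_mul]
      exact Modules.comm_iff.1 hA.2.1.1 a ha _ hxA.1
    have hprod : Nat.card D' * Nat.card F ≤ Nat.card ↥(D' ⊔ F) * Nat.card ↥(D' ⊓ F) := by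
      haveI : (D'.subgroupOf (D' ⊔ F)).Normal :=
        ⟨fun x hx g => by
          have hcm := Modules.comm_iff.1 hE.1 (g : G) g.2 (x : G) x.2
          show (g : G) * x * (g : G)⁻¹ ∈ D'
          rw [hcm, mul_inv_cancel_right]; exact hx⟩
      have h1 : D'.relIndex (D' ⊔ F) = D'.relIndex F := by
        have h := relIndex_sup_right (F.subgroupOf (D' ⊔ F)) (D'.subgroupOf (D' ⊔ F))
        rw [← subgroupOf_sup le_sup_right le_sup_left, relIndex_subgroupOf (sup_le le_sup_right le_sup_left),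
          relIndex_subgroupOf le_sup_right, sup_comm] at h
        exact h
      have c1 := card_mul_index (D'.subgroupOf (D' ⊔ F))
      rw [Nat.card_congr (subgroupOfEquivOfLe (le_sup_left : D' ≤ D' ⊔ F)).toEquiv, ← relIndex, h1] at c1
      have c2 := card_mul_index (D'.subgroupOf F)
      rw [← relIndex, ← inf_subgroupOf_right D' F,
        Nat.card_congr (subgroupOfEquivOfLe (inf_le_right : D' ⊓ F ≤ F)).toEquiv] at c2
      rw [← c1, ← c2]
      exact le_of_eq (by ring)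
    set K0 := φ.ker ⊓ A with hK0
    have hkey : ∀ D0 : Subgroup G, K0 ≤ D0 → D0 ≤ A → Nat.card D0 = Nat.card K0 * Nat.card (D0.map φ) := by
      intro D0 h0 h1
      have h := card_mul_index (K0.subgroupOf D0)
      rw [Nat.card_congr (subgroupOfEquivOfLe h0).toEquiv, ← relIndex] at h
      rw [← h, show K0.relIndex D0 = φ.ker.relIndex D0 from by
        rw [← inf_relIndex_right K0 D0, hK0, inf_assoc, inf_eq_right.2 h1, inf_relIndex_right],
        relIndex_ker]
    have k1 := hkey D' (le_inf inf_le_right fun x hx => by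
      rw [mem_comap, MonoidHom.mem_ker.1 hx.1]; exact one_mem _) inf_le_left
    have k2 := hkey A inf_le_right le_rfl
    rw [hDmap] at k1
    have cF : Nat.card F = Nat.card (QuadFF.fixS D) := card_map_of_injective V.subtype_injective
    have cA : Nat.card ↥(D' ⊓ F) ≤ Nat.card (QuadFF.fixS (A.map φ)) := by
      rw [← card_map_of_injective (K := QuadFF.fixS (A.map φ)) V.subtype_injective]
      exact card_le_of_le hAV
    have h3 := hprod.trans (Nat.mul_le_mul hcardE cA)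
    rw [k1, k2, cF, mul_assoc, mul_assoc] at h3
    exact Nat.le_of_mul_le_mul_left h3 Nat.card_pos
  have hcomm := QuadFF.best_comm hVsq hq hnc
  -- the normal closure
  set M := normalClosure (A : Set G) with hM
  let K : Subgroup G :=
    { carrier := {g | ∀ u ∈ U, ⁅g, u⁆ ∈ ZU}
      one_mem' := fun u _ => by rw [commutatorElement_one_left]; exact ZU.one_mem
      mul_mem' := fun {g k} hg hk u hu => by
        have e : ⁅g * k, u⁆ = (g * ⁅k, u⁆ * g⁻¹) * ⁅g, u⁆ := by
          simp only [commutatorElement_def]; group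
        rw [e]; exact ZU.mul_mem (hZUn.conj_mem _ (hk u hu) g) (hg u hu)
      inv_mem' := fun {g} hg u hu => by
        have e : ⁅g⁻¹, u⁆ = g⁻¹ * ⁅g, u⁆⁻¹ * g⁻¹⁻¹ := by
          simp only [commutatorElement_def]; group
        rw [e]; exact hZUn.conj_mem _ (ZU.inv_mem (hg u hu)) _ }
  haveI hKn : K.Normal := ⟨fun k hk g u hu => by
    have hUn : U.Normal := inferInstance
    have e : ⁅g * k * g⁻¹, u⁆ = g * ⁅k, g⁻¹ * u * g⁻¹⁻¹⁆ * g⁻¹ := by
      simp only [commutatorElement_def]; group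
    rw [e]; exact hZUn.conj_mem _ (hk _ (hUn.conj_mem u hu g⁻¹)) g⟩
  have hMK : M ≤ K := normalClosure_le_normal fun a ha u hu => by
    have hUn : U.Normal := inferInstance
    refine ⟨?_, mem_centralizer_iff.2 fun y hy => hcl a (hAS ha) u (hUS hu) y (hUS hy)⟩
    rw [commutatorElement_def]
    exact U.mul_mem (hUn.conj_mem u hu a) (U.inv_mem hu)
  have hM2 : IsPGroup 2 (M.map φ) := by
    have hle : M.map φ ≤ closure ((fun x => x) '' {x | ∃ g : G, x ∈ (A.map φ).map (MulAut.conj (φ g)).toMonoidHom}) := by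
      rw [hM, normalClosure, MonoidHom.map_closure]
      refine closure_mono ?_
      rintro _ ⟨x, hx, rfl⟩
      obtain ⟨a, ha, hc'⟩ := Group.mem_conjugatesOfSet_iff.1 hx
      obtain ⟨g, rfl⟩ := isConj_iff.1 hc'
      refine ⟨_, ⟨g, φ a, mem_map_of_mem φ ha, ?_⟩, rfl⟩
      simp
    refine IsPGroup.to_le ?_ hle
    intro ⟨x, hx⟩
    refine ⟨1, Subtype.ext ?_⟩
    show x ^ 2 ^ 1 = 1
    rw [pow_one, sq]
    rw [Set.image_id'] at hx
    have hpair : ∀ y ∈ {x | ∃ g : G, x ∈ (A.map φ).map (MulAut.conj (φ g)).toMonoidHom},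
        ∀ z ∈ {x | ∃ g : G, x ∈ (A.map φ).map (MulAut.conj (φ g)).toMonoidHom}, y * z = z * y := by
      rintro y ⟨g, hy⟩ z ⟨k, hz⟩
      exact hcomm _ _ (hbest.map_conj ⟨g, rfl⟩) (hbest.map_conj ⟨k, rfl⟩) y hy z hz
    letI := closureCommGroupOfComm hpair
    induction hx using closure_induction with
    | mem y hy =>
      obtain ⟨g, _, ⟨a, ha, rfl⟩, rfl⟩ := hy
      rw [← map_mul, ← map_mul φ, ← sq, hA.2.1.2 a ha, map_one, map_one]
    | one => exact one_mul 1
    | mul y z hy hz ihy ihz =>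
      have hyz : z * y = y * z := congrArg Subtype.val (mul_comm
        (⟨z, hz⟩ : Subgroup.closure _) ⟨y, hy⟩)
      rw [mul_assoc, ← mul_assoc z y z, hyz, mul_assoc y z z, ihz, mul_one, ihy]
    | inv y hy ihy => rw [← mul_inv_rev, ihy, inv_one]
  have hMp : IsPGroup 2 M := by
    intro ⟨m, hm⟩
    obtain ⟨k, hk⟩ := hM2 ⟨φ m, mem_map_of_mem φ hm⟩
    replace hk : φ m ^ 2 ^ k = 1 := congrArg Subtype.val hk
    set g := m ^ 2 ^ k with hg
    have hgK : g ∈ K := K.pow_mem (hMK hm) _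
    have hgφ : φ g = 1 := by rw [hg, map_pow, hk]
    obtain ⟨i, n, hn, hord⟩ := Nat.exists_eq_two_pow_mul_odd (orderOf_pos g).ne'
    set y := g ^ 2 ^ i with hy
    have hyn : y ^ n = 1 := by rw [hy, ← pow_mul, ← hord, pow_orderOf_eq_one]
    have hyK : y ∈ K := K.pow_mem hgK _
    have hyV : ∀ v : V, y * (v : G) * y⁻¹ = v := fun v => by
      rw [← hφ, hy, map_pow, hgφ, one_pow]; rfl
    have hyZ : ∀ j : ℕ, ∀ z ∈ ZU, z ^ 2 ^ j = 1 → y * z * y⁻¹ = z := by
      intro j
      induction j with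
      | zero => intro z _ h; rw [pow_zero, pow_one] at h; subst h; group
      | succ j ih =>
        intro z hz h
        have hz2 : y * (z * z) * y⁻¹ = z * z := ih _ (ZU.mul_mem hz hz) (by
          rw [← sq, ← pow_mul, ← pow_succ']; exact h)
        set d := y * z * y⁻¹ * z⁻¹ with hd
        have hdZ : d ∈ ZU := ZU.mul_mem (hZUn.conj_mem z hz y) (ZU.inv_mem hz)
        have hd2 : d * d = 1 := by
          have hcc := hZUcomm z⁻¹ (ZU.inv_mem hz) (y * z * y⁻¹) (hZUn.conj_mem z hz y)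
          calc d * d = (y * z * y⁻¹) * (z⁻¹ * (y * z * y⁻¹)) * z⁻¹ := by rw [hd]; group
            _ = (y * (z * z) * y⁻¹) * (z * z)⁻¹ := by rw [hcc]; group
            _ = 1 := by rw [hz2]; group
        exact fix_of_odd hn hyn (k := 1) (by rw [pow_one, sq, hd2]) (hyV ⟨d, hdZ, hd2⟩)
          (show y * z * y⁻¹ = d * z by rw [hd]; group)
    have hyU : y ∈ centralizer (U : Set G) := by
      rw [mem_centralizer_iff]
      intro u hu
      have hdZ := hyK u hu
      obtain ⟨j, hj⟩ := hU2 ⟨⁅y, u⁆, hdZ.1⟩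
      replace hj : ⁅y, u⁆ ^ 2 ^ j = 1 := congrArg Subtype.val hj
      have h := fix_of_odd hn hyn hj (hyZ j _ hdZ hj) (u := u) (by rw [commutatorElement_def]; group)
      exact (mul_inv_eq_iff_eq_mul.1 h).symm
    obtain ⟨j, hj⟩ := hU2 ⟨y, hc hyU⟩
    have hy1 : y = 1 := eq_one_of_odd_two hn (congrArg Subtype.val hj) hyn
    refine ⟨k + i, Subtype.ext ?_⟩
    show m ^ 2 ^ (k + i) = 1
    rw [pow_add, pow_mul, ← hg, ← hy, hy1]
  exact subset_normalClosure.trans (Cores.le_pCore normalClosure_normal hMp)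

/-- The general constrained case. -/
theorem factorization (hcon : Cfsg.IsPConstrained 2 G)
    (hS4 : ¬ Cfsg.Involves (Equiv.Perm (Fin 4)) G) (S : Sylow 2 G)
    (hcl : Subgroup.lowerCentralSeries (S : Subgroup G) 2 = ⊥) :
    normalizer ((Cfsg.thompsonSubgroupOf 2 (S : Subgroup G)) : Set G) ⊔ Cfsg.pPrimeCore 2 G = ⊤ := by
  set O := Cfsg.pPrimeCore 2 G with hO
  set π := QuotientGroup.mk' O with hπ
  have hπs : Function.Surjective π := QuotientGroup.mk'_surjective O
  have hcls : ∀ a ∈ (S : Subgroup G), ∀ b ∈ (S : Subgroup G), ∀ c ∈ (S : Subgroup G),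
      c * ⁅a, b⁆ = ⁅a, b⁆ * c := by
    intro a ha b hb c hc
    have h1 : ⁅⁅a, b⁆, c⁆ ∈ Subgroup.lowerCentralSeries (S : Subgroup G) 2 :=
      commutator_mem_commutator (commutator_mem_commutator ha hb) hc
    rw [hcl, mem_bot, commutatorElement_eq_one_iff_mul_comm] at h1
    exact h1.symm
  set S' := S.mapSurjective hπs with hS'
  have hS'eq : (S' : Subgroup (G ⧸ O)) = (S : Subgroup G).map π := Sylow.coe_mapSurjective hπs S
  have hc : centralizer (Cfsg.pCore 2 (G ⧸ O) : Set (G ⧸ O)) ≤ Cfsg.pCore 2 (G ⧸ O) :=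
    (CharTwo.isPConstrained_iff.1 hcon :)
  have hS4' : ¬ Cfsg.Involves (Equiv.Perm (Fin 4)) (G ⧸ O) := fun h => hS4
    (EvenLocal.involves_of_involves_image (A := (⊤ : Subgroup G))
      (π.comp topEquiv.toMonoidHom) (fun q => by
        obtain ⟨x, rfl⟩ := hπs q
        exact ⟨⟨x, mem_top _⟩, rfl⟩) h)
  have hn := thompson_normal hc hS4' S' (by
    rw [hS'eq]
    rintro _ ⟨a, ha, rfl⟩ _ ⟨b, hb, rfl⟩ _ ⟨c, hc, rfl⟩
    rw [← map_commutatorElement, ← map_mul, ← map_mul, hcls a ha b hb c hc])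
  set J := Cfsg.thompsonSubgroupOf 2 (S : Subgroup G) with hJ
  have hJ2 : IsPGroup 2 J := S.2.to_le (Modules.thompsonSubgroupOf_le 2 _)
  have hinj : Function.Injective (π.comp (S : Subgroup G).subtype) := by
    rw [injective_iff_map_eq_one]
    exact fun x hx => Subtype.ext (Tech.eq_one_of_mem_pPrimeCore_of_isPGroup S.2 x.2
      ((QuotientGroup.eq_one_iff _).1 hx))
  have hJmap : J.map π = Cfsg.thompsonSubgroupOf 2 (S' : Subgroup (G ⧸ O)) := by
    have h1 := Modules.map_thompsonSubgroupOf (p := 2) (S : Subgroup G).subtype_injective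
      (⊤ : Subgroup (S : Subgroup G))
    rw [← MonoidHom.range_eq_map, range_subtype] at h1
    rw [hJ, ← h1, Subgroup.map_map, Modules.map_thompsonSubgroupOf hinj, hS'eq, ← Subgroup.map_map,
      ← MonoidHom.range_eq_map, range_subtype]
  have hcop : (Nat.card O).Coprime 2 := Cores.pPrimeCore_coprime
  have hmn := CharTwo.map_normalizer_mk hcop hJ2
  rw [← hπ, hJmap, normalizer_eq_top_iff.2 hn] at hmn
  have h2 := congrArg (comap π) hmn
  rwa [comap_map_eq, comap_top, hπ, QuotientGroup.ker_mk'] at h2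

end Cfsg.Agent.Tech.ClassTwo
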