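import Mathlib

/-!
The limit at infinity of a subspace of an algebra moved by a one-parameter family of
two-sided multiplications `w ↦ (1 + tY) w (1 - tY')`, computed with polynomials over a finite field.
-/

set_option autoImplicit false
set_option linter.style.haveILetI false

namespace Cfsg.Agent.Tech.LimitSpace

open Polynomial

variable {p : ℕ} [Fact p.Prime] {E : Type*} [Ring E] [Algebra (ZMod p) E] [Finite E]

/-- Polynomials `q` with all coefficients of `u * q * v` in `W`. -/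
def Mset (W : Submodule (ZMod p) E) (u v : E[X]) : Submodule (ZMod p) E[X] where
  carrier := {q | ∀ k, (u * q * v).coeff k ∈ W}
  add_mem' := fun {a b} ha hb k => by
    rw [mul_add, add_mul, coeff_add]; exact W.add_mem (ha k) (hb k)
  zero_mem' := fun k => by simp
  smul_mem' := fun c q hq k => by
    rw [mul_smul_comm, smul_mul_assoc, coeff_smul]; exact W.smul_mem c (hq k)

theorem mem_Mset {W : Submodule (ZMod p) E} {u v q : E[X]} :
    q ∈ Mset W u v ↔ ∀ k, (u * q * v).coeff k ∈ W := Iff.rfl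

theorem Mset.mul_X_pow {W : Submodule (ZMod p) E} {u v q : E[X]} (h : q ∈ Mset W u v) (j : ℕ) :
    q * X ^ j ∈ Mset W u v := fun k => by
  rw [show u * (q * X ^ j) * v = u * q * v * X ^ j by
    rw [mul_assoc u, mul_assoc q, X_pow_mul, ← mul_assoc q, ← mul_assoc u, ← mul_assoc u],
    coeff_mul_X_pow']
  split
  · exact h _
  · exact W.zero_mem

/-- The top coefficients of the polynomials of `Mset W u v`. -/
def lim (W : Submodule (ZMod p) E) (u v : E[X]) : Submodule (ZMod p) E where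
  carrier := {x | ∃ n, ∃ q ∈ Mset W u v, q.natDegree ≤ n ∧ q.coeff n = x}
  add_mem' := by
    rintro x y ⟨n, q, hq, hn, rfl⟩ ⟨m, r, hr, hm, rfl⟩
    refine ⟨n + m, q * X ^ m + r * X ^ n, add_mem (Mset.mul_X_pow hq m) (Mset.mul_X_pow hr n), ?_, ?_⟩
    · refine (natDegree_add_le _ _).trans (max_le ?_ ?_)
      · exact natDegree_mul_le.trans (add_le_add hn (natDegree_X_pow_le m))
      · exact (natDegree_mul_le.trans (add_le_add hm (natDegree_X_pow_le n))).trans (add_comm m n).le
    · rw [coeff_add, coeff_mul_X_pow]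
      congr 1
      rw [add_comm n m, coeff_mul_X_pow]
  zero_mem' := ⟨0, 0, Submodule.zero_mem _, by simp, by simp⟩
  smul_mem' := by
    rintro c x ⟨n, q, hq, hn, rfl⟩
    exact ⟨n, c • q, Submodule.smul_mem _ _ hq, (natDegree_smul_le _ _).trans hn, coeff_smul ..⟩

theorem mem_lim {W : Submodule (ZMod p) E} {u v : E[X]} {x : E} :
    x ∈ lim W u v ↔ ∃ n, ∃ q ∈ Mset W u v, q.natDegree ≤ n ∧ q.coeff n = x := Iff.rfl

theorem lim_mono {W W' : Submodule (ZMod p) E} (h : W ≤ W') (u v : E[X]) :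
    lim W u v ≤ lim W' u v := by
  rintro x ⟨n, q, hq, hn, rfl⟩
  exact ⟨n, q, fun k => h (hq k), hn, rfl⟩

theorem le_of_pow_le {w l : ℕ} (hl : 0 < l) (h : ∀ m, w ^ m ≤ l ^ (m + 2)) : w ≤ l := by
  by_contra hlt
  have key : ∀ k, l ^ k * (l + k) ≤ (l + 1) ^ k * l := by
    intro k
    induction k with
    | zero => simp
    | succ k ih =>
      calc l ^ (k + 1) * (l + (k + 1)) = l ^ k * (l * (l + (k + 1))) := by ring
        _ ≤ l ^ k * ((l + k) * (l + 1)) := Nat.mul_le_mul le_rfl (by ring_nf; omega)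
        _ = l ^ k * (l + k) * (l + 1) := by ring
        _ ≤ (l + 1) ^ k * l * (l + 1) := Nat.mul_le_mul ih le_rfl
        _ = _ := by ring
  have h1 := (Nat.pow_le_pow_left (Nat.lt_of_not_le hlt) (l ^ 3)).trans (h (l ^ 3))
  have h2 := (key (l ^ 3)).trans (Nat.mul_le_mul h1 le_rfl)
  rw [← pow_succ, show l ^ 3 + 2 + 1 = l ^ 3 + 3 from rfl, pow_add l (l ^ 3) 3] at h2
  have := Nat.le_of_mul_le_mul_left h2 (pow_pos hl _)
  omega

/-- The polynomials of degree `< n` in `Mset W u v`. -/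
def Mlt (W : Submodule (ZMod p) E) (u v : E[X]) (n : ℕ) : Set E[X] :=
  {q | q ∈ Mset W u v ∧ ∀ k, n ≤ k → q.coeff k = 0}

theorem finite_Mlt (W : Submodule (ZMod p) E) (u v : E[X]) (n : ℕ) : Finite (Mlt W u v n) := by
  refine Finite.of_injective (fun q (i : Fin n) => (q : E[X]).coeff i) fun a b h => ?_
  refine Subtype.ext (Polynomial.ext fun k => ?_)
  rcases Nat.lt_or_ge k n with hk | hk
  · exact congrFun h ⟨k, hk⟩
  · rw [a.2.2 k hk, b.2.2 k hk]

theorem card_Mlt_le (W : Submodule (ZMod p) E) (u v : E[X]) :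
    ∀ n, Nat.card (Mlt W u v n) ≤ Nat.card ↥(lim W u v) ^ n := by
  intro n
  classical
  induction n with
  | zero =>
    haveI : Subsingleton (Mlt W u v 0) := ⟨fun a b => Subtype.ext (Polynomial.ext fun k => by
      rw [a.2.2 k k.zero_le, b.2.2 k k.zero_le])⟩
    simpa using Finite.card_le_one_iff_subsingleton.2 this
  | succ n ih =>
    haveI := finite_Mlt W u v
    let top : Mlt W u v (n + 1) → ↥(lim W u v) := fun q =>
      ⟨(q : E[X]).coeff n, n, q, q.2.1, natDegree_le_iff_coeff_eq_zero.2 fun k hk => q.2.2 k hk, rfl⟩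
    let rep : ↥(lim W u v) → E[X] := fun c =>
      if h : ∃ q, top q = c then ((h.choose : Mlt W u v (n + 1)) : E[X]) else 0
    have hrep : ∀ q, rep (top q) ∈ Mlt W u v (n + 1) ∧ (rep (top q)).coeff n = (q : E[X]).coeff n := by
      intro q
      have h : ∃ r, top r = top q := ⟨q, rfl⟩
      simp only [rep, dif_pos h]
      exact ⟨h.choose.2, congrArg Subtype.val h.choose_spec⟩
    have hdif : ∀ q : Mlt W u v (n + 1), (q : E[X]) - rep (top q) ∈ Mlt W u v n := fun q =>
      ⟨sub_mem q.2.1 (hrep q).1.1, fun k hk => by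
        rcases hk.eq_or_lt with rfl | hk
        · rw [coeff_sub, (hrep q).2, sub_self]
        · rw [coeff_sub, q.2.2 k hk, (hrep q).1.2 k hk, sub_zero]⟩
    have hinj : Function.Injective fun q => ((top q, ⟨_, hdif q⟩) : ↥(lim W u v) × Mlt W u v n) := by
      intro a b h
      simp only [Prod.mk.injEq, Subtype.mk.injEq] at h
      refine Subtype.ext ?_
      have h2 := h.2
      rwa [h.1, sub_left_inj] at h2
    refine (Nat.card_le_card_of_injective _ hinj).trans ?_
    rw [Nat.card_prod, pow_succ', ]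
    exact Nat.mul_le_mul le_rfl ih

/-- The limit is at least as large as the subspace. -/
theorem card_le_card_lim (W : Submodule (ZMod p) E) {u v u' v' : E[X]} (hu : u * u' = 1)
    (hu' : u' * u = 1) (hv : v' * v = 1) (hv' : v * v' = 1) (du : u'.natDegree ≤ 1)
    (dv : v'.natDegree ≤ 1) : Nat.card W ≤ Nat.card ↥(lim W u v) := by
  refine le_of_pow_le Nat.card_pos fun m => (le_trans ?_ (card_Mlt_le W u v (m + 2)))
  haveI := finite_Mlt W u v (m + 2)
  let poly : (Fin m → W) → E[X] := fun f => ∑ i : Fin m, C (f i : E) * X ^ (i : ℕ)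
  have hpc : ∀ f k, (poly f).coeff k = if h : k < m then (f ⟨k, h⟩ : E) else 0 := by
    intro f k
    simp only [poly, finsetSum_coeff, coeff_C_mul_X_pow]
    split
    · next h =>
      rw [Finset.sum_eq_single ⟨k, h⟩] <;> simp +contextual [Fin.ext_iff, eq_comm]
    · next h => exact Finset.sum_eq_zero fun i _ => if_neg (fun e : k = (i : ℕ) => h (e ▸ i.2))
  have hpW : ∀ f k, (poly f).coeff k ∈ W := by
    intro f k
    rw [hpc]
    split
    · exact SetLike.coe_mem _
    · exact W.zero_mem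
  have hcancel : ∀ r : E[X], u * (u' * r * v') * v = r := fun r => by
    rw [← mul_assoc u, ← mul_assoc u, hu, one_mul, mul_assoc, hv, mul_one]
  have hmem : ∀ f, u' * poly f * v' ∈ Mlt W u v (m + 2) := by
    intro f
    refine ⟨fun k => by rw [hcancel]; exact hpW f k, fun k hk => ?_⟩
    rcases Nat.eq_zero_or_pos m with h0 | h0
    · have : poly f = 0 := Polynomial.ext fun j => by
        rw [hpc, dif_neg (by omega), coeff_zero]
      rw [this, mul_zero, zero_mul, coeff_zero]
    · refine coeff_eq_zero_of_natDegree_lt (lt_of_lt_of_le ?_ hk)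
      have hd : (poly f).natDegree ≤ m - 1 := natDegree_le_iff_coeff_eq_zero.2 fun j hj => by
        rw [hpc, dif_neg (by omega)]
      have h1 : (u' * poly f * v').natDegree ≤ 1 + (m - 1) + 1 :=
        natDegree_mul_le.trans (add_le_add (natDegree_mul_le.trans (add_le_add du hd)) dv)
      omega
  have hinj : Function.Injective fun f => (⟨_, hmem f⟩ : Mlt W u v (m + 2)) := by
    intro a b h
    have h' := congrArg (fun z : Mlt W u v (m + 2) => u * (z : E[X]) * v) h
    simp only [hcancel] at h'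
    funext i
    have h'' := congrArg (fun z : E[X] => z.coeff i) h'
    simp only [hpc, i.2, dite_true] at h''
    exact Subtype.ext h''
  simpa [Nat.card_fun] using Nat.card_le_card_of_injective _ hinj

theorem lim_mul_eq_zero {W₁ W₂ : Submodule (ZMod p) E} (h : ∀ x ∈ W₁, ∀ y ∈ W₂, x * y = 0)
    {u₁ v₁ u₂ v₂ u₁' v₁' u₂' v₂' : E[X]} (a₁ : u₁' * u₁ = 1) (b₁ : v₁ * v₁' = 1)
    (a₂ : u₂' * u₂ = 1) (b₂ : v₂ * v₂' = 1) (hmid : v₁' * u₂' = 1) {x y : E}
    (hx : x ∈ lim W₁ u₁ v₁) (hy : y ∈ lim W₂ u₂ v₂) : x * y = 0 := by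
  obtain ⟨n, q, hq, hn, rfl⟩ := hx
  obtain ⟨m, r, hr, hm, rfl⟩ := hy
  have h0 : (u₁ * q * v₁) * (u₂ * r * v₂) = 0 := Polynomial.ext fun k => by
    rw [coeff_mul, coeff_zero]
    exact Finset.sum_eq_zero fun c _ => h _ (hq c.1) _ (hr c.2)
  have e : ∀ (a a' z b b' : E[X]), a' * a = 1 → b * b' = 1 → a' * (a * z * b) * b' = z := by
    intro a a' z b b' ha hb
    rw [← mul_assoc a', ← mul_assoc a', ha, one_mul, mul_assoc, hb, mul_one]
  have e1 : q * r = u₁' * ((u₁ * q * v₁) * (v₁' * u₂') * (u₂ * r * v₂)) * v₂' := by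
    conv_lhs => rw [← e u₁ u₁' q v₁ v₁' a₁ b₁, ← e u₂ u₂' r v₂ v₂' a₂ b₂]
    simp only [mul_assoc]
  have h1 : q * r = 0 := by rw [e1, hmid, mul_one, h0, mul_zero, zero_mul]
  rw [← coeff_mul_add_eq_of_natDegree_le hn hm, h1, coeff_zero]

theorem lim_mul_right {W : Submodule (ZMod p) E} {z : E} (h : ∀ x ∈ W, x * z = 0)
    {u u' : E[X]} (a : u' * u = 1) {x : E} (hx : x ∈ lim W u 1) : x * z = 0 := by
  obtain ⟨n, q, hq, hn, rfl⟩ := hx
  have h0 : u * q * C z = 0 := Polynomial.ext fun k => by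
    rw [coeff_mul_C, coeff_zero]
    have := hq k
    rw [mul_one] at this
    exact h _ this
  have h1 : q * C z = 0 := by
    have := congrArg (u' * ·) h0
    simpa [← mul_assoc, a] using this
  rw [← coeff_mul_C, h1, coeff_zero]

section twist

variable (Y : E)

/-- `1 + Y X`. -/
noncomputable def up : E[X] := 1 + C Y * X

/-- `1 - Y X`. -/
noncomputable def dn : E[X] := 1 - C Y * X

theorem natDegree_up : (up Y).natDegree ≤ 1 :=
  (natDegree_add_le _ _).trans (max_le (by simp) ((natDegree_C_mul_le _ _).trans natDegree_X_le))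

theorem natDegree_dn : (dn Y).natDegree ≤ 1 :=
  (natDegree_sub_le _ _).trans (max_le (by simp) ((natDegree_C_mul_le _ _).trans natDegree_X_le))

variable {Y}

theorem up_dn (hY : Y * Y = 0) : up Y * dn Y = 1 := by
  simp only [up, dn, mul_sub, add_mul, one_mul, mul_one]
  rw [mul_assoc (C Y) X, ← mul_assoc X, X_mul, mul_assoc (C Y) X X, ← mul_assoc (C Y) (C Y),
    ← C_mul, hY, C_0, zero_mul]
  abel

theorem dn_up (hY : Y * Y = 0) : dn Y * up Y = 1 := by
  simp only [up, dn, sub_mul, mul_add, one_mul, mul_one]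
  rw [mul_assoc (C Y) X, ← mul_assoc X, X_mul, mul_assoc (C Y) X X, ← mul_assoc (C Y) (C Y),
    ← C_mul, hY, C_0, zero_mul]
  abel

theorem lim_le_span (hY : Y * Y = 0) {W S : Submodule (ZMod p) E} (hW : W ≤ S)
    (hf : ∀ w ∈ W, Y * w - w * Y ∈ S) (hq : ∀ w ∈ W, Y * w * Y ∈ S) :
    lim W (dn Y) (up Y) ≤ S := by
  rintro x ⟨n, q, hqm, hn, rfl⟩
  set r := dn Y * q * up Y with hr
  have e : q = r + (C Y * (r * X) - r * X * C Y) - C Y * (r * (X * X)) * C Y := by
    calc q = up Y * r * dn Y := by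
          rw [hr, ← mul_assoc (up Y), ← mul_assoc (up Y), up_dn hY, one_mul, mul_assoc, up_dn hY,
            mul_one]
      _ = _ := by
          simp only [up, dn, mul_sub, add_mul, one_mul, mul_one, mul_assoc]
          simp only [← mul_assoc X, X_mul, mul_assoc]
          abel
  have hr' : ∀ k, r.coeff k ∈ W := hqm
  rw [e, coeff_sub, coeff_add, coeff_sub, coeff_C_mul, coeff_mul_C, coeff_mul_C, coeff_C_mul]
  refine S.sub_mem (S.add_mem (hW (hr' n)) ?_) ?_
  · exact hf _ (by rcases n with _ | n <;> [simp; (rw [coeff_mul_X]; exact hr' n)])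
  · refine hq _ ?_
    rw [← mul_assoc]
    rcases n with _ | _ | n
    · simp
    · simp
    · rw [coeff_mul_X, coeff_mul_X]; exact hr' n

theorem C_mem_Mset_of_stable {W : Submodule (ZMod p) E}
    (hf : ∀ w ∈ W, Y * w - w * Y ∈ W) (hq : ∀ w ∈ W, Y * w * Y ∈ W) {w : E} (hw : w ∈ W) :
    C w ∈ Mset W (dn Y) (up Y) := by
  intro k
  have e : dn Y * C w * up Y = C w - C (Y * w - w * Y) * X - C (Y * w * Y) * (X * X) := by
    simp only [up, dn, sub_mul, mul_add, one_mul, mul_one, mul_assoc, C_mul, C_sub]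
    simp only [← mul_assoc X, X_mul, mul_assoc]
    abel
  rw [e, coeff_sub, coeff_sub, coeff_C_mul, coeff_C_mul]
  refine W.sub_mem (W.sub_mem ?_ ?_) ?_
  · rw [coeff_C]; split
    · exact hw
    · exact W.zero_mem
  · rcases k with _ | _ | k <;> simp [coeff_X, hf w hw]
  · rw [← pow_two, coeff_X_pow]; split
    · simpa using hq w hw
    · simp

theorem stable_le_lim {W W' : Submodule (ZMod p) E} (h : W' ≤ W)
    (hf : ∀ w ∈ W', Y * w - w * Y ∈ W') (hq : ∀ w ∈ W', Y * w * Y ∈ W') :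
    W' ≤ lim W (dn Y) (up Y) := fun w hw =>
  ⟨0, C w, fun k => h (C_mem_Mset_of_stable hf hq hw k), by simp, by simp⟩

theorem quad_mem_lim (hY : Y * Y = 0) {W : Submodule (ZMod p) E} {w : E} (hw : w ∈ W) :
    Y * w * Y ∈ lim W (dn Y) (up Y) := by
  refine neg_mem_iff.1 ⟨2, up Y * C w * dn Y, fun k => ?_, ?_, ?_⟩
  · rw [show dn Y * (up Y * C w * dn Y) * up Y = C w by
      rw [← mul_assoc (dn Y), ← mul_assoc (dn Y), dn_up hY, one_mul, mul_assoc, dn_up hY, mul_one],
      coeff_C]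
    split
    · exact hw
    · exact W.zero_mem
  · exact natDegree_mul_le.trans (add_le_add (natDegree_mul_le.trans
      (add_le_add (natDegree_up Y) (natDegree_C w).le)) (natDegree_dn Y))
  · rw [show up Y * C w * dn Y = C w + C (Y * w - w * Y) * X - C (Y * w * Y) * (X * X) by
      simp only [up, dn, mul_sub, add_mul, one_mul, mul_one, mul_assoc, C_mul, C_sub, sub_mul]
      simp only [← mul_assoc X, X_mul, mul_assoc]
      abel, coeff_sub, coeff_add, coeff_C_mul, coeff_C_mul, ← pow_two, coeff_X_pow]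
    simp [coeff_C, coeff_X]

theorem lin_mem_lim (hY : Y * Y = 0) {W W' : Submodule (ZMod p) E} (h : W' ≤ W)
    (hf : ∀ w ∈ W', Y * w - w * Y ∈ W') (hq : ∀ w ∈ W', Y * w * Y ∈ W') {w : E} (hw : w ∈ W)
    (hqw : Y * w * Y ∈ W') : Y * w - w * Y ∈ lim W (dn Y) (up Y) := by
  have h1 : up Y * C w * dn Y ∈ Mset W (dn Y) (up Y) := fun k => by
    rw [show dn Y * (up Y * C w * dn Y) * up Y = C w by
      rw [← mul_assoc (dn Y), ← mul_assoc (dn Y), dn_up hY, one_mul, mul_assoc, dn_up hY, mul_one],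
      coeff_C]
    split
    · exact hw
    · exact W.zero_mem
  have h2 : C (Y * w * Y) * X ^ 2 ∈ Mset W (dn Y) (up Y) :=
    Mset.mul_X_pow (fun k => h (C_mem_Mset_of_stable hf hq hqw k)) 2
  refine ⟨1, _, add_mem h1 h2, ?_, ?_⟩
  all_goals rw [show up Y * C w * dn Y + C (Y * w * Y) * X ^ 2 = C w + C (Y * w - w * Y) * X by
      simp only [up, dn, mul_sub, add_mul, one_mul, mul_one, mul_assoc, C_mul, C_sub, sub_mul,
        pow_two]
      simp only [← mul_assoc X, X_mul, mul_assoc]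
      abel]
  · exact (natDegree_add_le _ _).trans
      (max_le (by simp) ((natDegree_C_mul_le _ _).trans natDegree_X_le))
  · simp

end twist

end Cfsg.Agent.Tech.LimitSpace
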