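import Cfsg.Agent.Tech.ExpFour
import Cfsg.Agent.Tech.LimitSpace

/-!
Among the quadratic offenders of a `p`-group of automorphisms, `5 ≤ p`, one is normal in its normal
closure (Alperin–Glauberman, for modules).
-/

set_option autoImplicit false
set_option linter.style.haveILetI false
set_option linter.unusedSectionVars false

namespace Cfsg.Agent.Tech.QuadOffender

open Subgroup
open scoped commutatorElement

variable {p : ℕ} [Fact p.Prime] {M : Type*} [AddCommGroup M] [Module (ZMod p) M] [Finite M]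

local notation "E" => Module.End (ZMod p) M

instance finite_end : Finite E := Finite.of_injective (fun f : E => (f : M → M)) DFunLike.coe_injective

/-- Quadratic action. -/
def Quad (A : Subgroup Eˣ) : Prop := ∀ a ∈ A, ∀ b ∈ A, ((a : E) - 1) * ((b : E) - 1) = 0

/-- The fixed points. -/
def fix (A : Subgroup Eˣ) : Submodule (ZMod p) M where
  carrier := {v | ∀ a ∈ A, (a : E) v = v}
  add_mem' := fun {x y} hx hy a ha => by rw [map_add, hx a ha, hy a ha]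
  zero_mem' := fun a ha => map_zero _
  smul_mem' := fun c x hx a ha => by rw [map_smul, hx a ha]

/-- A quadratic offender inside `G`. -/
def Good (G A : Subgroup Eˣ) : Prop :=
  A ≤ G ∧ A ≠ ⊥ ∧ Quad A ∧ Nat.card M ≤ Nat.card A * Nat.card (fix A)

theorem mem_normalizer_of_conj_le {B : Subgroup Eˣ} {g : Eˣ} (h : ∀ x ∈ B, g * x * g⁻¹ ∈ B) :
    g ∈ normalizer (B : Set Eˣ) :=
  mem_normalizer_iff.2 fun x => ⟨h x, fun hx => by
    obtain ⟨⟨y, hy⟩, e⟩ := Finite.surjective_of_injective (α := B)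
      (f := fun z => ⟨g * z * g⁻¹, h z z.2⟩)
      (fun u v e => Subtype.ext (by simpa using congrArg Subtype.val e)) ⟨_, hx⟩
    have e' : g * y * g⁻¹ = g * x * g⁻¹ := congrArg Subtype.val e
    rwa [← mul_left_cancel (mul_right_cancel e')]⟩

theorem Quad.comm {A : Subgroup Eˣ} (hA : Quad A) {a b : Eˣ} (ha : a ∈ A) (hb : b ∈ A) :
    a * b = b * a := by
  have h1 := hA a ha b hb
  have h2 := hA b hb a ha
  ext1
  simp only [Units.val_mul]
  have := h1.trans h2.symm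
  simp only [mul_sub, sub_mul, mul_one, one_mul] at this
  linear_combination (norm := abel) this

theorem Quad.sub_one_mul {A : Subgroup Eˣ} (hA : Quad A) {a b : Eˣ} (ha : a ∈ A) (hb : b ∈ A) :
    ((a * b : Eˣ) : E) - 1 = ((a : E) - 1) + ((b : E) - 1) := by
  have h1 := hA a ha b hb
  rw [Units.val_mul]
  simp only [mul_sub, sub_mul, mul_one, one_mul] at h1
  linear_combination (norm := abel) h1

theorem Quad.sub_one_inv {A : Subgroup Eˣ} (hA : Quad A) {a : Eˣ} (ha : a ∈ A) :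
    ((a⁻¹ : Eˣ) : E) - 1 = -((a : E) - 1) := by
  have h := hA.sub_one_mul ha (A.inv_mem ha)
  rw [mul_inv_cancel, Units.val_one, sub_self] at h
  exact eq_neg_of_add_eq_zero_right h.symm

/-- The logarithms of the elements of a quadratic subgroup. -/
def logs (A : Subgroup Eˣ) (hA : Quad A) : Submodule (ZMod p) E :=
  AddSubgroup.toZModSubmodule p
    { carrier := {x | ∃ a ∈ A, (a : E) - 1 = x}
      add_mem' := by
        rintro x y ⟨a, ha, rfl⟩ ⟨b, hb, rfl⟩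
        exact ⟨a * b, A.mul_mem ha hb, hA.sub_one_mul ha hb⟩
      zero_mem' := ⟨1, A.one_mem, by simp⟩
      neg_mem' := by
        rintro x ⟨a, ha, rfl⟩
        exact ⟨a⁻¹, A.inv_mem ha, hA.sub_one_inv ha⟩ }

theorem mem_logs {A : Subgroup Eˣ} {hA : Quad A} {x : E} :
    x ∈ logs A hA ↔ ∃ a ∈ A, (a : E) - 1 = x := Iff.rfl

theorem card_logs (A : Subgroup Eˣ) (hA : Quad A) : Nat.card (logs A hA) = Nat.card A :=
  (Nat.card_eq_of_bijective (fun a : A => (⟨((a : Eˣ) : E) - 1, a, a.2, rfl⟩ : logs A hA))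
    ⟨fun a b h => Subtype.ext (Units.ext (sub_left_inj.1 (congrArg Subtype.val h))),
      fun ⟨x, a, ha, e⟩ => ⟨⟨a, ha⟩, Subtype.ext e⟩⟩).symm

theorem logs_mul {A : Subgroup Eˣ} {hA : Quad A} {x y : E} (hx : x ∈ logs A hA) (hy : y ∈ logs A hA) :
    x * y = 0 := by
  obtain ⟨a, ha, rfl⟩ := hx
  obtain ⟨b, hb, rfl⟩ := hy
  exact hA a ha b hb

/-- The subgroup `1 + L` of a subspace with zero products. -/
def onePlus (L : Submodule (ZMod p) E) (hL : ∀ x ∈ L, ∀ y ∈ L, x * y = 0) : Subgroup Eˣ where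
  carrier := {r | (r : E) - 1 ∈ L}
  mul_mem' := fun {a b} ha hb => by
    have h := hL _ ha _ hb
    simp only [mul_sub, sub_mul, mul_one, one_mul] at h
    show ((a * b : Eˣ) : E) - 1 ∈ L
    rw [show ((a * b : Eˣ) : E) - 1 = ((a : E) - 1) + ((b : E) - 1) by
      rw [Units.val_mul]; linear_combination (norm := abel) h]
    exact L.add_mem ha hb
  one_mem' := by simp
  inv_mem' := fun {a} ha => by
    show ((a⁻¹ : Eˣ) : E) - 1 ∈ L
    have e : ((a⁻¹ : Eˣ) : E) = 1 - ((a : E) - 1) := by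
      refine Units.inv_eq_of_mul_eq_one_right ?_
      have h := hL _ ha _ ha
      simp only [mul_sub, sub_mul, mul_one, one_mul] at h ⊢
      linear_combination (norm := abel) -h
    rw [e, sub_sub_cancel_left]
    exact L.neg_mem ha

/-- The stabilizer of a chain of length four. -/
theorem exists_four_zero {A₀ A₁ A₂ : Subgroup Eˣ} (q₀ : Quad A₀) (q₁ : Quad A₁) (q₂ : Quad A₂)
    (n₀₁ : A₀ ≤ normalizer (A₁ : Set Eˣ)) (n₁₀ : A₁ ≤ normalizer (A₀ : Set Eˣ))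
    (n₀₂ : A₀ ≤ normalizer (A₂ : Set Eˣ)) (n₂₀ : A₂ ≤ normalizer (A₀ : Set Eˣ))
    (n₁₂ : A₁ ≤ normalizer (A₂ : Set Eˣ)) (n₂₁ : A₂ ≤ normalizer (A₁ : Set Eˣ)) :
    ∃ N : Submodule (ZMod p) E, (∀ x ∈ N, ∀ y ∈ N, x * y ∈ N) ∧
      (∀ a ∈ N, ∀ b ∈ N, ∀ c ∈ N, ∀ d ∈ N, a * b * c * d = 0) ∧
      ∀ r ∈ A₀ ⊔ A₁ ⊔ A₂, (r : E) - 1 ∈ N := by
  classical
  let w : Subgroup Eˣ → Submodule (ZMod p) M := fun A =>
    ⨆ a : A, LinearMap.range (((a : Eˣ) : E) - 1)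
  have hw : ∀ (A : Subgroup Eˣ) (a : Eˣ), a ∈ A → ∀ v, ((a : E) - 1) v ∈ w A := fun A a ha v =>
    Submodule.mem_iSup_of_mem (⟨a, ha⟩ : A) ⟨v, rfl⟩
  -- the normalizer of `A` leaves `w A` invariant
  have hinv : ∀ (A : Subgroup Eˣ) (r : Eˣ), r ∈ normalizer (A : Set Eˣ) → ∀ v ∈ w A,
      ((r : E) - 1) v ∈ w A := by
    intro A r hr v hv
    refine Submodule.iSup_induction _ (motive := fun v => ((r : E) - 1) v ∈ w A) hv ?_
      (by simp) (fun x y hx hy => by rw [map_add]; exact add_mem hx hy)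
    rintro ⟨a, ha⟩ _ ⟨u, rfl⟩
    have hc : r * a * r⁻¹ ∈ A := (mem_normalizer_iff.1 hr a).1 ha
    have h1 := hw A _ hc ((r : E) u)
    have h2 := hw A a ha u
    have e : (((r * a * r⁻¹ : Eˣ) : E) - 1) ((r : E) u) = (r : E) (((a : E) - 1) u) := by
      simp [Module.End.mul_apply, ← Module.End.mul_apply ((r⁻¹ : Eˣ) : E), map_sub]
    rw [e] at h1
    have h3 := sub_mem h1 h2
    simpa [LinearMap.sub_apply] using h3
  have hkill : ∀ (A : Subgroup Eˣ), Quad A → ∀ a ∈ A, ∀ v ∈ w A, ((a : E) - 1) v = 0 := by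
    intro A hA a ha v hv
    refine Submodule.iSup_induction _ (motive := fun v => ((a : E) - 1) v = 0) hv ?_
      (map_zero _) (fun x y hx hy => by rw [map_add, hx, hy, add_zero])
    rintro ⟨b, hb⟩ _ ⟨u, rfl⟩
    rw [← Module.End.mul_apply, hA a ha b hb, LinearMap.zero_apply]
  set U₀ := w A₀ with hU₀
  set U₁ := w A₁ with hU₁
  set U₂ := w A₂ with hU₂
  set M₁ := U₀ ⊔ U₁ ⊔ U₂ with hM₁
  set M₂ := (U₀ ⊓ U₁) ⊔ (U₀ ⊓ U₂) ⊔ (U₁ ⊓ U₂) with hM₂
  set M₃ := U₀ ⊓ U₁ ⊓ U₂ with hM₃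
  let N : Submodule (ZMod p) E :=
    { carrier := {x | (∀ v, x v ∈ M₁) ∧ (∀ v ∈ M₁, x v ∈ M₂) ∧ (∀ v ∈ M₂, x v ∈ M₃) ∧
        ∀ v ∈ M₃, x v = 0}
      add_mem' := fun {x y} hx hy => ⟨fun v => add_mem (hx.1 v) (hy.1 v),
        fun v hv => add_mem (hx.2.1 v hv) (hy.2.1 v hv),
        fun v hv => add_mem (hx.2.2.1 v hv) (hy.2.2.1 v hv),
        fun v hv => by rw [LinearMap.add_apply, hx.2.2.2 v hv, hy.2.2.2 v hv, add_zero]⟩
      zero_mem' := ⟨fun v => zero_mem _, fun v _ => zero_mem _, fun v _ => zero_mem _, fun v _ => rfl⟩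
      smul_mem' := fun c x hx => ⟨fun v => Submodule.smul_mem _ c (hx.1 v),
        fun v hv => Submodule.smul_mem _ c (hx.2.1 v hv),
        fun v hv => Submodule.smul_mem _ c (hx.2.2.1 v hv),
        fun v hv => by rw [LinearMap.smul_apply, hx.2.2.2 v hv, smul_zero]⟩ }
  have hM₂₁ : M₂ ≤ M₁ :=
    sup_le (sup_le (inf_le_left.trans (le_sup_left.trans le_sup_left))
      (inf_le_left.trans (le_sup_left.trans le_sup_left)))
      (inf_le_right.trans le_sup_right)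
  have hM₃₂ : M₃ ≤ M₂ :=
    inf_le_left.trans (le_sup_left.trans le_sup_left)
  refine ⟨N, fun x hx y hy => ?_, fun a ha b hb c hc d hd => LinearMap.ext fun v => ?_, ?_⟩
  · refine ⟨fun v => hx.1 _, fun v hv => hx.2.1 _ (hM₂₁ (hy.2.1 v hv)),
      fun v hv => hx.2.2.1 _ (hM₃₂ (hy.2.2.1 v hv)), fun v hv => ?_⟩
    rw [Module.End.mul_apply, hy.2.2.2 v hv, map_zero]
  · simp only [Module.End.mul_apply, LinearMap.zero_apply]
    exact ha.2.2.2 _ (hb.2.2.1 _ (hc.2.1 _ (hd.1 v)))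
  let K : Subgroup Eˣ :=
    { carrier := {r | (r : E) - 1 ∈ N ∧ ((r⁻¹ : Eˣ) : E) - 1 ∈ N}
      one_mem' := by simp
      mul_mem' := fun {a b} ha hb => by
        have hm : ∀ x ∈ N, ∀ y ∈ N, x * y + x + y ∈ N := fun x hx y hy => add_mem (add_mem
          ⟨fun v => hx.1 _, fun v hv => hx.2.1 _ (hM₂₁ (hy.2.1 v hv)),
            fun v hv => hx.2.2.1 _ (hM₃₂ (hy.2.2.1 v hv)),
            fun v hv => by rw [Module.End.mul_apply, hy.2.2.2 v hv, map_zero]⟩ hx) hy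
        constructor
        · convert hm _ ha.1 _ hb.1 using 1
          simp [mul_sub, sub_mul] <;> abel
        · convert hm _ hb.2 _ ha.2 using 1
          simp [mul_sub, sub_mul] <;> abel
      inv_mem' := fun {a} ha => ⟨ha.2, by simpa using ha.1⟩ }
  have key : ∀ A : Subgroup Eˣ, w A ≤ M₁ →
      (∀ a ∈ A, (∀ v ∈ M₁, ((a : E) - 1) v ∈ M₂) ∧ (∀ v ∈ M₂, ((a : E) - 1) v ∈ M₃) ∧
        ∀ v ∈ M₃, ((a : E) - 1) v = 0) → A ≤ K := fun A hle h a ha =>
    ⟨⟨fun v => hle (hw A a ha v), h a ha⟩,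
      ⟨fun v => hle (hw A _ (A.inv_mem ha) v), h _ (A.inv_mem ha)⟩⟩
  have hle : A₀ ⊔ A₁ ⊔ A₂ ≤ K := by
    refine sup_le (sup_le ?_ ?_) ?_
    · refine key A₀ (le_sup_left.trans le_sup_left) fun a ha => ⟨?_, ?_, fun v hv =>
        hkill A₀ q₀ a ha v hv.1.1⟩
      · intro v hv
        obtain ⟨x, hx, z, hz, rfl⟩ := Submodule.mem_sup.1 hv
        obtain ⟨x₀, hx₀, y, hy, rfl⟩ := Submodule.mem_sup.1 hx
        rw [map_add, map_add, hkill A₀ q₀ a ha x₀ hx₀, zero_add]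
        exact add_mem (Submodule.mem_sup_left (Submodule.mem_sup_left
          ⟨hw A₀ a ha y, hinv A₁ a (n₀₁ ha) y hy⟩))
          (Submodule.mem_sup_left (Submodule.mem_sup_right
            ⟨hw A₀ a ha z, hinv A₂ a (n₀₂ ha) z hz⟩))
      · intro v hv
        obtain ⟨x, hx, z, hz, rfl⟩ := Submodule.mem_sup.1 hv
        obtain ⟨x₀, hx₀, y, hy, rfl⟩ := Submodule.mem_sup.1 hx
        rw [map_add, map_add, hkill A₀ q₀ a ha x₀ hx₀.1, hkill A₀ q₀ a ha y hy.1, zero_add, zero_add]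
        exact ⟨⟨hw A₀ a ha z, hinv A₁ a (n₀₁ ha) z hz.1⟩, hinv A₂ a (n₀₂ ha) z hz.2⟩
    · refine key A₁ (le_sup_right.trans le_sup_left) fun a ha => ⟨?_, ?_, fun v hv =>
        hkill A₁ q₁ a ha v hv.1.2⟩
      · intro v hv
        obtain ⟨x, hx, z, hz, rfl⟩ := Submodule.mem_sup.1 hv
        obtain ⟨x₀, hx₀, y, hy, rfl⟩ := Submodule.mem_sup.1 hx
        rw [map_add, map_add, hkill A₁ q₁ a ha y hy, add_zero]
        exact add_mem (Submodule.mem_sup_left (Submodule.mem_sup_left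
          ⟨hinv A₀ a (n₁₀ ha) x₀ hx₀, hw A₁ a ha x₀⟩))
          (Submodule.mem_sup_right ⟨hw A₁ a ha z, hinv A₂ a (n₁₂ ha) z hz⟩)
      · intro v hv
        obtain ⟨x, hx, z, hz, rfl⟩ := Submodule.mem_sup.1 hv
        obtain ⟨x₀, hx₀, y, hy, rfl⟩ := Submodule.mem_sup.1 hx
        rw [map_add, map_add, hkill A₁ q₁ a ha x₀ hx₀.2, hkill A₁ q₁ a ha z hz.1, zero_add, add_zero]
        exact ⟨⟨hinv A₀ a (n₁₀ ha) y hy.1, hw A₁ a ha y⟩, hinv A₂ a (n₁₂ ha) y hy.2⟩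
    · refine key A₂ le_sup_right fun a ha => ⟨?_, ?_, fun v hv => hkill A₂ q₂ a ha v hv.2⟩
      · intro v hv
        obtain ⟨x, hx, z, hz, rfl⟩ := Submodule.mem_sup.1 hv
        obtain ⟨x₀, hx₀, y, hy, rfl⟩ := Submodule.mem_sup.1 hx
        rw [map_add, map_add, hkill A₂ q₂ a ha z hz, add_zero]
        exact add_mem (Submodule.mem_sup_left (Submodule.mem_sup_right
          ⟨hinv A₀ a (n₂₀ ha) x₀ hx₀, hw A₂ a ha x₀⟩))
          (Submodule.mem_sup_right ⟨hinv A₁ a (n₂₁ ha) y hy, hw A₂ a ha y⟩)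
      · intro v hv
        obtain ⟨x, hx, z, hz, rfl⟩ := Submodule.mem_sup.1 hv
        obtain ⟨x₀, hx₀, y, hy, rfl⟩ := Submodule.mem_sup.1 hx
        rw [map_add, map_add, hkill A₂ q₂ a ha y hy.2, hkill A₂ q₂ a ha z hz.2, add_zero, add_zero]
        exact ⟨⟨hinv A₀ a (n₂₀ ha) x₀ hx₀.1, hinv A₁ a (n₂₁ ha) x₀ hx₀.2⟩, hw A₂ a ha x₀⟩
  exact fun r hr => (hle hr).1

/-- The improvement step. -/
theorem step (hp : 5 ≤ p) {G : Subgroup Eˣ} {c : ℕ} (hc : G.lowerCentralSeries c = ⊥)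
    {A : Subgroup Eˣ} (hA : Good G A) {b : Eˣ} (hbG : b ∈ G)
    (hb2 : ((b : E) - 1) * ((b : E) - 1) = 0) (hbA : b ∉ normalizer (A : Set Eˣ))
    (h01 : ∀ a ∈ A, ∀ x ∈ A, (b * a * b⁻¹) * x * (b * a * b⁻¹)⁻¹ ∈ A)
    (h02 : ∀ a ∈ A, ∀ x ∈ A, (b⁻¹ * a * b) * x * (b⁻¹ * a * b)⁻¹ ∈ A)
    (h12 : ∀ a ∈ A, ∀ x ∈ A, (b * (b * a * b⁻¹) * b⁻¹) * x * (b * (b * a * b⁻¹) * b⁻¹)⁻¹ ∈ A)
    (h21 : ∀ a ∈ A, ∀ x ∈ A, (b⁻¹ * (b⁻¹ * a * b) * b) * x * (b⁻¹ * (b⁻¹ * a * b) * b)⁻¹ ∈ A) :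
    ∃ A' : Subgroup Eˣ, Good G A' ∧
      (∑ i ∈ Finset.range (c + 1), Nat.card ↥(A ⊓ G.lowerCentralSeries i))
        < ∑ i ∈ Finset.range (c + 1), Nat.card ↥(A' ⊓ G.lowerCentralSeries i) := by
  classical
  obtain ⟨hAG, hA1, hq, hcard⟩ := hA
  -- the three conjugates
  set A₁ := A.map (MulAut.conj b).toMonoidHom with hA₁
  set A₂ := A.map (MulAut.conj b⁻¹).toMonoidHom with hA₂
  have hqm : ∀ g : Eˣ, Quad (A.map (MulAut.conj g).toMonoidHom) := by
    rintro g _ ⟨a, ha, rfl⟩ _ ⟨a', ha', rfl⟩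
    have e : ∀ x : Eˣ, (((MulAut.conj g).toMonoidHom x : Eˣ) : E) - 1
        = (g : E) * ((x : E) - 1) * ((g⁻¹ : Eˣ) : E) := fun x => by simp [mul_sub, sub_mul]
    rw [e, e, show ∀ x y u v : E, u * x * v * (u * y * v) = u * (x * (v * u) * y) * v from
      fun x y u v => by simp only [mul_assoc]]
    simp [hq a ha a' ha']
  have nrm : ∀ {g : Eˣ} {B : Subgroup Eˣ}, (∀ x ∈ B, g * x * g⁻¹ ∈ B) →
      g ∈ normalizer (B : Set Eˣ) := fun {g B} h => mem_normalizer_of_conj_le h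
  have n10 : A₁ ≤ normalizer (A : Set Eˣ) := by
    rintro _ ⟨a, ha, rfl⟩; exact nrm (fun x hx => by simpa using h01 a ha x hx)
  have n20 : A₂ ≤ normalizer (A : Set Eˣ) := by
    rintro _ ⟨a, ha, rfl⟩; exact nrm (fun x hx => by simpa using h02 a ha x hx)
  have n01 : A ≤ normalizer (A₁ : Set Eˣ) := by
    intro a ha
    refine nrm ?_
    rintro _ ⟨x, hx, rfl⟩
    exact ⟨(b⁻¹ * a * b) * x * (b⁻¹ * a * b)⁻¹, h02 a ha x hx, by simp [mul_assoc]⟩
  have n02 : A ≤ normalizer (A₂ : Set Eˣ) := by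
    intro a ha
    refine nrm ?_
    rintro _ ⟨x, hx, rfl⟩
    exact ⟨(b * a * b⁻¹) * x * (b * a * b⁻¹)⁻¹, h01 a ha x hx, by simp [mul_assoc]⟩
  have n12 : A₁ ≤ normalizer (A₂ : Set Eˣ) := by
    rintro _ ⟨a, ha, rfl⟩
    refine nrm ?_
    rintro _ ⟨x, hx, rfl⟩
    exact ⟨_, h12 a ha x hx, by simp [mul_assoc]⟩
  have n21 : A₂ ≤ normalizer (A₁ : Set Eˣ) := by
    rintro _ ⟨a, ha, rfl⟩
    refine nrm ?_
    rintro _ ⟨x, hx, rfl⟩
    exact ⟨_, h21 a ha x hx, by simp [mul_assoc]⟩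
  obtain ⟨N, hNmul, hN4, hNR⟩ := exists_four_zero hq (hqm b) (hqm b⁻¹) n01 n10 n02 n20 n12 n21
  set R := A ⊔ A₁ ⊔ A₂ with hR
  have hRG : R ≤ G := by
    refine sup_le (sup_le hAG ?_) ?_ <;> rintro _ ⟨a, ha, rfl⟩
    · exact G.mul_mem (G.mul_mem hbG (hAG ha)) (G.inv_mem hbG)
    · exact G.mul_mem (G.mul_mem (G.inv_mem hbG) (hAG ha)) (G.inv_mem (G.inv_mem hbG))
  set Y : E := (b : E) - 1 with hY
  have hbinv : ((b⁻¹ : Eˣ) : E) = 1 - Y := by
    refine Units.inv_eq_of_mul_eq_one_right ?_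
    simp only [hY, mul_sub, sub_mul, mul_one, one_mul] at hb2 ⊢
    linear_combination (norm := abel) -hb2
  have hbv : (b : E) = 1 + Y := by rw [hY]; abel
  have hconj : ∀ a : Eˣ, ((b * a * b⁻¹ : Eˣ) : E) - 1 =
      ((a : E) - 1) + (Y * ((a : E) - 1) - ((a : E) - 1) * Y) - Y * ((a : E) - 1) * Y := by
    intro a
    rw [Units.val_mul, Units.val_mul, hbinv, hbv]
    simp only [mul_sub, sub_mul, add_mul, mul_add, mul_one, one_mul, hb2]
    abel
  have hconj' : ∀ a : Eˣ, ((b⁻¹ * a * b : Eˣ) : E) - 1 =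
      ((a : E) - 1) - (Y * ((a : E) - 1) - ((a : E) - 1) * Y) - Y * ((a : E) - 1) * Y := by
    intro a
    rw [Units.val_mul, Units.val_mul, hbinv, hbv]
    simp only [mul_sub, sub_mul, add_mul, mul_add, mul_one, one_mul, hb2]
    abel
  set L := LimitSpace.lim (logs A hq) (LimitSpace.dn Y) (LimitSpace.up Y) with hLdef
  have hL0 : ∀ x ∈ L, ∀ y ∈ L, x * y = 0 := fun x hx y hy =>
    LimitSpace.lim_mul_eq_zero (fun _ ha _ hb => logs_mul ha hb) (LimitSpace.up_dn hb2)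
      (LimitSpace.up_dn hb2) (LimitSpace.up_dn hb2) (LimitSpace.up_dn hb2) (LimitSpace.dn_up hb2)
      hx hy
  have hLA : Nat.card A ≤ Nat.card L := by
    rw [← card_logs A hq]
    exact LimitSpace.card_le_card_lim _ (LimitSpace.dn_up hb2) (LimitSpace.up_dn hb2)
      (LimitSpace.dn_up hb2) (LimitSpace.up_dn hb2) (LimitSpace.natDegree_up Y)
      (LimitSpace.natDegree_dn Y)
  have h2 : (2 : ZMod p) ≠ 0 := ExpFour.two_ne_zero' hp
  -- `f` and `q` of the logarithm of an element lie in the subspace attached to a normal subgroup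
  have hfq : ∀ H : Subgroup Eˣ, (∀ x ∈ H, b * x * b⁻¹ ∈ H ∧ b⁻¹ * x * b ∈ H) →
      ∃ T : Submodule (ZMod p) E, (∀ x, x ∈ T ↔ x ∈ N ∧ ∃ r ∈ H ⊓ R, (r : E) = ExpFour.ex (p := p) x) ∧
        (∀ x ∈ T, x * x = 0 → ∀ r : Eˣ, (r : E) = 1 + x → r ∈ H ⊓ R) ∧
        (∀ r ∈ H ⊓ R, ((r : E) - 1) * ((r : E) - 1) = 0 → (r : E) - 1 ∈ T) ∧
        ∀ a ∈ A ⊓ H, (a : E) - 1 ∈ T ∧ Y * ((a : E) - 1) - ((a : E) - 1) * Y ∈ T ∧
          Y * ((a : E) - 1) * Y ∈ T := by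
    intro H hH
    obtain ⟨T, hT⟩ := ExpFour.exists_logSubspace hp N hNmul hN4 (H ⊓ R)
    have hin : ∀ r ∈ H ⊓ R, ((r : E) - 1) * ((r : E) - 1) = 0 → (r : E) - 1 ∈ T := fun r hr h =>
      (hT _).2 ⟨hNR r hr.2, r, hr, by rw [ExpFour.ex_of_sq h]; abel⟩
    refine ⟨T, hT, fun x hx hx0 r hr => ?_, hin, fun a ha => ?_⟩
    · obtain ⟨-, s, hs, e⟩ := (hT x).1 hx
      rw [ExpFour.ex_of_sq hx0, ← hr] at e
      rwa [← Units.ext e]
    have m1 : b * a * b⁻¹ ∈ A₁ := ⟨a, ha.1, rfl⟩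
    have m2 : b⁻¹ * a * b ∈ A₂ := ⟨a, ha.1, by simp⟩
    have t0 := hin a ⟨ha.2, mem_sup_left (mem_sup_left ha.1)⟩ (hq a ha.1 a ha.1)
    have t1 := hin _ ⟨(hH a ha.2).1, mem_sup_left (mem_sup_right m1)⟩ (hqm b _ m1 _ m1)
    have t2 := hin _ ⟨(hH a ha.2).2, mem_sup_right m2⟩ (hqm b⁻¹ _ m2 _ m2)
    rw [hconj] at t1
    rw [hconj'] at t2
    refine ⟨t0, ?_, ?_⟩
    · have := T.smul_mem (2⁻¹ : ZMod p) (T.sub_mem t1 t2)
      convert this using 1
      match_scalars <;> field_simp <;> ring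
    · have := T.smul_mem (2⁻¹ : ZMod p) (T.sub_mem (T.add_mem t0 t0) (T.add_mem t1 t2))
      convert this using 1
      match_scalars <;> field_simp <;> ring
  -- the new subgroup
  set A' := onePlus L hL0 with hA'
  have hval : ∀ x : E, x * x = 0 → ∃ r : Eˣ, (r : E) = 1 + x := fun x hx =>
    ⟨⟨1 + x, 1 - x, by simp [mul_sub, add_mul, hx], by simp [sub_mul, mul_add, hx]⟩, rfl⟩
  have hnormal : ∀ i x, x ∈ G.lowerCentralSeries i →
      b * x * b⁻¹ ∈ G.lowerCentralSeries i ∧ b⁻¹ * x * b ∈ G.lowerCentralSeries i := fun i x hx => by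
    have h := G.self_le_normalizer_lowerCentralSeries i hbG
    exact ⟨(mem_normalizer_iff.1 h x).1 hx, (mem_normalizer_iff''.1 h x).1 hx⟩
  set Wl : ℕ → Submodule (ZMod p) E := fun i =>
    logs (A ⊓ G.lowerCentralSeries i) (fun a ha a' ha' => hq a ha.1 a' ha'.1) with hWl
  have hWle : ∀ i, Wl i ≤ logs A hq := by
    rintro i _ ⟨a, ha, rfl⟩
    exact ⟨a, ha.1, rfl⟩
  have hsub : ∀ i, ∀ x ∈ LimitSpace.lim (Wl i) (LimitSpace.dn Y) (LimitSpace.up Y),
      ∀ r : Eˣ, (r : E) = 1 + x → r ∈ (A' ⊓ G.lowerCentralSeries i) ⊓ R := by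
    intro i x hx r hr
    obtain ⟨T, -, hT1, -, hT2⟩ := hfq _ (hnormal i)
    have hxT : x ∈ T := LimitSpace.lim_le_span hb2
      (fun w hw => by obtain ⟨a, ha, rfl⟩ := mem_logs.1 hw; exact (hT2 a ha).1)
      (fun w hw => by obtain ⟨a, ha, rfl⟩ := mem_logs.1 hw; exact (hT2 a ha).2.1)
      (fun w hw => by obtain ⟨a, ha, rfl⟩ := mem_logs.1 hw; exact (hT2 a ha).2.2) hx
    have hxL : x ∈ L := LimitSpace.lim_mono (hWle i) _ _ hx
    have h := hT1 x hxT (hL0 x hxL x hxL) r hr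
    exact ⟨⟨by show (r : E) - 1 ∈ L; rw [hr, add_sub_cancel_left]; exact hxL, h.1⟩, h.2⟩
  have hcardlim : ∀ i, Nat.card ↥(A ⊓ G.lowerCentralSeries i) ≤
      Nat.card ↥(LimitSpace.lim (Wl i) (LimitSpace.dn Y) (LimitSpace.up Y)) := fun i => by
    rw [← card_logs (A ⊓ G.lowerCentralSeries i) (fun a ha a' ha' => hq a ha.1 a' ha'.1)]
    exact LimitSpace.card_le_card_lim _ (LimitSpace.dn_up hb2) (LimitSpace.up_dn hb2)
      (LimitSpace.dn_up hb2) (LimitSpace.up_dn hb2) (LimitSpace.natDegree_up Y)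
      (LimitSpace.natDegree_dn Y)
  have hle : ∀ i, Nat.card ↥(LimitSpace.lim (Wl i) (LimitSpace.dn Y) (LimitSpace.up Y)) ≤
      Nat.card ↥(A' ⊓ G.lowerCentralSeries i) := by
    intro i
    have hx0 : ∀ x : ↥(LimitSpace.lim (Wl i) (LimitSpace.dn Y) (LimitSpace.up Y)),
        (x : E) * x = 0 := fun x =>
      hL0 _ (LimitSpace.lim_mono (hWle i) _ _ x.2) _ (LimitSpace.lim_mono (hWle i) _ _ x.2)
    refine Nat.card_le_card_of_injective (fun x => ⟨(hval _ (hx0 x)).choose,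
      (hsub i _ x.2 _ (hval _ (hx0 x)).choose_spec).1⟩) fun x y h => ?_
    have hx := (hval _ (hx0 x)).choose_spec
    have hy := (hval _ (hx0 y)).choose_spec
    have h' := congrArg (fun z : ↥(A' ⊓ G.lowerCentralSeries i) => ((z : Eˣ) : E)) h
    simp only [hx, hy] at h'
    exact Subtype.ext (add_left_cancel h')
  have hA'G : A' ≤ G := by
    intro r hr
    have e : G.lowerCentralSeries 0 = G := rfl
    have hW0 : logs A hq ≤ Wl 0 := by
      rintro _ ⟨a, ha, rfl⟩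
      exact ⟨a, ⟨ha, e.symm ▸ hAG ha⟩, rfl⟩
    exact e ▸ (hsub 0 ((r : E) - 1) (LimitSpace.lim_mono hW0 _ _ hr) r (by abel)).1.2
  have hA'card : Nat.card A ≤ Nat.card A' := by
    refine le_trans hLA ?_
    refine Nat.card_le_card_of_injective (fun x : L => ⟨(hval _ (hL0 _ x.2 _ x.2)).choose, by
      show _ - 1 ∈ L
      rw [(hval _ (hL0 _ x.2 _ x.2)).choose_spec, add_sub_cancel_left]; exact x.2⟩) fun x y h => ?_
    have h' := congrArg (fun z : A' => ((z : Eˣ) : E)) h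
    simp only [(hval _ (hL0 _ x.2 _ x.2)).choose_spec, (hval _ (hL0 _ y.2 _ y.2)).choose_spec] at h'
    exact Subtype.ext (add_left_cancel h')
  have hA'1 : A' ≠ ⊥ := fun h => hA1 (Subgroup.eq_bot_of_card_le A
    (hA'card.trans (by rw [h, Subgroup.card_bot])))
  -- the fixed points
  have hfix : Nat.card (fix A) ≤ Nat.card (fix A') := by
    haveI : Nontrivial M := by
      by_contra hM
      haveI := not_nontrivial_iff_subsingleton.1 hM
      exact hA1 (eq_bot_iff.2 fun a _ => mem_bot.2 (Units.ext (LinearMap.ext fun v =>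
        Subsingleton.elim _ _)))
    obtain ⟨v₀, hv₀⟩ := exists_ne (0 : M)
    obtain ⟨l, hl⟩ := Module.Projective.exists_dual_ne_zero (ZMod p) hv₀
    set l' : M →ₗ[ZMod p] ZMod p := (l v₀)⁻¹ • l with hl'
    have hl1 : l' v₀ = 1 := by simp [hl', hl]
    set π : E := l'.smulRight v₀ with hπ
    let W₂ : Submodule (ZMod p) E :=
      { carrier := {z | (∀ v, z v ∈ fix A) ∧ z * π = z}
        add_mem' := fun {x y} hx hy => ⟨fun v => add_mem (hx.1 v) (hy.1 v), by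
          rw [add_mul, hx.2, hy.2]⟩
        zero_mem' := ⟨fun v => zero_mem _, zero_mul _⟩
        smul_mem' := fun c x hx => ⟨fun v => Submodule.smul_mem _ c (hx.1 v), by
          rw [smul_mul_assoc, hx.2]⟩ }
    have h1 : Nat.card (fix A) ≤ Nat.card W₂ := by
      refine Nat.card_le_card_of_injective (fun v => ⟨l'.smulRight (v : M),
        fun u => Submodule.smul_mem _ _ v.2, LinearMap.ext fun u => by simp [hπ, hl1]⟩) fun x y h => ?_
      have h' := congrArg (fun z : W₂ => (z : E) v₀) h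
      simpa [hl1] using h'
    set L₂ := LimitSpace.lim W₂ (LimitSpace.dn Y) 1 with hL₂
    have h2 : Nat.card W₂ ≤ Nat.card L₂ :=
      LimitSpace.card_le_card_lim _ (v' := 1) (LimitSpace.dn_up hb2) (LimitSpace.up_dn hb2)
        (one_mul 1) (one_mul 1) (LimitSpace.natDegree_up Y) (by simp)
    have h0 : ∀ x ∈ L, ∀ z ∈ L₂, x * z = 0 := fun x hx z hz =>
      LimitSpace.lim_mul_eq_zero (fun w hw y hy => by
          obtain ⟨a, ha, rfl⟩ := hw
          refine LinearMap.ext fun u => ?_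
          simp [Module.End.mul_apply, hy.1 u a ha]) (LimitSpace.up_dn hb2)
        (LimitSpace.up_dn hb2) (LimitSpace.up_dn hb2) (one_mul 1) (LimitSpace.dn_up hb2) hx hz
    have h3 : ∀ z ∈ L₂, z * (1 - π) = 0 := fun z hz =>
      LimitSpace.lim_mul_right (fun y hy => by rw [mul_sub, mul_one, hy.2, sub_self])
        (LimitSpace.up_dn hb2) hz
    refine h1.trans (h2.trans (Nat.card_le_card_of_injective (fun z => ⟨(z : E) v₀, ?_⟩) ?_))
    · intro r hr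
      have h := LinearMap.congr_fun (h0 _ hr _ z.2) v₀
      simpa [Module.End.mul_apply, sub_eq_zero] using h
    · intro x y h
      refine Subtype.ext (LinearMap.ext fun u => ?_)
      have hh : ∀ z ∈ L₂, z u = l' u • z v₀ := fun z hz => by
        have e := LinearMap.congr_fun (h3 z hz) u
        simpa [Module.End.mul_apply, hπ, sub_eq_zero, map_sub] using e
      rw [hh _ x.2, hh _ y.2, show (x : E) v₀ = (y : E) v₀ from congrArg Subtype.val h]
  refine ⟨A', ⟨hA'G, hA'1, fun a ha a' ha' => hL0 _ ha _ ha',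
    hcard.trans (Nat.mul_le_mul hA'card hfix)⟩, ?_⟩
  -- strictness
  have hbad : ∃ i ≤ c, ¬ (∀ a ∈ A ⊓ G.lowerCentralSeries i, b * a * b⁻¹ ∈ A) :=
    ⟨0, c.zero_le, fun h => hbA (nrm fun x hx => h x ⟨hx, hAG hx⟩)⟩
  set j := Nat.findGreatest (fun i => ¬ (∀ a ∈ A ⊓ G.lowerCentralSeries i, b * a * b⁻¹ ∈ A)) c
    with hj
  obtain ⟨i0, hi0, hi0'⟩ := hbad
  have hjspec : ¬ (∀ a ∈ A ⊓ G.lowerCentralSeries j, b * a * b⁻¹ ∈ A) :=
    Nat.findGreatest_spec (P := fun i => ¬ (∀ a ∈ A ⊓ G.lowerCentralSeries i, b * a * b⁻¹ ∈ A))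
      hi0 hi0'
  have hjc : j < c := by
    refine lt_of_le_of_ne (Nat.findGreatest_le c) fun h => hjspec ?_
    intro a ha
    rw [h, hc] at ha
    rw [mem_bot.1 ha.2, mul_one, mul_inv_cancel]
    exact A.one_mem
  have hnext : ∀ a ∈ A ⊓ G.lowerCentralSeries (j + 1), b * a * b⁻¹ ∈ A := by
    have h := Nat.findGreatest_is_greatest
      (P := fun i => ¬ (∀ a ∈ A ⊓ G.lowerCentralSeries i, b * a * b⁻¹ ∈ A))
      (show j < j + 1 by omega) hjc
    exact not_not.1 h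
  push Not at hjspec
  obtain ⟨a, haj, haA⟩ := hjspec
  set B := A ⊓ G.lowerCentralSeries (j + 1) with hB
  have hbB : b ∈ normalizer (B : Set Eˣ) :=
    nrm fun x hx => ⟨hnext x hx, (hnormal _ x hx.2).1⟩
  set W' := Wl (j + 1) with hW'
  have hW'val : ∀ x ∈ B, (x : E) - 1 ∈ W' := fun x hx => ⟨x, hx, rfl⟩
  have hW'st : ∀ w ∈ W', Y * w - w * Y ∈ W' ∧ Y * w * Y ∈ W' := by
    rintro _ ⟨x, hx, rfl⟩
    have t0 := hW'val x hx
    have t1 := hW'val _ ((mem_normalizer_iff.1 hbB x).1 hx)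
    have t2 := hW'val _ ((mem_normalizer_iff''.1 hbB x).1 hx)
    rw [hconj] at t1
    rw [hconj'] at t2
    constructor
    · have := W'.smul_mem (2⁻¹ : ZMod p) (W'.sub_mem t1 t2)
      convert this using 1
      match_scalars <;> field_simp <;> ring
    · have := W'.smul_mem (2⁻¹ : ZMod p) (W'.sub_mem (W'.add_mem t0 t0) (W'.add_mem t1 t2))
      convert this using 1
      match_scalars <;> field_simp <;> ring
  set X : E := (a : E) - 1 with hX
  have hXW : X ∈ Wl j := ⟨a, haj, rfl⟩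
  have hWjj : W' ≤ Wl j := by
    rintro _ ⟨x, hx, rfl⟩
    exact ⟨x, ⟨hx.1, G.lowerCentralSeries_antitone j.le_succ hx.2⟩, rfl⟩
  -- `X` moved by `b` differs from `X` by an element of the next term
  obtain ⟨T, hT, hT1, hTin, -⟩ := hfq _ (hnormal (j + 1))
  have hcomm : ∀ g ∈ G, ∀ x ∈ G.lowerCentralSeries j, g * x * g⁻¹ * x⁻¹ ∈
      G.lowerCentralSeries (j + 1) := fun g hg x hx => by
    rw [Subgroup.lowerCentralSeries_succ, show g * x * g⁻¹ * x⁻¹ = ⁅x, g⁆⁻¹ by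
      rw [commutatorElement_inv]; rfl]
    exact inv_mem (commutator_mem_commutator hx hg)
  have hdiff : ∀ g : Eˣ, g ∈ G → g * a * g⁻¹ ∈ R → A.map (MulAut.conj g).toMonoidHom ≤
      normalizer (A : Set Eˣ) → A ≤ normalizer (A.map (MulAut.conj g).toMonoidHom : Set Eˣ) →
      ((g * a * g⁻¹ : Eˣ) : E) - 1 - X ∈ T := by
    intro g hg hgR hn hn'
    obtain ⟨s, hs⟩ : ∃ s, s = g * a * g⁻¹ := ⟨_, rfl⟩
    rw [← hs] at hgR ⊢
    have hsA : s ∈ A.map (MulAut.conj g).toMonoidHom := ⟨a, haj.1, hs.symm⟩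
    have hsj : s ∈ G.lowerCentralSeries j :=
      hs ▸ (mem_normalizer_iff.1 (G.self_le_normalizer_lowerCentralSeries j hg) a).1 haj.2
    obtain ⟨z, hz⟩ : ∃ z, z = s * a * s⁻¹ * a⁻¹ := ⟨_, rfl⟩
    have hzA : z ∈ A := hz ▸ A.mul_mem ((mem_normalizer_iff.1 (hn hsA) a).1 haj.1) (A.inv_mem haj.1)
    have hzS : z ∈ A.map (MulAut.conj g).toMonoidHom := by
      rw [hz, mul_assoc, mul_assoc, ← mul_assoc a]
      exact mul_mem hsA ((mem_normalizer_iff.1 (hn' haj.1) s⁻¹).1 (inv_mem hsA))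
    have hzR : z ∈ (G.lowerCentralSeries (j + 1) ⊓ R) :=
      ⟨hz ▸ hcomm s (G.lowerCentralSeries_antitone (Nat.zero_le j) hsj) a haj.2, mem_sup_left (mem_sup_left hzA)⟩
    have hdR : s * a⁻¹ ∈ (G.lowerCentralSeries (j + 1) ⊓ R) :=
      ⟨hs ▸ hcomm g hg a haj.2, R.mul_mem hgR (R.inv_mem (mem_sup_left (mem_sup_left haj.1)))⟩
    have hS2 := hqm g s hsA s hsA
    have hX2 : X * X = 0 := hq a haj.1 a haj.1
    obtain ⟨N', hN'⟩ : ∃ Z : E, Z = (z : E) - 1 := ⟨_, rfl⟩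
    set S : E := (s : E) - 1 with hS
    have hZX : N' * X = 0 := hN' ▸ hq z hzA a haj.1
    have hXZ : X * N' = 0 := hN' ▸ hq a haj.1 z hzA
    have hZS : N' * S = 0 := hN' ▸ hqm g z hzS s hsA
    have hSZ : S * N' = 0 := hN' ▸ hqm g s hsA z hzS
    have hsv : (s : E) = 1 + S := by rw [hS]; abel
    have hav : (a : E) = 1 + X := by rw [hX]; abel
    have hzv : (z : E) = 1 + N' := by rw [hN']; abel
    have e : S * X = N' + X * S := by
      have h : ((s * a : Eˣ) : E) = ((z * (a * s) : Eˣ) : E) := by rw [hz]; simp [mul_assoc]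
      rw [Units.val_mul, Units.val_mul, Units.val_mul, hsv, hav, hzv] at h
      simp only [mul_add, add_mul, mul_one, one_mul, ← mul_assoc, hZX, zero_mul] at h
      rw [hZS] at h
      linear_combination (norm := abel) h
    have hXSX : X * S * X = 0 := by
      rw [mul_assoc, e, mul_add, hXZ, zero_add, ← mul_assoc, hX2, zero_mul]
    have hSXS : S * X * S = 0 := by
      rw [mul_assoc, show X * S = S * X - N' by rw [e]; abel, mul_sub, ← mul_assoc, hS2, zero_mul,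
        hSZ, sub_zero]
    have hZ2 : N' * N' = 0 := hN' ▸ hq z hzA z hzA
    have hZT : N' ∈ T := hN' ▸ hTin z hzR (hN' ▸ hZ2)
    obtain ⟨r, hr⟩ := hval ((2⁻¹ : ZMod p) • N') (by
      rw [smul_mul_assoc, mul_smul_comm, hZ2, smul_zero, smul_zero])
    have hrR := hT1 _ (T.smul_mem _ hZT) (by
      rw [smul_mul_assoc, mul_smul_comm, hZ2, smul_zero, smul_zero]) r hr
    -- the exponential of `S - X`
    have hSN : S ∈ N := hNR s hgR
    have hXN : X ∈ N := hNR a (mem_sup_left (mem_sup_left haj.1))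
    have hD3 : (S - X) * (S - X) * (S - X) = 0 := by
      simp only [mul_sub, sub_mul, ← mul_assoc, hS2, hX2, zero_mul, hXSX, hSXS, mul_assoc]
      simp only [← mul_assoc, hXSX, hSXS, hS2, hX2, zero_mul, mul_zero, sub_zero, zero_sub, neg_zero]
    have hexp : ExpFour.ex (p := p) (S - X) = ((s * a⁻¹ * r : Eˣ) : E) := by
      rw [Units.val_mul, Units.val_mul, hr, hsv, hq.sub_one_inv haj.1 |> sub_eq_iff_eq_add.1,
        ← hX, ExpFour.ex, hD3, smul_zero, add_zero]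
      simp only [mul_add, add_mul, mul_sub, sub_mul, mul_one, one_mul, neg_mul, mul_neg,
        mul_smul_comm, smul_sub, smul_add, hS2, hX2, hXZ, hSZ, smul_zero]
      rw [e]
      simp only [smul_add, zero_add, add_zero, sub_zero, zero_sub, mul_add, add_mul, neg_zero, smul_neg,
        hZ2, mul_assoc X S N', hSZ, mul_zero, smul_zero]
      match_scalars <;> field_simp <;> ring
    exact (hT _).2 ⟨N.sub_mem hSN hXN, s * a⁻¹ * r, Subgroup.mul_mem _ hdR hrR, hexp.symm⟩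
  have d1 := hdiff b hbG (mem_sup_left (mem_sup_right ⟨a, haj.1, rfl⟩)) n10 n01
  have d2 := hdiff b⁻¹ (G.inv_mem hbG) (mem_sup_right ⟨a, haj.1, by simp⟩) n20 n02
  rw [hconj] at d1
  rw [inv_inv, hconj'] at d2
  have hfT : Y * X - X * Y ∈ T := by
    have := T.smul_mem (2⁻¹ : ZMod p) (T.sub_mem d1 d2)
    convert this using 1
    match_scalars <;> field_simp <;> ring
  have hqT : Y * X * Y ∈ T := by
    have := T.smul_mem (-2⁻¹ : ZMod p) (T.add_mem d1 d2)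
    convert this using 1
    match_scalars <;> field_simp <;> ring
  have hnotboth : ¬ (Y * X - X * Y ∈ W' ∧ Y * X * Y ∈ W') := by
    rintro ⟨h1, h2⟩
    obtain ⟨x, hx, hxe⟩ := W'.sub_mem (W'.add_mem (Submodule.zero_mem W') h1) h2
    obtain ⟨y, hy, hye⟩ : (((b * a * b⁻¹ : Eˣ) : E) - 1) ∈ logs A hq := by
      rw [hconj]
      exact Submodule.sub_mem _ (Submodule.add_mem _ (hWle j hXW) (hWle (j + 1) h1)) (hWle (j + 1) h2)
    exact haA (Units.ext (sub_left_inj.1 hye) ▸ hy)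
  obtain ⟨x, hxL, hxT, hxW⟩ : ∃ x ∈ L, x ∈ T ∧ x ∉ W' := by
    by_cases h : Y * X * Y ∈ W'
    · exact ⟨_, LimitSpace.lim_mono (hWle j) _ _ (LimitSpace.lin_mem_lim hb2 hWjj
        (fun w hw => (hW'st w hw).1) (fun w hw => (hW'st w hw).2) hXW h), hfT,
        fun h' => hnotboth ⟨h', h⟩⟩
    · exact ⟨_, LimitSpace.lim_mono (hWle j) _ _ (LimitSpace.quad_mem_lim hb2 hXW), hqT, h⟩
  have hBlt : Nat.card B < Nat.card ↥(A' ⊓ G.lowerCentralSeries (j + 1)) := by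
    have hmem : ∀ y : B, (y : Eˣ) ∈ A' ⊓ G.lowerCentralSeries (j + 1) := fun y =>
      ⟨show ((y : Eˣ) : E) - 1 ∈ L from LimitSpace.lim_mono (hWle (j + 1)) _ _
        (LimitSpace.stable_le_lim le_rfl (fun w hw => (hW'st w hw).1) (fun w hw => (hW'st w hw).2)
          (hW'val _ y.2)), y.2.2⟩
    obtain ⟨r, hr⟩ := hval x (hL0 x hxL x hxL)
    have hrm : r ∈ A' ⊓ G.lowerCentralSeries (j + 1) :=
      ⟨show (r : E) - 1 ∈ L by rw [hr, add_sub_cancel_left]; exact hxL,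
        (hT1 x hxT (hL0 x hxL x hxL) r hr).1⟩
    refine lt_of_le_of_ne (Nat.card_le_card_of_injective (fun y => ⟨_, hmem y⟩) fun y z h => ?_)
      fun h => hxW ?_
    · exact Subtype.ext (congrArg (fun w : ↥(A' ⊓ G.lowerCentralSeries (j + 1)) => (w : Eˣ)) h)
    · have hBle : B ≤ A' ⊓ G.lowerCentralSeries (j + 1) := fun y hy => hmem ⟨y, hy⟩
      have heq : B = A' ⊓ G.lowerCentralSeries (j + 1) :=
        Subgroup.eq_of_le_of_card_ge hBle h.ge
      have := hW'val r (heq ▸ hrm)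
      rwa [hr, add_sub_cancel_left] at this
  exact Finset.sum_lt_sum (fun i _ => (hcardlim i).trans (hle i))
    ⟨j + 1, Finset.mem_range.2 (by omega), hBlt⟩

/-- Some quadratic offender of `G` is normal in its normal closure. -/
theorem exists_normal_in_closure (hp : 5 ≤ p) {G : Subgroup Eˣ} (hG : IsPGroup p G)
    {A₀ : Subgroup Eˣ} (hA₀ : Good G A₀) :
    ∃ A, Good G A ∧ ∀ g ∈ G, ∀ a ∈ A, ∀ x ∈ A, (g * a * g⁻¹) * x * (g * a * g⁻¹)⁻¹ ∈ A := by
  classical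
  haveI : Fintype (Subgroup Eˣ) := Fintype.ofFinite _
  obtain ⟨c, hc⟩ := (Subgroup.isNilpotent_iff_lowerCentralSeries G).1 hG.isNilpotent
  set Φ : Subgroup Eˣ → ℕ := fun A =>
    ∑ i ∈ Finset.range (c + 1), Nat.card ↥(A ⊓ G.lowerCentralSeries i) with hΦ
  obtain ⟨A, hA, hmax⟩ := (Finset.univ.filter (Good G)).exists_max_image Φ
    ⟨A₀, Finset.mem_filter.2 ⟨Finset.mem_univ _, hA₀⟩⟩
  have hA' : Good G A := (Finset.mem_filter.1 hA).2
  refine ⟨A, hA', ?_⟩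
  by_contra hneg
  -- the conjugates normalizing `A`
  set cj : Eˣ → Subgroup Eˣ := fun g => A.map (MulAut.conj g).toMonoidHom with hcj
  have hcjG : ∀ g ∈ G, cj g ≤ G := by
    rintro g hg _ ⟨a, ha, rfl⟩
    exact G.mul_mem (G.mul_mem hg (hA'.1 ha)) (G.inv_mem hg)
  set R : Subgroup Eˣ := ⨆ g : {g : Eˣ // g ∈ G ∧ cj g ≤ normalizer (A : Set Eˣ)}, cj g with hR
  have hRG : R ≤ G := iSup_le fun g => hcjG g g.2.1
  have hRN : R ≤ normalizer (A : Set Eˣ) := iSup_le fun g => g.2.2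
  have hAR : A ≤ R := le_trans (le_of_eq (show A = cj 1 by ext x; simp [hcj]))
    (le_iSup (fun g : {g : Eˣ // g ∈ G ∧ cj g ≤ normalizer (A : Set Eˣ)} => cj g)
      ⟨1, G.one_mem, le_trans (le_of_eq (show cj 1 = A by ext x; simp [hcj])) le_normalizer⟩)
  obtain ⟨g, hg, hgR, hgN⟩ : ∃ g ∈ G, cj g ≤ normalizer (R : Set Eˣ) ∧
      ¬ cj g ≤ normalizer (A : Set Eˣ) := by
    by_contra hc'
    push Not at hc'
    have hperm : ∀ n ∈ G, (∀ g ∈ G, cj g ≤ normalizer (R : Set Eˣ) →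
        cj (n * g) ≤ normalizer (R : Set Eˣ)) → n ∈ normalizer (R : Set Eˣ) := by
      intro n hn h
      have hle : R.map (MulAut.conj n).toMonoidHom ≤ R := by
        rw [hR, Subgroup.map_iSup]
        refine iSup_le fun g => ?_
        have e : (cj g).map (MulAut.conj n).toMonoidHom = cj (n * g) := by
          show (A.map _).map _ = A.map _
          rw [Subgroup.map_map]; congr 1
        rw [e]
        exact le_iSup (fun g : {g : Eˣ // g ∈ G ∧ cj g ≤ normalizer (A : Set Eˣ)} => cj g)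
          ⟨n * g, G.mul_mem hn g.2.1, hc' _ (G.mul_mem hn g.2.1) (h g g.2.1
            ((le_iSup (fun g : {g : Eˣ // g ∈ G ∧ cj g ≤ normalizer (A : Set Eˣ)} => cj g) g).trans
              le_normalizer))⟩
      exact mem_normalizer_of_conj_le fun x hx => hle ⟨x, hx, rfl⟩
    have hNN : normalizer ((G ⊓ normalizer (R : Set Eˣ) : Subgroup Eˣ) : Set Eˣ) ⊓ G ≤
        G ⊓ normalizer (R : Set Eˣ) := fun n hn => ⟨hn.2, hperm n hn.2 fun g hg hgR => by
      have hle : cj g ≤ G ⊓ normalizer (R : Set Eˣ) := le_inf (hcjG g hg) hgR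
      rintro _ ⟨a, ha, rfl⟩
      have := (mem_normalizer_iff.1 hn.1 _).1 (hle ⟨a, ha, rfl⟩)
      convert this.2 using 1
      simp [mul_assoc]⟩
    have hnil : Group.IsNilpotent G := hG.isNilpotent
    have htop : (G ⊓ normalizer (R : Set Eˣ)).subgroupOf G = ⊤ :=
      normalizerCondition_iff_only_full_group_self_normalizing.1 normalizerCondition_of_isNilpotent _
        (le_antisymm (fun n hn => hNN ⟨mem_normalizer_of_conj_le fun x hx =>
          (mem_normalizer_iff.1 hn ⟨x, hx.1⟩).1 hx, n.2⟩) le_normalizer)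
    refine hneg fun g hg a ha x hx => ?_
    have hgle : cj g ≤ normalizer (R : Set Eˣ) := fun y hy =>
      (mem_subgroupOf.1 (show (⟨y, hcjG g hg hy⟩ : G) ∈ (G ⊓ normalizer (R : Set Eˣ)).subgroupOf G
        by rw [htop]; exact mem_top _)).2
    exact (mem_normalizer_iff.1 (hc' g hg hgle ⟨a, ha, rfl⟩) x).1 hx
  obtain ⟨b, hbB, hbA⟩ := SetLike.not_le_iff_exists.1 hgN
  obtain ⟨a₀, ha₀, rfl⟩ := hbB
  have hbR := hgR ⟨a₀, ha₀, rfl⟩
  set b := (MulAut.conj g).toMonoidHom a₀ with hb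
  have hbG : b ∈ G := hcjG g hg ⟨a₀, ha₀, rfl⟩
  have hb2 : ((b : E) - 1) * ((b : E) - 1) = 0 := by
    have e : (b : E) - 1 = (g : E) * ((a₀ : E) - 1) * ((g⁻¹ : Eˣ) : E) := by
      simp [hb, mul_sub, sub_mul]
    rw [e, show (g : E) * ((a₀ : E) - 1) * ((g⁻¹ : Eˣ) : E) * ((g : E) * ((a₀ : E) - 1) *
      ((g⁻¹ : Eˣ) : E)) = (g : E) * (((a₀ : E) - 1) * (((g⁻¹ : Eˣ) : E) * (g : E)) *
      ((a₀ : E) - 1)) * ((g⁻¹ : Eˣ) : E) by simp only [mul_assoc]]
    simp [hA'.2.2.1 a₀ ha₀ a₀ ha₀]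
  have k1 : ∀ a ∈ A, b * a * b⁻¹ ∈ R := fun a ha => (mem_normalizer_iff.1 hbR a).1 (hAR ha)
  have k2 : ∀ a ∈ A, b⁻¹ * a * b ∈ R := fun a ha => (mem_normalizer_iff''.1 hbR a).1 (hAR ha)
  have k : ∀ r ∈ R, ∀ x ∈ A, r * x * r⁻¹ ∈ A := fun r hr x hx =>
    (mem_normalizer_iff.1 (hRN hr) x).1 hx
  obtain ⟨A', hgood, hlt⟩ := step hp hc hA' hbG hb2 hbA (fun a ha => k _ (k1 a ha))
    (fun a ha => k _ (k2 a ha))
    (fun a ha => k _ ((mem_normalizer_iff.1 hbR _).1 (k1 a ha)))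
    (fun a ha => k _ ((mem_normalizer_iff''.1 hbR _).1 (k2 a ha)))
  exact absurd (hmax A' (Finset.mem_filter.2 ⟨Finset.mem_univ _, hgood⟩)) (not_le.2 hlt)

end Cfsg.Agent.Tech.QuadOffender
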