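import Cfsg.Agent.LocalP.ThompsonWCMain
import Cfsg.Agent.Tech.Basic
import Cfsg.Agent.PSolv.HallHigman

/-!
The weakly closed elements of a Sylow subgroup form a direct factor of its centre, when a suitable
normalizer controls them.
-/

set_option autoImplicit false
set_option linter.style.haveILetI false

namespace Cfsg.Agent.Tech.WCSplit

open Subgroup Cfsg.Agent
open scoped IsMulCommutative

variable {G : Type*} [Group G] [Finite G] {p : ℕ} [hp : Fact p.Prime]

/-- `x` is the only conjugate of itself in `S`. -/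
def Iso (S : Subgroup G) (x : G) : Prop :=
  x ∈ S ∧ ∀ g : G, g * x * g⁻¹ ∈ S → g * x * g⁻¹ = x

theorem Iso.mem_center {S : Subgroup G} {x : G} (h : Iso S x) :
    x ∈ S ⊓ centralizer (S : Set G) :=
  ⟨h.1, mem_centralizer_iff.2 fun s hs =>
    mul_inv_eq_iff_eq_mul.1 (h.2 s (S.mul_mem (S.mul_mem hs h.1) (S.inv_mem hs)))⟩

/-- The averaging homomorphism of a normal abelian subgroup, and the resulting complement. -/
theorem exists_split (S : Sylow p G) {R : Subgroup G} (hRS : R ≤ (S : Subgroup G))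
    (hSR : (S : Subgroup G) ≤ normalizer (R : Set G))
    (hZR : (S : Subgroup G) ⊓ centralizer ((S : Subgroup G) : Set G) ≤ R ⊓ centralizer (R : Set G))
    (hwc : ∀ x ∈ (S : Subgroup G) ⊓ centralizer ((S : Subgroup G) : Set G),
      (∀ n ∈ normalizer (R : Set G), n * x * n⁻¹ = x) → Iso (S : Subgroup G) x) :
    ∃ W K : Subgroup G, (∀ x : G, x ∈ W ↔ Iso (S : Subgroup G) x) ∧
      K ≤ (S : Subgroup G) ⊓ centralizer ((S : Subgroup G) : Set G) ∧ W ⊓ K = ⊥ ∧
      W ⊔ K = (S : Subgroup G) ⊓ centralizer ((S : Subgroup G) : Set G) := by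
  classical
  set S0 := (S : Subgroup G) with hS0
  set N := normalizer (R : Set G) with hN
  set A := R ⊓ centralizer (R : Set G) with hA
  set Z := S0 ⊓ centralizer (S0 : Set G) with hZ
  haveI : IsMulCommutative A := ⟨⟨fun a b => Subtype.ext (mem_centralizer_iff.1 b.2.2 _ a.2.1)⟩⟩
  have hAN : ∀ n ∈ N, ∀ a ∈ A, n * a * n⁻¹ ∈ A := fun n hn a ha =>
    ⟨(mem_normalizer_iff.1 hn a).1 ha.1, mem_centralizer_iff.2 fun r hr => by
      have hr' : n⁻¹ * r * n ∈ R := (mem_normalizer_iff''.1 hn r).1 hr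
      calc r * (n * a * n⁻¹) = n * ((n⁻¹ * r * n) * a) * n⁻¹ := by group
        _ = n * a * n⁻¹ * r := by rw [mem_centralizer_iff.1 ha.2 _ hr']; group⟩
  set S' := S0.subgroupOf N with hS'
  haveI : Fintype (↥N ⧸ S') := Fintype.ofFinite _
  -- the conjugate attached to a coset
  let c : Z → (↥N ⧸ S') → A := fun v q =>
    ⟨(q.out : G) * v * (q.out : G)⁻¹, hAN _ q.out.2 _ (hZR v.2)⟩
  have hc : ∀ (v : Z) (n : N), ((c v (QuotientGroup.mk n) : A) : G) = (n : G) * v * (n : G)⁻¹ := by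
    intro v n
    obtain ⟨s, hs⟩ := QuotientGroup.mk_out_eq_mul S' n
    show (((QuotientGroup.mk n : ↥N ⧸ S').out : N) : G) * v * _ = _
    rw [hs, Subgroup.coe_mul]
    have hsv : ((s : N) : G) * v = v * ((s : N) : G) :=
      mem_centralizer_iff.1 v.2.2 _ (mem_subgroupOf.1 s.2)
    calc (n : G) * ((s : N) : G) * v * ((n : G) * ((s : N) : G))⁻¹
        = (n : G) * (((s : N) : G) * v) * ((s : N) : G)⁻¹ * (n : G)⁻¹ := by group
      _ = (n : G) * v * (n : G)⁻¹ := by rw [hsv]; group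
  let τ : Z →* A :=
    { toFun := fun v => ∏ q : ↥N ⧸ S', c v q
      map_one' := Finset.prod_eq_one fun q _ => Subtype.ext (by simp [c])
      map_mul' := fun v w => by
        rw [← Finset.prod_mul_distrib]
        exact Finset.prod_congr rfl fun q _ => Subtype.ext (by simp [c, mul_assoc]) }
  have hfix : ∀ (v : Z) (n : G), n ∈ N → n * (τ v : G) * n⁻¹ = τ v := by
    intro v n hn
    let f : A →* A :=
      { toFun := fun a => ⟨n * a * n⁻¹, hAN n hn a a.2⟩
        map_one' := Subtype.ext (by simp)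
        map_mul' := fun a b => Subtype.ext (by simp [mul_assoc]) }
    have h1 : f (τ v) = τ v := by
      show f (∏ q : ↥N ⧸ S', c v q) = ∏ q : ↥N ⧸ S', c v q
      rw [map_prod]
      refine Fintype.prod_equiv (MulAction.toPerm (⟨n, hn⟩ : N)) _ _ fun q => ?_
      obtain ⟨m, rfl⟩ := QuotientGroup.mk_surjective q
      apply Subtype.ext
      show n * ((c v (QuotientGroup.mk m) : A) : G) * n⁻¹ =
        ((c v (QuotientGroup.mk (⟨n, hn⟩ * m : N)) : A) : G)
      rw [hc, hc, Subgroup.coe_mul]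
      group
    exact congrArg Subtype.val h1
  have hmem : ∀ v : Z, Iso S0 (τ v : G) := by
    intro v
    refine hwc _ ⟨hRS (τ v).2.1, mem_centralizer_iff.2 fun s hs =>
      mul_inv_eq_iff_eq_mul.1 (hfix v s (hSR hs))⟩ (fun n hn => hfix v n hn)
  have hisoN : ∀ x, Iso S0 x → ∀ n ∈ N, n * x * n⁻¹ = x := fun x hx n hn =>
    hx.2 n (hRS (hAN n hn x (hZR hx.mem_center)).1)
  have hpow : ∀ v : Z, Iso S0 (v : G) → (τ v : G) = (v : G) ^ S'.index := by
    intro v hv
    have : τ v = (⟨v, hZR v.2⟩ : A) ^ Fintype.card (↥N ⧸ S') := by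
      rw [← Finset.card_univ, ← Finset.prod_const]
      exact Finset.prod_congr rfl fun q _ => Subtype.ext (hisoN v hv _ q.out.2)
    rw [this, SubmonoidClass.coe_pow, ← Nat.card_eq_fintype_card]
    rfl
  have hcop : (S'.index).Coprime (Nat.card S0) := by
    have h : ¬ p ∣ S'.index := fun h =>
      S.not_dvd_index (h.trans (relIndex_dvd_index_of_le hSR))
    obtain ⟨k, hk⟩ := IsPGroup.iff_card.1 S.2
    rw [hk]
    exact ((hp.out.coprime_iff_not_dvd.2 h).symm).pow_right k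
  have hroot : ∀ x ∈ S0, x ^ (Nat.card S0) = 1 := fun x hx => by
    have h := congrArg Subtype.val (pow_card_eq_one' (x := (⟨x, hx⟩ : S0)))
    simp only [SubmonoidClass.coe_pow, OneMemClass.coe_one] at h
    exact h
  let W : Subgroup G :=
    { carrier := {x | x ∈ Z ∧ ∀ n ∈ N, n * x * n⁻¹ = x}
      one_mem' := ⟨Z.one_mem, fun n _ => by group⟩
      mul_mem' := fun {a b} ha hb => ⟨Z.mul_mem ha.1 hb.1, fun n hn => by
        rw [← conj_mul, ha.2 n hn, hb.2 n hn]⟩
      inv_mem' := fun {a} ha => ⟨Z.inv_mem ha.1, fun n hn => by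
        rw [← conj_inv, ha.2 n hn]⟩ }
  have hW : ∀ x : G, x ∈ W ↔ Iso S0 x :=
    fun x => ⟨fun h => hwc x h.1 h.2, fun h => ⟨h.mem_center, hisoN x h⟩⟩
  refine ⟨W, τ.ker.map Z.subtype, hW, map_subtype_le _, ?_, ?_⟩
  · refine le_bot_iff.1 fun x hx => mem_bot.2 ?_
    obtain ⟨hxW, ⟨v, hv, rfl⟩⟩ := hx
    have h := hpow v ((hW _).1 hxW)
    rw [MonoidHom.mem_ker.1 hv, OneMemClass.coe_one] at h
    exact orderOf_eq_one_iff.1 (Nat.eq_one_of_dvd_coprimes hcop
      (orderOf_dvd_of_pow_eq_one h.symm) (orderOf_dvd_of_pow_eq_one (hroot v v.2.1)))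
  · refine le_antisymm (sup_le (fun x hx => hx.1) (map_subtype_le _)) fun x hx => ?_
    obtain ⟨m, -, hm⟩ := Nat.exists_mul_mod_eq_of_coprime 1 hcop Nat.card_pos.ne'
    set v : Z := ⟨x, hx⟩
    have hwW : (τ v : G) ^ m ∈ W := W.pow_mem ((hW _).2 (hmem v)) m
    set w : Z := ⟨(τ v : G) ^ m, hwW.1⟩
    have hτw : τ w = τ v := by
      apply Subtype.ext
      rw [hpow w ((hW _).1 hwW)]
      show ((τ v : G) ^ m) ^ S'.index = τ v
      rw [← pow_mul, mul_comm m, pow_eq_pow_mod _ (hroot _ (hRS (τ v).2.1)), hm,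
        ← pow_eq_pow_mod _ (hroot _ (hRS (τ v).2.1)), pow_one]
    have hK : v * w⁻¹ ∈ τ.ker := by rw [MonoidHom.mem_ker, map_mul, map_inv, hτw, mul_inv_cancel]
    have e : x = ((v * w⁻¹ : Z) : G) * (w : G) := by simp [v]
    rw [e]
    exact (W ⊔ τ.ker.map Z.subtype).mul_mem (mem_sup_right (mem_map_of_mem _ hK)) (mem_sup_left hwW)

/-- `p` odd. -/
theorem split_odd (hp2 : p ≠ 2) (S : Sylow p G) :
    ∃ W K : Subgroup G, (∀ x : G, x ∈ W ↔ Iso (S : Subgroup G) x) ∧
      K ≤ (S : Subgroup G) ⊓ centralizer ((S : Subgroup G) : Set G) ∧ W ⊓ K = ⊥ ∧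
      W ⊔ K = (S : Subgroup G) ⊓ centralizer ((S : Subgroup G) : Set G) := by
  refine exists_split S (Modules.thompsonSubgroupAOf_le _)
    (le_normalizer.trans (Modules.normalizer_le_normalizer_thompsonSubgroupAOf _))
    (fun x hx => Modules.center_le_centerThompsonAOf _ hx) fun x hx hfix => ⟨hx.1, fun g hg => ?_⟩
  exact LocalP.wc_thompson_odd hp2 S hx.1
    (mem_centralizer_iff.2 fun n hn => mul_inv_eq_iff_eq_mul.1 (hfix n hn)) g hg

/-- `p`-constrained groups. -/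
theorem split_constrained (hc : Cfsg.IsPConstrained p G) (S : Sylow p G) :
    ∃ W K : Subgroup G, (∀ x : G, x ∈ W ↔ Iso (S : Subgroup G) x) ∧
      K ≤ (S : Subgroup G) ⊓ centralizer ((S : Subgroup G) : Set G) ∧ W ⊓ K = ⊥ ∧
      W ⊔ K = (S : Subgroup G) ⊓ centralizer ((S : Subgroup G) : Set G) := by
  haveI := PSolv.pPrimePCore_normal p G
  set R := (S : Subgroup G) ⊓ Cfsg.pPrimePCore p G with hR
  obtain ⟨Q, hQ⟩ := exists_sylow_of_inf_normal S (Cfsg.pPrimePCore p G)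
  have hCR := hc Q
  rw [hQ, ← hR] at hCR
  refine exists_split S inf_le_left (sylow_le_normalizer_inf S (Cfsg.pPrimePCore p G)) ?_ ?_
  · intro x hx
    have hxC : x ∈ centralizer (R : Set G) :=
      mem_centralizer_iff.2 fun r hr => mem_centralizer_iff.1 hx.2 r hr.1
    exact ⟨⟨hx.1, hCR hxC⟩, hxC⟩
  · intro x hx hfix
    refine ⟨hx.1, fun g hg => ?_⟩
    have hg' := (pPrimeCore_sup_normalizer S).ge (mem_top g)
    obtain ⟨o, ho, n, hn, rfl⟩ :=
      (mem_sup_of_normal_left (s := Cfsg.pPrimeCore p G)).1 hg'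
    have e : o * n * x * (o * n)⁻¹ = o * x * o⁻¹ := by
      rw [show o * n * x * (o * n)⁻¹ = o * (n * x * n⁻¹) * o⁻¹ by group, hfix n hn]
    rw [e] at hg ⊢
    have h1 : o * x * o⁻¹ * x⁻¹ ∈ Cfsg.pPrimeCore p G := by
      rw [show o * x * o⁻¹ * x⁻¹ = o * (x * o⁻¹ * x⁻¹) by group]
      exact mul_mem ho ((inferInstance : (Cfsg.pPrimeCore p G).Normal).conj_mem _ (inv_mem ho) x)
    have h2 := eq_one_of_mem_pPrimeCore_of_isPGroup S.2
      ((S : Subgroup G).mul_mem hg ((S : Subgroup G).inv_mem hx.1)) h1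
    exact mul_inv_eq_one.1 h2

end Cfsg.Agent.Tech.WCSplit
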