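import Cfsg.Agent.EvenLocal.Qd
import Cfsg.Agent.EvenLocal.Involved
import Cfsg.Agent.Stability.Action

/-!
Groups whose p-local automizers have no `SL(2, p)` section do not involve `Qd(p)`, and all sections of a
group without `Qd(p)` section are p-stable in the normalizer form.
-/

set_option autoImplicit false
set_option linter.style.haveILetI false

namespace Cfsg.Agent.Tech.QdFree

open EvenLocal

universe u

theorem norm_le_norm_cent {X : Type*} [Group X] (H : Subgroup X) :
    Subgroup.normalizer (H : Set X) ≤ Subgroup.normalizer (Subgroup.centralizer (H : Set X) : Set X) := by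
  have key : ∀ g ∈ Subgroup.normalizer (H : Set X), ∀ c ∈ Subgroup.centralizer (H : Set X),
      g * c * g⁻¹ ∈ Subgroup.centralizer (H : Set X) := by
    intro g hg c hc
    refine Subgroup.mem_centralizer_iff.2 fun h hh => ?_
    have h1 := Subgroup.mem_centralizer_iff.1 hc _ ((Subgroup.mem_normalizer_iff''.1 hg h).1 hh)
    calc h * (g * c * g⁻¹) = g * ((g⁻¹ * h * g) * c) * g⁻¹ := by group
      _ = g * c * g⁻¹ * h := by rw [h1]; group
  refine fun g hg => Subgroup.mem_normalizer_iff.2 fun c => ⟨key g hg c, fun h => ?_⟩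
  have := key g⁻¹ (Subgroup.inv_mem _ hg) _ h
  rwa [show g⁻¹ * (g * c * g⁻¹) * g⁻¹⁻¹ = c by group] at this

theorem isNormalizerPStable_of_free {X : Type u} [Group X] [Finite X] {p : ℕ} [Fact p.Prime]
    (hp : p ≠ 2) (h : ¬ Cfsg.Involves ↥(Cfsg.qd p) X) : Cfsg.IsNormalizerPStable p X := by
  intro P hP g hg hq
  have hN : Stability.PairFree p ↥(Subgroup.normalizer (P : Set X)) :=
    Stability.pairFree_of_qdFree hp fun hs => h (involves_subgroup hs)
  set N := Subgroup.normalizer (P : Set X) with hNdef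
  have hPN : P ≤ N := Subgroup.le_normalizer
  set P' := P.subgroupOf N with hP'
  haveI : P'.Normal := Subgroup.normal_subgroupOf_iff_le_normalizer hPN |>.2 le_rfl
  have hP'p : IsPGroup p P' := hP.comap_subtype
  have hmap : P'.map N.subtype = P := Subgroup.map_subgroupOf_eq_of_le hPN
  have hq' : ⁅⁅P', Subgroup.zpowers (⟨g, hg⟩ : N)⁆, Subgroup.zpowers (⟨g, hg⟩ : N)⁆ = ⊥ := by
    rw [← Subgroup.map_eq_bot_iff_of_injective _ N.subtype_injective, Subgroup.map_commutator,
      Subgroup.map_commutator, hmap, MonoidHom.map_zpowers]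
    exact hq
  have hst := hN.isPStableOn hp hP'p ⟨g, hg⟩ hq'
  have hC : Subgroup.centralizer (P' : Set N) = (Subgroup.centralizer (P : Set X)).subgroupOf N := by
    ext x
    rw [Subgroup.mem_centralizer_iff, Subgroup.mem_subgroupOf, Subgroup.mem_centralizer_iff]
    exact ⟨fun h1 y hy => congrArg Subtype.val (h1 ⟨y, hPN hy⟩ hy),
      fun h1 y hy => Subtype.ext (h1 y hy)⟩
  rw [← Cores.map_pCore_equiv (QuotientGroup.quotientMulEquivOfEq hC)]
  exact ⟨_, hst, rfl⟩

theorem isNormalizerPStable_sections {G : Type u} [Group G] [Finite G] {p : ℕ} [Fact p.Prime]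
    (hp : p ≠ 2) (h : ¬ Cfsg.Involves ↥(Cfsg.qd p) G) (K R : Subgroup G)
    [(R.subgroupOf K).Normal] : Cfsg.IsNormalizerPStable p (↥K ⧸ R.subgroupOf K) :=
  isNormalizerPStable_of_free hp fun hs => h
    (involves_of_involves_image (QuotientGroup.mk' _) (QuotientGroup.mk'_surjective _) hs)

/-- If no automizer of a p-subgroup has an `SL(2, p)` section, `Qd(p)` is not involved. -/
theorem not_involves_qd {G : Type u} [Group G] [Finite G] {p : ℕ} [Fact p.Prime]
    (hfree : ∀ Q : Subgroup G, IsPGroup p ↥Q → ¬ ∃ (H K : Subgroup G) (_ : (K.subgroupOf H).Normal),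
      Subgroup.centralizer (Q : Set G) ≤ K ∧ K ≤ H ∧ H ≤ Subgroup.normalizer (Q : Set G) ∧
      Nonempty ((↥H ⧸ K.subgroupOf H) ≃* Matrix.SpecialLinearGroup (Fin 2) (ZMod p))) :
    ¬ Cfsg.Involves ↥(Cfsg.qd p) G := by
  intro h
  obtain ⟨H, f', hf'⟩ := exists_surjective_of_involves h
  let f : ↥H →* ↥(Cfsg.qdOver (ZMod p)) := f'
  have hf : Function.Surjective f := hf'
  set ρ := (Qd.lin (F := ZMod p)).comp f with hρdef
  have hρ : Function.Surjective ρ := Qd.lin_surjective.comp hf
  set M := ρ.ker with hM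
  obtain ⟨T⟩ : Nonempty (Sylow p M) := inferInstance
  set Q' := (T : Subgroup M).map M.subtype with hQ'
  set Q := Q'.map H.subtype with hQ
  have hQp : IsPGroup p Q := (T.2.map _).map _
  have hfr : Subgroup.normalizer (Q' : Set ↥H) ⊔ M = ⊤ := Sylow.normalizer_sup_eq_top T
  set N := (Subgroup.normalizer (Q' : Set ↥H)).map H.subtype with hN
  have hNle : N ≤ Subgroup.normalizer (Q : Set G) := by
    rw [hN, hQ]
    exact Subgroup.le_normalizer_map _
  set C := Subgroup.centralizer (Q : Set G) with hCdef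
  set L := (Subgroup.normalizer (Q' : Set ↥H) ⊓ M).map H.subtype with hL
  set A := N ⊔ C with hA
  set K := L ⊔ C with hK
  have hCn : Subgroup.normalizer (Q : Set G) ≤ Subgroup.normalizer (C : Set G) :=
    norm_le_norm_cent Q
  have hAle : A ≤ Subgroup.normalizer (Q : Set G) :=
    sup_le hNle (Subgroup.centralizer_le_normalizer (Q : Set G))
  have hLN : N ≤ Subgroup.normalizer (L : Set G) := by
    rintro _ ⟨n, hn, rfl⟩
    refine Subgroup.le_normalizer_map H.subtype ⟨n, ?_, rfl⟩
    exact Subgroup.inf_normalizer_le_normalizer_inf ⟨Subgroup.le_normalizer hn, by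
      rw [Subgroup.normalizer_eq_top (H := M)]; trivial⟩
  have hKA : K ≤ A := sup_le_sup_right (Subgroup.map_mono inf_le_left) C
  have hLQ : L ≤ Subgroup.normalizer (C : Set G) :=
    ((Subgroup.map_mono inf_le_left).trans hNle).trans hCn
  have hAK : A ≤ Subgroup.normalizer (K : Set G) := by
    refine sup_le (fun n hn => ?_) (le_trans le_sup_right Subgroup.le_normalizer)
    rw [Subgroup.mem_normalizer_iff_map_conj_eq, Subgroup.map_sup]
    exact congrArg₂ (· ⊔ ·) (Subgroup.mem_normalizer_iff_map_conj_eq.1 (hLN hn))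
      (Subgroup.mem_normalizer_iff_map_conj_eq.1 (hCn (hNle hn)))
  haveI hKn : (K.subgroupOf A).Normal := (Subgroup.normal_subgroupOf_iff_le_normalizer hKA).2 hAK
  refine hfree Q hQp ⟨A, K, hKn, le_sup_right, hKA, hAle, ⟨?_⟩⟩
  -- the isomorphism
  let N' := Subgroup.normalizer (Q' : Set ↥H)
  let ψ : N' →* ↥A ⧸ K.subgroupOf A := (QuotientGroup.mk' _).comp
    ((H.subtype.comp N'.subtype).codRestrict A fun n => le_sup_left (a := N) ⟨_, n.2, rfl⟩)
  have hψ : Function.Surjective ψ := by
    intro a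
    induction a using QuotientGroup.induction_on with
    | H a =>
      have ha : (a : G) ∈ N ⊔ C := a.2
      rw [← SetLike.mem_coe, Subgroup.coe_mul_of_left_le_normalizer_right N C
        (hNle.trans hCn)] at ha
      obtain ⟨_, ⟨n, hn, rfl⟩, c, hc, hac⟩ := Set.mem_mul.1 ha
      refine ⟨⟨n, hn⟩, QuotientGroup.eq.2 ?_⟩
      rw [Subgroup.mem_subgroupOf]
      show ((n : ↥H) : G)⁻¹ * a ∈ K
      rw [← hac]
      simpa using le_sup_right (a := L) hc
  have hcent : ∀ m : ↥H, (m : G) ∈ C → m ∈ M := by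
    intro m hm
    have hmap : Q'.map f = (Qd.lin (F := ZMod p)).ker := by
      have hMmap : M.map f = (Qd.lin (F := ZMod p)).ker := by
        rw [hM, hρdef, ← MonoidHom.comap_ker, Subgroup.map_comap_eq_self_of_surjective hf]
      let fM : M →* (Qd.lin (F := ZMod p)).ker :=
        (f.comp M.subtype).codRestrict _ fun x => x.2
      have hfM : Function.Surjective fM := by
        rintro ⟨v, hv⟩
        obtain ⟨x, hx, rfl⟩ := hMmap.ge hv
        exact ⟨⟨x, hx⟩, rfl⟩
      have htop : (T : Subgroup M).map fM = ⊤ := by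
        rw [← Sylow.coe_mapSurjective hfM T]
        have hk : IsPGroup p (Qd.lin (F := ZMod p)).ker := fun x =>
          ⟨1, Subtype.ext (by rw [pow_one]; exact Qd.pow_eq_one_of_lin x.2)⟩
        exact ((T.mapSurjective hfM).is_maximal' (hk.to_subgroup ⊤) le_top).symm
      rw [hQ', Subgroup.map_map]
      have : f.comp M.subtype = ((Qd.lin (F := ZMod p)).ker.subtype).comp fM := rfl
      rw [this, ← Subgroup.map_map, htop, ← MonoidHom.range_eq_map, Subgroup.range_subtype]
    refine Qd.eq_one_of_forall_mulVec fun v => ?_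
    obtain ⟨q, hq, hqv⟩ := hmap.ge (show Qd.mkEl 1 v ∈ (Qd.lin (F := ZMod p)).ker from
      Qd.lin_mkEl 1 v)
    have hqm : q * m = m * q :=
      Subtype.ext (Subgroup.mem_centralizer_iff.1 hm _ ⟨q, hq, rfl⟩)
    have h2 := (Qd.conj_translation (f m) (Qd.mkEl 1 v) (Qd.lin_mkEl 1 v)).2
    rw [← hqv, ← map_mul, ← map_inv, ← map_mul, ← hqm, mul_inv_cancel_right, hqv,
      Qd.tr_mkEl] at h2
    exact h2.symm
  have hker : ψ.ker = (ρ.comp N'.subtype).ker := by
    ext n
    rw [MonoidHom.mem_ker, MonoidHom.mem_ker]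
    constructor
    · intro hn
      have hn' : ((n : ↥H) : G) ∈ L ⊔ C := (QuotientGroup.eq_one_iff (N := K.subgroupOf A) _).1 hn
      rw [← SetLike.mem_coe, Subgroup.coe_mul_of_left_le_normalizer_right L C hLQ] at hn'
      obtain ⟨_, ⟨l, hl, rfl⟩, c, hc, hlc⟩ := Set.mem_mul.1 hn'
      have hcH : c = ((l⁻¹ * n : ↥H) : G) := by
        simp [← hlc]
      have hM' := hcent (l⁻¹ * n) (hcH ▸ hc)
      have h3 := M.mul_mem hl.2 hM'
      rwa [mul_inv_cancel_left] at h3
    · intro hn
      exact (QuotientGroup.eq_one_iff _).2 (Subgroup.mem_sup_left (T := C) ⟨n, ⟨n.2, hn⟩, rfl⟩)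
  have hsurj : Function.Surjective (ρ.comp N'.subtype) := by
    intro a
    obtain ⟨x, rfl⟩ := hρ a
    have hx : x ∈ N' ⊔ M := hfr ▸ Subgroup.mem_top x
    rw [← SetLike.mem_coe, Subgroup.mul_normal] at hx
    obtain ⟨n, hn, m, hm, rfl⟩ := Set.mem_mul.1 hx
    exact ⟨⟨n, hn⟩, by rw [map_mul, show ρ m = 1 from hm, mul_one]; rfl⟩
  exact (QuotientGroup.quotientKerEquivOfSurjective ψ hψ).symm.trans
    ((QuotientGroup.quotientMulEquivOfEq hker).trans
      (QuotientGroup.quotientKerEquivOfSurjective _ hsurj))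

end Cfsg.Agent.Tech.QdFree
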