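import Cfsg.Agent.CF.KControl
import Cfsg.Agent.Tech.Basic
import Cfsg.Agent.Tech.QdFree

/-!
When `N(K)` controls strong fusion for a p-subgroup `K` with `C_P(K) ≤ K`, there is a least
centric radical subgroup and its normalizer controls strong fusion.
-/

set_option autoImplicit false
set_option linter.style.haveILetI false

namespace Cfsg.Agent.Tech.CentricRadical

open Fusion
open scoped commutatorElement

universe u

variable {G : Type u} [Group G] [Finite G] {p : ℕ} [Fact p.Prime]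

/-- `N(Q)` controls strong fusion in `P`. -/
def Ctrl (P Q : Subgroup G) : Prop :=
  ∀ A : Subgroup G, A ≤ P → ∀ g : G, A.map (MulAut.conj g).toMonoidHom ≤ P →
    ∃ h ∈ Subgroup.normalizer (Q : Set G), ∀ a ∈ A, h * a * h⁻¹ = g * a * g⁻¹

/-- A Sylow subgroup of a normal subgroup, mapped into the group. -/
theorem exists_sylow_inf {H C : Subgroup G} (P : Sylow p G) (hPH : (P : Subgroup G) ≤ H)
    (hCH : C ≤ H) (hn : H ≤ Subgroup.normalizer (C : Set G)) :
    ∃ R : Sylow p C, (R : Subgroup C).map C.subtype = (P : Subgroup G) ⊓ C := by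
  haveI : (C.subgroupOf H).Normal := (Subgroup.normal_subgroupOf_iff_le_normalizer hCH).2 hn
  obtain ⟨R0, hR0⟩ := exists_sylow_of_inf_normal (P.subtype hPH) (C.subgroupOf H)
  let e : C.subgroupOf H ≃* C := Subgroup.subgroupOfEquivOfLe hCH
  have hsurj : Function.Surjective e.toMonoidHom := e.surjective
  refine ⟨R0.mapSurjective hsurj, ?_⟩
  have h1 : C.subtype.comp e.toMonoidHom = H.subtype.comp (C.subgroupOf H).subtype := rfl
  rw [Sylow.coe_mapSurjective, Subgroup.map_map, h1, ← Subgroup.map_map, hR0,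
    Subgroup.map_inf _ _ _ H.subtype_injective, Sylow.coe_subtype,
    Subgroup.map_subgroupOf_eq_of_le hPH, Subgroup.map_subgroupOf_eq_of_le hCH]

theorem exists_least {P : Sylow p G} {K : Subgroup G} (hKP : K ≤ (P : Subgroup G))
    (hPK : (P : Subgroup G) ≤ Subgroup.normalizer (K : Set G)) (hK : Ctrl (P : Subgroup G) K)
    (hKc : (P : Subgroup G) ⊓ Subgroup.centralizer (K : Set G) ≤ K)
    (cr : Subgroup G → Prop)
    (hcr : ∀ Q : Subgroup G, cr Q ↔ (Q ≤ (P : Subgroup G) ∧
      (∃ R : Sylow p ↥(Subgroup.centralizer (Q : Set G)),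
        (R : Subgroup ↥(Subgroup.centralizer (Q : Set G))).map
          (Subgroup.centralizer (Q : Set G)).subtype = Q ⊓ Subgroup.centralizer (Q : Set G)) ∧
      ∀ X : Subgroup G, X ≤ Subgroup.normalizer (Q : Set G) →
        (∀ n ∈ Subgroup.normalizer (Q : Set G), X.map (MulAut.conj n).toMonoidHom = X) →
        Q ⊔ Subgroup.centralizer (Q : Set G) ≤ X →
        (∃ k : ℕ, (Q ⊔ Subgroup.centralizer (Q : Set G)).relIndex X = p ^ k) →
        X = Q ⊔ Subgroup.centralizer (Q : Set G))) :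
    ∃ Q : Subgroup G, cr Q ∧ (∀ R : Subgroup G, cr R → Q ≤ R) ∧
      (∀ x ∈ (P : Subgroup G), Q.map (MulAut.conj x).toMonoidHom = Q) ∧
      ∀ A : Subgroup G, A ≤ (P : Subgroup G) → ∀ g : G,
        A.map (MulAut.conj g).toMonoidHom ≤ (P : Subgroup G) →
        ∃ h ∈ Subgroup.normalizer (Q : Set G), ∃ c ∈ Subgroup.centralizer (A : Set G),
          g = h * c := by
  obtain ⟨Q, -, hQmax⟩ := Finite.exists_le_maximal (α := Subgroup G) (a := K)
    (p := fun T => K ≤ T ∧ T ≤ (P : Subgroup G) ∧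
      (P : Subgroup G) ≤ Subgroup.normalizer (T : Set G) ∧ Ctrl (P : Subgroup G) T)
    ⟨le_rfl, hKP, hPK, hK⟩
  obtain ⟨hKQ, hQP, hPQ, hQ⟩ := hQmax.prop
  set N := Subgroup.normalizer (Q : Set G) with hN
  set C := Subgroup.centralizer (Q : Set G) with hC
  have hCN : C ≤ N := Subgroup.centralizer_le_normalizer _
  have hNC : N ≤ Subgroup.normalizer (C : Set G) := QdFree.norm_le_norm_cent _
  have hcen : (P : Subgroup G) ⊓ C = Q ⊓ C := le_antisymm
    (le_inf ((inf_le_inf_left _ (Subgroup.centralizer_le hKQ)).trans (hKc.trans hKQ)) inf_le_right)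
    (inf_le_inf_right _ hQP)
  have hsyl : ∃ R : Sylow p C, (R : Subgroup C).map C.subtype = Q ⊓ C := by
    rw [← hcen]
    exact exists_sylow_inf P hPQ hCN hNC
  refine ⟨Q, (hcr Q).2 ⟨hQP, hsyl, fun X hXN hXn hQX hidx => ?_⟩, ?_, fun x hx => ?_,
    fun A hA g hg => ?_⟩
  · -- radicality
    set T := (P : Subgroup G) ⊓ X with hT
    have hPT : (P : Subgroup G) ≤ Subgroup.normalizer (T : Set G) := fun x hx =>
      Subgroup.inf_normalizer_le_normalizer_inf ⟨Subgroup.le_normalizer hx,
        Subgroup.mem_normalizer_iff_map_conj_eq.2 (hXn x (hPQ hx))⟩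
    have hNX : N ≤ Subgroup.normalizer (X : Set G) := fun n hn =>
      Subgroup.mem_normalizer_iff_map_conj_eq.2 (hXn n hn)
    have hQT : Q ≤ T := le_inf hQP (le_sup_left.trans hQX)
    obtain ⟨T0, hT0⟩ := exists_sylow_inf P hPQ hXN hNX
    have hC0 : ∀ Y : Subgroup G, IsPGroup p Y → Y ≤ C → Y ≤ Q ⊓ C := by
      intro Y hY hYC
      obtain ⟨R, hR⟩ := hsyl
      haveI hRn : (R : Subgroup C).Normal := by
        refine ⟨fun r hr c => ?_⟩
        have hr' : (r : G) ∈ Q ⊓ C := hR.le ⟨r, hr, rfl⟩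
        have hcr' := Subgroup.mem_centralizer_iff.1 c.2 (r : G) hr'.1
        have : c * r * c⁻¹ = r := Subtype.ext (by
          simp only [Subgroup.coe_mul, Subgroup.coe_inv]
          rw [← hcr', mul_inv_cancel_right])
        rw [this]
        exact hr
      intro y hy
      obtain ⟨R', hR'⟩ := (hY.comap_subtype (K := C)).exists_le_sylow
      haveI := Sylow.unique_of_normal R hRn
      rw [Subsingleton.elim R' R] at hR'
      exact hR.le ⟨⟨y, hYC hy⟩, hR' hy, rfl⟩
    have hctrl : Ctrl (P : Subgroup G) T := by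
      intro A hA g hg
      obtain ⟨h, hh, hha⟩ := hQ A hA g hg
      -- Frattini inside `N`
      haveI : (X.subgroupOf N).Normal :=
        (Subgroup.normal_subgroupOf_iff_le_normalizer hXN).2 hNX
      obtain ⟨R, hR⟩ := exists_sylow_of_inf_normal (P.subtype hPQ) (X.subgroupOf N)
      have hfr := Sylow.normalizer_sup_eq_top R
      rw [hR] at hfr
      obtain ⟨n, hn, hnh⟩ : ∃ n : G, (n ∈ N ∧ n ∈ Subgroup.normalizer (T : Set G)) ∧ h * n⁻¹ ∈ X := by
        have hmem : (⟨h, hh⟩ : N) ∈ X.subgroupOf N ⊔ Subgroup.normalizer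
            ((((P.subtype hPQ : Sylow p N) : Subgroup N) ⊓ X.subgroupOf N : Subgroup N) : Set N) := by
          rw [sup_comm, hfr]; trivial
        rw [← SetLike.mem_coe, Subgroup.normal_mul] at hmem
        obtain ⟨x, hx, n, hn, hxn⟩ := Set.mem_mul.1 hmem
        refine ⟨n, ⟨n.2, ?_⟩, ?_⟩
        · have h2 := Subgroup.le_normalizer_map N.subtype ⟨n, hn, rfl⟩
          rw [Subgroup.map_inf _ _ _ N.subtype_injective, Sylow.coe_subtype,
            Subgroup.map_subgroupOf_eq_of_le hPQ, Subgroup.map_subgroupOf_eq_of_le hXN] at h2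
          exact h2
        · have h2 : (x : G) * n = h := congrArg Subtype.val hxn
          rw [← h2, mul_inv_cancel_right]
          exact hx
      -- `X = T C`, so the correcting element may be taken in `C`
      have hXTC : X ≤ C ⊔ T := by
        have hTC : C ⊔ T ≤ X := sup_le (le_sup_right.trans hQX) inf_le_right
        obtain ⟨k, hk⟩ := hidx
        have h1 : (C ⊔ T).relIndex X ∣ p ^ k := hk ▸
          Subgroup.relIndex_dvd_of_le_left X (sup_le (hQT.trans le_sup_right) le_sup_left)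
        have h2 : (C ⊔ T).relIndex X ∣ T.relIndex X :=
          Subgroup.relIndex_dvd_of_le_left X le_sup_right
        have h3 : ¬ p ∣ T.relIndex X := by
          have hTX : T.subgroupOf X = (T0 : Subgroup X) := by
            rw [show T = (T0 : Subgroup X).map X.subtype from hT0.symm, Subgroup.subgroupOf,
              Subgroup.comap_map_eq_self_of_injective X.subtype_injective]
          rw [Subgroup.relIndex, hTX]
          exact T0.not_dvd_index
        obtain ⟨j, -, hj⟩ := (Nat.dvd_prime_pow Fact.out).1 h1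
        rcases Nat.eq_zero_or_pos j with rfl | hj0
        · exact Subgroup.relIndex_eq_one.1 (by simpa using hj)
        · exact absurd ((dvd_pow_self p hj0.ne').trans (hj ▸ h2)) h3
      have hmem : h * n⁻¹ ∈ C ⊔ T := hXTC hnh
      rw [← SetLike.mem_coe, Subgroup.coe_mul_of_right_le_normalizer_left C T
        ((inf_le_right.trans hXN).trans hNC)] at hmem
      obtain ⟨c, hc, t, ht, hct⟩ := Set.mem_mul.1 hmem
      set m := t * n with hm
      have hmN : m ∈ N := N.mul_mem (hXN ht.2) hn.1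
      have hmT : m ∈ Subgroup.normalizer (T : Set G) :=
        (Subgroup.normalizer (T : Set G)).mul_mem (Subgroup.le_normalizer ht) hn.2
      have hhm : h = c * m := by
        rw [hm, ← mul_assoc, show c * t = h * n⁻¹ from hct, inv_mul_cancel_right]
      -- two Sylow subgroups of `C₀ A'` inside `N(T)`
      set A' := A.map (MulAut.conj m).toMonoidHom with hA'
      set B := A.map (MulAut.conj h).toMonoidHom with hB
      set M := N ⊓ Subgroup.normalizer (T : Set G) with hMdef
      set C0 := C ⊓ M with hC0'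
      have hA'M : A' ≤ M := by
        rintro _ ⟨a, ha, rfl⟩
        exact M.mul_mem (M.mul_mem ⟨hmN, hmT⟩ ⟨hPQ (hA ha), hPT (hA ha)⟩) (M.inv_mem ⟨hmN, hmT⟩)
      have hBP : B ≤ (P : Subgroup G) := by
        rintro _ ⟨a, ha, rfl⟩
        show h * a * h⁻¹ ∈ (P : Subgroup G)
        rw [hha a ha]
        exact hg ⟨a, ha, rfl⟩
      have hBM : B ≤ M := hBP.trans (le_inf hPQ hPT)
      have hMC : M ≤ Subgroup.normalizer (C0 : Set G) := fun x hx =>
        Subgroup.inf_normalizer_le_normalizer_inf ⟨hNC hx.1, Subgroup.le_normalizer hx⟩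
      set D := C0 ⊔ A' with hD
      have hdiff : ∀ a ∈ A, ⁅c, m * a * m⁻¹⁆ ∈ C0 := by
        intro a ha
        have h1 : m * a * m⁻¹ ∈ M := hA'M ⟨a, ha, rfl⟩
        have h2 : h * a * h⁻¹ ∈ M := hBM ⟨a, ha, rfl⟩
        have he : ⁅c, m * a * m⁻¹⁆ = h * a * h⁻¹ * (m * a * m⁻¹)⁻¹ := by
          rw [hhm, commutatorElement_def]; group
        have he2 : ⁅c, m * a * m⁻¹⁆ = c * (m * a * m⁻¹ * c⁻¹ * (m * a * m⁻¹)⁻¹) := by
          rw [commutatorElement_def]; group
        have h3 := (Subgroup.mem_normalizer_iff.1 (hNC h1.1) c⁻¹).1 (C.inv_mem hc)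
        exact ⟨by rw [he2]; exact C.mul_mem hc h3,
          by rw [he]; exact M.mul_mem h2 (M.inv_mem h1)⟩
      have hBD : B ≤ D := by
        rintro _ ⟨a, ha, rfl⟩
        show h * a * h⁻¹ ∈ D
        have : h * a * h⁻¹ = ⁅c, m * a * m⁻¹⁆ * (m * a * m⁻¹) := by
          rw [hhm, commutatorElement_def]; group
        rw [this]
        exact D.mul_mem (le_sup_left (a := C0) (hdiff a ha)) (le_sup_right (b := A') ⟨a, ha, rfl⟩)
      -- in `D` the p-subgroups are conjugate into a Sylow subgroup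
      haveI : (C0.subgroupOf D).Normal := (Subgroup.normal_subgroupOf_iff_le_normalizer le_sup_left).2
        ((sup_le inf_le_right hA'M).trans hMC)
      have hAp : IsPGroup p A := P.2.to_le hA
      obtain ⟨SA, hSA⟩ := ((hAp.map (MulAut.conj m).toMonoidHom).comap_subtype (K := D)).exists_le_sylow
      obtain ⟨SB, hSB⟩ := ((hAp.map (MulAut.conj h).toMonoidHom).comap_subtype (K := D)).exists_le_sylow
      obtain ⟨d, hd⟩ := MulAction.exists_smul_eq ↥D SA SB
      have hdD : (d : G) ∈ C0 ⊔ A' := d.2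
      rw [← SetLike.mem_coe, Subgroup.coe_mul_of_right_le_normalizer_left C0 A'
        (hA'M.trans hMC)] at hdD
      obtain ⟨c0, hc0, a', ha', hda⟩ := Set.mem_mul.1 hdD
      have hfix : ∀ y ∈ A', c0 * y * c0⁻¹ ∈ (SB : Subgroup D).map D.subtype := by
        intro y hy
        have hy1 : a'⁻¹ * y * a' ∈ A' := A'.mul_mem (A'.mul_mem (A'.inv_mem ha') hy) ha'
        have hy' : a'⁻¹ * y * a' ∈ D := le_sup_right (b := A') hy1
        have hmem : (⟨a'⁻¹ * y * a', hy'⟩ : D) ∈ (SA : Subgroup D) := hSA hy1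
        refine ⟨d * ⟨a'⁻¹ * y * a', hy'⟩ * d⁻¹, ?_, ?_⟩
        · rw [← hd]
          exact Subgroup.smul_mem_pointwise_smul _ (MulAut.conj d) _ hmem
        · show (d : G) * (a'⁻¹ * y * a') * (d : G)⁻¹ = _
          rw [← hda]; group
      set e := c0⁻¹ * c with he
      have heC : e ∈ C := C.mul_mem (C.inv_mem hc0.1) hc
      obtain ⟨k', l, hl, hord⟩ := Nat.exists_eq_pow_mul_and_not_dvd (orderOf_pos e).ne' p
        (Fact.out : p.Prime).ne_one
      have hlp : l.Coprime p := ((Fact.out : p.Prime).coprime_iff_not_dvd.2 hl).symm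
      obtain ⟨u, v, huv⟩ := (Nat.isCoprime_iff_coprime.2 (hlp.symm.pow_left k') :
        IsCoprime ((p ^ k' : ℕ) : ℤ) (l : ℤ))
      set e1 := (e ^ p ^ k') ^ u with he1
      set e2 := (e ^ l) ^ v with he2
      have he12 : e = e2 * e1 := by
        rw [he1, he2, ← zpow_natCast, ← zpow_natCast, ← zpow_mul, ← zpow_mul, ← zpow_add,
          mul_comm ((p ^ k' : ℕ) : ℤ), mul_comm (l : ℤ), add_comm, huv, zpow_one]
      have he2p : IsPGroup p (Subgroup.zpowers (e ^ l)) := by
        have : (e ^ l) ^ p ^ k' = 1 := by rw [← pow_mul, mul_comm, ← hord, pow_orderOf_eq_one]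
        obtain ⟨i, -, hi⟩ := (Nat.dvd_prime_pow Fact.out).1 (orderOf_dvd_of_pow_eq_one this)
        exact IsPGroup.of_card (n := i) (by rw [Nat.card_zpowers, hi])
      have he2Q : e2 ∈ Q ⊓ C := (Q ⊓ C).zpow_mem
        (hC0 _ he2p ((Subgroup.zpowers_le).2 (C.pow_mem heC l)) (Subgroup.mem_zpowers _)) v
      have he1C : e1 ∈ C := C.zpow_mem (C.pow_mem heC _) u
      have he1c : (orderOf e1).Coprime p := by
        refine Nat.Coprime.coprime_dvd_left (orderOf_dvd_of_pow_eq_one (n := l) ?_) hlp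
        rw [he1, ← zpow_natCast, ← zpow_mul, mul_comm, zpow_mul, zpow_natCast, ← pow_mul, ← hord,
          pow_orderOf_eq_one, one_zpow]
      refine ⟨c0 * e2 * m, (Subgroup.normalizer (T : Set G)).mul_mem
        ((Subgroup.normalizer (T : Set G)).mul_mem hc0.2.2 (Subgroup.le_normalizer (hQT he2Q.1))) hmT,
        fun a ha => ?_⟩
      rw [← hha a ha]
      set y := m * a * m⁻¹ with hy
      have hy' : y ∈ A' := ⟨a, ha, rfl⟩
      set W := (SB : Subgroup D).map D.subtype with hW
      have hWp : IsPGroup p W := SB.2.map _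
      have hb : h * a * h⁻¹ ∈ W := ⟨⟨_, hBD ⟨a, ha, rfl⟩⟩, hSB ⟨a, ha, rfl⟩, rfl⟩
      set z := h * a * h⁻¹ * (c0 * y * c0⁻¹)⁻¹ with hz
      have hyN : y ∈ N := (hA'M hy').1
      have hzC : z ∈ C := by
        have : z = ⁅c, y⁆ * (y * c0 * y⁻¹ * c0⁻¹)⁻¹⁻¹ * 1 := by
          rw [hz, hy, hhm, commutatorElement_def]; group
        rw [this]
        exact C.mul_mem (C.mul_mem (hdiff a ha).1 (C.inv_mem (C.inv_mem
          (C.mul_mem ((Subgroup.mem_normalizer_iff.1 (hNC hyN) c0).1 hc0.1)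
            (C.inv_mem hc0.1))))) C.one_mem
      have hzW : z ∈ W := W.mul_mem hb (W.inv_mem (hfix y hy'))
      have hzQ : z ∈ Q ⊓ C := hC0 (W ⊓ C) (hWp.to_le inf_le_left) inf_le_right ⟨hzW, hzC⟩
      have hez : ⁅e, y⁆ = z := by
        have h1 : c0⁻¹ * z * c0 = ⁅e, y⁆ := by
          rw [hz, he, hy, hhm, commutatorElement_def]; group
        rw [← h1, mul_assoc,
          Subgroup.mem_centralizer_iff.1 hc0.1 z hzQ.1, inv_mul_cancel_left]
      have he2y : ⁅e2, y⁆ ∈ Q ⊓ C := by
        have h1 : y * e2⁻¹ * y⁻¹ ∈ Q ⊓ C :=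
          ⟨(Subgroup.mem_normalizer_iff.1 hyN _).1 (Q.inv_mem he2Q.1),
            (Subgroup.mem_normalizer_iff.1 (hNC hyN) _).1 (C.inv_mem he2Q.2)⟩
        have : ⁅e2, y⁆ = e2 * (y * e2⁻¹ * y⁻¹) := by rw [commutatorElement_def]; group
        rw [this]
        exact (Q ⊓ C).mul_mem he2Q h1
      have hprod : z = e2 * ⁅e1, y⁆ * e2⁻¹ * ⁅e2, y⁆ := by
        rw [← hez, he12]; simp only [commutatorElement_def]; group
      have hey : ⁅e1, y⁆ ∈ Q ⊓ C := by
        have : ⁅e1, y⁆ = e2⁻¹ * (z * ⁅e2, y⁆⁻¹) * e2 := by rw [hprod]; group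
        rw [this]
        exact (Q ⊓ C).mul_mem ((Q ⊓ C).mul_mem ((Q ⊓ C).inv_mem he2Q)
          ((Q ⊓ C).mul_mem hzQ ((Q ⊓ C).inv_mem he2y))) he2Q
      have he1y : ⁅e1, y⁆ = 1 := by
        have hcomm : Commute ⁅e1, y⁆ e1 := Subgroup.mem_centralizer_iff.1 he1C _ hey.1
        have hpow : ∀ k : ℕ, ⁅e1 ^ k, y⁆ = ⁅e1, y⁆ ^ k := by
          intro k
          induction k with
          | zero => simp
          | succ k ih =>
            have : ⁅e1 ^ (k + 1), y⁆ = e1 ^ k * ⁅e1, y⁆ * (e1 ^ k)⁻¹ * ⁅e1 ^ k, y⁆ := by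
              simp only [commutatorElement_def, pow_succ]; group
            rw [this, ih, (hcomm.symm.pow_left k).eq, mul_inv_cancel_right, pow_succ']
        obtain ⟨j, hj⟩ := (P.2.to_le hQP) ⟨_, hey.1⟩
        have h2 := hpow (orderOf e1)
        rw [pow_orderOf_eq_one, commutatorElement_one_left] at h2
        exact orderOf_eq_one_iff.1 (Nat.eq_one_of_dvd_coprimes (he1c.pow_right j)
          (orderOf_dvd_of_pow_eq_one h2.symm)
          (orderOf_dvd_of_pow_eq_one (by simpa using congrArg Subtype.val hj)))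
      have hc' : h = c0 * (e2 * e1) * m := by rw [← he12, he, mul_inv_cancel_left, hhm]
      have h1y : e1 * y * e1⁻¹ = y := by
        rw [commutatorElement_eq_one_iff_mul_comm.1 he1y, mul_inv_cancel_right]
      calc c0 * e2 * m * a * (c0 * e2 * m)⁻¹ = c0 * e2 * y * (c0 * e2)⁻¹ := by rw [hy]; group
        _ = c0 * e2 * (e1 * y * e1⁻¹) * (c0 * e2)⁻¹ := by rw [h1y]
        _ = h * a * h⁻¹ := by rw [hc', hy]; group
    -- maximality
    have hTQ : T = Q := le_antisymm (hQmax.le_of_ge ⟨hKQ.trans hQT, inf_le_left, hPT, hctrl⟩ hQT) hQT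
    refine le_antisymm ?_ hQX
    obtain ⟨k, hk⟩ := hidx
    have h2 : (Q ⊔ C).relIndex X ∣ T.relIndex X := by
      rw [hTQ]; exact Subgroup.relIndex_dvd_of_le_left X le_sup_left
    have h3 : ¬ p ∣ T.relIndex X := by
      have hTX : T.subgroupOf X = (T0 : Subgroup X) := by
        rw [show T = (T0 : Subgroup X).map X.subtype from hT0.symm, Subgroup.subgroupOf,
              Subgroup.comap_map_eq_self_of_injective X.subtype_injective]
      rw [Subgroup.relIndex, hTX]
      exact T0.not_dvd_index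
    rcases Nat.eq_zero_or_pos k with rfl | hk0
    · exact Subgroup.relIndex_eq_one.1 (by simpa using hk)
    · exact absurd ((dvd_pow_self p hk0.ne').trans (hk ▸ h2)) h3
  · intro R hR
    have hR' := (hcr R).1 hR
    set CR := Subgroup.centralizer (R : Set G) with hCR
    set NR := Subgroup.normalizer (R : Set G) with hNR
    obtain ⟨hRP, ⟨S, hS⟩, hrad⟩ := hR'
    set V := (Q ⊔ R) ⊓ NR with hV
    have hQRP : Q ⊔ R ≤ (P : Subgroup G) := sup_le hQP hRP
    have hVCR : V ⊔ CR ≤ NR := sup_le inf_le_right (Subgroup.centralizer_le_normalizer _)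
    have hRV : R ≤ V := le_inf le_sup_right Subgroup.le_normalizer
    have hX : V ⊔ CR = R ⊔ CR := by
      refine hrad (V ⊔ CR) hVCR (fun n hn => ?_) (sup_le_sup_right hRV CR) ?_
      · obtain ⟨h, hh, hha⟩ := hQ R hRP n
          ((Subgroup.mem_normalizer_iff_map_conj_eq.1 hn).le.trans hRP)
        have hhR : h ∈ NR := by
          refine Subgroup.mem_normalizer_iff_map_conj_eq.2 ?_
          conv_rhs => rw [← Subgroup.mem_normalizer_iff_map_conj_eq.1 hn]
          ext y
          constructor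
          · rintro ⟨r, hr, rfl⟩; exact ⟨r, hr, (hha r hr).symm⟩
          · rintro ⟨r, hr, rfl⟩; exact ⟨r, hr, hha r hr⟩
        have hhV : h ∈ Subgroup.normalizer (V : Set G) := by
          refine Subgroup.inf_normalizer_le_normalizer_inf
            ⟨(?_ : h ∈ Subgroup.normalizer ((Q ⊔ R : Subgroup G) : Set G)), Subgroup.le_normalizer hhR⟩
          rw [Subgroup.mem_normalizer_iff_map_conj_eq, Subgroup.map_sup]
          exact congrArg₂ (· ⊔ ·) (Subgroup.mem_normalizer_iff_map_conj_eq.1 hh)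
            (Subgroup.mem_normalizer_iff_map_conj_eq.1 hhR)
        have hhC : h⁻¹ * n ∈ CR := by
          refine Subgroup.mem_centralizer_iff.2 fun r hr => ?_
          calc r * (h⁻¹ * n) = h⁻¹ * (h * r * h⁻¹) * n := by group
            _ = h⁻¹ * n * r := by rw [hha r hr]; group
        have hn' : n ∈ Subgroup.normalizer ((V ⊔ CR : Subgroup G) : Set G) := by
          have : h ∈ Subgroup.normalizer ((V ⊔ CR : Subgroup G) : Set G) := by
            rw [Subgroup.mem_normalizer_iff_map_conj_eq, Subgroup.map_sup]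
            exact congrArg₂ (· ⊔ ·) (Subgroup.mem_normalizer_iff_map_conj_eq.1 hhV)
              (Subgroup.mem_normalizer_iff_map_conj_eq.1
                (QdFree.norm_le_norm_cent _ hhR))
          rw [show n = h * (h⁻¹ * n) by group]
          exact (Subgroup.normalizer ((V ⊔ CR : Subgroup G) : Set G)).mul_mem this
            (Subgroup.le_normalizer ((le_sup_right : CR ≤ V ⊔ CR) hhC))
        exact Subgroup.mem_normalizer_iff_map_conj_eq.1 hn'
      · have hVp : IsPGroup p V := P.2.to_le (inf_le_left.trans hQRP)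
        have hVn : V ≤ Subgroup.normalizer ((R ⊔ CR : Subgroup G) : Set G) := fun x hx => by
          rw [Subgroup.mem_normalizer_iff_map_conj_eq, Subgroup.map_sup]
          exact congrArg₂ (· ⊔ ·) (Subgroup.mem_normalizer_iff_map_conj_eq.1 hx.2)
            (Subgroup.mem_normalizer_iff_map_conj_eq.1
              (QdFree.norm_le_norm_cent _ hx.2))
        haveI : ((R ⊔ CR).subgroupOf (V ⊔ CR)).Normal :=
          (Subgroup.normal_subgroupOf_iff_le_normalizer (sup_le_sup_right hRV CR)).2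
            (sup_le hVn (le_sup_right.trans Subgroup.le_normalizer))
        refine IsPGroup.iff_card.1 (?_ : IsPGroup p (↥(V ⊔ CR) ⧸ (R ⊔ CR).subgroupOf (V ⊔ CR)))
        intro q
        induction q using QuotientGroup.induction_on with
        | H x =>
          have hx : (x : G) ∈ V ⊔ CR := x.2
          rw [← SetLike.mem_coe, Subgroup.coe_mul_of_left_le_normalizer_right V CR
            (fun y hy => QdFree.norm_le_norm_cent _ hy.2)] at hx
          obtain ⟨v, hv, c, hc, hvc⟩ := Set.mem_mul.1 hx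
          obtain ⟨j, hj⟩ := hVp ⟨v, hv⟩
          have hv' : v ∈ V ⊔ CR := (le_sup_left : V ≤ V ⊔ CR) hv
          refine ⟨j, ?_⟩
          have hxv : (x : ↥(V ⊔ CR) ⧸ (R ⊔ CR).subgroupOf (V ⊔ CR)) = ((⟨v, hv'⟩ : ↥(V ⊔ CR)) : ↥(V ⊔ CR) ⧸ (R ⊔ CR).subgroupOf (V ⊔ CR)) := by
            refine (QuotientGroup.eq.2 ?_).symm
            rw [Subgroup.mem_subgroupOf]
            show v⁻¹ * (x : G) ∈ R ⊔ CR
            rw [← hvc, inv_mul_cancel_left]
            exact le_sup_right (a := R) hc
          rw [hxv, ← QuotientGroup.mk_pow, show (⟨v, hv'⟩ : ↥(V ⊔ CR)) ^ p ^ j = 1 from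
            Subtype.ext (by simpa using congrArg Subtype.val hj)]
          rfl
    have hPR : (P : Subgroup G) ⊓ (R ⊔ CR) ≤ R := by
      intro x hx
      have hx2 : x ∈ R ⊔ CR := hx.2
      rw [← SetLike.mem_coe, Subgroup.coe_mul_of_left_le_normalizer_right R CR
        (Subgroup.le_normalizer.trans (QdFree.norm_le_norm_cent _))] at hx2
      obtain ⟨r, hr, c, hc, rfl⟩ := Set.mem_mul.1 hx2
      have hcP : c ∈ (P : Subgroup G) := by
        have := (P : Subgroup G).mul_mem ((P : Subgroup G).inv_mem (hRP hr)) hx.1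
        rwa [inv_mul_cancel_left] at this
      haveI hSn : (S : Subgroup CR).Normal := by
        refine ⟨fun s hs b => ?_⟩
        have hs' : (s : G) ∈ R ⊓ CR := hS.le ⟨s, hs, rfl⟩
        have hsb := Subgroup.mem_centralizer_iff.1 b.2 (s : G) hs'.1
        have : b * s * b⁻¹ = s := Subtype.ext (by
          simp only [Subgroup.coe_mul, Subgroup.coe_inv]
          rw [← hsb, mul_inv_cancel_right])
        rw [this]
        exact hs
      obtain ⟨S', hS'⟩ := (P.2.comap_subtype (K := CR)).exists_le_sylow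
      haveI := Sylow.unique_of_normal S hSn
      rw [Subsingleton.elim S' S] at hS'
      exact R.mul_mem hr (hS.le ⟨⟨c, hc⟩, hS' hcP, rfl⟩).1
    have hVR : V ≤ R := fun x hx =>
      hPR ⟨hQRP hx.1, hX.le ((le_sup_left : V ≤ V ⊔ CR) hx)⟩
    by_contra hQR
    have hlt : R < Q ⊔ R := lt_of_le_of_ne le_sup_right fun h => hQR (le_sup_left.trans h.ge)
    have hQRp : IsPGroup p ↥(Q ⊔ R) := P.2.to_le hQRP
    haveI := hQRp.isNilpotent
    have hne : R.subgroupOf (Q ⊔ R) < ⊤ := lt_top_iff_ne_top.2 fun h =>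
      hlt.not_ge (Subgroup.subgroupOf_eq_top.1 h)
    obtain ⟨x, hx, hxR⟩ := SetLike.exists_of_lt (Group.normalizerCondition_of_isNilpotent _ hne)
    exact hxR (hVR ⟨x.2, by
      refine Subgroup.mem_normalizer_iff_map_conj_eq.2 ?_
      have h := Subgroup.le_normalizer_map (Q ⊔ R).subtype ⟨x, hx, rfl⟩
      rw [Subgroup.map_subgroupOf_eq_of_le le_sup_right] at h
      exact Subgroup.mem_normalizer_iff_map_conj_eq.1 h⟩)
  · exact Subgroup.mem_normalizer_iff_map_conj_eq.1 (hPQ hx)
  · obtain ⟨h, hh, hha⟩ := hQ A hA g hg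
    refine ⟨h, hh, h⁻¹ * g, Subgroup.mem_centralizer_iff.2 fun a ha => ?_, by group⟩
    calc a * (h⁻¹ * g) = h⁻¹ * (h * a * h⁻¹) * g := by group
      _ = h⁻¹ * g * a := by rw [hha a ha]; group

end Cfsg.Agent.Tech.CentricRadical
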