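import Cfsg.Agent.Fusion.Basic
import Cfsg.Agent.Tech.Basic
import Cfsg.Agent.Tech.Induction
import Cfsg.Agent.Tech.Tight
import Cfsg.Agent.LocalP.Basic

/-!
If a subgroup controls strong fusion in a normal subgroup, the subgroup generated by its conjugates
under the normalizer of the Sylow intersection controls strong fusion in the whole group.
-/

set_option autoImplicit false
set_option linter.style.haveILetI false

namespace Cfsg.Agent.Tech

open Cfsg.Agent.Fusion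

variable {G : Type*} [Group G] [Finite G] {p : ℕ} [Fact p.Prime]

theorem strong_control_all (N : Subgroup G) [N.Normal] {Q V : Subgroup G}
    (hVQ : V ≤ Q)
    (hctrl : ∀ A : Subgroup G, A ≤ Q → ∀ n ∈ N, cj n A ≤ Q →
      ∃ h ∈ N ⊓ Subgroup.normalizer (V : Set G), ∃ c ∈ N ⊓ Subgroup.centralizer (A : Set G), n = h * c)
    (L : List G) (hL : ∀ m ∈ L, m ∈ Subgroup.normalizer (Q : Set G)) :
    ∀ A : Subgroup G, A ≤ Q → ∀ n ∈ N, cj n A ≤ Q →
      ∃ h ∈ N, (∀ a ∈ A, h * a * h⁻¹ = n * a * n⁻¹) ∧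
        ∀ m ∈ L, cj h (cj m V) = cj m V := by
  induction L with
  | nil => exact fun A _ n hn _ => ⟨n, hn, fun a _ => rfl, fun m hm => absurd hm List.not_mem_nil⟩
  | cons m L ih =>
    intro A hA n hn hnA
    have hm := hL m List.mem_cons_self
    have hNn : (N : Subgroup G).Normal := inferInstance
    have hA' : cj m⁻¹ A ≤ Q := (cj_mono _ hA).trans (cj_eq_of_mem (inv_mem hm)).le
    have hn' : m⁻¹ * n * m ∈ N := by simpa using hNn.conj_mem n hn m⁻¹
    have hnA' : cj (m⁻¹ * n * m) (cj m⁻¹ A) ≤ Q := by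
      rw [cj_cj, mul_inv_cancel_right, ← cj_cj]
      exact (cj_mono _ hnA).trans (cj_eq_of_mem (inv_mem hm)).le
    obtain ⟨h', ⟨hh'N, hh'V⟩, c', ⟨-, hc'⟩, hdec⟩ := hctrl _ hA' _ hn' hnA'
    have hagree : ∀ a ∈ A, (m * h' * m⁻¹) * a * (m * h' * m⁻¹)⁻¹ = n * a * n⁻¹ := by
      intro a ha
      have hc : (m⁻¹ * a * m) * c' = c' * (m⁻¹ * a * m) := hc' _ ⟨a, ha, by simp⟩
      have e : h' = m⁻¹ * n * m * c'⁻¹ := by rw [hdec]; group
      have hci : c'⁻¹ * (m⁻¹ * a * m) * c' = m⁻¹ * a * m := by rw [mul_assoc, hc, inv_mul_cancel_left]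
      calc (m * h' * m⁻¹) * a * (m * h' * m⁻¹)⁻¹
          = n * m * (c'⁻¹ * (m⁻¹ * a * m) * c') * m⁻¹ * n⁻¹ := by rw [e]; group
        _ = n * a * n⁻¹ := by rw [hci]; group
    have hfix : cj (m * h' * m⁻¹) (cj m V) = cj m V := by
      rw [cj_cj, inv_mul_cancel_right, ← cj_cj, cj_eq_of_mem hh'V]
    have hmV : cj m V ≤ Q := (cj_mono _ hVQ).trans (cj_eq_of_mem hm).le
    have hAV : A ⊔ cj m V ≤ Q := sup_le hA hmV
    obtain ⟨h, hhN, hhA, hhL⟩ := ih (fun x hx => hL x (List.mem_cons_of_mem _ hx)) (A ⊔ cj m V) hAV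
      (m * h' * m⁻¹) (hNn.conj_mem h' hh'N m) (by
        rw [cj, Subgroup.map_sup]
        refine sup_le ?_ (hfix.le.trans hmV)
        rintro _ ⟨a, ha, rfl⟩
        refine hnA ?_
        exact ⟨a, ha, by simpa [mul_assoc] using (hagree a ha).symm⟩)
    refine ⟨h, hhN, fun a ha => (hhA a (Subgroup.mem_sup_left ha)).trans (hagree a ha), ?_⟩
    intro x hx
    rcases List.mem_cons.mp hx with rfl | hx
    · conv_rhs => rw [← hfix]
      ext y
      constructor <;> rintro ⟨a, ha, rfl⟩ <;> refine ⟨a, ha, ?_⟩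
      · simpa [mul_assoc] using (hhA a (Subgroup.mem_sup_right ha)).symm
      · simpa [mul_assoc] using hhA a (Subgroup.mem_sup_right ha)
    · exact hhL x hx

theorem normal_closed_control (N : Subgroup G) [hNn : N.Normal] (P : Sylow p G) (V W : Subgroup G)
    (hV : V ≤ (P : Subgroup G) ⊓ N)
    (hctrl : ∀ A : Subgroup G, A ≤ (P : Subgroup G) ⊓ N → ∀ n ∈ N, cj n A ≤ (P : Subgroup G) ⊓ N →
      ∃ h ∈ N ⊓ Subgroup.normalizer (V : Set G), ∃ c ∈ N ⊓ Subgroup.centralizer (A : Set G), n = h * c)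
    (hW : W = Subgroup.closure (⋃ x ∈ Subgroup.normalizer (((P : Subgroup G) ⊓ N : Subgroup G) : Set G),
      ((cj x V : Subgroup G) : Set G))) :
    ∀ A : Subgroup G, A ≤ (P : Subgroup G) → ∀ g : G, cj g A ≤ (P : Subgroup G) →
      ∃ h ∈ Subgroup.normalizer (W : Set G), ∃ c ∈ Subgroup.centralizer (A : Set G), g = h * c := by
  classical
  set Q := (P : Subgroup G) ⊓ N with hQ
  set M₀ := Subgroup.normalizer (Q : Set G) with hM₀
  have hWgen : ∀ m ∈ M₀, cj m V ≤ W := fun m hm x hx => by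
    rw [hW]; exact Subgroup.subset_closure (Set.mem_biUnion hm hx)
  have hnormW : ∀ h : G, (∀ m ∈ M₀, ∃ m' ∈ M₀, cj h (cj m V) = cj m' V) →
      h ∈ Subgroup.normalizer (W : Set G) := by
    intro h hh
    rw [← cj_eq_iff_mem_normalizer]
    refine Subgroup.eq_of_le_of_card_ge ?_ (card_cj h W).ge
    conv_lhs => rw [hW]
    rw [cj, MonoidHom.map_closure, Subgroup.closure_le]
    rintro _ ⟨x, hx, rfl⟩
    obtain ⟨m, hm, hxm⟩ := Set.mem_iUnion₂.mp hx
    obtain ⟨m', hm', e⟩ := hh m hm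
    exact hWgen m' hm' (e ▸ ⟨x, hxm, rfl⟩)
  have hMW : M₀ ≤ Subgroup.normalizer (W : Set G) := fun h hh =>
    hnormW h fun m hm => ⟨h * m, mul_mem hh hm, cj_cj _ _ _⟩
  have hWQ : W ≤ Q := by
    rw [hW, Subgroup.closure_le]
    exact Set.iUnion₂_subset fun m hm => ((cj_mono m hV).trans (cj_eq_of_mem hm).le)
  have hPN : (P : Subgroup G) ≤ M₀ := sylow_le_normalizer_inf P N
  have hPW : (P : Subgroup G) ≤ Subgroup.normalizer (W : Set G) := hPN.trans hMW
  haveI : Fintype G := Fintype.ofFinite G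
  -- control in `N`
  have hN : ∀ A : Subgroup G, A ≤ Q → ∀ n ∈ N, cj n A ≤ Q →
      ∃ h ∈ N ⊓ Subgroup.normalizer (W : Set G), ∀ a ∈ A, h * a * h⁻¹ = n * a * n⁻¹ := by
    intro A hA n hn hnA
    obtain ⟨h, hh, hag, hall⟩ := strong_control_all N hV hctrl
      ((Finset.univ.filter (· ∈ M₀)).toList) (fun m hm => by simpa using hm) A hA n hn hnA
    exact ⟨h, ⟨hh, hnormW h fun m hm => ⟨m, hm, hall m (by simpa using hm)⟩⟩, hag⟩
  have hfact : ∀ g : G, ∃ m ∈ M₀, ∃ n ∈ N, g = m * n := by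
    intro g
    obtain ⟨Q', hQ'⟩ := exists_sylow_of_inf_normal P N
    have h := Sylow.normalizer_sup_eq_top Q'
    rw [hQ', ← hQ, ← hM₀] at h
    have hg : g ∈ M₀ ⊔ N := by rw [h]; exact Subgroup.mem_top g
    rw [Subgroup.mem_sup_of_normal_right] at hg
    obtain ⟨m, hm, n, hn, rfl⟩ := hg
    exact ⟨m, hm, n, hn, rfl⟩
  -- weak closure
  have hwc : ∀ g : G, cj g W ≤ (P : Subgroup G) → g ∈ Subgroup.normalizer (W : Set G) := by
    intro g hg
    obtain ⟨m, hm, n, hn, rfl⟩ := hfact g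
    refine mul_mem (hMW hm) ?_
    have hle : cj n W ≤ Q := by
      have h1 : cj (m * n) W ≤ Q := le_inf hg ((cj_mono _ (hWQ.trans inf_le_right)).trans
        (cj_eq_of_normal _ _).le)
      rw [← cj_cj] at h1
      have h2 := cj_mono m⁻¹ h1
      rwa [cj_inv_cj, cj_eq_of_mem (inv_mem hm)] at h2
    refine hnormW n fun x hx => ⟨x, hx, ?_⟩
    have hxQ : cj x⁻¹ (cj n (cj x V)) ≤ Q :=
      ((cj_mono _ ((cj_mono n (hWgen x hx)).trans hle))).trans (cj_eq_of_mem (inv_mem hx)).le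
    rw [cj_cj, cj_cj] at hxQ
    have hn' : x⁻¹ * n * x ∈ N := by simpa using hNn.conj_mem n hn x⁻¹
    obtain ⟨h, hh, c, hc, e⟩ := hctrl V hV _ hn' (by rwa [mul_assoc] at hxQ ⊢)
    have hfixV : cj (x⁻¹ * n * x) V = V := by
      rw [e, ← cj_cj, cj_eq_of_mem (Subgroup.centralizer_le_normalizer _ hc.2), cj_eq_of_mem hh.2]
    have h3 := congrArg (cj x) hfixV
    rw [cj_cj] at h3
    rw [cj_cj]
    convert h3 using 2
    group
  suffices key : ∀ k : ℕ, ∀ A : Subgroup G, A ≤ (P : Subgroup G) →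
      Nat.card (P : Subgroup G) ≤ Nat.card A + k → ∀ g : G, cj g A ≤ (P : Subgroup G) →
      ∃ h ∈ Subgroup.normalizer (W : Set G), ∃ c ∈ Subgroup.centralizer (A : Set G), g = h * c from
    fun A hA g hg => key _ A hA (Nat.le_add_left _ _) g hg
  intro k
  induction k with
  | zero =>
    intro A hA hc g hg
    have hAP := Subgroup.eq_of_le_of_card_ge hA hc
    refine ⟨g, hwc g ?_, 1, one_mem _, (mul_one g).symm⟩
    exact ((cj_mono g (hWQ.trans inf_le_left)).trans (cj_mono g hAP.ge)).trans hg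
  | succ k ih =>
    intro A hA hc g hg
    by_cases hWA : W ≤ A
    · exact ⟨g, hwc g ((cj_mono g hWA).trans hg), 1, one_mem _, (mul_one g).symm⟩
    have hne : A ≠ (P : Subgroup G) := fun e => hWA (e ▸ hWQ.trans inf_le_left)
    -- move to a fully normalized subgroup
    obtain ⟨m, hmle, hmA, hD⟩ := exists_fullyNormalized P hA
    set D := cj m A with hDdef
    set z := m * g⁻¹ with hzdef
    have hzB : cj z (cj g A) = D := by rw [cj_cj, hzdef, inv_mul_cancel_right]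
    obtain ⟨T, hT1, hT2⟩ := exists_sylow_inf_relIndex (p := p)
      (U := cj z (nor (P : Subgroup G) (cj g A))) (isPGroup_cj (P.2.to_le inf_le_left) z)
      (show cj z (nor (P : Subgroup G) (cj g A)) ≤ Subgroup.normalizer (D : Set G) by
        refine (cj_mono z inf_le_right).trans ?_
        rw [cj_normalizer, hzB])
    obtain ⟨y, hy, hyT⟩ := exists_conj_of_relIndex (T.2.to_le inf_le_left)
      (P.2.to_le inf_le_left) inf_le_right inf_le_right hT2 hD
    have hyle : cj (y * z) (nor (P : Subgroup G) (cj g A)) ≤ (P : Subgroup G) := by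
      rw [← cj_cj]
      refine ((cj_mono y (le_inf hT1 ?_)).trans hyT.le).trans inf_le_left
      refine (cj_mono z inf_le_right).trans ?_
      rw [cj_normalizer, hzB]
    have hneB : cj g A ≠ (P : Subgroup G) := fun e =>
      hne (Subgroup.eq_of_le_of_card_ge hA (by rw [← e, card_cj]))
    have hlA := card_lt_of_lt' (nor_lt P.2 hA hne)
    have hlB : Nat.card A < Nat.card (nor (P : Subgroup G) (cj g A)) :=
      (card_cj g A).ge.trans_lt (card_lt_of_lt' (nor_lt P.2 hg hneB))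
    obtain ⟨h1, hh1, c1, hc1, e1⟩ := ih (nor (P : Subgroup G) A) inf_le_left (by omega) m hmle
    obtain ⟨h2, hh2, c2, hc2, e2⟩ :=
      ih (nor (P : Subgroup G) (cj g A)) inf_le_left (by omega) (y * z) hyle
    have hc1A : c1 ∈ Subgroup.centralizer (A : Set G) :=
      Subgroup.centralizer_le (SetLike.coe_subset_coe.mpr (le_nor hA)) hc1
    have hc2B : c2 ∈ Subgroup.centralizer (cj g A : Set G) :=
      Subgroup.centralizer_le (SetLike.coe_subset_coe.mpr (le_nor hg)) hc2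
    -- the step inside the normalizer of `D`
    suffices hstep : ∃ h ∈ Subgroup.normalizer (W : Set G), ∃ c ∈ Subgroup.centralizer (D : Set G),
        y = h * c by
      obtain ⟨h3, hh3, c3, hc3, e3⟩ := hstep
      have hg' : g = c2⁻¹ * h2⁻¹ * (h3 * c3) * (h1 * c1) := by
        rw [← e3, ← e1]
        have : c2⁻¹ * h2⁻¹ = (y * z)⁻¹ := by rw [e2, mul_inv_rev]
        rw [this, hzdef]; group
      refine ⟨h2⁻¹ * h3 * h1, mul_mem (mul_mem (inv_mem hh2) hh3) hh1,
        (h2⁻¹ * h3 * h1)⁻¹ * g, fun a ha => ?_, by group⟩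
      -- both act alike on `a`
      have s1 : c1 * a * c1⁻¹ = a := by rw [← hc1A a ha]; group
      have hd : h1 * a * h1⁻¹ ∈ D := by
        have : h1 * a * h1⁻¹ = m * a * m⁻¹ := by
          rw [e1]
          calc h1 * a * h1⁻¹ = h1 * (c1 * a * c1⁻¹) * h1⁻¹ := by rw [s1]
            _ = _ := by group
        rw [this]; exact conj_mem_cj.mpr ha
      have s3 : c3 * (h1 * a * h1⁻¹) * c3⁻¹ = h1 * a * h1⁻¹ := by rw [← hc3 _ hd]; group
      have hga : g * a * g⁻¹ ∈ cj g A := conj_mem_cj.mpr ha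
      have s2 : c2 * (g * a * g⁻¹) * c2⁻¹ = g * a * g⁻¹ := by rw [← hc2B _ hga]; group
      have hact : g * a * g⁻¹ = (h2⁻¹ * h3 * h1) * a * (h2⁻¹ * h3 * h1)⁻¹ := by
        calc g * a * g⁻¹ = c2 * (g * a * g⁻¹) * c2⁻¹ := s2.symm
          _ = h2⁻¹ * h3 * (c3 * (h1 * (c1 * a * c1⁻¹) * h1⁻¹) * c3⁻¹) * h3⁻¹ * h2 := by
            rw [hg']; group
          _ = _ := by rw [s1, s3]; group
      show a * ((h2⁻¹ * h3 * h1)⁻¹ * g) = (h2⁻¹ * h3 * h1)⁻¹ * g * a
      set H := h2⁻¹ * h3 * h1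
      calc a * (H⁻¹ * g) = H⁻¹ * (H * a * H⁻¹) * g := by group
        _ = H⁻¹ * g * a := by rw [← hact]; group
    -- now `y` normalizes `D`
    by_cases hWD : W ≤ D
    · exact ⟨y, hwc y ((cj_mono y hWD).trans ((cj_eq_of_mem hy).le.trans hmA)), 1, one_mem _,
        (mul_one y).symm⟩
    set X := Subgroup.normalizer (D : Set G) with hX
    set D₀ := D ⊓ N with hD₀
    have hD₀Q : D₀ ≤ Q := inf_le_inf_right N hmA
    have hXD₀ : X ≤ Subgroup.normalizer (D₀ : Set G) := fun x hx => by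
      rw [← cj_eq_iff_mem_normalizer, cj_inf, cj_eq_of_mem hx, cj_eq_of_normal]
    have hauto : ∀ x ∈ X, ∃ u ∈ Subgroup.normalizer (W : Set G),
        ∀ a ∈ D₀, u * a * u⁻¹ = x * a * x⁻¹ := by
      intro x hx
      obtain ⟨m', hm', n', hn', rfl⟩ := hfact x
      have h' : cj n' D₀ ≤ Q := by
        have h1 : cj (m' * n') D₀ ≤ Q := (cj_eq_of_mem (hXD₀ hx)).le.trans hD₀Q
        rw [← cj_cj] at h1
        have h2' := cj_mono m'⁻¹ h1
        rwa [cj_inv_cj, cj_eq_of_mem (inv_mem hm')] at h2'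
      obtain ⟨h, hh, hag⟩ := hN D₀ hD₀Q n' hn' h'
      refine ⟨m' * h, mul_mem (hMW hm') hh.2, fun a ha => ?_⟩
      calc m' * h * a * (m' * h)⁻¹ = m' * (h * a * h⁻¹) * m'⁻¹ := by group
        _ = _ := by rw [hag a ha]; group
    let K : Subgroup G :=
      { carrier := {r | r ∈ N ⊓ X ∧ ∃ w ∈ W, ∀ a ∈ D₀, r * a * r⁻¹ = w * a * w⁻¹}
        one_mem' := ⟨one_mem _, 1, one_mem _, fun a _ => rfl⟩
        mul_mem' := fun {r r'} ⟨hr, w, hw, hwa⟩ ⟨hr', w', hw', hwa'⟩ =>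
          ⟨mul_mem hr hr', w * w', mul_mem hw hw', fun a ha => by
            have hmem : r' * a * r'⁻¹ ∈ D₀ := (Subgroup.mem_normalizer_iff.mp (hXD₀ hr'.2) a).mp ha
            calc r * r' * a * (r * r')⁻¹ = r * (r' * a * r'⁻¹) * r⁻¹ := by group
              _ = w * w' * a * (w * w')⁻¹ := by rw [hwa _ hmem, hwa' a ha]; group⟩
        inv_mem' := fun {r} ⟨hr, w, hw, hwa⟩ =>
          ⟨inv_mem hr, w⁻¹, inv_mem hw, fun a ha => by
            have hmem : r⁻¹ * a * r⁻¹⁻¹ ∈ D₀ :=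
              (Subgroup.mem_normalizer_iff.mp (hXD₀ (inv_mem hr.2)) a).mp ha
            have h := hwa _ hmem
            have e : r * (r⁻¹ * a * r⁻¹⁻¹) * r⁻¹ = a := by group
            rw [e] at h
            calc r⁻¹ * a * r⁻¹⁻¹ = w⁻¹ * (w * (r⁻¹ * a * r⁻¹⁻¹) * w⁻¹) * w⁻¹⁻¹ := by group
              _ = _ := by rw [← h]⟩ }
    have hKX : K ≤ X := fun r hr => hr.1.2
    have hKn : ∀ x ∈ X, ∀ r ∈ K, x * r * x⁻¹ ∈ K := by
      rintro x hx r ⟨hr, w, hw, hwa⟩
      obtain ⟨u, hu, hua⟩ := hauto x hx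
      refine ⟨⟨hNn.conj_mem r hr.1 x, X.mul_mem (X.mul_mem hx hr.2) (X.inv_mem hx)⟩, u * w * u⁻¹,
        (Subgroup.mem_normalizer_iff.mp hu w).mp hw, fun a ha => ?_⟩
      have hb : x⁻¹ * a * x⁻¹⁻¹ ∈ D₀ := (Subgroup.mem_normalizer_iff.mp (hXD₀ (inv_mem hx)) a).mp ha
      have h1 := hua _ hb
      have h2' : w * (x⁻¹ * a * x⁻¹⁻¹) * w⁻¹ ∈ D₀ := by
        rw [← hwa _ hb]
        exact (Subgroup.mem_normalizer_iff.mp (hXD₀ hr.2) _).mp hb
      have h3 := hua _ h2'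
      have h1' : x⁻¹ * a * x⁻¹⁻¹ = u⁻¹ * a * u := by
        calc x⁻¹ * a * x⁻¹⁻¹ = u⁻¹ * (u * (x⁻¹ * a * x⁻¹⁻¹) * u⁻¹) * u := by group
          _ = _ := by rw [h1]; group
      calc x * r * x⁻¹ * a * (x * r * x⁻¹)⁻¹
          = x * (r * (x⁻¹ * a * x⁻¹⁻¹) * r⁻¹) * x⁻¹ := by group
        _ = u * (w * (x⁻¹ * a * x⁻¹⁻¹) * w⁻¹) * u⁻¹ := by rw [hwa _ hb, h3]
        _ = u * w * u⁻¹ * a * (u * w * u⁻¹)⁻¹ := by rw [h1']; group
    have hXK : X ≤ Subgroup.normalizer (K : Set G) := LocalP.le_normalizer_of_conj_mem hKn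
    set PX := nor (P : Subgroup G) D with hPX
    have hKi : ¬ p ∣ (PX ⊓ K).relIndex K :=
      relIndex_not_dvd_of_normalizes (P.2.to_le inf_le_left) inf_le_right hKX hXK hD
    have hres : LocalP.resOf p K ≤ Subgroup.centralizer (D : Set G) := by
      refine LocalP.resOf_le_iff_forall.mpr fun r hr hro => ?_
      obtain ⟨hrNX, w, hw, hwa⟩ := hr
      have hpow : ∀ i : ℕ, ∀ a ∈ D₀, r ^ i * a * (r ^ i)⁻¹ = w ^ i * a * (w ^ i)⁻¹ := by
        intro i
        induction i with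
        | zero => intro a _; simp
        | succ i ihi =>
          intro a ha
          have hmem : r * a * r⁻¹ ∈ D₀ :=
            (Subgroup.mem_normalizer_iff.mp (hXD₀ hrNX.2) a).mp ha
          calc r ^ (i + 1) * a * (r ^ (i + 1))⁻¹ = r ^ i * (r * a * r⁻¹) * (r ^ i)⁻¹ := by
                rw [pow_succ]; group
            _ = w ^ i * (w * a * w⁻¹) * (w ^ i)⁻¹ := by rw [ihi _ hmem, hwa a ha]
            _ = _ := by rw [pow_succ]; group
      have hr0 : ∀ a ∈ D₀, r * a * r⁻¹ = a := by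
        intro a ha
        obtain ⟨e, he⟩ := P.2 ⟨w, (hWQ hw).1⟩
        have he' : w ^ p ^ e = 1 := congrArg Subtype.val he
        obtain ⟨j, hj⟩ := exists_pow_eq_self_of_coprime (hro.pow_right e).symm
        have h := hpow (p ^ e * j) a ha
        rw [pow_mul, hj, pow_mul, he', one_pow] at h
        simpa using h
      intro d hd
      have hc' : r * d * r⁻¹ * d⁻¹ ∈ D₀ := by
        refine ⟨D.mul_mem ((Subgroup.mem_normalizer_iff.mp hrNX.2 d).mp hd) (D.inv_mem hd), ?_⟩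
        have : r * d * r⁻¹ * d⁻¹ = r * (d * r⁻¹ * d⁻¹) := by group
        rw [this]
        exact mul_mem hrNX.1 (hNn.conj_mem _ (inv_mem hrNX.1) d)
      refine (LocalP.commute_of_step ?_ ?_).symm
      · exact mul_inv_eq_iff_eq_mul.mp (hr0 _ hc')
      · obtain ⟨e, he⟩ := P.2 ⟨_, hmA hc'.1⟩
        have he' : (r * d * r⁻¹ * d⁻¹) ^ p ^ e = 1 := congrArg Subtype.val he
        exact (hro.pow_right e).coprime_dvd_right (orderOf_dvd_of_pow_eq_one he')
    have hsup := LocalP.resOf_sup_eq (p := p) (inf_le_right : PX ⊓ K ≤ K) hKi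
    -- Frattini
    obtain ⟨r, hr, hrS⟩ := exists_conj_of_relIndex (S := cj y (PX ⊓ K)) (T := PX ⊓ K) (M := K)
      (isPGroup_cj (P.2.to_le (inf_le_left.trans inf_le_left)) y)
      (P.2.to_le (inf_le_left.trans inf_le_left))
      ((cj_mono y inf_le_right).trans (cj_eq_of_mem (hXK hy)).le) inf_le_right (by
        have e : (cj y (PX ⊓ K)).relIndex (cj y K) = (PX ⊓ K).relIndex K :=
          Subgroup.relIndex_map_map_of_injective _ _ (MulAut.conj y).injective
        rw [cj_eq_of_mem (hXK hy)] at e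
        rw [e]; exact hKi) hKi
    have hry : r * y ∈ Subgroup.normalizer ((PX ⊓ K : Subgroup G) : Set G) := by
      rw [← cj_eq_iff_mem_normalizer, ← cj_cj, hrS]
    have hryX : r * y ∈ X := mul_mem (hKX hr) hy
    set D' := D ⊔ (PX ⊓ K) with hD'
    have hD'P : D' ≤ (P : Subgroup G) := sup_le hmA (inf_le_left.trans inf_le_left)
    have hD'lt : D < D' := by
      refine lt_of_le_of_ne le_sup_left fun e => hWD ?_
      -- `N_W(D) ≤ D` forces `W ≤ D`
      have hWn : W ⊓ X ≤ D := fun w hw => e.ge (Subgroup.mem_sup_right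
        ⟨⟨(hWQ hw.1).1, hw.2⟩, ⟨(hWQ hw.1).2, hw.2⟩, w, hw.1, fun a _ => rfl⟩)
      by_contra hWD'
      have hlt : D < D ⊔ W := lt_of_le_of_ne le_sup_left fun e' => hWD' (e' ▸ le_sup_right)
      have h1 := lt_normalizer_inf (P.2.to_le (sup_le hmA (hWQ.trans inf_le_left))) hlt
      obtain ⟨x, ⟨hx1, hx2⟩, hx3⟩ := SetLike.exists_of_lt h1
      have hn : D ≤ Subgroup.normalizer (W : Set G) := hmA.trans hPW
      have hx1' : x ∈ ((W ⊔ D : Subgroup G) : Set G) := by rw [sup_comm]; exact hx1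
      rw [Subgroup.coe_mul_of_right_le_normalizer_left W D hn] at hx1'
      obtain ⟨w, hw, d, hd, rfl⟩ := hx1'
      have hwX : w ∈ X := (Subgroup.mul_mem_cancel_right _ (Subgroup.le_normalizer hd)).mp hx2
      exact hx3 (mul_mem (hWn ⟨hw, hwX⟩) hd)
    have hDcard : Nat.card D = Nat.card A := card_cj m A
    have hryD' : cj (r * y) D' ≤ (P : Subgroup G) := by
      rw [cj, Subgroup.map_sup]
      exact sup_le ((cj_eq_of_mem hryX).le.trans hmA)
        ((cj_eq_of_mem hry).le.trans (inf_le_left.trans inf_le_left))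
    obtain ⟨h4, hh4, c4, hc4, e4⟩ := ih D' hD'P
      (by have := card_lt_of_lt' hD'lt; omega) (r * y) hryD'
    have hc4D : c4 ∈ Subgroup.centralizer (D : Set G) :=
      Subgroup.centralizer_le (SetLike.coe_subset_coe.mpr le_sup_left) hc4
    have hr' : r ∈ ((LocalP.resOf p K ⊔ (PX ⊓ K) : Subgroup G) : Set G) := by rw [hsup]; exact hr
    rw [Subgroup.coe_mul_of_right_le_normalizer_left _ _
      (inf_le_right.trans (LocalP.le_normalizer_resOf K))] at hr'
    obtain ⟨c, hc, s, hs, hcs⟩ := hr'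
    change c * s = r at hcs
    have hh4X : h4 ∈ X := by
      have : h4 = (r * y) * c4⁻¹ := by rw [e4]; group
      rw [this]
      exact mul_mem hryX (Subgroup.centralizer_le_normalizer _ (inv_mem hc4D))
    refine ⟨s⁻¹ * h4, mul_mem (inv_mem (hPW hs.1.1)) hh4, (h4⁻¹ * c⁻¹ * h4) * c4,
      mul_mem ?_ hc4D, ?_⟩
    · intro d hd
      have h5 : h4 * d * h4⁻¹ ∈ D := (Subgroup.mem_normalizer_iff.mp hh4X d).mp hd
      have h6 : (h4 * d * h4⁻¹) * c⁻¹ = c⁻¹ * (h4 * d * h4⁻¹) := (Subgroup.centralizer (D : Set G)).inv_mem (hres hc) _ h5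
      calc d * (h4⁻¹ * c⁻¹ * h4) = h4⁻¹ * ((h4 * d * h4⁻¹) * c⁻¹) * h4 := by group
        _ = h4⁻¹ * c⁻¹ * h4 * d := by rw [h6]; group
    · calc y = r⁻¹ * (r * y) := by group
        _ = (s⁻¹ * c⁻¹) * (h4 * c4) := by rw [e4, ← hcs]; group
        _ = _ := by group

end Cfsg.Agent.Tech
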