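import Cfsg.Agent.Tech.PSolvableStep
import Cfsg.Agent.Tech.CentralizerFocal
import Cfsg.Agent.FusionSys.CentSys

/-!
A normal subsystem whose centralizer lies in `T` has `p`-power index in its envelope over `T C_S(T)`.
-/

set_option autoImplicit false

open Cfsg Cfsg.FusionSystem
open scoped commutatorElement Pointwise
open Cfsg.Agent.FusionSys Cfsg.Agent.FusionAlperin
open Cfsg.Agent.Tech.PSolvableStep (Good)

namespace Cfsg.Agent.Tech.SmallCentralizer

universe u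

variable {Ω : Type u} [Group Ω] {S T : Subgroup Ω} {p : ℕ} [Finite S] [Fact p.Prime]
  {F : FusionSystem S} {E : FusionSystem T}

/-- The hypothesis that the centralizer of `E` lies in `T`. -/
def SmallCent (F : FusionSystem S) (E : FusionSystem T) : Prop :=
  ∀ Y : Subgroup Ω, Y ≤ centralizerIn S T →
    (∀ C : FusionSystem (centralizerIn S Y), F.IsCentralizerSystem Y C → E.IsSubsystemOf C) →
      Y ≤ T

/-- The focal subgroup of `C_F(T)` lies in `T`. -/
theorem focal_le_of_small (hS : IsPGroup p S) (hF : F.IsSaturated p) (hE : E.IsNormalIn F p)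
    (hCE : SmallCent F E) {D : FusionSystem (centralizerIn S T)}
    (hD : F.IsCentralizerSystem T D) : D.focalSubgroup ≤ T :=
  hCE _ (CentFocal.focal_le D) fun C hC P φ hφ =>
    hC P ▸ CentFocal.centralizes_focal hS hF hD hE P hφ

/-- `T C_S(T)/T` is abelian. -/
theorem commutator_le (hS : IsPGroup p S) (hF : F.IsSaturated p) (hE : E.IsNormalIn F p)
    (hCE : SmallCent F E) :
    ⁅T ⊔ centralizerIn S T, T ⊔ centralizerIn S T⁆ ≤ T := by
  have hT := hE.1.2.2.2.1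
  have hfoc := focal_le_of_small hS hF hE hCE (D := centSys F T hT.1) fun _ => rfl
  have hC : ∀ a ∈ centralizerIn S T, ∀ b ∈ centralizerIn S T, a * b * a⁻¹ * b⁻¹ ∈ T :=
    fun a ha b hb => hfoc (commutator_le_focal (centSys F T hT.1)
      (Subgroup.commutator_mem_commutator ha hb))
  rw [Subgroup.commutator_le]
  intro g hg g' hg'
  obtain ⟨t, ht, c, hc, rfl⟩ := exists_mul_of_mem_sup (T := T) (K := centralizerIn S T)
    (fun x hx b hb => Subgroup.mem_centralizer_iff.1 hb.2 x hx) hg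
  obtain ⟨t', ht', c', hc', rfl⟩ := exists_mul_of_mem_sup (T := T) (K := centralizerIn S T)
    (fun x hx b hb => Subgroup.mem_centralizer_iff.1 hb.2 x hx) hg'
  have h1 : c * t' = t' * c := (Subgroup.mem_centralizer_iff.1 hc.2 t' ht').symm
  have h2 : c' * t = t * c' := (Subgroup.mem_centralizer_iff.1 hc'.2 t ht).symm
  have e : t * c * (t' * c') = t * t' * (c * c') := by
    rw [mul_assoc, ← mul_assoc c, h1]
    group
  have e' : t' * c' * (t * c) = t' * t * (c' * c) := by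
    rw [mul_assoc, ← mul_assoc c', h2]
    group
  have e'' : ⁅t * c, t' * c'⁆ = t * t' * (c * c' * c⁻¹ * c'⁻¹) * (t' * t)⁻¹ := by
    rw [commutatorElement_def]
    calc t * c * (t' * c') * (t * c)⁻¹ * (t' * c')⁻¹
        = (t * c * (t' * c')) * (t' * c' * (t * c))⁻¹ := by group
      _ = t * t' * (c * c' * c⁻¹ * c'⁻¹) * (t' * t)⁻¹ := by rw [e, e']; group
  rw [e'']
  exact T.mul_mem (T.mul_mem (T.mul_mem ht ht') (hC c hc c' hc'))
    (T.inv_mem (T.mul_mem ht' ht))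

/-- The maps of the envelope preserve the cosets of `T`. -/
theorem displacement_mem (hS : IsPGroup p S) (hF : F.IsSaturated p) (hE : E.IsNormalIn F p)
    (hCE : SmallCent F E) {F₀ : FusionSystem (T ⊔ centralizerIn S T)} (hG : Good p F E F₀)
    (haut : F₀.autGroup T = E.autGroup T) {P : Subgroup Ω} {φ : P →* Ω} (hφ : φ ∈ F₀.Hom P)
    (x : P) : (x : Ω)⁻¹ * φ x ∈ T := by
  have hEi := hE.1.2.2
  have hTS := hEi.2.1.1
  have hfoc := focal_le_of_small hS hF hE hCE (D := centSys F T hTS) fun _ => rfl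
  have hcom := commutator_le hS hF hE hCE
  have hT0 := PSolvableStep.stronglyClosed_in hEi hG
  have hext := hE.2
  obtain ⟨R, hR⟩ : ∃ R, R = T ⊔ centralizerIn S T := ⟨_, rfl⟩
  have hRS : R ≤ S := hR ▸ sup_le hTS (centralizerIn_le T)
  have hTR : T ≤ R := hR ▸ le_sup_left
  haveI : Finite R := finite_of_le ‹_› hRS
  have hRp : IsPGroup p R := hS.to_le hRS
  subst hR
  let D : FusionSystem (T ⊔ centralizerIn S T) := subSystem F₀
    (fun P φ => ∀ x : P, (x : Ω)⁻¹ * φ x ∈ T)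
    (fun {P g} hP hg x => by
      have h := hcom (Subgroup.commutator_mem_commutator
        ((T ⊔ centralizerIn S T).inv_mem (hP x.2)) hg)
      rw [commutatorElement_def, inv_inv] at h
      show (x : Ω)⁻¹ * (g * x * g⁻¹) ∈ T
      simpa [mul_assoc] using h)
    (fun {P Q φ ψ} _ _ a b h x => by
      have h1 := T.mul_mem (a x) (b ⟨φ x, h x⟩)
      simpa [mul_assoc] using h1)
    (fun {P φ} _ a ψ _ he y => by
      obtain ⟨x, hx⟩ := y.2
      have hy : y = ⟨φ x, x, rfl⟩ := Subtype.ext hx.symm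
      subst hy
      rw [he x]
      simpa using T.inv_mem (a x))
  suffices hD : F₀ ≤ D from (hD P hφ).2 x
  clear hφ x φ P
  refine hom_subset_of_step hRp hG.sat D fun P hP ih α hα => ?_
  refine (mem_autGroup D hP.1).2 ⟨autGroup_mem_hom F₀ hP.1 hα, fun x => ?_⟩
  show (x : Ω)⁻¹ * (α x : P) ∈ T
  haveI : Finite P := finite_of_le ‹_› hP.1
  by_cases hTP : T ≤ P
  · have hst : α ∈ subStab P T := fun y =>
      sc_map_mem_iff hT0 (autGroup_mem_hom F₀ hP.1 hα) y
    have ha := restrStab_mem_autGroup F₀ hTP hP.1 (α := ⟨α, hst⟩) hα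
    rw [haut] at ha
    obtain ⟨β, hβ, hβT, hβC⟩ := hext _ ha
    obtain ⟨t, ht, c, hc, hx⟩ := exists_mul_of_mem_sup (T := T) (K := centralizerIn S T)
      (fun x hx b hb => Subgroup.mem_centralizer_iff.1 hb.2 x hx) (hP.1 x.2)
    have hcP : c ∈ P := by
      have h := P.mul_mem (P.inv_mem (hTP ht)) x.2
      rwa [hx, inv_mul_cancel_left] at h
    -- the correction centralizes `T`
    have hPF : P.subtype.comp α.toMonoidHom ∈ F.Hom P :=
      hG.inv.1 P (autGroup_mem_hom F₀ hP.1 hα)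
    have hβi := autGroup_mem_hom F hRS ((F.autGroup _).inv_mem hβ)
    have hθ := F.comp_mem hPF hβi fun y => hP.1 (α y).2
    obtain ⟨θ, hθ, hθv⟩ : ∃ θ ∈ F.Hom P, ∀ y : P,
        θ y = (β.symm ⟨(α y : P), hP.1 (α y).2⟩ : _) := ⟨_, hθ, fun _ => rfl⟩
    have hθT : ∀ s : T, θ ⟨s, hTP s.2⟩ = s := fun s => by
      rw [hθv]
      have e : β.symm ⟨(α ⟨s, hTP s.2⟩ : P), hP.1 (α ⟨s, hTP s.2⟩).2⟩ =
          Subgroup.inclusion le_sup_left s := by
        rw [MulEquiv.symm_apply_eq]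
        exact Subtype.ext (hβT s).symm
      rw [e]
      rfl
    have hW : (P ⊓ centralizerIn S T) ⊔ T ≤ P := sup_le inf_le_left hTP
    have hval : ∀ y : ↥(P ⊓ centralizerIn S T), θ ⟨y, y.2.1⟩ ∈ centralizerIn S T := fun y => by
      refine ⟨map_mem_S F hθ _, Subgroup.mem_centralizer_iff.2 fun s hs => ?_⟩
      have e := hθT ⟨s, hs⟩
      rw [show s = θ ⟨s, hTP hs⟩ from e.symm, ← map_mul, ← map_mul]
      exact congrArg θ (Subtype.ext (Subgroup.mem_centralizer_iff.1 y.2.2.2 s hs))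
    have h1 : c⁻¹ * θ ⟨c, hcP⟩ ∈ T := by
      refine hfoc (Subgroup.subset_closure ⟨P ⊓ centralizerIn S T,
        restr inf_le_left θ, ⟨c, hcP, hc⟩, ?_, rfl⟩)
      exact ⟨restr_mem F _ hθ, inf_le_right, hval, restr hW θ, restr_mem F _ hθ,
        fun y => rfl, fun s => hθT s⟩
    have hθc : θ ⟨c, hcP⟩ ∈ T ⊔ centralizerIn S T :=
      Subgroup.mem_sup_right (hval ⟨c, hcP, hc⟩)
    have h2 := (hβC ⟨θ ⟨c, hcP⟩, hθc⟩ (hval ⟨c, hcP, hc⟩)).1
    have e : (β ⟨θ ⟨c, hcP⟩, hθc⟩ : Ω) = (α ⟨c, hcP⟩ : P) := by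
      have : (⟨θ ⟨c, hcP⟩, hθc⟩ : ↥(T ⊔ centralizerIn S T)) =
          β.symm ⟨(α ⟨c, hcP⟩ : P), hP.1 (α ⟨c, hcP⟩).2⟩ := Subtype.ext (hθv _)
      rw [this, MulEquiv.apply_symm_apply]
    rw [e] at h2
    have h3 : c⁻¹ * (α ⟨c, hcP⟩ : P) ∈ T := by
      simpa [mul_assoc] using T.mul_mem h1 h2
    have h4 : t⁻¹ * (α ⟨t, hTP ht⟩ : P) ∈ T :=
      T.mul_mem (T.inv_mem ht) (sc_map_mem hT0 (autGroup_mem_hom F₀ hP.1 hα) ht)
    have hcm : c⁻¹ * (t⁻¹ * (α ⟨t, hTP ht⟩ : P)) = t⁻¹ * (α ⟨t, hTP ht⟩ : P) * c⁻¹ :=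
      (Subgroup.mem_centralizer_iff.1 ((Subgroup.centralizer _).inv_mem hc.2) _ h4).symm
    have ex : x = ⟨t, hTP ht⟩ * ⟨c, hcP⟩ := Subtype.ext hx
    rw [ex, map_mul, Subgroup.coe_mul, Subgroup.coe_mul]
    refine (congrArg (· ∈ T) ?_).mpr (T.mul_mem h4 h3)
    calc (t * c)⁻¹ * (((α ⟨t, hTP ht⟩ : P) : Ω) * (α ⟨c, hcP⟩ : P))
        = c⁻¹ * (t⁻¹ * (α ⟨t, hTP ht⟩ : P)) * (α ⟨c, hcP⟩ : P) := by group
      _ = t⁻¹ * (α ⟨t, hTP ht⟩ : P) * (c⁻¹ * (α ⟨c, hcP⟩ : P)) := by rw [hcm]; group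
  · let K₁ : Subgroup (F₀.autGroup P) :=
      { carrier := {n | ∀ y : P, (y : Ω)⁻¹ * ((n : MulAut P) y : P) ∈ T}
        one_mem' := fun y => by simp
        mul_mem' := fun {a b} ha hb y => by
          have h := T.mul_mem (hb y) (ha ((b : MulAut P) y))
          simpa [mul_assoc] using h
        inv_mem' := fun {a} ha y => by
          have h := T.inv_mem (ha ((a : MulAut P)⁻¹ y))
          simpa using h }
    haveI : K₁.Normal := by
      refine ⟨fun n hn c y => ?_⟩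
      obtain ⟨z, rfl⟩ := (c : MulAut P).surjective y
      have h1 := sc_map_mem hT0 (autGroup_mem_hom F₀ hP.1 c.2) (x := z⁻¹ * (n : MulAut P) z)
        (hn z)
      simpa using h1
    obtain ⟨h, k, N, N', e, hPN, hαk, hk, he, -, hNn, hag, hext'⟩ :=
      FusionAux.exists_frattini_extend hRp hG.sat hP K₁ ⟨α, hα⟩
    have hRN : T ⊔ centralizerIn S T ≤ Subgroup.normalizer (T : Set Ω) :=
      sc_le_normalizer hT0
    obtain ⟨t, ht, htP, htN⟩ :
        ∃ t ∈ T, t ∉ P ∧ t ∈ Subgroup.normalizer (P : Set Ω) := by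
      have hW : P ⊔ T ≤ T ⊔ centralizerIn S T := sup_le hP.1 hTR
      haveI : Finite ↥(P ⊔ T) := finite_of_le ‹_› hW
      obtain ⟨g, hg, hgN, hgP⟩ := exists_normalizer_mem_not_mem (hRp.to_le hW)
        (lt_of_le_of_ne le_sup_left fun h => hTP (h ▸ le_sup_right))
      have hgm : g ∈ (P : Set Ω) * (T : Set Ω) := by
        rw [← Subgroup.coe_mul_of_left_le_normalizer_right P T (hP.1.trans hRN)]
        exact hg
      obtain ⟨y, hy, t, ht, rfl⟩ := hgm
      refine ⟨t, ht, fun htP => hgP (P.mul_mem hy htP), ?_⟩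
      have h := (Subgroup.normalizer (P : Set Ω)).mul_mem
        ((Subgroup.normalizer _).inv_mem (Subgroup.le_normalizer hy)) hgN
      simpa using h
    have htm : t ∈ N := by
      refine hext' t ⟨hTR ht, htN⟩ ⟨⟨_, autInducedBy_le_autGroup F₀ hP.1
        (mem_autInducedBy.2 ⟨t, hTR ht, fun _ => rfl⟩ :
          P.normalizerMonoidHom ⟨t, htN⟩ ∈ autInducedBy (T ⊔ centralizerIn S T) P)⟩,
        fun y => ?_, fun y => rfl⟩
      show (y : Ω)⁻¹ * (t * (y : Ω) * t⁻¹) ∈ T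
      have h1 := T.mul_mem
        (sc_conj_mem hT0 ((T ⊔ centralizerIn S T).inv_mem (hP.1 y.2)) ht) (T.inv_mem ht)
      simpa [mul_assoc] using h1
    have hlt : P < N := lt_of_le_of_ne hPN fun h => htP (h ▸ htm)
    have hNU : N ≤ T ⊔ centralizerIn S T := hNn.trans (normalizerIn_le P)
    have he' := ((ih N hNU (card_lt_of_lt hNU hlt)) he).2
    have h1 := he' ⟨(k : MulAut P) x, hPN ((k : MulAut P) x).2⟩
    have h2 : (x : Ω)⁻¹ * ((k : MulAut P) x : P) ∈ T := hk x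
    have e1 : α x = (h : MulAut P) ((k : MulAut P) x) :=
      congrArg (fun n : F₀.autGroup P => (n : MulAut P) x) hαk
    rw [e1]
    have h3 := T.mul_mem h2 h1
    rw [← hag]
    simpa [mul_assoc] using h3

/-- `E` has the residual limit of `F`. -/
theorem limit_eq (hS : IsPGroup p S) (hF : F.IsSaturated p) (hE : E.IsNormalIn F p)
    (hCE : SmallCent F E) [((E.autGroup T).subgroupOf (F.autGroup T)).Normal]
    (hsolv : IsPSolvable p (↥(F.autGroup T) ⧸ (E.autGroup T).subgroupOf (F.autGroup T)))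
    {U V : Subgroup Ω} {L : FusionSystem U} (hL : L.IsResidualLimitOf F p)
    {L' : FusionSystem V} (hL' : L'.IsResidualLimitOf E p) : ∀ P, L.Hom P = L'.Hom P := by
  have hEi := hE.1.2.2
  obtain ⟨F₀, hG, -, haut⟩ := PSolvableStep.exists_envelope hS hF hEi hE.1.1 hsolv
  have hRS := hG.inv.2.1.1
  haveI : Finite ↥(T ⊔ centralizerIn S T) := finite_of_le ‹_› hRS
  have hR := hS.to_le hRS
  have hhyp : F₀.hyperfocalSubgroup p ≤ T := by
    refine (Subgroup.closure_le _).2 ?_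
    rintro _ ⟨P, α, x, hP, -, rfl⟩
    exact displacement_mem hS hF hE hCE hG haut (autGroup_mem_hom F₀ hP α.2) x
  have hidx : E.HasPPowerIndexIn F₀ p := by
    refine ⟨hG.sub, hhyp, fun P hP => (Subgroup.map_subtype_le _).trans fun α hα => ?_⟩
    obtain ⟨γ, hγ, e, he, hφe⟩ := (PSolvableStep.invariant_in hS hF hEi hG).2.2.2 P hP _
      (autGroup_mem_hom F₀ (hP.trans le_sup_left) hα)
    exact (mem_autGroup E hP).2 (comp_mem' E he (autGroup_mem_hom E le_rfl (haut ▸ hγ))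
      (map_mem_S E he) fun x => hφe x (map_mem_S E he x))
  obtain ⟨A, L₀, hL₀⟩ := ResidualLimit.exists_limit hR hG.sat
  exact fun P => (hG.lim L L₀ hL hL₀ P).trans
    (FusionSub.residualLimit_eq_of_pPowerIndex hR hG.sat hE.1.1 hidx hL₀ hL' P)

end Cfsg.Agent.Tech.SmallCentralizer
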