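import Cfsg.Agent.Tech.PPrimeCharacter
import Cfsg.Agent.FusionAlperin.PPrimeResidual
import Cfsg.Agent.FusionAlperin.NormalCriteria
import Cfsg.Agent.FusionBatch.Basic

/-!
The subsystem over `S` cut out by a `p'`-character of `Aut_F(T)` killing `Aut_E(T)`: it is saturated.
-/

set_option autoImplicit false

open Cfsg Cfsg.FusionSystem
open scoped Pointwise
open Cfsg.Agent.FusionSys Cfsg.Agent.FusionAlperin
open Cfsg.Agent.S5119 (InvT Decomp autExt_inv autExt_inv' autExt_mul decomp_comp decomp_symm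
  decomp_restrict)

namespace Cfsg.Agent.Tech.PPrimeCharacter

variable {Ω : Type*} [Group Ω] {S T : Subgroup Ω} {p : ℕ} {F : FusionSystem S}

theorem autExt_mem (β : MulAut T) {x : Ω} (hx : x ∈ T) : autExt β x ∈ T := by
  rw [autExt_of_mem β hx]
  exact (β _).2

/-- Elements commuting after an automorphism commute before it. -/
theorem commute_of_autExt (α : MulAut T) {c y : Ω} (hc : c ∈ T) (hy : y ∈ T)
    (h : autExt α y * autExt α c = autExt α c * autExt α y) : y * c = c * y := by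
  rw [autExt_of_mem α hc, autExt_of_mem α hy, ← Subgroup.coe_mul, ← Subgroup.coe_mul,
    ← map_mul, ← map_mul] at h
  exact congrArg Subtype.val (α.injective (Subtype.ext h))

variable [Finite S] [Fact p.Prime]

/-- A fully centralized subgroup of `T` containing its centralizer in `T` makes all its conjugates
do so. -/
theorem tCentric_of_fullyCentralized (hS : IsPGroup p S) (hF : F.IsSaturated p)
    (hT : F.StronglyClosed T) {Q : Subgroup Ω} (hQ : F.IsFullyCentralized Q) (hQT : Q ≤ T)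
    (hc : centralizerIn T Q ≤ Q) : TCentric F T Q := by
  refine ⟨hQT, fun R hR c hcR => ?_⟩
  obtain ⟨φ, hφ, hr⟩ := isConj_symm hR
  have hle := le_extender (le_S F hφ) (map_mem_S F hφ)
  obtain ⟨ψ, hψ, hψe, -, -⟩ := receptive_extend (saturated_fullyCentralized hS hF hQ) hφ hr
  have hcS : c ∈ extender S R φ := centralizerIn_le_extender φ ⟨hT.1 hcR.1, hcR.2⟩
  have hψc : ψ ⟨c, hcS⟩ ∈ centralizerIn T Q := by
    refine ⟨sc_map_mem hT hψ hcR.1, Subgroup.mem_centralizer_iff.2 fun q hq => ?_⟩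
    obtain ⟨r, rfl⟩ := hr.ge hq
    rw [← hψe r, ← map_mul, ← map_mul]
    exact congrArg ψ (Subtype.ext (Subgroup.mem_centralizer_iff.1 hcR.2 r r.2))
  obtain ⟨r, hrc⟩ := hr.ge (hc hψc)
  have h1 := F.injective_of_mem hψ ((hψe r).trans hrc)
  have h2 : (r : Ω) = c := congrArg Subtype.val h1
  exact h2 ▸ r.2

/-- If the part inside `T` of `P` does not contain all centralizers of its conjugates, some map on
`P` shows it on the image of `P`. -/
theorem exists_bad_conj (hS : IsPGroup p S) (hF : F.IsSaturated p) (hT : F.StronglyClosed T)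
    {P : Subgroup Ω} (hP : P ≤ S) (hbad : ¬ TCentric F T (P ⊓ T)) :
    ∃ f ∈ F.Hom P, ¬ centralizerIn T (f.range ⊓ T) ≤ f.range := by
  have hQS : P ⊓ T ≤ S := inf_le_right.trans hT.1
  obtain ⟨Q, hQ, hQn⟩ := exists_fullyNormalized F hQS
  obtain ⟨θ, hθ, -, hθm⟩ := exists_normalizer_map_fullyNormalized hS hF hQn hQ
  have hPN : P ≤ normalizerIn S (P ⊓ T) := by
    intro g hg
    refine ⟨hP hg, Subgroup.mem_normalizer_iff.2 fun x => ?_⟩
    have key : ∀ g ∈ P, ∀ x ∈ P ⊓ T, g * x * g⁻¹ ∈ P ⊓ T := fun g hg x hx =>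
      ⟨P.mul_mem (P.mul_mem hg hx.1) (P.inv_mem hg), sc_conj_mem hT (hP hg) hx.2⟩
    refine ⟨key g hg x, fun hx => ?_⟩
    have := key g⁻¹ (P.inv_mem hg) _ hx
    simpa [mul_assoc] using this
  have hf := restr_mem F hPN hθ
  refine ⟨_, hf, fun hle => hbad ?_⟩
  have hQe : (restr hPN θ).range ⊓ T = Q := by
    rw [← inf_T_range hT hf, ← hθm]
    ext y
    rw [mem_map_subgroupOf]
    constructor
    · rintro ⟨x, rfl⟩
      exact ⟨Subgroup.inclusion hPN ⟨x, x.2.1⟩, x.2, rfl⟩
    · rintro ⟨x, hx, rfl⟩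
      exact ⟨⟨x, hx⟩, rfl⟩
  rw [hQe] at hle
  have hQT : Q ≤ T := hQe ▸ inf_le_right
  have h1 := tCentric_of_fullyCentralized hS hF hT (saturated_fullyNormalized hS hF hQn).1 hQT
    fun c hc => hQe.le ⟨hle hc, hc.1⟩
  exact tCentric_of_isConj hT h1 (isConj_symm hQ)

/-- The stabilizer of the series `1 ≤ R ⊓ T ≤ R` gives an outer automorphism in `O_p`. -/
theorem not_inn_of_bad (hS : IsPGroup p S) (hT : F.StronglyClosed T) {R : Subgroup Ω}
    (hRc : F.IsCentric R) (hbad : ¬ centralizerIn T (R ⊓ T) ≤ R) :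
    ¬ autInducedBy S R ⊓ autCore F p R ≤ Inn R := by
  intro hinn
  apply hbad
  have hRS := hRc.1
  have hTS := hT.1
  have : Finite R := finite_of_le ‹_› hRS
  set P := R ⊓ T
  set K := centralizerIn T P
  have hKS : K ≤ S := (centralizerIn_le P).trans hTS
  have hRK : R ≤ Subgroup.normalizer (K : Set Ω) := by
    have key : ∀ g ∈ R, ∀ x ∈ K, g * x * g⁻¹ ∈ K := fun g hg x hx =>
      ⟨sc_conj_mem hT (hRS hg) hx.1, Subgroup.mem_centralizer_iff.2 fun y hy => by
        have hy' : g⁻¹ * y * g ∈ P := by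
          refine ⟨R.mul_mem (R.mul_mem (R.inv_mem hg) hy.1) hg, ?_⟩
          simpa using sc_conj_mem hT (S.inv_mem (hRS hg)) hy.2
        calc y * (g * x * g⁻¹) = g * ((g⁻¹ * y * g) * x) * g⁻¹ := by group
          _ = g * (x * (g⁻¹ * y * g)) * g⁻¹ := by
            rw [Subgroup.mem_centralizer_iff.1 hx.2 _ hy']
          _ = g * x * g⁻¹ * y := by group⟩
    intro g hg
    refine Subgroup.mem_normalizer_iff.2 fun x => ⟨key g hg x, fun hx => ?_⟩
    have := key g⁻¹ (R.inv_mem hg) _ hx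
    simpa [mul_assoc] using this
  refine le_sup_right.trans (le_of_normalizer_self hS (sup_le hRS hKS) le_sup_left
    fun g hg hgN => ?_)
  have hgmul : g ∈ (R : Set Ω) * (K : Set Ω) := by
    rw [← Subgroup.coe_mul_of_left_le_normalizer_right R K hRK]
    exact hg
  obtain ⟨r, hr, c, hc, rfl⟩ := hgmul
  have hcN : c ∈ Subgroup.normalizer (R : Set Ω) := by
    have h := (Subgroup.normalizer (R : Set Ω)).mul_mem
      ((Subgroup.normalizer _).inv_mem (Subgroup.le_normalizer hr)) hgN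
    simpa using h
  refine R.mul_mem hr ?_
  -- the stabilizer of the series
  let N : Subgroup (F.autGroup R) :=
    { carrier := {n | (∀ x : R, (x : Ω) ∈ P → (n : MulAut R) x = x) ∧
        ∀ x : R, x⁻¹ * (n : MulAut R) x ∈ P.subgroupOf R}
      one_mem' := ⟨fun _ _ => rfl, fun x => by simp⟩
      mul_mem' := fun {a b} ha hb => ⟨fun x hx => by
          rw [Subgroup.coe_mul, MulAut.mul_apply, hb.1 x hx, ha.1 x hx],
        fun x => by
          have h := (P.subgroupOf R).mul_mem (hb.2 x) (ha.2 ((b : MulAut R) x))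
          simpa [mul_assoc] using h⟩
      inv_mem' := fun {a} ha => ⟨fun x hx => by
          rw [Subgroup.coe_inv, MulAut.inv_def, MulEquiv.symm_apply_eq, ha.1 x hx],
        fun x => by
          have h := (P.subgroupOf R).inv_mem (ha.2 ((a : MulAut R).symm x))
          simpa using h⟩ }
  have hNp : IsPGroup p N := by
    rintro ⟨n, hn⟩
    obtain ⟨k, hk⟩ := ((hS.to_le hRS).to_subgroup (P.subgroupOf R)).exists_card_eq
    refine ⟨k, Subtype.ext (Subtype.ext (MulEquiv.ext fun x => ?_))⟩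
    show ((n : MulAut R) ^ p ^ k) x = x
    rw [← hk]
    exact iterate_eq_of_stab (n : MulAut R) (B := P.subgroupOf R) (fun y hy => hn.1 y hy) (hn.2 x)
  have hNn : N.Normal := by
    refine ⟨fun n hn α => ?_⟩
    have hmem : ∀ x : R, (((α : MulAut R) x : R) : Ω) ∈ P ↔ (x : Ω) ∈ P := fun x => by
      constructor
      · exact fun h => ⟨x.2, (sc_map_mem_iff hT (autGroup_mem_hom F hRS α.2) x).1 h.2⟩
      · exact fun h => ⟨((α : MulAut R) x).2, sc_map_mem hT (autGroup_mem_hom F hRS α.2) h.2⟩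
    refine ⟨fun x hx => ?_, fun x => ?_⟩
    · obtain ⟨y, rfl⟩ := (α : MulAut R).surjective x
      rw [Subgroup.coe_mul, Subgroup.coe_mul, Subgroup.coe_inv, MulAut.mul_apply,
        MulAut.mul_apply, MulAut.inv_def, MulEquiv.symm_apply_apply, hn.1 y ((hmem y).1 hx)]
    · obtain ⟨y, rfl⟩ := (α : MulAut R).surjective x
      rw [Subgroup.coe_mul, Subgroup.coe_mul, Subgroup.coe_inv, MulAut.mul_apply,
        MulAut.mul_apply, MulAut.inv_def, MulEquiv.symm_apply_apply, ← map_inv, ← map_mul]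
      exact (hmem _).2 (hn.2 y)
  have hcS : c ∈ normalizerIn S R := ⟨hKS hc, hcN⟩
  have hind : R.normalizerMonoidHom ⟨c, hcN⟩ ∈ autInducedBy S R :=
    mem_autInducedBy.2 ⟨c, hKS hc, fun _ => rfl⟩
  refine (autInducedBy_mem_inn_iff hRc hcS).1 (hinn ⟨hind,
    ⟨⟨_, autInducedBy_le_autGroup F hRS hind⟩, Cores.le_pCore hNn hNp ⟨fun x hx => ?_, fun x => ?_⟩,
      rfl⟩⟩)
  · refine Subtype.ext ?_
    show c * (x : Ω) * c⁻¹ = x
    rw [← Subgroup.mem_centralizer_iff.1 hc.2 _ hx, mul_inv_cancel_right]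
  · have h1 : (x : Ω)⁻¹ * (c * x * c⁻¹) ∈ T := by
      have h2 := T.mul_mem (sc_conj_mem hT (S.inv_mem (hRS x.2)) hc.1) (T.inv_mem hc.1)
      simpa [mul_assoc] using h2
    exact ⟨R.mul_mem (R.inv_mem x.2) ((Subgroup.mem_normalizer_iff.1 hcN _).1 x.2), h1⟩

/-- The centric radical subgroups meet `T` in subgroups containing the centralizers of their
conjugates. -/
theorem tCentric_inf_radical (hS : IsPGroup p S) (hF : F.IsSaturated p) (hT : F.StronglyClosed T)
    {R : Subgroup Ω} (hRc : F.IsCentric R) (hRr : F.IsRadical p R) :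
    TCentric F T (R ⊓ T) := by
  by_contra hbad
  obtain ⟨f, hf, hb⟩ := exists_bad_conj hS hF hT hRc.1 hbad
  refine not_inn_of_bad hS hT (isCentric_of_isConj hRc ⟨f, hf, rfl⟩) hb ?_
  rintro γ ⟨-, hγ⟩
  obtain ⟨δ, hδ, rfl⟩ := (autCore_map_congr F (toIso_isIso F hf rfl)).ge hγ
  obtain ⟨x, rfl⟩ : δ ∈ Inn R := hRr.2.le hδ
  refine ⟨toIso F hf rfl x, MulEquiv.ext fun y => ?_⟩
  obtain ⟨z, rfl⟩ := (toIso F hf rfl).surjective y
  show _ = MulAut.congr (toIso F hf rfl) (MulAut.conj x) (toIso F hf rfl z)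
  rw [autCongr_apply, MulEquiv.symm_apply_apply, MulAut.conj_apply, MulAut.conj_apply, map_mul,
    map_mul, map_inv]

omit [Finite S] [Fact p.Prime] in
/-- Transport through a decomposition stays in an invariant system. -/
theorem autCongr_mem_of_decomp {E₀ : FusionSystem S} (hI : InvT F E₀)
    (hdec : ∀ (P : Subgroup Ω) (φ : P →* Ω), φ ∈ F.Hom P → Decomp F E₀ P φ) {R P : Subgroup Ω}
    {f : R ≃* P} (hf : IsIso F f) {u : MulAut R} (hu : u ∈ E₀.autGroup R) :
    MulAut.congr f u ∈ E₀.autGroup P := by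
  have hR := hf.le_left
  have hP := hf.le_right
  obtain ⟨γ, hγ, e, he, hfe⟩ := hdec _ _ hf
  set ei := toIso E₀ he (rfl : e.range = e.range)
  have hei : IsIso E₀ ei := toIso_isIso E₀ he _
  have hc := (hei.symm.trans ((mem_autGroup E₀ hR).1 hu)).trans hei
  obtain ⟨χ, hχ, hχe⟩ := hI γ hγ _ _ hc
  have hrS : e.range ≤ S := range_le_S E₀ he
  have hle : P ≤ autImage γ e.range := by
    intro y hy
    have h1 := autExt_mem_autImage γ hrS (x := e (f.symm ⟨y, hy⟩)) ⟨_, rfl⟩
    rw [← hfe] at h1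
    simpa using h1
  refine (mem_autGroup E₀ hP).2 (mem_hom_congr E₀ (restr_mem E₀ hle hχ) fun y => ?_)
  obtain ⟨x, rfl⟩ := f.surjective y
  show ((MulAut.congr f u (f x) : P) : Ω) = χ ⟨(f x : Ω), hle (f x).2⟩
  have e2 : (⟨(f x : Ω), hle (f x).2⟩ : autImage γ e.range) =
      ⟨_, autExt_mem_autImage γ hrS (ei x).2⟩ := Subtype.ext (hfe x)
  rw [e2, hχe (ei x) _, autCongr_apply, MulEquiv.symm_apply_apply]
  refine (hfe (u x)).trans ?_
  show autExt γ (e (u x)) = autExt γ ((ei (u (ei.symm (ei x))) : e.range) : Ω)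
  rw [MulEquiv.symm_apply_apply]
  rfl

/-- The maps all whose transports under automorphisms of `S` lie in `E'`. -/
def allTransports (F E' : FusionSystem S) : FusionSystem S :=
  subSystem F (fun P φ => ∀ β ∈ F.autGroup S, φ ∈ (transportSystem F E' β).Hom P)
    (fun hP hg β _ => (transportSystem F E' β).conj_mem hP hg)
    (fun _ _ a b h β hβ => (transportSystem F E' β).comp_mem (a β hβ) (b β hβ) h)
    (fun {P φ} _ a ψ _ he β hβ => by
      obtain ⟨c, hc, hce⟩ := (transportSystem F E' β).inv_mem (a β hβ)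
      refine mem_hom_congr _ hc fun y => ?_
      obtain ⟨x, hx⟩ := y.2
      have hy : y = ⟨φ x, x, rfl⟩ := Subtype.ext hx.symm
      rw [hy, he, hce])

omit [Finite S] [Fact p.Prime] in
theorem allTransports_invariant (F E' : FusionSystem S) : InvT F (allTransports F E') := by
  intro β hβ P φ hφ
  have hP : P ≤ S := le_S F hφ.1
  have hψ := restr_mem F hP (autGroup_mem_hom F le_rfl hβ)
  have hr : (restr hP (S.subtype.comp β.toMonoidHom)).range = autImage β P := range_restr hP _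
  obtain ⟨e, he, hee⟩ : ∃ e : P ≃* autImage β P, IsIso F e ∧
      ∀ x : P, (e x : Ω) = autExt β x :=
    ⟨toIso F hψ hr, toIso_isIso F _ _, fun x => (autExt_of_mem β (hP x.2)).symm⟩
  obtain ⟨χ, hχ, hχe⟩ : ∃ χ ∈ F.Hom (autImage β P),
      ∀ x : P, χ (e x) = autExt β (φ x) := by
    have h1 : φ.comp e.symm.toMonoidHom ∈ F.Hom (autImage β P) :=
      comp_mem' F he.symm hφ.1 (fun y => (e.symm y).2) fun _ => rfl
    refine ⟨_, F.comp_mem h1 (autGroup_mem_hom F le_rfl hβ) (map_mem_S F h1), fun x => ?_⟩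
    show ((β ⟨φ (e.symm (e x)), _⟩ : S) : Ω) = _
    rw [autExt_of_mem β (map_mem_S F hφ.1 x)]
    exact congrArg (fun w => ((β w : S) : Ω))
      (Subtype.ext (congrArg φ (e.symm_apply_apply x)))
  refine ⟨χ, ⟨hχ, fun γ hγ => ⟨hχ, ?_⟩⟩, fun x h => ?_⟩
  · obtain ⟨-, c, hc, hce⟩ := hφ.2 (γ * β) (mul_mem hγ hβ)
    have hle : autImage γ (autImage β P) ≤ autImage (γ * β) P := by
      intro y hy
      obtain ⟨z, hz, -, hzy⟩ := exists_autExt_eq γ ⟨y, hy⟩
      obtain ⟨x, hx, hxS, hxz⟩ := exists_autExt_eq β ⟨z, hz⟩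
      have h1 := autExt_mem_autImage (γ * β) hP hx
      rw [autExt_mul γ β hxS, hxz] at h1
      exact (show autExt γ z = y from hzy) ▸ h1
    refine ⟨_, restr_mem E' hle hc, fun y h => ?_⟩
    obtain ⟨x, rfl⟩ := e.surjective y
    rw [hχe, ← autExt_mul γ β (map_mem_S F hφ.1 x),
      ← hce x (autExt_mem_autImage (γ * β) hP x.2)]
    exact congrArg c (Subtype.ext (show autExt γ (e x : Ω) = autExt (γ * β) x by
      rw [autExt_mul γ β (hP x.2), hee]))
  · rw [← hχe x]
    exact congrArg χ (Subtype.ext (hee x).symm)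

omit [Finite S] [Fact p.Prime] in
theorem allTransports_le (F E' : FusionSystem S) : allTransports F E' ≤ E' := by
  intro P φ hφ
  have hP : P ≤ S := le_S F hφ.1
  obtain ⟨-, c, hc, hce⟩ := hφ.2 1 (one_mem _)
  have hle : P ≤ autImage (1 : MulAut S) P := fun y hy => ⟨⟨y, hP hy⟩, hy, rfl⟩
  refine mem_hom_congr E' (restr_mem E' hle hc) fun x => ?_
  have e1 : autExt (1 : MulAut S) (x : Ω) = x := autExt_of_mem _ (hP x.2)
  have e2 : autExt (1 : MulAut S) (φ x) = φ x := autExt_of_mem _ (map_mem_S F hφ.1 x)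
  rw [← e2, ← hce x (e1.symm ▸ hle x.2)]
  exact congrArg c (Subtype.ext e1)

/-- The centric radical subgroups generate the subsystem of `p`-elements. -/
theorem centricPElem_le_of_radical (hS : IsPGroup p S) (hF : F.IsSaturated p)
    (E' : FusionSystem S)
    (h : ∀ R, F.IsCentric R → TCentric F T (R ⊓ T) → pElemGroup F p R ≤ E'.autGroup R)
    (hT : F.StronglyClosed T) : centricPElemSystem F p ≤ E' := by
  suffices h0 : centricPElemSystem F p ≤ allTransports F E' from
    fun P φ hφ => allTransports_le F E' P (h0 P hφ)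
  set E₀ := allTransports F E'
  have hI : InvT F E₀ := allTransports_invariant F E'
  have hrad : ∀ R, F.IsCentric R → F.IsRadical p R → pElemGroup F p R ≤ E₀.autGroup R := by
    intro R hc hr a ha
    refine (mem_autGroup _ hc.1).2
      ⟨autGroup_mem_hom F hc.1 (pElemGroup_le_autGroup F R ha), fun β hβ =>
        ⟨autGroup_mem_hom F hc.1 (pElemGroup_le_autGroup F R ha), ?_⟩⟩
    have hψ := restr_mem F hc.1 (autGroup_mem_hom F le_rfl hβ)
    have hr' : (restr hc.1 (S.subtype.comp β.toMonoidHom)).range = autImage β R :=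
      range_restr hc.1 _
    have h1 := h _ (isCentric_autImage F hβ hc)
      (tCentric_inf_of_isConj hT (tCentric_inf_radical hS hF hT hc hr)
        (isConj_autImage F hβ hc.1))
      (autCongr_mem_pElemGroup F (toIso_isIso F hψ hr') ha)
    refine ⟨_, autGroup_mem_hom E' (autImage_le β R) h1, fun x hx => ?_⟩
    have e : (⟨autExt β x, hx⟩ : autImage β R) = toIso F hψ hr' x :=
      Subtype.ext (autExt_of_mem β (hc.1 x.2))
    show ((MulAut.congr (toIso F hψ hr') a ⟨autExt β x, hx⟩ : autImage β R) : Ω) =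
      autExt β (a x : Ω)
    rw [e, autCongr_apply, MulEquiv.symm_apply_apply]
    exact (autExt_of_mem β (hc.1 (a x).2)).symm
  have hone : ∀ {P : Subgroup Ω} {f : P →* Ω}, f ∈ E₀.Hom P → Decomp F E₀ P f :=
    fun {P f} hf => ⟨1, one_mem _, f, hf,
      fun x => (autExt_of_mem (1 : MulAut S) (map_mem_S E₀ hf x)).symm⟩
  let D : FusionSystem S := subSystem F (fun P φ => Decomp F E₀ P φ)
    (fun hP hg => hone (E₀.conj_mem hP hg))
    (fun _ _ a b h => decomp_comp hI a b h)
    (fun {P φ} hφ a ψ hψ he => by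
      obtain ⟨α, hα, f, hf, hfe⟩ := decomp_symm hI (toIso F hφ rfl) a
      refine ⟨α, hα, f, hf, fun y => ?_⟩
      rw [← hfe y]
      obtain ⟨x, hx⟩ := y.2
      have hy : y = ⟨φ x, x, rfl⟩ := Subtype.ext hx.symm
      rw [hy, he x]
      exact (congrArg Subtype.val ((toIso F hφ rfl).symm_apply_apply x)).symm)
  have hD : F ≤ D := by
    refine FusionBatch.le_of_centric_radical_step hS hF D fun R hR hc hr ih a ha => ?_
    refine (mem_autGroup D hR.1).2 ⟨autGroup_mem_hom F hR.1 ha, ?_⟩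
    rcases hR.1.eq_or_lt with rfl | hlt
    · exact ⟨a, ha, _, subtype_mem _ le_rfl, fun x => (autExt_of_mem a x.2).symm⟩
    set K := Subgroup.closure {α : F.autGroup R | ∃ k : ℕ, orderOf α = p ^ k}
    haveI hKn : K.Normal := by
      refine ⟨fun n hn g => ?_⟩
      induction hn using Subgroup.closure_induction with
      | mem x hx =>
        obtain ⟨k, hk⟩ := hx
        exact Subgroup.subset_closure ⟨k, ((MulAut.conj g).orderOf_eq x).trans hk⟩
      | one => simp
      | mul x y _ _ hx hy =>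
        have h := K.mul_mem hx hy
        have e : g * x * g⁻¹ * (g * y * g⁻¹) = g * (x * y) * g⁻¹ := by group
        rwa [e] at h
      | inv x _ hx =>
        have h := K.inv_mem hx
        have e : (g * x * g⁻¹)⁻¹ = g * x⁻¹ * g⁻¹ := by group
        rwa [e] at h
    obtain ⟨h', k, N, N', en, hRN, hak, hk, hen, -, -, hag, hextK⟩ :=
      FusionAux.exists_frattini_extend hS hF hR K ⟨a, ha⟩
    have hN : normalizerIn S R ≤ N := fun g hg => by
      have hcj : R.normalizerMonoidHom ⟨g, hg.2⟩ ∈ autInducedBy S R :=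
        mem_autInducedBy.2 ⟨g, hg.1, fun _ => rfl⟩
      refine hextK g hg ⟨⟨_, autInducedBy_le_autGroup F hR.1 hcj⟩, Subgroup.subset_closure ?_,
        fun _ => rfl⟩
      obtain ⟨m, hm⟩ := isPGroup_autInducedBy hS R ⟨_, hcj⟩
      obtain ⟨j, -, hj⟩ := (Nat.dvd_prime_pow (Fact.out : p.Prime)).1 (orderOf_dvd_of_pow_eq_one hm)
      refine ⟨j, ?_⟩
      rw [Subgroup.orderOf_mk]
      rwa [Subgroup.orderOf_mk] at hj
    have hlt' : R < N := (lt_normalizerIn hS hlt).trans_le hN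
    have hdh : Decomp F E₀ R (fun x => ((h' : MulAut R) x : Ω)) :=
      decomp_restrict (ih N (le_S F hen) (card_lt_of_lt (le_S F hen) hlt') hen).2 hlt'.le
        fun x => (hag x).symm
    have hdk : Decomp F E₀ R (fun x => ((k : MulAut R) x : Ω)) :=
      hone (autGroup_mem_hom E₀ hR.1 (hrad R hc hr ⟨k, hk, rfl⟩))
    refine decomp_restrict (decomp_comp hI hdk hdh fun x => ((k : MulAut R) x).2) le_rfl fun x => ?_
    exact congrArg (fun m : F.autGroup R => (((m : MulAut R) x : R) : Ω)) hak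
  refine centricPElemSystem_le fun Q hQ => ?_
  rw [pElemGroup, Subgroup.map_le_iff_le_comap, Subgroup.closure_le]
  rintro a ⟨k, hk⟩
  obtain ⟨R, hQR, hR⟩ := exists_fullyNormalized F hQ.1
  obtain ⟨f, hf⟩ := (isConj_iff_exists_iso F).1 hQR
  haveI : Finite R := finite_of_le ‹_› hR.1
  have hA : IsPGroup p (Subgroup.zpowers (MulAut.congr f (a : MulAut Q))) := by
    refine IsPGroup.of_card (n := k) ?_
    rw [Nat.card_zpowers, MulEquiv.orderOf_eq (MulAut.congr f) (a : MulAut Q),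
      Subgroup.orderOf_coe, hk]
  obtain ⟨c, hc, hconj⟩ := exists_conj_le_autInducedBy (saturated_fullyNormalized hS hF hR).2 hA
    (Subgroup.zpowers_le.2 (autCongr_mem F hf a.2))
  have h1 := autInducedBy_le_autGroup E₀ hR.1 (hconj _ (Subgroup.mem_zpowers _))
  have h2 := autCongr_mem_of_decomp hI (fun P φ hφ => (hD P hφ).2)
    (hf.trans ((mem_autGroup F hR.1).1 hc)).symm h1
  have e : MulAut.congr (f.trans c).symm (c * MulAut.congr f (a : MulAut Q) * c⁻¹) =
      (a : MulAut Q) := by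
    ext x
    simp [MulAut.inv_def]
  rw [e] at h2
  exact h2

variable {Δ : Type*} [Group Δ] {E : FusionSystem T}

/-- The subsystem of maps composed of an automorphism of `S` of trivial value and a map generated
by `p`-elements. -/
noncomputable def charSystem (F : FusionSystem S) (p : ℕ) (hT : F.StronglyClosed T)
    (χ : ↥(F.autGroup T) →* Δ) : FusionSystem S :=
  subSystem F (fun P φ => DecompIn (kerS hT χ) (centricPElemSystem F p) P φ)
    (fun hP hg => ⟨1, one_mem _, _, (centricPElemSystem F p).conj_mem hP hg, fun x =>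
      (autExt_of_mem (1 : MulAut S) (map_mem_S (centricPElemSystem F p)
        ((centricPElemSystem F p).conj_mem hP hg) x)).symm⟩)
    (fun _ _ a b h => decompIn_comp (kerS_le hT) (centricPElemSystem_invariant F) a b h)
    (fun {P φ} hφ a ψ _ he => by
      obtain ⟨α, hα, f, hf, hfe⟩ :=
        decompIn_symm (kerS_le hT) (centricPElemSystem_invariant F) (toIso F hφ rfl) a
      refine ⟨α, hα, f, hf, fun y => ?_⟩
      rw [← hfe y]
      obtain ⟨x, hx⟩ := y.2
      have hy : y = ⟨φ x, x, rfl⟩ := Subtype.ext hx.symm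
      rw [hy, he x]
      exact (congrArg Subtype.val ((toIso F hφ rfl).symm_apply_apply x)).symm)

variable {χ : ↥(F.autGroup T) →* Δ}

omit [Finite S] [Fact p.Prime] in
theorem charSystem_sub (hT : F.StronglyClosed T) :
    (charSystem F p hT χ).IsSubsystemOf F := fun _ _ h => h.1

omit [Finite S] [Fact p.Prime] in
theorem centricPElem_le_char (hT : F.StronglyClosed T) :
    centricPElemSystem F p ≤ charSystem F p hT χ := fun _ φ h =>
  ⟨h.1, 1, one_mem _, φ, h, fun x =>
    (autExt_of_mem (1 : MulAut S) (map_mem_S (centricPElemSystem F p) h x)).symm⟩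

omit [Finite S] [Fact p.Prime] in
theorem kerS_le_char (hT : F.StronglyClosed T) :
    kerS hT χ ≤ (charSystem F p hT χ).autGroup S := fun α hα =>
  (mem_autGroup _ le_rfl).2 ⟨autGroup_mem_hom F le_rfl (kerS_le hT hα), α, hα, _,
    subtype_mem _ le_rfl, fun x => (autExt_of_mem α x.2).symm⟩

omit [Finite S] [Fact p.Prime] in
theorem char_le_of {D : FusionSystem S} (hT : F.StronglyClosed T)
    (h0 : centricPElemSystem F p ≤ D) (hH : kerS hT χ ≤ D.autGroup S) :
    charSystem F p hT χ ≤ D := by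
  rintro P φ ⟨-, α, hα, φ₀, hφ₀, he⟩
  exact comp_mem' D (h0 P hφ₀) (autGroup_mem_hom D le_rfl (hH hα))
    (map_mem_S (centricPElemSystem F p) hφ₀) fun x => (he x).trans (autExt_of_mem α _)

/-- Centric subgroups of the subsystem are centric in `F`. -/
theorem centric_of_char (hS : IsPGroup p S) (hF : F.IsSaturated p) (hT : F.StronglyClosed T)
    {P : Subgroup Ω} (hP : (charSystem F p hT χ).IsCentric P) : F.IsCentric P := by
  refine ⟨hP.1, ?_⟩
  rintro Q ⟨f, hf, rfl⟩ c hc
  obtain ⟨α, -, e, he, hfe⟩ := centricPElem_decomp hS hF hf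
  have hcR : ((α.symm ⟨c, hc.1⟩ : S) : Ω) ∈ centralizerIn S e.range := by
    refine ⟨(α.symm _).2, Subgroup.mem_centralizer_iff.2 ?_⟩
    rintro _ ⟨z, rfl⟩
    have h1 : α ⟨e z, map_mem_S _ he z⟩ * ⟨c, hc.1⟩ =
        ⟨c, hc.1⟩ * α ⟨e z, map_mem_S _ he z⟩ := by
      refine Subtype.ext ?_
      show _ * c = c * _
      rw [← autExt_of_mem, ← hfe]
      exact Subgroup.mem_centralizer_iff.1 hc.2 _ ⟨z, rfl⟩
    have h2 := congrArg (fun s => ((α.symm s : S) : Ω)) h1
    simpa using h2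
  obtain ⟨z, hz⟩ := hP.2 e.range ⟨e, centricPElem_le_char hT P he, rfl⟩ hcR
  refine ⟨z, ?_⟩
  rw [hfe, autExt_of_mem α (map_mem_S _ he z)]
  have : (⟨e z, map_mem_S _ he z⟩ : S) = α.symm ⟨c, hc.1⟩ := Subtype.ext hz
  rw [this, MulEquiv.apply_symm_apply]

/-- A conjugate in the subsystem with an outer automorphism in `O_p`, for a centric subgroup meeting
`T` badly. -/
theorem exists_star (hS : IsPGroup p S) (hF : F.IsSaturated p) (hT : F.StronglyClosed T)
    {P : Subgroup Ω} (hP : F.IsCentric P) (hbad : ¬ TCentric F T (P ⊓ T)) :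
    ∃ Q, (charSystem F p hT χ).IsConj P Q ∧
      ¬ autInducedBy S Q ⊓ autCore (charSystem F p hT χ) p Q ≤ Inn Q := by
  obtain ⟨f, hf, hb⟩ := exists_bad_conj hS hF hT hP.1 hbad
  obtain ⟨α, hα, e, he, hfe⟩ := centricPElem_decomp hS hF hf
  have heF := centricPElemSystem_sub F P he
  have hPR : F.IsConj P e.range := ⟨e, heF, rfl⟩
  refine ⟨e.range, ⟨e, centricPElem_le_char hT P he, rfl⟩, fun hle => ?_⟩
  have hRc : F.IsCentric e.range := isCentric_of_isConj hP hPR
  refine not_inn_of_bad hS hT hRc (fun hC => hb ?_) (le_trans (inf_le_inf_left _ ?_) hle)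
  · intro c hc
    obtain ⟨c', hc'T, hc'e⟩ : ∃ c' ∈ T, autExt α c' = c :=
      ⟨autExt (resT hT ⟨α, hα⟩ : MulAut T)⁻¹ c, autExt_mem _ hc.1, by
        rw [← autExt_resT hT ⟨α, hα⟩ (autExt_mem _ hc.1), autExt_inv' _ hc.1]⟩
    obtain ⟨z, hz⟩ := hC (x := c') ⟨hc'T, Subgroup.mem_centralizer_iff.2 fun y hy => by
      obtain ⟨⟨x, rfl⟩, hyT⟩ := hy
      refine commute_of_autExt (resT hT ⟨α, hα⟩ : MulAut T) hc'T hyT ?_
      rw [autExt_resT hT _ hc'T, autExt_resT hT _ hyT, hc'e, ← hfe]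
      refine Subgroup.mem_centralizer_iff.1 hc.2 _ ⟨⟨x, rfl⟩, ?_⟩
      rw [hfe, ← autExt_resT hT ⟨α, hα⟩ hyT]
      exact autExt_mem _ hyT⟩
    refine ⟨z, ?_⟩
    rw [hfe, hz, hc'e]
  · have h0 : autCore F p e.range ≤ (charSystem F p hT χ).autGroup e.range := fun γ hγ => by
      obtain ⟨k, hk⟩ := autCore_isPGroup F e.range ⟨γ, hγ⟩
      obtain ⟨j, -, hj⟩ := (Nat.dvd_prime_pow (Fact.out : p.Prime)).1
        (orderOf_dvd_of_pow_eq_one hk)
      rw [Subgroup.orderOf_mk] at hj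
      refine autGroup_mono (centricPElem_le_char hT) _
        (centricPElemSystem_contains F _ hRc
          ⟨⟨γ, autCore_le F p _ hγ⟩, Subgroup.subset_closure ⟨j, ?_⟩, rfl⟩)
      rw [Subgroup.orderOf_mk, hj]
    set A := (charSystem F p hT χ).autGroup e.range
    haveI hn : ((autCore F p e.range).subgroupOf A).Normal := ⟨fun n hn g =>
      Subgroup.mem_subgroupOf.2 (conj_mem_autCore F
        (autGroup_mono (charSystem_sub hT) _ g.2) (Subgroup.mem_subgroupOf.1 hn))⟩
    have h1 := Cores.le_pCore (p := p) hn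
      ((autCore_isPGroup F _).of_equiv (Subgroup.subgroupOfEquivOfLe h0).symm)
    intro γ hγ
    exact ⟨⟨γ, h0 hγ⟩, h1 hγ, rfl⟩

theorem charSystem_saturated (hS : IsPGroup p S) (hF : F.IsSaturated p)
    (hE : E.IsInvariantIn F) (hEs : E.IsSaturated p) (hΔ : (Nat.card Δ).Coprime p)
    (hker : (E.autGroup T).subgroupOf (F.autGroup T) ≤ χ.ker) :
    (charSystem F p hE.2.1 χ).IsSaturated p := by
  have hT := hE.2.1
  set E₀ := centricPElemSystem F p
  set F₀ := charSystem F p hE.2.1 χ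
  have hconjF : ∀ {P Q : Subgroup Ω}, F₀.IsConj P Q → F.IsConj P Q :=
    fun ⟨φ, hφ, h⟩ => ⟨φ, hφ.1, h⟩
  refine saturated_of_generated hS (ℋ := {P | F.IsCentric P ∧ TCentric F T (P ⊓ T)})
    (fun P hP Q hQ => ⟨isCentric_of_isConj hP.1 (hconjF hQ),
      tCentric_inf_of_isConj hT hP.2 (hconjF hQ)⟩)
    (fun P hP => ?_) (fun E' hE' => ?_) (fun P hP hPn => ?_)
  · obtain ⟨Q, hPQ, hQ⟩ := exists_fullyNormalized F hP.1.1
    obtain ⟨f, hf⟩ := (isConj_iff_exists_iso F).1 hPQ
    obtain ⟨γ, -, e, he, hfe⟩ := centricPElem_decomp hS hF hf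
    have heF := centricPElemSystem_sub F P he
    have hPR : F.IsConj P e.range := ⟨e, heF, rfl⟩
    have hRn : F.IsFullyNormalized e.range :=
      fullyNormalized_of_autExt hQ (range_le_S E₀ he)
        (isConj_trans (isConj_symm hPR) hPQ) (toIso E₀ he rfl) f hfe
    refine ⟨e.range, ⟨e, centricPElem_le_char hT P he, rfl⟩,
      fullyAutomized_of_le (charSystem_sub hT) (saturated_fullyNormalized hS hF hRn).2,
      hRn.1, fun P' φ hφ hrange => ?_⟩
    have hP' : TCentric F T (P' ⊓ T) := tCentric_inf_of_isConj hT hP.2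
      (isConj_trans hPR (isConj_symm ⟨φ, hφ.1, hrange⟩))
    obtain ⟨ψ, hψ, hψe⟩ := (saturated_fullyCentralized hS hF
      (saturated_fullyNormalized hS hF hRn).1).2 P' φ hφ.1 hrange
    refine ⟨ψ, ⟨hψ, ?_⟩, hψe⟩
    obtain ⟨α, hα, ψ₀, hψ₀, hψd⟩ := centricPElem_decomp hS hF hψ
    obtain ⟨η, hη, φ₀, hφ₀, hφd⟩ := hφ.2
    refine ⟨α, ?_, ψ₀, hψ₀, hψd⟩
    have hle : P' ≤ extender S P' φ := le_extender (le_S F hφ.1) (map_mem_S F hφ.1)
    have hψr := restr_mem E₀ hle hψ₀
    obtain ⟨c, hc, hce⟩ := E₀.inv_mem hψr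
    have hcP : ∀ y, c y ∈ P' := by
      rintro ⟨_, x, rfl⟩
      rw [hce]
      exact x.2
    have h0 := E₀.comp_mem hc hφ₀ hcP
    have hβ : η⁻¹ * α ∈ F.autGroup S := mul_mem ((F.autGroup S).inv_mem (kerS_le hT hη)) hα
    have hmem : η⁻¹ * α ∈ kerS hT χ := by
      refine mem_kerS.2 ⟨hβ, chi_eq_one_of_agree (hS := hS) (hE := hE) (hΔ := hΔ) hEs hker
        ⟨_, hβ⟩ (centricPElem_le_value hS hE hΔ hF _ h0)
        (tCentric_inf_of_isConj hT hP' ⟨_, centricPElemSystem_sub F P' hψr, rfl⟩) ?_⟩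
      rintro ⟨_, x, rfl⟩
      show φ₀ ⟨c _, _⟩ = _
      have e1 : (⟨c ⟨restr hle ψ₀ x, x, rfl⟩, hcP _⟩ : P') = x := Subtype.ext (hce x)
      rw [e1, autExt_mul _ _ (map_mem_S E₀ hψr x)]
      show φ₀ x = autExt η⁻¹ (autExt α (ψ₀ ⟨x, hle x.2⟩))
      rw [← hψd, hψe x x.2 (hle x.2), hφd, autExt_inv η (map_mem_S E₀ hφ₀ x)]
    have := mul_mem hη hmem
    rwa [mul_inv_cancel_left] at this
  · refine char_le_of hT (centricPElem_le_of_radical hS hF E' (fun R hR hRT a ha => ?_) hT)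
      fun α hα => ?_
    · refine (mem_autGroup E' hR.1).2 (hE' R ⟨hR, hRT⟩ (centricPElem_le_char hT R ?_))
      exact autGroup_mem_hom E₀ hR.1 (centricPElemSystem_contains F R hR ha)
    · refine (mem_autGroup E' le_rfl).2 (hE' S ⟨FusionBatch.isCentric_self hS hF, ?_⟩ ?_)
      · rw [inf_eq_right.2 hT.1]
        refine ⟨le_rfl, ?_⟩
        rintro _ ⟨φ, hφ, rfl⟩
        haveI : Finite T := finite_of_le ‹_› hT.1
        rw [range_eq_of_image_le (F.injective_of_mem hφ)
          (by rintro _ ⟨x, rfl⟩; exact sc_map_mem hT hφ x.2) le_rfl]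
        exact centralizerIn_le T
      · exact autGroup_mem_hom F₀ le_rfl (kerS_le_char hT hα)
  · have hPc := centric_of_char hS hF hT hP
    exact exists_star hS hF hT hPc fun h => hPn ⟨hPc, h⟩

end Cfsg.Agent.Tech.PPrimeCharacter
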