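import Cfsg.Agent.Tech.ResidualLimit
import Cfsg.Agent.Tech.PPrimeCharacterSystem
import Cfsg.Agent.Tech.CentralizerSubsystem
import Cfsg.Prelude.Def_LocalEven

/-!
Reducing `Aut(T)` of an invariant system, for `E` invariant over `T` with `p`-solvable automizer
quotient, without changing the residual limit.
-/

set_option autoImplicit false

open Cfsg Cfsg.FusionSystem
open scoped commutatorElement Pointwise
open Cfsg.Agent.FusionSys Cfsg.Agent.FusionAlperin
open Cfsg.Agent.S5119 (InvT autExt_inv autExt_inv' autExt_mul)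
open Cfsg.Agent.Tech.PPrimeCharacter (autExt_mem charSystem kerS resT autExt_resT)

namespace Cfsg.Agent.Tech.PSolvableStep

universe u

/-- One step down a series with `p`-power and coprime factors. -/
theorem exists_step {X : Type*} [Group X] [Finite X] {p : ℕ} [Fact p.Prime] (A : Subgroup X)
    [A.Normal] (hs : IsPSolvable p (X ⧸ A)) (K : Subgroup X) [K.Normal] (hlt : A < K) :
    ∃ K' : Subgroup X, K'.Normal ∧ A ≤ K' ∧ K' < K ∧
      ((K'.relIndex K).Coprime p ∨ (⁅K, K⁆ ≤ K' ∧ ∃ m : ℕ, K'.relIndex K = p ^ m)) := by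
  obtain ⟨n, H, h0, hl, hmono, hnorm, hidx⟩ := hs
  obtain ⟨J, hJ⟩ : ∃ J : Fin (n + 1) → Subgroup X,
      J = fun i => (H i).comap (QuotientGroup.mk' A) := ⟨_, rfl⟩
  have hJ0 : J 0 = A := by
    simp only [hJ, h0, MonoidHom.comap_bot, QuotientGroup.ker_mk']
  have hJl : J (Fin.last n) = ⊤ := by simp only [hJ, hl, Subgroup.comap_top]
  obtain ⟨i, hi, hi'⟩ : ∃ i : Fin n, J i.castSucc ⊓ K ≠ K ∧ J i.succ ⊓ K = K := by
    by_contra! hcon
    have : ∀ i : Fin (n + 1), J i ⊓ K ≠ K := by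
      intro i
      induction i using Fin.induction with
      | zero => rw [hJ0, inf_eq_left.2 hlt.le]; exact hlt.ne
      | succ i ih => exact hcon i ih
    exact this (Fin.last n) (by rw [hJl, top_inf_eq])
  have hKJ : K ≤ J i.succ := inf_eq_right.1 hi'
  haveI hJn : (J i.castSucc).Normal := hJ ▸ (hnorm _).comap _
  have hAJ : A ≤ J i.castSucc := by
    rw [hJ]
    exact fun a ha => Subgroup.mem_comap.2 (by
      rw [QuotientGroup.mk'_apply, (QuotientGroup.eq_one_iff a).2 ha]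
      exact one_mem _)
  obtain ⟨L, hL⟩ : ∃ L, L = J i.castSucc ⊓ K := ⟨_, rfl⟩
  haveI hLn : L.Normal := hL ▸ inferInstance
  have hLK : L < K := lt_of_le_of_ne (hL ▸ inf_le_right) (hL ▸ hi)
  have hJJ : J i.castSucc ≤ J i.succ := by
    rw [hJ]
    exact Subgroup.comap_mono (hmono (Fin.castSucc_le_succ i))
  have hdvd : L.relIndex K ∣ (H i.castSucc).relIndex (H i.succ) := by
    have h1 : (J i.castSucc).relIndex (J i.succ) = (H i.castSucc).relIndex (H i.succ) := by
      rw [hJ, Subgroup.relIndex_comap,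
        Subgroup.map_comap_eq_self_of_surjective (QuotientGroup.mk'_surjective A)]
    rw [hL, Subgroup.inf_relIndex_right, ← h1,
      ← Subgroup.relIndex_mul_relIndex (J i.castSucc) (K ⊔ J i.castSucc) (J i.succ) le_sup_right
        (sup_le hKJ hJJ), Subgroup.relIndex_sup_right]
    exact Dvd.intro _ rfl
  have hAL : A ≤ L := hL ▸ le_inf hAJ hlt.le
  rcases hidx i with ⟨m, hm⟩ | hc
  swap
  · exact ⟨L, hLn, hAL, hLK, Or.inl (Nat.Coprime.coprime_dvd_left hdvd hc)⟩
  obtain ⟨j, -, hj⟩ := (Nat.dvd_prime_pow (Fact.out : p.Prime)).1 (hm ▸ hdvd)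
  refine ⟨L ⊔ ⁅K, K⁆, inferInstance, hAL.trans le_sup_left,
    lt_of_le_of_ne (sup_le hLK.le (Subgroup.commutator_le_self K)) fun h => ?_,
    Or.inr ⟨le_sup_right, ?_⟩⟩
  · haveI : (L.subgroupOf K).Normal := hLn.subgroupOf K
    have hQ : IsPGroup p (K ⧸ L.subgroupOf K) :=
      IsPGroup.of_card (n := j) (by rw [← Subgroup.index_eq_card]; exact hj)
    haveI : Nontrivial (K ⧸ L.subgroupOf K) := by
      rw [← Finite.one_lt_card_iff_nontrivial, ← Subgroup.index_eq_card]
      exact Subgroup.one_lt_index_of_ne_top fun ht => hLK.not_ge (Subgroup.subgroupOf_eq_top.1 ht)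
    haveI := hQ.isNilpotent
    refine (Group.IsSolvable.commutator_lt_top_of_nontrivial (K ⧸ L.subgroupOf K)).ne
      (eq_top_iff.2 fun q _ => ?_)
    obtain ⟨x, rfl⟩ := QuotientGroup.mk'_surjective _ q
    have hx : (x : X) ∈ L ⊔ ⁅K, K⁆ := h.symm ▸ x.2
    obtain ⟨l, hl', c, hc, hxc⟩ := Subgroup.mem_sup_of_normal_left.1 hx
    rw [← Subgroup.map_subtype_commutator] at hc
    obtain ⟨c', hc', rfl⟩ := hc
    have e : x = ⟨l, hLK.le hl'⟩ * c' := Subtype.ext hxc.symm
    rw [e, map_mul, show QuotientGroup.mk' (L.subgroupOf K) ⟨l, hLK.le hl'⟩ = 1 from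
      (QuotientGroup.eq_one_iff _).2 (Subgroup.mem_subgroupOf.2 hl'), one_mul]
    have h1 := Subgroup.mem_map_of_mem (QuotientGroup.mk' (L.subgroupOf K)) hc'
    rw [commutator_def, Subgroup.map_commutator] at h1
    rw [commutator_def]
    exact Subgroup.commutator_mono le_top le_top h1
  · obtain ⟨k, -, hk⟩ := (Nat.dvd_prime_pow (Fact.out : p.Prime)).1
      (hj ▸ Subgroup.relIndex_dvd_of_le_left K (le_sup_left : L ≤ L ⊔ ⁅K, K⁆))
    exact ⟨k, hk⟩

variable {Ω : Type u} [Group Ω] {S T U : Subgroup Ω} {p : ℕ} [Finite S] [Fact p.Prime]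
  {F : FusionSystem S} {E : FusionSystem T} {G : FusionSystem U}

/-- A weakly normal system over a subgroup containing `T C_S(T)` that contains `E` and has the
residual limit of `F`. -/
structure Good (p : ℕ) (F : FusionSystem S) (E : FusionSystem T) (G : FusionSystem U) : Prop where
  sat : G.IsSaturated p
  inv : G.IsInvariantIn F
  sup_le : T ⊔ centralizerIn S T ≤ U
  sub : E.IsSubsystemOf G
  lim : ∀ {A B : Subgroup Ω} (L : FusionSystem A) (L' : FusionSystem B),
    L.IsResidualLimitOf F p → L'.IsResidualLimitOf G p → ∀ P, L.Hom P = L'.Hom P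

theorem good_self (hS : IsPGroup p S) (hF : F.IsSaturated p) (hE : E.IsInvariantIn F) :
    Good p F E F where
  sat := hF
  inv := FusionQd.invariant_self F
  sup_le := _root_.sup_le hE.2.1.1 (centralizerIn_le T)
  sub := hE.1
  lim := fun _ _ h h' => FusionSub.residualLimit_unique hS h h'

omit [Finite S] [Fact p.Prime] in
theorem stronglyClosed_in (hE : E.IsInvariantIn F) (hG : Good p F E G) : G.StronglyClosed T :=
  ⟨le_sup_left.trans hG.sup_le, fun R hR φ hφ x => hE.2.1.2 R hR φ (hG.inv.1 R hφ) x⟩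

/-- `E` is invariant in each such system. -/
theorem invariant_in (hS : IsPGroup p S) (hF : F.IsSaturated p) (hE : E.IsInvariantIn F)
    (hG : Good p F E G) : E.IsInvariantIn G := by
  have hT := stronglyClosed_in hE hG
  have hUS := hG.inv.2.1.1
  haveI : Finite U := finite_of_le ‹_› hUS
  have hGF : G.autGroup T ≤ F.autGroup T := FusionSub.autGroup_le_of_isSubsystemOf hG.inv.1 T
  refine ⟨hG.sub, hT, fun P hP φ hφ α hα => hE.2.2.1 P hP φ hφ α (hGF hα),
    fun P hP φ hφ => ?_⟩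
  have hI : InvT G E := fun β hβ => PPrimeCharacter.invT_of_invariant hE β (hGF hβ)
  have hn : ∀ R, R ≤ T → ((E.autGroup R).subgroupOf (G.autGroup R)).Normal := fun R hR =>
    ⟨fun b hb a => by
      have h := autCongr_mem_of_invariant hS hF hE hR
        ((mem_autGroup F (hR.trans hE.2.1.1)).1
          (FusionSub.autGroup_le_of_isSubsystemOf hG.inv.1 R a.2)) hb
      exact Subgroup.mem_subgroupOf.2 h⟩
  obtain ⟨α, hα, e, he, hfe⟩ :=
    S5119.decomp_of_invariance (hS.to_le hUS) hG.sat hT hI hn hP φ hφ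
  exact ⟨α, hα, e, he, fun x hx => (hfe x).trans (autExt_of_mem α hx)⟩

omit [Finite S] [Fact p.Prime] in
theorem pElemGroup_mono (h : E.IsSubsystemOf G) (Q : Subgroup Ω) :
    pElemGroup E p Q ≤ pElemGroup G p Q := by
  have hle := FusionSub.autGroup_le_of_isSubsystemOf h Q
  rw [pElemGroup, Subgroup.map_le_iff_le_comap, Subgroup.closure_le]
  rintro a ⟨k, hk⟩
  exact ⟨⟨a, hle a.2⟩, Subgroup.subset_closure ⟨k, by
    rw [Subgroup.orderOf_mk, Subgroup.orderOf_coe, hk]⟩, rfl⟩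

/-- Removing a `p'`-quotient of the automizer of `T`. -/
theorem step_coprime (hS : IsPGroup p S) (hF : F.IsSaturated p) (hE : E.IsInvariantIn F)
    (hEs : E.IsSaturated p) (hG : Good p F E G) {K' : Subgroup (MulAut T)}
    (hA : E.autGroup T ≤ K') (hK'G : K' ≤ G.autGroup T)
    (hn : ∀ a ∈ F.autGroup T, ∀ b ∈ K', a * b * a⁻¹ ∈ K')
    (hidx : (K'.relIndex (G.autGroup T)).Coprime p) :
    ∃ G' : FusionSystem U, Good p F E G' ∧ G'.autGroup T = K' := by
  have hUS := hG.inv.2.1.1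
  haveI : Finite U := finite_of_le ‹_› hUS
  have hU : IsPGroup p U := hS.to_le hUS
  have hTU : T ≤ U := le_sup_left.trans hG.sup_le
  haveI : Finite T := finite_of_le ‹_› (hTU.trans hUS)
  have hGF : G.autGroup T ≤ F.autGroup T := FusionSub.autGroup_le_of_isSubsystemOf hG.inv.1 T
  haveI : (K'.subgroupOf (G.autGroup T)).Normal :=
    ⟨fun b hb a => Subgroup.mem_subgroupOf.2 (hn a (hGF a.2) b (Subgroup.mem_subgroupOf.1 hb))⟩
  have hEG := invariant_in hS hF hE hG
  have hT := hEG.2.1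
  obtain ⟨χ, hχ⟩ : ∃ χ, χ = QuotientGroup.mk' (K'.subgroupOf (G.autGroup T)) := ⟨_, rfl⟩
  have hΔ : (Nat.card (↥(G.autGroup T) ⧸ K'.subgroupOf (G.autGroup T))).Coprime p := by
    rw [← Subgroup.index_eq_card]
    exact hidx
  have hker : ∀ a : G.autGroup T, χ a = 1 ↔ (a : MulAut T) ∈ K' := fun a => by
    rw [hχ, QuotientGroup.mk'_apply, QuotientGroup.eq_one_iff, Subgroup.mem_subgroupOf]
  have hkE : (E.autGroup T).subgroupOf (G.autGroup T) ≤ χ.ker := fun a ha =>
    MonoidHom.mem_ker.2 ((hker a).2 (hA (Subgroup.mem_subgroupOf.1 ha)))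
  have hs := PPrimeCharacter.charSystem_saturated hU hG.sat hEG hEs hΔ hkE
  obtain ⟨G', rfl⟩ : ∃ G', G' = charSystem G p hEG.2.1 χ := ⟨_, rfl⟩
  -- a map of the system of `p`-elements acts on `T` inside `K'`
  have hval : ∀ (φ₀ : T →* Ω), φ₀ ∈ (centricPElemSystem G p).Hom T →
      ∃ c ∈ K', ∀ x : T, φ₀ x = autExt c x := by
    intro φ₀ hφ₀
    obtain ⟨γ, hγ, e, he, hφe⟩ := PPrimeCharacter.dAt_restrict
      (PPrimeCharacter.centricPElem_le_value hU hEG hΔ hG.sat T hφ₀).2 (le_inf le_rfl le_rfl)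
      (g := fun x : T => φ₀ x) fun _ => rfl
    have hr : e.range = T := range_eq_of_image_le (E.injective_of_mem he)
      (range_le_S E he) le_rfl
    refine ⟨(γ : MulAut T) * toIso E he hr,
      K'.mul_mem ((hker γ).1 hγ) (hA (toIso_mem_autGroup E he hr)), fun x => ?_⟩
    refine (hφe x).trans ?_
    rw [autExt_mul _ _ x.2]
    exact congrArg (autExt (γ : MulAut T)) (Eq.trans rfl (autExt_of_mem (toIso E he hr) x.2).symm)
  have haut : (charSystem G p hEG.2.1 χ).autGroup T = K' := by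
    refine le_antisymm (fun a ha => ?_) (fun a ha => ?_)
    · obtain ⟨-, α, hα, φ₀, hφ₀, hfe⟩ := autGroup_mem_hom _ hTU ha
      obtain ⟨hαG, hα1⟩ := PPrimeCharacter.mem_kerS.1 hα
      obtain ⟨c, hc, hce⟩ := hval φ₀ hφ₀
      have e : a = (resT hT ⟨α, hαG⟩ : MulAut T) * c := by
        refine MulEquiv.ext fun x => Subtype.ext ?_
        rw [← autExt_of_mem a x.2, ← autExt_of_mem _ x.2, autExt_mul _ _ x.2,
          autExt_resT hT _ (autExt_mem c x.2), ← hce]
        exact (autExt_of_mem a x.2).trans (hfe x)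
      exact e ▸ K'.mul_mem ((hker _).1 hα1) hc
    · obtain ⟨β, hβ, e0, he0, hfe⟩ :=
        centricPElem_decomp hU hG.sat (autGroup_mem_hom G hTU (hK'G ha))
      obtain ⟨c, hc, hce⟩ := hval e0 he0
      have e : a = (resT hT ⟨β, hβ⟩ : MulAut T) * c := by
        refine MulEquiv.ext fun x => Subtype.ext ?_
        rw [← autExt_of_mem a x.2, ← autExt_of_mem _ x.2, autExt_mul _ _ x.2,
          autExt_resT hT _ (autExt_mem c x.2), ← hce]
        exact (autExt_of_mem a x.2).trans (hfe x)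
      have hβK : (resT hT ⟨β, hβ⟩ : MulAut T) ∈ K' := by
        have := K'.mul_mem ha (K'.inv_mem hc)
        rwa [e, mul_inv_cancel_right] at this
      exact (mem_autGroup _ hTU).2 ⟨autGroup_mem_hom G hTU (hK'G ha), β,
        PPrimeCharacter.mem_kerS.2 ⟨hβ, (hker _).2 hβK⟩, e0, he0, hfe⟩
  have hsubG := PPrimeCharacter.charSystem_sub (χ := χ) (p := p) hEG.2.1
  have hsubE : E.IsSubsystemOf (charSystem G p hEG.2.1 χ) := by
    intro P φ hφ
    obtain ⟨α, hα, e0, he0, hfe⟩ := centricPElem_decomp (hU.to_le hTU) hEs hφ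
    have h0 : centricPElemSystem E p ≤ FusionSub.restrictTo (charSystem G p hEG.2.1 χ) hTU :=
      centricPElemSystem_le fun Q hQ => ((pElemGroup_mono hG.sub Q).trans
        ((centricPElem_index hU hG.sat (hQ.1.trans hTU)).trans
          (autGroup_mono (PPrimeCharacter.centricPElem_le_char hEG.2.1) Q))).trans
        (FusionSub.autGroup_le_restrictTo _ hTU hQ.1)
    exact comp_mem' _ (h0 P he0).1 (autGroup_mem_hom _ hTU (haut.ge (hA hα)))
      (map_mem_S (centricPElemSystem E p) he0) fun x => (hfe x).trans (autExt_of_mem α _)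
  have hinv : (charSystem G p hEG.2.1 χ).IsInvariantIn F := by
    have hU' := hG.inv.2.1
    refine ⟨fun P φ hφ => hG.inv.1 P (hsubG P hφ), hU', fun P hP φ hφ β hβ => ?_,
      fun P hP φ hφ => ?_⟩
    · obtain ⟨hφG, η, hη, φ₀, hφ₀, he⟩ := hφ
      have hI := PPrimeCharacter.invT_of_invariant hG.inv
      obtain ⟨c, hc, hce⟩ := hI β hβ P φ hφG
      obtain ⟨c₀, hc₀, hc₀e⟩ : ∃ c₀ ∈ (centricPElemSystem G p).Hom (autImage β P),
          ∀ (x : P) (h : autExt β x ∈ autImage β P),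
            c₀ ⟨autExt β x, h⟩ = autExt β (φ₀ x) := by
        obtain ⟨c₀, hc₀, hc₀e⟩ := hI β hβ P φ₀ hφ₀.1
        refine ⟨c₀, ⟨hc₀, fun E' hE' => ?_⟩, hc₀e⟩
        have hcand : ContainsCentricPElems G p (transportSystem G E' β) := by
          intro Q hQ α hα
          refine (mem_autGroup _ hQ.1).2
            ⟨autGroup_mem_hom G hQ.1 (pElemGroup_le_autGroup G Q hα), ?_⟩
          have hψ := restr_mem F hQ.1 (autGroup_mem_hom F hUS hβ)
          have hr : (restr hQ.1 (U.subtype.comp β.toMonoidHom)).range = autImage β Q :=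
            range_restr hQ.1 _
          have hQ' : G.IsCentric (autImage β Q) := centric_of_tCentric hG.inv.1
            (tCentric_of_isConj hU' (tCentric_of_centric hG.inv hQ) ⟨_, hψ, hr⟩)
          have h1 := hE' _ hQ' (S5141.pElem_congr hS hF hG.inv hQ.1 (toIso_isIso F hψ hr) hα)
          refine ⟨_, autGroup_mem_hom E' (autImage_le β Q) h1, fun x h => ?_⟩
          have hx : (⟨autExt β x, h⟩ : autImage β Q) = toIso F hψ hr x :=
            Subtype.ext (autExt_of_mem β (hQ.1 x.2))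
          show ((MulAut.congr (toIso F hψ hr) α ⟨autExt β x, h⟩ : autImage β Q) : Ω) = _
          rw [hx, autCongr_apply, MulEquiv.symm_apply_apply]
          exact (autExt_of_mem β (hQ.1 (α x).2)).symm
        obtain ⟨-, d, hd, hde⟩ := hφ₀.2 _ hcand
        refine mem_hom_congr E' hd fun y => ?_
        obtain ⟨x, hx, hxT, hxy⟩ := exists_autExt_eq β y
        have hy : y = ⟨autExt β (⟨x, hx⟩ : P), autExt_mem_autImage β hP hx⟩ :=
          Subtype.ext hxy.symm
        rw [hy, hc₀e, hde]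
      obtain ⟨hηG, hη1⟩ := PPrimeCharacter.mem_kerS.1 hη
      have hconj : β * η * β⁻¹ ∈ G.autGroup U :=
        autCongr_mem_of_invariant hS hF hG.inv le_rfl ((mem_autGroup F hUS).1 hβ) hηG
      have hker' : β * η * β⁻¹ ∈ kerS hT χ := by
        refine PPrimeCharacter.mem_kerS.2 ⟨hconj, (hker _).2 ?_⟩
        have hst : β ∈ subStab U T := fun x =>
          sc_map_mem_iff hE.2.1 (autGroup_mem_hom F hUS hβ) x
        obtain ⟨b, hb⟩ : ∃ b, b = restrStab hTU ⟨β, hst⟩ := ⟨_, rfl⟩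
        have e : (resT hT ⟨β * η * β⁻¹, hconj⟩ : MulAut T) =
            b * (resT hT ⟨η, hηG⟩ : MulAut T) * b⁻¹ := by
          refine mul_right_cancel (b := b) ?_
          rw [inv_mul_cancel_right, hb]
          refine MulEquiv.ext fun x => Subtype.ext ?_
          show ((β * η * β⁻¹) (β ⟨x, hTU x.2⟩) : U) = (β (η ⟨x, hTU x.2⟩) : U).1
          simp
        rw [e, hb]
        exact hn _ (restrStab_mem_autGroup F hTU hUS hβ) _ ((hker _).1 hη1)
      refine ⟨c, ⟨hc, β * η * β⁻¹, hker', c₀, hc₀, fun y => ?_⟩, fun x hφx hαx => ?_⟩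
      · obtain ⟨x, hx, hxT, hxy⟩ := exists_autExt_eq β y
        have hy : y = ⟨autExt β (⟨x, hx⟩ : P), autExt_mem_autImage β hP hx⟩ :=
          Subtype.ext hxy.symm
        have h1 : φ₀ ⟨x, hx⟩ ∈ U := map_mem_S _ hφ₀ _
        rw [hy, hce, hc₀e, he, autExt_mul _ _ (autExt_mem β h1), autExt_inv β h1,
          autExt_mul _ _ h1]
      · have e : (⟨_, hαx⟩ : autImage β P) = ⟨autExt β x, autExt_mem_autImage β hP x.2⟩ :=
          Subtype.ext (autExt_of_mem β (hP x.2)).symm
        rw [e, hce, autExt_of_mem β hφx]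
    · obtain ⟨α, hα, g, hg, hφe⟩ := hG.inv.2.2.2 P hP φ hφ
      obtain ⟨γ, hγ, e₀, he₀, hge⟩ := centricPElem_decomp hU hG.sat hg
      refine ⟨α * γ, mul_mem hα (FusionSub.autGroup_le_of_isSubsystemOf hG.inv.1 U hγ), e₀,
        PPrimeCharacter.centricPElem_le_char hEG.2.1 P he₀, fun x hx => ?_⟩
      rw [hφe x (map_mem_S G hg x)]
      refine congrArg (fun w => ((α w : U) : Ω)) (Subtype.ext ?_)
      exact (hge x).trans (autExt_of_mem γ hx)
  refine ⟨_, ⟨hs, hinv, hG.sup_le, hsubE, fun L L' hL hL' => ?_⟩, haut⟩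
  obtain ⟨A, L₀, hL₀⟩ := ResidualLimit.exists_limit hU hG.sat
  exact fun P => (hG.lim L L₀ hL hL₀ P).trans
    (ResidualLimit.limit_eq_of_invariant hS hF hG.inv hG.sat hinv hs hL₀ hL' P)

section PPower

omit [Finite S] [Fact p.Prime] in
/-- The action on `T` of an image is the conjugate of the action by the restriction of the map. -/
theorem conj_map (hTS : S ≤ Subgroup.normalizer (T : Set Ω)) {W : Subgroup Ω} (hTW : T ≤ W)
    (hW : W ≤ S) {ψ : W →* Ω} (hψ : ∀ w, ψ w ∈ S) {a : MulAut T}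
    (ha : ∀ t : T, ψ ⟨t, hTW t.2⟩ = (a t : Ω)) (w : W) :
    T.normalizerMonoidHom ⟨ψ w, hTS (hψ w)⟩ * a =
      a * T.normalizerMonoidHom ⟨w, hTS (hW w.2)⟩ := by
  refine MulEquiv.ext fun t => Subtype.ext ?_
  show ψ w * (a t : Ω) * (ψ w)⁻¹ = (a _ : Ω)
  rw [← ha, ← ha, ← map_inv, ← map_mul, ← map_mul]
  rfl

omit [Finite S] [Fact p.Prime] in
/-- An element of order prime to `p` lies in every normal subgroup of `p`-power index. -/
theorem mem_of_coprime_pow {X : Type*} [Group X] {L : Subgroup X} [L.Normal] {m : ℕ}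
    (hidx : L.index = p ^ m) {a : X} (ha : (orderOf a).Coprime p) : a ∈ L := by
  refine (QuotientGroup.eq_one_iff (N := L) a).1 (orderOf_eq_one_iff.1 ?_)
  exact Nat.eq_one_of_dvd_coprimes (ha.pow_right m)
    (orderOf_map_dvd (QuotientGroup.mk' L) a)
    (hidx ▸ Subgroup.index_eq_card L ▸ orderOf_dvd_natCard _)

/-- Removing an abelian `p`-quotient of the automizer of `T`. -/
theorem step_pPower (hS : IsPGroup p S) (hF : F.IsSaturated p) (hE : E.IsInvariantIn F)
    (hEs : E.IsSaturated p) (hG : Good p F E G) {K' : Subgroup (MulAut T)}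
    (hA : E.autGroup T ≤ K') (hK'G : K' ≤ G.autGroup T)
    (hn : ∀ a ∈ F.autGroup T, ∀ b ∈ K', a * b * a⁻¹ ∈ K')
    (hcomm : ∀ a ∈ G.autGroup T, ∀ b ∈ G.autGroup T, a * b * a⁻¹ * b⁻¹ ∈ K') {m : ℕ}
    (hidx : K'.relIndex (G.autGroup T) = p ^ m) :
    ∃ (U' : Subgroup Ω) (G' : FusionSystem U'), Good p F E G' ∧ G'.autGroup T = K' := by
  have hUS := hG.inv.2.1.1
  haveI : Finite U := finite_of_le ‹_› hUS
  have hU : IsPGroup p U := hS.to_le hUS
  have hTU : T ≤ U := le_sup_left.trans hG.sup_le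
  haveI : Finite T := finite_of_le ‹_› (hTU.trans hUS)
  have hT := stronglyClosed_in hE hG
  have hUN : U ≤ Subgroup.normalizer (T : Set Ω) := sc_le_normalizer hT
  obtain ⟨ρ, hρ⟩ : ∃ ρ : U →* MulAut T,
      ρ = T.normalizerMonoidHom.comp (Subgroup.inclusion hUN) := ⟨_, rfl⟩
  have hρv : ∀ u : U, ρ u = T.normalizerMonoidHom ⟨u, hUN u.2⟩ := fun u => by rw [hρ]; rfl
  have hρe : ∀ (u : U) (t : T), (ρ u t : Ω) = u * t * (u : Ω)⁻¹ := fun u t => by rw [hρv]; rfl
  have hρG : ∀ u : U, ρ u ∈ G.autGroup T := fun u =>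
    autInducedBy_le_autGroup G hTU (mem_autInducedBy.2 ⟨u, u.2, hρe u⟩)
  have hρT : ∀ u : U, (u : Ω) ∈ T → ρ u ∈ K' := fun u hu =>
    hA (autInducedBy_le_autGroup E le_rfl (mem_autInducedBy.2 ⟨u, hu, hρe u⟩))
  -- maps of `G` preserve the class modulo `K'`
  let D : FusionSystem U := subSystem G
    (fun P φ => ∀ (x : P) (hx : (x : Ω) ∈ U) (hφ : φ x ∈ U),
      (ρ ⟨x, hx⟩)⁻¹ * ρ ⟨φ x, hφ⟩ ∈ K')
    (fun {P g} hP hg x hx hgx => by
      rw [show (⟨conjHom P g x, hgx⟩ : U) = ⟨g, hg⟩ * ⟨x, hx⟩ * ⟨g, hg⟩⁻¹ from rfl,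
        map_mul, map_mul, map_inv]
      have h := hcomm _ ((G.autGroup T).inv_mem (hρG ⟨x, hx⟩)) _ (hρG ⟨g, hg⟩)
      simpa [mul_assoc] using h)
    (fun {P Q φ ψ} hφ hψ a b h x hx hψx => by
      have h1 := K'.mul_mem (a x hx (map_mem_S G hφ x))
        (b ⟨φ x, h x⟩ (map_mem_S G hφ x) hψx)
      simpa [mul_assoc] using h1)
    (fun {P φ} hφ a ψ hψ he y hy hψy => by
      obtain ⟨x, hx⟩ := y.2
      have hy' : y = ⟨φ x, x, rfl⟩ := Subtype.ext hx.symm
      subst hy'
      have h1 := K'.inv_mem (a x (le_S G hφ x.2) hy)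
      have e : (⟨ψ ⟨φ x, x, rfl⟩, hψy⟩ : U) = ⟨x, le_S G hφ x.2⟩ := Subtype.ext (he x)
      rw [e]
      simpa using h1)
  have hD : G ≤ D := by
    refine hom_subset_of_step hU hG.sat D fun P hP ih α hα => ?_
    refine (mem_autGroup D hP.1).2 ⟨autGroup_mem_hom G hP.1 hα, fun x hx hαx => ?_⟩
    change (ρ ⟨x, hx⟩)⁻¹ * ρ ⟨(α x : P), hαx⟩ ∈ K'
    by_cases hTP : T ≤ P
    · have hst : α ∈ subStab P T := fun y =>
        sc_map_mem_iff hT (autGroup_mem_hom G hP.1 hα) y
      have ha := restrStab_mem_autGroup G hTP hP.1 (α := ⟨α, hst⟩) hα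
      have h1 := conj_map hUN hTP hP.1 (ψ := P.subtype.comp α.toMonoidHom)
        (fun w => hP.1 (α w).2) (a := restrStab hTP ⟨α, hst⟩) (fun t => rfl) x
      rw [hρv, hρv]
      have h2 := hcomm _ ((G.autGroup T).inv_mem (hρv ⟨x, hx⟩ ▸ hρG ⟨x, hx⟩)) _ ha
      rw [inv_inv, mul_assoc _ (restrStab hTP ⟨α, hst⟩), ← h1] at h2
      simpa [mul_assoc] using h2
    · haveI : Finite P := finite_of_le ‹_› hP.1
      -- the automorphisms moving only within `T`
      let K₁ : Subgroup (G.autGroup P) :=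
        { carrier := {n | ∀ y : P, (y : Ω)⁻¹ * ((n : MulAut P) y : P) ∈ T}
          one_mem' := fun y => by simp
          mul_mem' := fun {a b} ha hb y => by
            have h := T.mul_mem (hb y) (ha ((b : MulAut P) y))
            simpa [mul_assoc] using h
          inv_mem' := fun {a} ha y => by
            have h := T.inv_mem (ha ((a : MulAut P)⁻¹ y))
            simpa using h }
      haveI : K₁.Normal := by
        refine ⟨fun n hn c y => ?_⟩
        obtain ⟨z, rfl⟩ := (c : MulAut P).surjective y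
        have h1 := sc_map_mem hT (autGroup_mem_hom G hP.1 c.2) (x := z⁻¹ * (n : MulAut P) z)
          (hn z)
        simpa using h1
      obtain ⟨h, k, N, N', e, hPN, hαk, hk, he, -, hNn, hag, hext⟩ :=
        FusionAux.exists_frattini_extend hU hG.sat hP K₁ ⟨α, hα⟩
      -- a new element of the normalizer in `T`
      obtain ⟨t, ht, htP, htN⟩ :
          ∃ t ∈ T, t ∉ P ∧ t ∈ Subgroup.normalizer (P : Set Ω) := by
        have hW : P ⊔ T ≤ U := sup_le hP.1 hTU
        haveI : Finite ↥(P ⊔ T) := finite_of_le ‹_› hW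
        obtain ⟨g, hg, hgN, hgP⟩ := exists_normalizer_mem_not_mem (hU.to_le hW)
          (lt_of_le_of_ne le_sup_left fun h => hTP (h ▸ le_sup_right))
        have hgm : g ∈ (P : Set Ω) * (T : Set Ω) := by
          rw [← Subgroup.coe_mul_of_left_le_normalizer_right P T (hP.1.trans hUN)]
          exact hg
        obtain ⟨y, hy, t, ht, rfl⟩ := hgm
        refine ⟨t, ht, fun htP => hgP (P.mul_mem hy htP), ?_⟩
        have h := (Subgroup.normalizer (P : Set Ω)).mul_mem
          ((Subgroup.normalizer _).inv_mem (Subgroup.le_normalizer hy)) hgN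
        simpa using h
      have htm : t ∈ N := by
        refine hext t ⟨hTU ht, htN⟩ ⟨⟨_, autInducedBy_le_autGroup G hP.1
          (mem_autInducedBy.2 ⟨t, hTU ht, fun _ => rfl⟩ :
            P.normalizerMonoidHom ⟨t, htN⟩ ∈ autInducedBy U P)⟩, fun y => ?_, fun y => rfl⟩
        show (y : Ω)⁻¹ * (t * (y : Ω) * t⁻¹) ∈ T
        have h1 := T.mul_mem (sc_conj_mem hT (U.inv_mem (hP.1 y.2)) ht) (T.inv_mem ht)
        simpa [mul_assoc] using h1
      have hlt : P < N := lt_of_le_of_ne hPN fun h => htP (h ▸ htm)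
      have hNU : N ≤ U := hNn.trans (normalizerIn_le P)
      have he' := ((ih N hNU (card_lt_of_lt hNU hlt)) he).2
      have h1 := he' ⟨(k : MulAut P) x, hPN ((k : MulAut P) x).2⟩ (hP.1 ((k : MulAut P) x).2)
        (map_mem_S G he _)
      have hkT : (x : Ω)⁻¹ * ((k : MulAut P) x : P) ∈ T := hk x
      have h2 := hρT ⟨_, hTU hkT⟩ hkT
      rw [show (⟨_, hTU hkT⟩ : U) = (⟨x, hx⟩ : U)⁻¹ * ⟨((k : MulAut P) x : P),
        hP.1 ((k : MulAut P) x).2⟩ from rfl, map_mul, map_inv] at h2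
      have h3 := K'.mul_mem h2 h1
      have e1 : α x = (h : MulAut P) ((k : MulAut P) x) :=
        congrArg (fun n : G.autGroup P => (n : MulAut P) x) hαk
      have e2 : (⟨(α x : P), hαx⟩ : U) = ⟨((e ⟨(k : MulAut P) x, hPN ((k : MulAut P) x).2⟩ : N') : Ω),
          map_mem_S G he _⟩ :=
        Subtype.ext ((congrArg Subtype.val e1).trans (hag ((k : MulAut P) x)).symm)
      rw [e2]
      simpa [mul_assoc] using h3
  obtain ⟨U', hU'⟩ : ∃ U', U' = (K'.comap ρ).map U.subtype := ⟨_, rfl⟩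
  have hmem : ∀ {x : Ω}, x ∈ U' ↔ ∃ hx : x ∈ U, ρ ⟨x, hx⟩ ∈ K' := by
    intro x
    rw [hU']
    constructor
    · rintro ⟨u, hu, rfl⟩
      exact ⟨u.2, hu⟩
    · rintro ⟨hx, h⟩
      exact ⟨⟨x, hx⟩, h, rfl⟩
  have hU'U : U' ≤ U := fun x hx => (hmem.1 hx).1
  haveI : Finite U' := finite_of_le ‹_› hU'U
  have hR : T ⊔ centralizerIn S T ≤ U' := by
    refine _root_.sup_le (fun t ht => hmem.2 ⟨hTU ht, hρT ⟨t, hTU ht⟩ ht⟩) fun c hc => ?_
    refine hmem.2 ⟨hG.sup_le (Subgroup.mem_sup_right hc), ?_⟩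
    convert K'.one_mem
    refine MulEquiv.ext fun t => Subtype.ext ?_
    rw [hρe]
    show c * t * c⁻¹ = t
    rw [← Subgroup.mem_centralizer_iff.1 hc.2 t t.2, mul_inv_cancel_right]
  have hTU' : T ≤ U' := le_sup_left.trans hR
  have hhyp : G.hyperfocalSubgroup p ≤ U' := by
    refine (Subgroup.closure_le _).2 ?_
    rintro _ ⟨P, α, x, hP, -, rfl⟩
    have hαU : (((α : MulAut P) x : P) : Ω) ∈ U := hP ((α : MulAut P) x).2
    refine hmem.2 ⟨U.mul_mem (U.inv_mem (hP x.2)) hαU, ?_⟩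
    rw [show (⟨_, U.mul_mem (U.inv_mem (hP x.2)) hαU⟩ : U) = ⟨x, hP x.2⟩⁻¹ * ⟨_, hαU⟩ from rfl,
      map_mul, map_inv]
    exact (hD P (autGroup_mem_hom G hP α.2)).2 x (hP x.2) hαU
  have hsc : F.StronglyClosed U' := by
    refine sc_of_elements (hU'U.trans hUS) fun P φ hφ x hx => ?_
    have hxU := hU'U hx
    obtain ⟨α, hα, g, hg, hφe⟩ :=
      hG.inv.2.2.2 (P ⊓ U) inf_le_right _ (restr_mem F inf_le_left hφ)
    have hgU := map_mem_S G hg ⟨x, x.2, hxU⟩
    have hgx : ρ ⟨g ⟨x, x.2, hxU⟩, hgU⟩ ∈ K' := by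
      have h1 := K'.mul_mem (hmem.1 hx).2 ((hD _ hg).2 ⟨x, x.2, hxU⟩ hxU hgU)
      rwa [mul_inv_cancel_left] at h1
    rw [show φ x = _ from hφe ⟨x, x.2, hxU⟩ hgU]
    refine hmem.2 ⟨(α _).2, ?_⟩
    have hst : α ∈ subStab U T := fun y =>
      sc_map_mem_iff hE.2.1 (autGroup_mem_hom F hUS hα) y
    have ha := restrStab_mem_autGroup F hTU hUS (α := ⟨α, hst⟩) hα
    have h1 := conj_map hUN hTU le_rfl (ψ := U.subtype.comp α.toMonoidHom)
      (fun w => (α w).2) (a := restrStab hTU ⟨α, hst⟩) (fun t => rfl)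
      ⟨g ⟨x, x.2, hxU⟩, hgU⟩
    rw [hρv] at hgx ⊢
    have h2 := hn _ ha _ hgx
    rw [← h1, mul_inv_cancel_right] at h2
    exact h2
  obtain ⟨G', hG's, hG'i⟩ := FusionSub.exists_pPowerIndex hU hG.sat hU'U hhyp
  have hinv := ResidualLimit.invariant_of_pPowerIndex hS hF hG.inv hG.sat hU'U hsc hG's hG'i
  have hsub : E.IsSubsystemOf G' :=
    FusionSub.le_of_pResidual_le (hU.to_le hTU) hEs G' hTU' fun P hP =>
      (FusionSub.map_pResidual_mono hG.sub P).trans (hG'i.2.2 P (hP.trans hTU'))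
  haveI : (K'.subgroupOf (G.autGroup T)).Normal := ⟨fun b hb a => Subgroup.mem_subgroupOf.2
    (hn a (FusionSub.autGroup_le_of_isSubsystemOf hG.inv.1 T a.2) b
      (Subgroup.mem_subgroupOf.1 hb))⟩
  have hop : ∀ a : G.autGroup T, a ∈ pResidual p (G.autGroup T) → (a : MulAut T) ∈ K' := by
    intro a ha
    refine Subgroup.mem_subgroupOf.1 ((Subgroup.closure_le _).2 (fun b hb => ?_) ha)
    exact mem_of_coprime_pow (m := m) hidx hb
  have haut : G'.autGroup T = K' := by
    refine le_antisymm ?_ fun a ha => ?_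
    · have hTn : G'.IsFullyNormalized T := CentSubsystem.fullyNormalized_of_stronglyClosed
        ⟨hTU', fun R hR φ hφ x => hT.2 R hR φ (hG'i.1 R hφ) x⟩
      refine (FusionSub.autGroup_le_of_fullyAutomized
        (saturated_fullyNormalized (hU.to_le hU'U) hG's hTn).2).trans (_root_.sup_le ?_ ?_)
      · refine (FusionSub.map_pResidual_mono hG'i.1 T).trans ?_
        rintro _ ⟨a, ha, rfl⟩
        exact hop a ha
      · intro a ha
        obtain ⟨u, hu, hua⟩ := mem_autInducedBy.1 ha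
        obtain ⟨huU, hu'⟩ := hmem.1 hu
        have e : a = ρ ⟨u, huU⟩ := MulEquiv.ext fun t => Subtype.ext ((hua t).trans (hρe ⟨u, huU⟩ t).symm)
        exact e ▸ hu'
    · have h1 : (⟨a, hK'G ha⟩ : G.autGroup T) ∈
          pResidual p (G.autGroup T) ⊔ (autInducedBy U T).subgroupOf (G.autGroup T) := by
        have h := FusionSub.autGroup_le_of_fullyAutomized (saturated_fullyNormalized hU hG.sat
          (CentSubsystem.fullyNormalized_of_stronglyClosed hT)).2 (hK'G ha)
        rw [← Subgroup.map_subgroupOf_eq_of_le (autInducedBy_le_autGroup G hTU),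
          ← Subgroup.map_sup] at h
        obtain ⟨b, hb, hba⟩ := h
        rwa [show b = ⟨a, hK'G ha⟩ from Subtype.ext hba] at hb
      obtain ⟨o, ho, b, hb, hab⟩ := Subgroup.mem_sup_of_normal_left.1 h1
      obtain ⟨u, hu, hub⟩ := mem_autInducedBy.1 (Subgroup.mem_subgroupOf.1 hb)
      have e : (o : MulAut T) * b = a := congrArg Subtype.val hab
      have eb : (b : MulAut T) = ρ ⟨u, hu⟩ :=
        MulEquiv.ext fun t => Subtype.ext ((hub t).trans (hρe ⟨u, hu⟩ t).symm)
      have hb' : (b : MulAut T) ∈ K' := by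
        have h2 := K'.mul_mem (K'.inv_mem (hop o ho)) ha
        rwa [← e, inv_mul_cancel_left] at h2
      rw [← e]
      exact mul_mem (hG'i.2.2 T hTU' ⟨o, ho, rfl⟩) (autInducedBy_le_autGroup G' hTU'
        (mem_autInducedBy.2 ⟨u, hmem.2 ⟨hu, eb ▸ hb'⟩, hub⟩))
  refine ⟨U', G', ⟨hG's, hinv, hR, hsub, fun L L' hL hL' => ?_⟩, haut⟩
  obtain ⟨A, L₀, hL₀⟩ := ResidualLimit.exists_limit hU hG.sat
  exact fun P => (hG.lim L L₀ hL hL₀ P).trans
    (FusionSub.residualLimit_eq_of_pPowerIndex hU hG.sat hG's hG'i hL₀ hL' P)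

end PPower

theorem exists_good_aux (hS : IsPGroup p S) (hF : F.IsSaturated p) (hE : E.IsInvariantIn F)
    (hEs : E.IsSaturated p) [((E.autGroup T).subgroupOf (F.autGroup T)).Normal]
    (hsolv : IsPSolvable p (↥(F.autGroup T) ⧸ (E.autGroup T).subgroupOf (F.autGroup T)))
    (n : ℕ) : ∀ {U : Subgroup Ω} (G : FusionSystem U), Good p F E G →
      Nat.card (G.autGroup T) = n →
      ∃ (U' : Subgroup Ω) (G' : FusionSystem U'), Good p F E G' ∧
        G'.autGroup T = E.autGroup T := by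
  induction n using Nat.strong_induction_on with
  | _ n ih =>
  intro U G hG hn
  have hTS := hE.2.1.1
  haveI : Finite T := finite_of_le ‹_› hTS
  have hEG := FusionSub.autGroup_le_of_isSubsystemOf hG.sub T
  by_cases heq : G.autGroup T = E.autGroup T
  · exact ⟨U, G, hG, heq⟩
  have hGF := FusionSub.autGroup_le_of_isSubsystemOf hG.inv.1 T
  haveI : Finite (F.autGroup T) := inferInstance
  haveI : ((G.autGroup T).subgroupOf (F.autGroup T)).Normal := ⟨fun b hb a =>
    Subgroup.mem_subgroupOf.2 (autCongr_mem_of_invariant hS hF hG.inv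
      (le_sup_left.trans hG.sup_le) ((mem_autGroup F hTS).1 a.2) hb)⟩
  have hlt : (E.autGroup T).subgroupOf (F.autGroup T) <
      (G.autGroup T).subgroupOf (F.autGroup T) := by
    refine lt_of_le_of_ne (fun a ha => hEG ha) fun h => heq ?_
    have h' := congrArg (Subgroup.map (F.autGroup T).subtype) h
    rwa [Subgroup.map_subgroupOf_eq_of_le (hEG.trans hGF),
      Subgroup.map_subgroupOf_eq_of_le hGF, eq_comm] at h'
  obtain ⟨J, hJn, hAJ, hJG, hcase⟩ := exists_step _ hsolv _ hlt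
  obtain ⟨K', hK'⟩ : ∃ K', K' = J.map (F.autGroup T).subtype := ⟨_, rfl⟩
  have hA : E.autGroup T ≤ K' := fun a ha =>
    hK' ▸ ⟨⟨a, hGF (hEG ha)⟩, hAJ (Subgroup.mem_subgroupOf.2 ha), rfl⟩
  have hK'G : K' ≤ G.autGroup T := by
    rw [hK']
    rintro _ ⟨a, ha, rfl⟩
    exact Subgroup.mem_subgroupOf.1 (hJG.le ha)
  have hne : K' ≠ G.autGroup T := fun h => hJG.ne <| by
    refine Subgroup.map_injective (F.autGroup T).subtype_injective ?_
    rw [← hK', h, Subgroup.map_subgroupOf_eq_of_le hGF]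
  have hn' : ∀ a ∈ F.autGroup T, ∀ b ∈ K', a * b * a⁻¹ ∈ K' := by
    rw [hK']
    rintro a ha _ ⟨b, hb, rfl⟩
    exact ⟨_, hJn.conj_mem b hb ⟨a, ha⟩, rfl⟩
  have hrel : K'.relIndex (G.autGroup T) =
      J.relIndex ((G.autGroup T).subgroupOf (F.autGroup T)) := by
    rw [← Subgroup.relIndex_map_map_of_injective J ((G.autGroup T).subgroupOf (F.autGroup T))
      (F.autGroup T).subtype_injective, ← hK', Subgroup.map_subgroupOf_eq_of_le hGF]
  obtain ⟨U', G', hG', haut⟩ : ∃ (U' : Subgroup Ω) (G' : FusionSystem U'),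
      Good p F E G' ∧ G'.autGroup T = K' := by
    rcases hcase with hc | ⟨hc, m, hm⟩
    · exact ⟨U, step_coprime hS hF hE hEs hG hA hK'G hn' (hrel ▸ hc)⟩
    · refine step_pPower hS hF hE hEs hG hA hK'G hn' (fun a ha b hb => ?_) (hrel.trans hm)
      have h1 := hc (Subgroup.commutator_mem_commutator
        (g₁ := ⟨a, hGF ha⟩) (g₂ := ⟨b, hGF hb⟩)
        (Subgroup.mem_subgroupOf.2 ha) (Subgroup.mem_subgroupOf.2 hb))
      rw [hK']
      exact ⟨_, h1, rfl⟩
  refine ih _ ?_ G' hG' rfl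
  rw [← hn, haut]
  exact lt_of_le_of_ne (Subgroup.card_le_of_le hK'G) fun h =>
    hne (Subgroup.eq_of_le_of_card_ge hK'G h.ge)

/-- The normal envelope of `E` over `T C_S(T)` with the residual limit of `F`. -/
theorem exists_envelope (hS : IsPGroup p S) (hF : F.IsSaturated p) (hE : E.IsInvariantIn F)
    (hEs : E.IsSaturated p) [((E.autGroup T).subgroupOf (F.autGroup T)).Normal]
    (hsolv : IsPSolvable p (↥(F.autGroup T) ⧸ (E.autGroup T).subgroupOf (F.autGroup T))) :
    ∃ F₀ : FusionSystem (T ⊔ centralizerIn S T),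
      Good p F E F₀ ∧ F₀.IsNormalIn F p ∧ F₀.autGroup T = E.autGroup T := by
  obtain ⟨U, G, hG, haut⟩ := exists_good_aux hS hF hE hEs hsolv _ F (good_self hS hF hE) rfl
  have hT := hE.2.1
  haveI : Finite T := finite_of_le ‹_› hT.1
  have hUS := hG.inv.2.1.1
  have hTU : T ≤ U := le_sup_left.trans hG.sup_le
  -- `U` induces only inner automorphisms on `T`
  obtain rfl : U = T ⊔ centralizerIn S T := by
    refine le_antisymm (fun u hu => ?_) hG.sup_le
    obtain ⟨-, R, hR⟩ :=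
      (saturated_fullyNormalized (hS.to_le hT.1) hEs (fullyNormalized_self E)).2
    have hle : autInducedBy U T ≤ E.autGroup T := haut ▸ autInducedBy_le_autGroup G hTU
    have hmono : autInducedBy T T ≤ autInducedBy U T := autInducedBy_mono hTU T
    have heq : (autInducedBy U T).subgroupOf (E.autGroup T) = R := by
      refine R.is_maximal' ((isPGroup_autInducedBy (hS.to_le hUS) T).of_equiv
        (Subgroup.subgroupOfEquivOfLe hle).symm) ?_
      rw [hR]
      exact fun a ha => hmono ha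
    have hun : u ∈ Subgroup.normalizer (T : Set Ω) := sc_le_normalizer hT (hUS hu)
    have ha : T.normalizerMonoidHom ⟨u, hun⟩ ∈ autInducedBy U T :=
      mem_autInducedBy.2 ⟨u, hu, fun _ => rfl⟩
    have h1 : (⟨_, hle ha⟩ : E.autGroup T) ∈ (autInducedBy U T).subgroupOf (E.autGroup T) :=
      Subgroup.mem_subgroupOf.2 ha
    rw [heq, hR] at h1
    obtain ⟨t, ht, hte⟩ := mem_autInducedBy.1 (Subgroup.mem_subgroupOf.1 h1)
    have hc : t⁻¹ * u ∈ centralizerIn S T := by
      refine ⟨S.mul_mem (S.inv_mem (hT.1 ht)) (hUS hu), Subgroup.mem_centralizer_iff.2 fun x hx => ?_⟩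
      have h2 : u * x * u⁻¹ = t * x * t⁻¹ := hte ⟨x, hx⟩
      calc x * (t⁻¹ * u) = t⁻¹ * (t * x * t⁻¹) * u := by group
        _ = t⁻¹ * u * x := by rw [← h2]; group
    have h3 := (T ⊔ centralizerIn S T).mul_mem (Subgroup.mem_sup_left ht)
      (Subgroup.mem_sup_right hc)
    rwa [mul_inv_cancel_left] at h3
  refine ⟨G, hG, ⟨⟨hG.sat, hF, hG.inv⟩, fun α hα => ?_⟩, haut⟩
  have hC : centralizerIn S (T ⊔ centralizerIn S T) ≤ T ⊔ centralizerIn S T :=
    (centralizerIn_antitone le_sup_left).trans le_sup_right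
  have hle : (T ⊔ centralizerIn S T) ⊔ centralizerIn S (T ⊔ centralizerIn S T) ≤
      T ⊔ centralizerIn S T := sup_le le_rfl hC
  have heq := le_antisymm hle le_sup_left
  have hαF := autGroup_mem_hom F hUS (FusionSub.autGroup_le_of_isSubsystemOf hG.inv.1 _ hα)
  have hm := restr_mem F hle hαF
  haveI : Finite ↥((T ⊔ centralizerIn S T) ⊔ centralizerIn S (T ⊔ centralizerIn S T)) :=
    finite_of_le ‹_› (hle.trans hUS)
  have hr : (restr hle ((T ⊔ centralizerIn S T).subtype.comp α.toMonoidHom)).range =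
      (T ⊔ centralizerIn S T) ⊔ centralizerIn S (T ⊔ centralizerIn S T) := by
    refine range_eq_of_image_le (F.injective_of_mem hm) ?_ le_rfl
    rintro _ ⟨x, rfl⟩
    exact le_sup_left (b := centralizerIn S (T ⊔ centralizerIn S T)) (α _).2
  refine ⟨_, toIso_mem_autGroup F hm hr, fun x => rfl, fun c hc => ?_⟩
  show (c : Ω)⁻¹ * (α ⟨c, hle c.2⟩ : _) ∈ _
  refine ⟨(T ⊔ centralizerIn S T).mul_mem ((T ⊔ centralizerIn S T).inv_mem (hle c.2)) (α _).2,
    (Subgroup.centralizer _).mul_mem ((Subgroup.centralizer _).inv_mem hc.2)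
      (Subgroup.mem_centralizer_iff.2 fun y hy => ?_)⟩
  obtain ⟨y', hy'⟩ := α.surjective ⟨y, hy⟩
  have e : y = (α y' : Ω) := (congrArg Subtype.val hy').symm
  rw [e, ← Subgroup.coe_mul, ← Subgroup.coe_mul, ← map_mul, ← map_mul]
  exact congrArg (fun w => ((α w : ↥(T ⊔ centralizerIn S T)) : Ω))
    (Subtype.ext (Subgroup.mem_centralizer_iff.1 hc.2 y' y'.2))

end Cfsg.Agent.Tech.PSolvableStep
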