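import Cfsg.Agent.FusionSys.CentricRadicalModel
import Cfsg.Agent.FusionAux.NormSys

/-!
Every fully centralized subgroup `Q` of a saturated fusion system has a conjugate `Q'` all of whose
automorphisms in the system lie in the normalizer system of one centric radical fully normalized
subgroup.
-/

set_option autoImplicit false

open Cfsg Cfsg.FusionSystem Cfsg.Agent.FusionSys Cfsg.Agent.FusionAux

namespace Cfsg.Agent.Tech

universe u

variable {Ω : Type u} [Group Ω] {S : Subgroup Ω}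

theorem exists_of_map_eq_gen {Q R N : Subgroup Ω} {ψ : N →* Ω}
    (hQ : (Q.subgroupOf N).map ψ = R) {y : Ω} (hy : y ∈ R) :
    ∃ x : N, (x : Ω) ∈ Q ∧ ψ x = y :=
  (mem_map_subgroupOf ψ).1 ((le_of_eq hQ.symm) hy)

theorem mem_of_map_eq_gen {Q R N : Subgroup Ω} {ψ : N →* Ω}
    (hQ : (Q.subgroupOf N).map ψ = R) {x : N} (hx : (x : Ω) ∈ Q) : ψ x ∈ R :=
  (le_of_eq hQ) (Subgroup.mem_map_of_mem ψ (Subgroup.mem_subgroupOf.2 hx))

/-- Every automorphism of `Q` in the system is a map of the normalizer system of `R`. -/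
def AutReach (F : FusionSystem S) (Q R : Subgroup Ω) : Prop :=
  R ≤ S ∧ Q ≤ normalizerIn S R ∧
    ∀ α ∈ F.autGroup Q, Q.subtype.comp α.toMonoidHom ∈ F.normalizerHom R Q

theorem autReach_autGroup_eq {F : FusionSystem S} {Q R : Subgroup Ω} (h : AutReach F Q R)
    {N : FusionSystem (normalizerIn S R)} (hN : F.IsNormalizerSystem R N) :
    N.autGroup Q = F.autGroup Q := by
  refine le_antisymm (normalizerSystem_autGroup_le hN h.2.1) fun α hα => ?_
  refine (mem_autGroup_iff_hom N h.2.1).2 ?_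
  rw [hN Q]
  exact h.2.2 α hα

/-- The join of a fully centralized subgroup with its centralizer. -/
theorem autReach_start [Finite S] {p : ℕ} [Fact p.Prime] (hS : IsPGroup p S) {F : FusionSystem S}
    (hF : F.IsSaturated p) {Q : Subgroup Ω} (hQ : F.IsFullyCentralized Q) :
    F.IsCentric (Q ⊔ centralizerIn S Q) ∧ AutReach F Q (Q ⊔ centralizerIn S Q) := by
  have hRS : Q ⊔ centralizerIn S Q ≤ S := sup_le hQ.1 (centralizerIn_le Q)
  refine ⟨⟨hRS, ?_⟩, hRS, le_sup_left.trans (le_normalizerIn hRS), fun α hα => ?_⟩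
  · rintro _ ⟨φ, hφ, rfl⟩
    have hQR : Q ≤ Q ⊔ centralizerIn S Q := le_sup_left
    have hCR : centralizerIn S Q ≤ Q ⊔ centralizerIn S Q := le_sup_right
    have hsub : ((centralizerIn S Q).subgroupOf (Q ⊔ centralizerIn S Q)).map φ ≤
        centralizerIn S ((Q.subgroupOf (Q ⊔ centralizerIn S Q)).map φ) := by
      rintro _ ⟨c, hc, rfl⟩
      refine mem_centralizerIn.2 ⟨map_mem_S F hφ c, ?_⟩
      rintro _ ⟨x, hx, rfl⟩
      rw [← map_mul, ← map_mul]
      exact congrArg φ (Subtype.ext ((mem_centralizerIn.1 hc).2 x hx))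
    haveI : Finite (centralizerIn S ((Q.subgroupOf (Q ⊔ centralizerIn S Q)).map φ)) :=
      finite_of_le ‹_› (centralizerIn_le _)
    have heq := eq_of_le_of_card_le hsub (by
      refine (hQ.2 _ (isConj_image F hφ hQR)).trans (le_of_eq ?_)
      exact Nat.card_congr ((Subgroup.subgroupOfEquivOfLe hCR).symm.trans
        (Subgroup.equivMapOfInjective _ φ (F.injective_of_mem hφ))).toEquiv)
    exact ((centralizerIn_antitone (Subgroup.map_le_range _ _)).trans
      (le_of_eq heq.symm)).trans (Subgroup.map_le_range _ _)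
  · have hφ := autGroup_mem_hom F hQ.1 hα
    obtain ⟨ψ, hψ, hψe, -, hψQ⟩ := receptive_extend (saturated_fullyCentralized hS hF hQ) hφ
      (range_subtype_comp α)
    have hle : Q ⊔ (Q ⊔ centralizerIn S Q) ≤ extender S Q (Q.subtype.comp α.toMonoidHom) :=
      sup_le (le_extender (le_S F hφ) (map_mem_S F hφ))
        (sup_le (le_extender (le_S F hφ) (map_mem_S F hφ)) (centralizerIn_le_extender _))
    refine ⟨hφ, le_sup_left.trans (le_normalizerIn hRS),
      fun x => le_normalizerIn hRS (Subgroup.mem_sup_left (α x).2), restr hle ψ,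
      restr_mem F hle hψ, fun x => hψe x, ?_⟩
    haveI : Finite ↥(Q ⊔ centralizerIn S Q) := finite_of_le ‹_› hRS
    refine map_subgroupOf_eq_of_mem le_sup_right (F.injective_of_mem (restr_mem F hle hψ))
      fun x hx => ?_
    have key : Q ⊔ centralizerIn S Q ≤ ((Q ⊔ centralizerIn S Q).comap ψ).map
        (extender S Q (Q.subtype.comp α.toMonoidHom)).subtype := by
      refine sup_le (fun a ha => ⟨⟨a, le_extender (le_S F hφ) (map_mem_S F hφ) ha⟩, ?_, rfl⟩)
        (fun a ha => ⟨⟨a, centralizerIn_le_extender _ ha⟩, ?_, rfl⟩)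
      · exact Subgroup.mem_sup_left (apply_mem_of_map_eq hψQ ha)
      · refine Subgroup.mem_sup_right (mem_centralizerIn.2 ⟨map_mem_S F hψ _, ?_⟩)
        exact map_mem_centralizer (le_extender (le_S F hφ) (map_mem_S F hφ)) hψQ
          (mem_centralizerIn.1 ha).2
    obtain ⟨z, hz, hzx⟩ := key hx
    obtain rfl : z = Subgroup.inclusion hle x := Subtype.ext hzx
    exact hz

/-- Moving along a map of the normalizer of `R` onto that of a fully normalized conjugate. -/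
theorem autReach_transport [Finite S] {p : ℕ} [Fact p.Prime] (hS : IsPGroup p S)
    {F : FusionSystem S} (hF : F.IsSaturated p) {Q₁ R₁ R₂ : Subgroup Ω}
    (h : AutReach F Q₁ R₁) (hR₂ : F.IsFullyNormalized R₂) (hc : F.IsConj R₁ R₂) :
    ∃ Q₂, F.IsConj Q₁ Q₂ ∧ AutReach F Q₂ R₂ := by
  obtain ⟨φ, hφ, hφN, hφR⟩ := exists_normalizer_map_fullyNormalized hS hF hR₂ hc
  obtain ⟨hR₁S, hQN, hr⟩ := h
  have hRN : R₁ ≤ normalizerIn S R₁ := le_normalizerIn hR₁S
  have hWN : Q₁ ⊔ R₁ ≤ normalizerIn S R₁ := sup_le hQN hRN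
  obtain ⟨E, hE, hEv⟩ : ∃ E : ↥(Q₁ ⊔ R₁) ≃* ↥(restr hWN φ).range, IsIso F E ∧
      ∀ y : ↥(Q₁ ⊔ R₁), ((E y : _) : Ω) = φ (Subgroup.inclusion hWN y) :=
    ⟨toIso F (restr_mem F hWN hφ) rfl, toIso_isIso F _ rfl, fun y => rfl⟩
  obtain ⟨e, he, hev⟩ : ∃ e : Q₁ ≃* ↥(restr hQN φ).range, IsIso F e ∧
      ∀ q : Q₁, ((e q : _) : Ω) = φ (Subgroup.inclusion hQN q) :=
    ⟨toIso F (restr_mem F hQN hφ) rfl, toIso_isIso F _ rfl, fun q => rfl⟩
  have hQ₂N : (restr hQN φ).range ≤ normalizerIn S R₂ := by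
    rintro _ ⟨q, rfl⟩
    exact hφN _
  refine ⟨(restr hQN φ).range, ⟨_, restr_mem F hQN hφ, rfl⟩, hR₂.1, hQ₂N, fun α hα => ?_⟩
  have hα' : MulAut.congr e.symm α ∈ F.autGroup Q₁ := autCongr_mem F he.symm hα
  obtain ⟨-, -, -, ψ, hψ, hψe, hψR⟩ := hr _ hα'
  haveI : Finite ↥(Q₁ ⊔ R₁) := finite_of_le ‹_› (hWN.trans (normalizerIn_le R₁))
  have hψW : ψ.range = Q₁ ⊔ R₁ := by
    refine range_eq_of_image_le (F.injective_of_mem hψ) ?_ le_rfl
    rintro _ ⟨y, rfl⟩
    exact ext_image_le hψR (fun x => (hψe x).symm ▸ (MulAut.congr e.symm α x).2) y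
  obtain ⟨β, hβ, hβv⟩ : ∃ β ∈ F.autGroup (Q₁ ⊔ R₁),
      ∀ y : ↥(Q₁ ⊔ R₁), ((β y : _) : Ω) = ψ y :=
    ⟨_, toIso_mem_autGroup F hψ hψW, fun y => rfl⟩
  have hγ : MulAut.congr E β ∈ F.autGroup (restr hWN φ).range := autCongr_mem F hE hβ
  have hγm := autGroup_mem_hom F hE.le_right hγ
  have hle : (restr hQN φ).range ⊔ R₂ ≤ (restr hWN φ).range := by
    refine sup_le ?_ ?_
    · rintro _ ⟨q, rfl⟩
      exact ⟨Subgroup.inclusion le_sup_left q, rfl⟩
    · intro y hy
      obtain ⟨x, hx, rfl⟩ := exists_of_map_eq_gen hφR hy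
      exact ⟨⟨x, Subgroup.mem_sup_right hx⟩, rfl⟩
  refine ⟨autGroup_mem_hom F he.le_right hα, hQ₂N, fun x => hQ₂N (α x).2,
    restr hle ((restr hWN φ).range.subtype.comp (MulAut.congr E β).toMonoidHom),
    restr_mem F hle hγm, ?_, ?_⟩
  · intro x
    obtain ⟨q, rfl⟩ := e.surjective x
    have e1 : Subgroup.inclusion hle (Subgroup.inclusion le_sup_left (e q)) =
        E (Subgroup.inclusion le_sup_left q) :=
      Subtype.ext ((hev q).trans (hEv (Subgroup.inclusion le_sup_left q)).symm)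
    show ((MulAut.congr E β (Subgroup.inclusion hle _) : _) : Ω) = ((α (e q) : _) : Ω)
    rw [e1, autCongr_apply, MulEquiv.symm_apply_apply, hEv]
    have e2 : Subgroup.inclusion hWN (β (Subgroup.inclusion le_sup_left q)) =
        Subgroup.inclusion hQN (e.symm (α (e q))) := by
      refine Subtype.ext ?_
      show ((β _ : _) : Ω) = ((e.symm (α (e q)) : Q₁) : Ω)
      rw [hβv, hψe]
      rfl
    rw [e2, ← hev, MulEquiv.apply_symm_apply]
  · haveI : Finite R₂ := finite_of_le ‹_› hR₂.1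
    refine map_subgroupOf_eq_of_mem le_sup_right (F.injective_of_mem (restr_mem F hle hγm))
      fun x hx => ?_
    obtain ⟨w, hw, hwx⟩ := exists_of_map_eq_gen hφR hx
    have e1 : Subgroup.inclusion hle x = E ⟨w, Subgroup.mem_sup_right hw⟩ :=
      Subtype.ext (hwx.symm.trans (hEv ⟨w, Subgroup.mem_sup_right hw⟩).symm)
    show ((MulAut.congr E β (Subgroup.inclusion hle x) : _) : Ω) ∈ R₂
    rw [e1, autCongr_apply, MulEquiv.symm_apply_apply, hEv]
    refine mem_of_map_eq_gen hφR ?_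
    show ((β _ : _) : Ω) ∈ R₁
    rw [hβv]
    exact apply_mem_of_map_eq hψR hw

theorem autReach_radical [Finite S] {p : ℕ} [Fact p.Prime] (hS : IsPGroup p S)
    {F : FusionSystem S} (hF : F.IsSaturated p) {Q R : Subgroup Ω}
    (hR : F.IsFullyNormalized R) (hRc : F.IsCentric R) (h : AutReach F Q R)
    (hrad : ¬ F.IsRadical p R) : ∃ R', R < R' ∧ F.IsCentric R' ∧ AutReach F Q R' := by
  let N := normSys F R hR.1
  have hN : F.IsNormalizerSystem R N := normSys_spec F R hR.1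
  have hRN : R ≤ normalizerIn S R := le_normalizerIn hR.1
  haveI : Finite R := finite_of_le ‹_› hR.1
  haveI : Finite (normalizerIn S R) := finite_of_le ‹_› (normalizerIn_le R)
  have hnor : N.IsNormal R := by
    refine ⟨hRN, fun P φ hφ => ?_⟩
    obtain ⟨-, hP, hφN, ψ, hψ, hψP, hψQ⟩ := id hφ
    refine ⟨ψ, ⟨hψ, sup_le hP hRN, fun y => ?_, restr (sup_le le_rfl le_sup_right) ψ,
      restr_mem F _ hψ, fun y => rfl, ?_⟩, hψP, hψQ⟩
    · have := FusionAux.ext_image_le hψQ (R := normalizerIn S R)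
        (fun x => (hψP x).symm ▸ hφN x) y
      rwa [sup_eq_left.2 hRN] at this
    · exact map_subgroupOf_eq_of_mem le_sup_right (F.injective_of_mem (restr_mem F _ hψ))
        fun y hy => FusionAux.apply_mem_of_map_eq hψQ (x := Subgroup.inclusion _ y) hy
  have hcN : N.IsCentric R :=
    ⟨hRN, fun Y ⟨φ, hφ, hr⟩ z hz => hRc.2 Y ⟨φ, hφ.1, hr⟩ ⟨hz.1.1, hz.2⟩⟩
  obtain ⟨L, hLg, ι, hL⟩ := FusionModel.exists_model_of_normal_centric
    (hS.to_le (normalizerIn_le R)) (normalizerSystem_saturated hS hF hR hN) hnor hcN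
  letI := hLg
  obtain ⟨hn, hcen⟩ := model_normal_centric hL hnor hcN
  obtain ⟨hfin, hReal, ⟨T, hT⟩, -⟩ := id hL
  obtain ⟨R', hR'N, hR'e⟩ := exists_img_eq (ι := ι) (K := pCore p L)
    ((Cores.pCore_le_sylow T).trans hT.le)
  have hR'n : (img ι R').Normal := by rw [hR'e]; infer_instance
  have hle : R ≤ R' := fun x hx => by
    have h1 := Cores.le_pCore (p := p) hn ((hS.to_le hR.1).of_equiv
      ((Subgroup.subgroupOfEquivOfLe hRN).symm.trans
        (Subgroup.equivMapOfInjective _ ι hReal.1)))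
      (mem_img_of_mem (ι := ι) hRN hx)
    rw [← hR'e] at h1
    exact (img_apply_mem_iff hReal.1).1 h1
  have hR'nor := isNormal_of_normal hReal hR'N hR'n
  have hR'S : R' ≤ S := hR'N.trans (normalizerIn_le R)
  have hnorm : normalizerIn S R ≤ normalizerIn S R' :=
    le_inf (normalizerIn_le R) (FusionAlperin.isNormal_le_normalizer hR'nor)
  refine ⟨R', lt_of_le_of_ne hle fun e => hrad
    (isRadical_of_pCore_model hS hRc hN hL hn hcen (by subst e; exact hR'e.ge)),
    isCentric_mono hRc hle hR'S, hR'S, h.2.1.trans hnorm, fun α hα => ?_⟩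
  obtain ⟨ψ, hψ, hψe, hψR⟩ := hR'nor.2 Q _ (h.2.2 α hα)
  exact ⟨autGroup_mem_hom F (h.2.1.trans (normalizerIn_le R)) hα, h.2.1.trans hnorm,
    fun x => hnorm (h.2.1 (α x).2), ψ, hψ.1, hψe, hψR⟩

/-- Some conjugate of a fully centralized subgroup has all its automorphisms in the normalizer
system of a fully normalized centric radical subgroup. -/
theorem exists_centricRadical_autReach [Finite S] {p : ℕ} [Fact p.Prime] (hS : IsPGroup p S)
    {F : FusionSystem S} (hF : F.IsSaturated p) {Q : Subgroup Ω} (hQ : F.IsFullyCentralized Q) :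
    ∃ Q' R, F.IsConj Q Q' ∧ F.IsFullyNormalized R ∧ F.IsCentric R ∧ F.IsRadical p R ∧
      AutReach F Q' R := by
  obtain ⟨hc₀, hr₀⟩ := autReach_start hS hF hQ
  obtain ⟨R, ⟨Q₁, hQ₁, hRc, hR⟩, hmax⟩ := Set.exists_max_image
    {R : Subgroup Ω | ∃ Q', F.IsConj Q Q' ∧ F.IsCentric R ∧ AutReach F Q' R}
    (fun R => Nat.card R)
    ((setOf_le_finite (S := S)).subset fun R hR => hR.choose_spec.2.1.1)
    ⟨_, Q, isConj_refl F hQ.1, hc₀, hr₀⟩
  obtain ⟨R₂, hRR₂, hR₂⟩ := exists_fullyNormalized F hRc.1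
  obtain ⟨Q₂, hQ₂, hR₂r⟩ := autReach_transport hS hF hR hR₂ hRR₂
  have hR₂c := isCentric_of_isConj hRc hRR₂
  refine ⟨Q₂, R₂, isConj_trans hQ₁ hQ₂, hR₂, hR₂c, by_contra fun hrad => ?_, hR₂r⟩
  obtain ⟨R', hlt, hR'c, hR'r⟩ := autReach_radical hS hF hR₂ hR₂c hR₂r hrad
  have h1 := hmax R' ⟨Q₂, isConj_trans hQ₁ hQ₂, hR'c, hR'r⟩
  haveI : Finite R' := finite_of_le ‹_› hR'c.1
  refine hlt.ne (eq_of_le_of_card_le hlt.le ?_)
  rw [← isConj_card_eq hRR₂]
  exact h1

end Cfsg.Agent.Tech
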