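import Cfsg.Agent.FusionAlperin.SurjImage
import Cfsg.Prelude.Def_FusionComponents

/-!
Transport of fusion systems, of normal and subnormal subsystems, of quasisimple systems and of
components along an isomorphism `σ : S ≃* S'` of the underlying groups.
-/

set_option autoImplicit false

open Cfsg Cfsg.FusionSystem Cfsg.Agent.FusionSys

namespace Cfsg.Agent.Tech.IsoTransport

variable {Ω Ω' : Type*} [Group Ω] [Group Ω'] {S : Subgroup Ω} {S' : Subgroup Ω'}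

/-- The homomorphism on `S` underlying `σ`. -/
def hom (σ : S ≃* S') : S →* Ω' := S'.subtype.comp σ.toMonoidHom

/-- The image of a subgroup of `S`. -/
def sImg (σ : S ≃* S') (P : Subgroup Ω) : Subgroup Ω' := imageAlong (hom σ) P

open Classical in
/-- `σ` as a total function. -/
noncomputable def ev (σ : S ≃* S') (x : Ω) : Ω' := if h : x ∈ S then σ ⟨x, h⟩ else 1

variable {σ : S ≃* S'}

theorem ev_of_mem {x : Ω} (h : x ∈ S) : ev σ x = σ ⟨x, h⟩ := by rw [ev, dif_pos h]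

theorem ev_coe (x : S) : ev σ x = σ x := ev_of_mem x.2

theorem ev_mem {x : Ω} (h : x ∈ S) : ev σ x ∈ S' := by rw [ev_of_mem h]; exact Subtype.coe_prop _

theorem ev_symm_ev {x : Ω} (h : x ∈ S) : ev σ.symm (ev σ x) = x := by
  rw [ev_of_mem h, ev_coe, σ.symm_apply_apply]

theorem ev_ev_symm {x : Ω'} (h : x ∈ S') : ev σ (ev σ.symm x) = x := ev_symm_ev (σ := σ.symm) h

theorem ev_mul {x y : Ω} (hx : x ∈ S) (hy : y ∈ S) : ev σ (x * y) = ev σ x * ev σ y := by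
  rw [ev_of_mem hx, ev_of_mem hy, ev_of_mem (S.mul_mem hx hy), ← Subgroup.coe_mul, ← map_mul]
  rfl

theorem ev_one : ev σ 1 = 1 := by
  rw [ev_of_mem S.one_mem, show (⟨1, S.one_mem⟩ : S) = 1 from rfl, map_one]
  rfl

theorem ev_inv {x : Ω} (hx : x ∈ S) : ev σ x⁻¹ = (ev σ x)⁻¹ := by
  rw [ev_of_mem hx, ev_of_mem (S.inv_mem hx), ← Subgroup.coe_inv, ← map_inv]
  rfl

theorem ev_conj {g x : Ω} (hg : g ∈ S) (hx : x ∈ S) :
    ev σ (g * x * g⁻¹) = ev σ g * ev σ x * (ev σ g)⁻¹ := by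
  rw [ev_mul (S.mul_mem hg hx) (S.inv_mem hg), ev_mul hg hx, ev_inv hg]

theorem ev_inj {x y : Ω} (hx : x ∈ S) (hy : y ∈ S) (h : ev σ x = ev σ y) : x = y := by
  rw [← ev_symm_ev (σ := σ) hx, h, ev_symm_ev hy]

theorem mem_sImg {P : Subgroup Ω} {y : Ω'} :
    y ∈ sImg σ P ↔ ∃ x ∈ P, x ∈ S ∧ ev σ x = y := by
  constructor
  · rintro ⟨x, hx, rfl⟩
    exact ⟨x, hx, x.2, ev_coe x⟩
  · rintro ⟨x, hx, hxS, rfl⟩
    exact ⟨⟨x, hxS⟩, hx, (ev_coe (σ := σ) ⟨x, hxS⟩).symm⟩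

theorem sImg_le (P : Subgroup Ω) : sImg σ P ≤ S' := by
  intro y hy
  obtain ⟨x, -, hxS, rfl⟩ := mem_sImg.1 hy
  exact ev_mem hxS

theorem ev_mem_sImg {P : Subgroup Ω} (hP : P ≤ S) {x : Ω} (hx : x ∈ P) : ev σ x ∈ sImg σ P :=
  mem_sImg.2 ⟨x, hx, hP hx, rfl⟩

theorem ev_mem_sImg_iff {P : Subgroup Ω} {x : Ω} (hx : x ∈ S) :
    ev σ x ∈ sImg σ P ↔ x ∈ P := by
  refine ⟨fun h => ?_, fun h => mem_sImg.2 ⟨x, h, hx, rfl⟩⟩
  obtain ⟨z, hz, hzS, he⟩ := mem_sImg.1 h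
  rwa [← ev_inj hzS hx he]

theorem sImg_symm_sImg {P : Subgroup Ω} (hP : P ≤ S) : sImg σ.symm (sImg σ P) = P := by
  ext x
  rw [mem_sImg]
  constructor
  · rintro ⟨y, hy, -, rfl⟩
    obtain ⟨z, hz, hzS, rfl⟩ := mem_sImg.1 hy
    rwa [ev_symm_ev hzS]
  · intro hx
    exact ⟨ev σ x, ev_mem_sImg hP hx, ev_mem (hP hx), ev_symm_ev (hP hx)⟩

theorem sImg_sImg_symm {P : Subgroup Ω'} (hP : P ≤ S') : sImg σ (sImg σ.symm P) = P :=
  sImg_symm_sImg (σ := σ.symm) hP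

theorem mem_sImg_symm {P : Subgroup Ω} (hP : P ≤ S) {y : Ω'} (hy : y ∈ sImg σ P) :
    ev σ.symm y ∈ P := by
  obtain ⟨x, hx, -, rfl⟩ := mem_sImg.1 hy
  rwa [ev_symm_ev (hP hx)]

theorem exists_ev {P : Subgroup Ω} (y : sImg σ P) :
    ∃ (x : P) (h : ev σ x ∈ sImg σ P), y = ⟨ev σ x, h⟩ := by
  obtain ⟨x, hx, -, hxy⟩ := mem_sImg.1 y.2
  exact ⟨⟨x, hx⟩, hxy.symm ▸ y.2, Subtype.ext hxy.symm⟩

theorem sImg_mono {P Q : Subgroup Ω} (h : P ≤ Q) : sImg σ P ≤ sImg σ Q :=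
  Subgroup.map_mono fun _ hx => h hx

theorem sImg_top : sImg σ S = S' := by
  refine le_antisymm (sImg_le S) fun y hy => mem_sImg.2 ?_
  exact ⟨ev σ.symm y, ev_mem hy, ev_mem hy, ev_ev_symm hy⟩

theorem sImg_bot : sImg σ (⊥ : Subgroup Ω) = ⊥ := by
  refine eq_bot_iff.2 fun y hy => ?_
  obtain ⟨x, hx, -, rfl⟩ := mem_sImg.1 hy
  rw [Subgroup.mem_bot] at hx
  rw [hx, ev_one]
  exact one_mem _

theorem sImg_sup {A B : Subgroup Ω} (hA : A ≤ S) (hB : B ≤ S) :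
    sImg σ (A ⊔ B) = sImg σ A ⊔ sImg σ B := by
  rw [sImg, imageAlong, Subgroup.subgroupOf_sup hA hB, Subgroup.map_sup]
  rfl

/-- The isomorphism from a subgroup of `S` onto its image. -/
noncomputable def imgIso (σ : S ≃* S') {P : Subgroup Ω} (hP : P ≤ S) : P ≃* sImg σ P where
  toFun x := ⟨ev σ x, ev_mem_sImg hP x.2⟩
  invFun y := ⟨ev σ.symm y, mem_sImg_symm hP y.2⟩
  left_inv x := Subtype.ext (ev_symm_ev (hP x.2))
  right_inv y := Subtype.ext (ev_ev_symm (sImg_le P y.2))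
  map_mul' x y := Subtype.ext (ev_mul (hP x.2) (hP y.2))

theorem card_sImg {P : Subgroup Ω} (hP : P ≤ S) : Nat.card (sImg σ P) = Nat.card P :=
  (Nat.card_congr (imgIso σ hP).toEquiv).symm

/-! ### Corresponding systems -/

/-- `E` over `U ≤ S` is carried by `σ` onto `E'` over `U' ≤ S'`. -/
structure Corr (σ : S ≃* S') {U : Subgroup Ω} {U' : Subgroup Ω'} (E : FusionSystem U)
    (E' : FusionSystem U') : Prop where
  le : U ≤ S
  le' : U' ≤ S'
  img : sImg σ U = U'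
  fwd : ∀ (P : Subgroup Ω) (φ : P →* Ω), φ ∈ E.Hom P → ∃ φ' ∈ E'.Hom (sImg σ P),
    ∀ (x : P) (h : ev σ x ∈ sImg σ P), φ' ⟨ev σ x, h⟩ = ev σ (φ x)
  bwd : ∀ (P : Subgroup Ω') (φ : P →* Ω'), φ ∈ E'.Hom P → ∃ φ' ∈ E.Hom (sImg σ.symm P),
    ∀ (x : P) (h : ev σ.symm x ∈ sImg σ.symm P), φ' ⟨ev σ.symm x, h⟩ = ev σ.symm (φ x)

section corr

variable {U V : Subgroup Ω} {U' V' : Subgroup Ω'} {E : FusionSystem U} {E' : FusionSystem U'}
  {D : FusionSystem V} {D' : FusionSystem V'}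

theorem Corr.symm (h : Corr σ E E') : Corr σ.symm E' E :=
  ⟨h.le', h.le, by rw [← h.img, sImg_symm_sImg h.le], h.bwd, h.fwd⟩

/-- A homomorphism on the image agreeing with a map of `E` is a map of `E'`. -/
theorem Corr.mem (h : Corr σ E E') {P : Subgroup Ω} {φ : P →* Ω} (hφ : φ ∈ E.Hom P)
    {φ' : ↥(sImg σ P) →* Ω'}
    (he : ∀ (x : P) (hx : ev σ x ∈ sImg σ P), φ' ⟨ev σ x, hx⟩ = ev σ (φ x)) :
    φ' ∈ E'.Hom (sImg σ P) := by
  obtain ⟨χ, hχ, hχe⟩ := h.fwd P φ hφ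
  refine mem_hom_congr E' hχ fun y => ?_
  obtain ⟨x, hx, rfl⟩ := exists_ev y
  rw [hχe x hx, he x hx]

theorem Corr.range (h : Corr σ E E') {P : Subgroup Ω} {φ : P →* Ω} (hφ : φ ∈ E.Hom P)
    {φ' : ↥(sImg σ P) →* Ω'}
    (he : ∀ (x : P) (hx : ev σ x ∈ sImg σ P), φ' ⟨ev σ x, hx⟩ = ev σ (φ x)) :
    φ'.range = sImg σ φ.range := by
  have hPS : P ≤ S := (le_S E hφ).trans h.le
  ext y
  constructor
  · rintro ⟨z, rfl⟩
    obtain ⟨x, hx, rfl⟩ := exists_ev z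
    rw [he x hx]
    exact mem_sImg.2 ⟨_, ⟨_, rfl⟩, h.le (map_mem_S E hφ _), rfl⟩
  · intro hy
    obtain ⟨_, ⟨x, rfl⟩, -, rfl⟩ := mem_sImg.1 hy
    exact ⟨⟨ev σ x, ev_mem_sImg hPS x.2⟩, he x _⟩

theorem Corr.isConj (h : Corr σ E E') {P Q : Subgroup Ω} (hc : E.IsConj P Q) :
    E'.IsConj (sImg σ P) (sImg σ Q) := by
  obtain ⟨φ, hφ, rfl⟩ := hc
  obtain ⟨φ', hφ', he⟩ := h.fwd P φ hφ
  exact ⟨φ', hφ', h.range hφ he⟩

theorem Corr.subsystem (h : Corr σ E E') (hD : Corr σ D D') (hs : E.IsSubsystemOf D) :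
    E'.IsSubsystemOf D' := by
  intro P φ hφ
  obtain ⟨ψ, hψ, hψe⟩ := h.bwd P φ hφ
  have hPS : P ≤ S' := (le_S E' hφ).trans h.le'
  obtain ⟨χ, hχ, hχe⟩ := hD.fwd _ ψ (hs _ hψ)
  have hle : P ≤ sImg σ (sImg σ.symm P) := (sImg_sImg_symm hPS).ge
  refine mem_hom_congr D' (restr_mem D' hle hχ) fun x => ?_
  have hx : ev σ.symm x ∈ sImg σ.symm P := ev_mem_sImg hPS x.2
  have e1 : Subgroup.inclusion hle x = ⟨ev σ (ev σ.symm x),
      ev_mem_sImg (sImg_le _) hx⟩ := Subtype.ext (ev_ev_symm (hPS x.2)).symm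
  rw [restr_apply, e1, hχe ⟨_, hx⟩, hψe, ev_ev_symm (h.le' (map_mem_S E' hφ x))]

theorem Corr.stronglyClosed (h : Corr σ E E') {T : Subgroup Ω} (hT : E.StronglyClosed T) :
    E'.StronglyClosed (sImg σ T) := by
  refine ⟨h.img ▸ sImg_mono hT.1, fun R hR φ hφ x => ?_⟩
  obtain ⟨ψ, hψ, hψe⟩ := h.bwd R φ hφ
  have hRS : R ≤ S' := (le_S E' hφ).trans h.le'
  have hx : ev σ.symm x ∈ sImg σ.symm R := ev_mem_sImg hRS x.2
  have hle : sImg σ.symm R ≤ T :=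
    (sImg_mono hR).trans (sImg_symm_sImg (hT.1.trans h.le)).le
  have h1 := hT.2 _ hle ψ hψ ⟨_, hx⟩
  rw [hψe] at h1
  have h2 := ev_mem_sImg (σ := σ) (hT.1.trans h.le) h1
  rwa [ev_ev_symm (h.le' (map_mem_S E' hφ x))] at h2

theorem Corr.autGroup (h : Corr σ E E') {P : Subgroup Ω} (hP : P ≤ U) {α : MulAut P}
    (hα : α ∈ E.autGroup P) :
    MulAut.congr (imgIso σ (hP.trans h.le)) α ∈ E'.autGroup (sImg σ P) := by
  refine (mem_autGroup_iff_hom E' (h.img ▸ sImg_mono hP)).2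
    (h.mem (autGroup_mem_hom E hP hα) fun x hx => ?_)
  show ((imgIso σ (hP.trans h.le)
    (α ((imgIso σ (hP.trans h.le)).symm ⟨ev σ x, hx⟩)) : _) : Ω') = _
  rw [show (imgIso σ (hP.trans h.le)).symm ⟨ev σ x, hx⟩ = x from
    Subtype.ext (ev_symm_ev ((hP.trans h.le) x.2))]
  rfl

theorem sImg_centralizerIn (h : U ≤ S) {T : Subgroup Ω} (hT : T ≤ S) :
    sImg σ (centralizerIn U T) = centralizerIn (sImg σ U) (sImg σ T) := by
  ext y
  constructor
  · intro hy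
    obtain ⟨x, hx, hxS, rfl⟩ := mem_sImg.1 hy
    refine mem_centralizerIn.2 ⟨ev_mem_sImg h hx.1, fun z hz => ?_⟩
    obtain ⟨t, ht, htS, rfl⟩ := mem_sImg.1 hz
    rw [← ev_mul htS hxS, ← ev_mul hxS htS, (mem_centralizerIn.1 hx).2 t ht]
  · intro hy
    obtain ⟨x, hx, hxS, rfl⟩ := mem_sImg.1 (mem_centralizerIn.1 hy).1
    refine mem_sImg.2 ⟨x, mem_centralizerIn.2 ⟨hx, fun t ht => ?_⟩, hxS, rfl⟩
    refine ev_inj (σ := σ) (S.mul_mem (hT ht) hxS) (S.mul_mem hxS (hT ht)) ?_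
    rw [ev_mul (hT ht) hxS, ev_mul hxS (hT ht)]
    exact (mem_centralizerIn.1 hy).2 _ (ev_mem_sImg hT ht)

theorem Corr.isSaturated [Finite U] {p : ℕ} [Fact p.Prime] (hU : IsPGroup p U)
    (h : Corr σ E E') (hE : E.IsSaturated p) : E'.IsSaturated p := by
  obtain ⟨θ, hθ⟩ : ∃ θ : U →* Ω', ∀ x : U, θ x = ev σ x :=
    ⟨(hom σ).comp (Subgroup.inclusion h.le), fun x => (ev_coe (σ := σ) ⟨x, h.le x.2⟩).symm⟩
  have himg : ∀ P : Subgroup Ω, P ≤ U → imageAlong θ P = sImg σ P := by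
    intro P hP
    ext y
    rw [mem_sImg]
    constructor
    · rintro ⟨x, hx, rfl⟩
      exact ⟨x, hx, h.le x.2, (hθ x).symm⟩
    · rintro ⟨x, hx, -, rfl⟩
      exact ⟨⟨x, hP hx⟩, hx, hθ _⟩
  have hpre : ∀ P : Subgroup Ω', P ≤ U' → preimageAlong θ P = sImg σ.symm P := by
    intro P hP
    ext x
    rw [FusionAlperin.mem_preimageAlong]
    constructor
    · rintro ⟨hx, hxP⟩
      rw [hθ] at hxP
      simpa [ev_symm_ev (h.le hx)] using
        ev_mem_sImg (σ := σ.symm) (hP.trans h.le') hxP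
    · intro hx
      obtain ⟨y, hy, hyS, rfl⟩ := mem_sImg.1 hx
      have h1 : ev σ.symm y ∈ U := mem_sImg_symm h.le (h.img.symm ▸ hP hy)
      refine ⟨h1, ?_⟩
      rwa [hθ, ev_ev_symm hyS]
  have hrange : θ.range = U' := by
    rw [← h.img]
    ext y
    rw [mem_sImg]
    constructor
    · rintro ⟨x, rfl⟩
      exact ⟨x, x.2, h.le x.2, (hθ x).symm⟩
    · rintro ⟨x, hx, -, rfl⟩
      exact ⟨⟨x, hx⟩, hθ _⟩
  refine FusionAlperin.saturated_of_surjective (F := E) (θ := θ) hU hE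
    ⟨⟨fun x => hrange ▸ ⟨x, rfl⟩, fun P φ hφ => ?_⟩, hrange, fun P' hP' φ' hφ' => ?_⟩
  · obtain ⟨φ', hφ', he⟩ := h.fwd P φ hφ
    have hP := le_S E hφ
    have hle := (himg P hP).le
    refine ⟨restr hle φ', restr_mem E' hle hφ', hP, map_mem_S E hφ,
      fun x => Subgroup.mem_map_of_mem _ x.2, fun x => ?_⟩
    have hx : ev σ x ∈ sImg σ P := ev_mem_sImg (hP.trans h.le) x.2
    exact (congrArg φ' (Subtype.ext (hθ _))).trans ((he x hx).trans (hθ ⟨φ x, map_mem_S E hφ x⟩).symm)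
  · obtain ⟨ψ, hψ, he⟩ := h.bwd P' φ' hφ'
    have hle := (hpre P' hP').le
    refine ⟨restr hle ψ, restr_mem E hle hψ, FusionAlperin.preimageAlong_le _,
      map_mem_S E (restr_mem E hle hψ), FusionAlperin.theta_mem_of_mem_preimage, fun x => ?_⟩
    generalize hy : (⟨θ _, FusionAlperin.theta_mem_of_mem_preimage x⟩ : P') = y
    have hyv : (y : Ω') = ev σ x := by rw [← hy]; exact hθ _
    have h1 : ev σ.symm y ∈ sImg σ.symm P' := ev_mem_sImg (hP'.trans h.le') y.2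
    have e2 : Subgroup.inclusion hle x = ⟨ev σ.symm y, h1⟩ := Subtype.ext (by
      show (x : Ω) = ev σ.symm y
      rw [hyv, ev_symm_ev (h.le (FusionAlperin.preimageAlong_le _ x.2))])
    calc φ' y = ev σ (ev σ.symm (φ' y)) := (ev_ev_symm (h.le' (map_mem_S E' hφ' y))).symm
      _ = ev σ (restr hle ψ x) := by rw [restr_apply, e2, he]
      _ = θ _ := (hθ ⟨restr hle ψ x, map_mem_S E (restr_mem E hle hψ) x⟩).symm

theorem Corr.invariant (h : Corr σ E E') (hD : Corr σ D D') (hE : E.IsInvariantIn D) :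
    E'.IsInvariantIn D' := by
  obtain ⟨hs, hsc, hinv, hfr⟩ := hE
  have hsub := h.subsystem hD hs
  have hUV : U ≤ V := hsc.1
  refine ⟨hsub, h.img ▸ hD.stronglyClosed hsc, fun P hP φ hφ α hα => ?_, fun P hP φ hφ => ?_⟩
  · have hU'V' : U' ≤ V' := h.img ▸ hD.img ▸ sImg_mono hUV
    have hα₀ := hD.symm.autGroup hU'V' hα
    obtain ⟨e, he⟩ : ∃ e : U' ≃* U, ∀ x : U', (e x : Ω) = ev σ.symm x :=
      ⟨(imgIso σ.symm h.le').trans (MulEquiv.subgroupCongr h.symm.img), fun x => rfl⟩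
    have heα : MulAut.congr e α ∈ D.autGroup U := by
      refine (mem_autGroup_iff_hom D hUV).2 ?_
      have hm := autGroup_mem_hom D (h.symm.img.le.trans hUV) hα₀
      have hle : U ≤ sImg σ.symm U' := h.symm.img.ge
      refine mem_hom_congr D (restr_mem D hle hm) fun y => ?_
      obtain ⟨x, rfl⟩ := e.surjective y
      show (e (α (e.symm (e x))) : Ω) = _
      rw [e.symm_apply_apply, he]
      show _ = ((imgIso σ.symm (hU'V'.trans hD.le')
        (α ((imgIso σ.symm (hU'V'.trans hD.le')).symm _)) : _) : Ω)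
      have : (imgIso σ.symm (hU'V'.trans hD.le')).symm (Subgroup.inclusion hle (e x)) = x :=
        Subtype.ext ((congrArg (ev σ.symm.symm) (he x)).trans (ev_ev_symm (h.le' x.2)))
      rw [this]
      rfl
    obtain ⟨ψ, hψ, hψe⟩ := h.bwd P φ hφ
    have hPS : P ≤ S' := hP.trans h.le'
    have hP₀ : sImg σ.symm P ≤ U := h.symm.img ▸ sImg_mono hP
    obtain ⟨χ, hχ, hχe⟩ := hinv _ hP₀ ψ hψ _ heα
    obtain ⟨χ', hχ', hχ'e⟩ := h.fwd _ χ hχ
    -- both descriptions of the image of `P` under `α`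
    have hval : ∀ x : U', ev σ ((MulAut.congr e α (e x) : U) : Ω) = (α x : Ω') := fun x => by
      show ev σ ((e (α (e.symm (e x))) : U) : Ω) = _
      rw [e.symm_apply_apply, he, ev_ev_symm (h.le' (α x).2)]
    have hle : (P.subgroupOf U').map (U'.subtype.comp α.toMonoidHom) ≤
        sImg σ (((sImg σ.symm P).subgroupOf U).map
          (U.subtype.comp (MulAut.congr e α).toMonoidHom)) := by
      rintro _ ⟨x, hx, rfl⟩
      refine mem_sImg.2 ⟨_, ⟨e x, ?_, rfl⟩, h.le (MulAut.congr e α (e x)).2, hval x⟩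
      show (e x : Ω) ∈ sImg σ.symm P
      rw [he]
      exact ev_mem_sImg hPS hx
    refine ⟨restr hle χ', restr_mem E' hle hχ', fun x hφx hαx => ?_⟩
    have hxU : ev σ.symm x ∈ sImg σ.symm P := ev_mem_sImg hPS x.2
    have hψU : ψ ⟨_, hxU⟩ ∈ U := map_mem_S E hψ _
    have hex : (⟨ev σ.symm x, hP₀ hxU⟩ : U) = e ⟨x, hP x.2⟩ :=
      Subtype.ext (he ⟨x, hP x.2⟩).symm
    have hm : ((MulAut.congr e α (⟨ev σ.symm x, hP₀ hxU⟩ : U) : U) : Ω) ∈
        ((sImg σ.symm P).subgroupOf U).map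
          (U.subtype.comp (MulAut.congr e α).toMonoidHom) := ⟨_, hxU, rfl⟩
    have e1 : Subgroup.inclusion hle ⟨_, hαx⟩ =
        ⟨ev σ ((MulAut.congr e α ⟨_, hP₀ hxU⟩ : U) : Ω),
          ev_mem_sImg ((Subgroup.map_le_range _ _).trans
            ((range_subtype_comp _).le.trans h.le)) hm⟩ :=
      Subtype.ext (by
        show ((α ⟨x, hP x.2⟩ : U') : Ω') = ev σ ((MulAut.congr e α _ : U) : Ω)
        rw [hex, hval])
    rw [restr_apply, e1, hχ'e ⟨_, hm⟩, hχe ⟨_, hxU⟩ hψU hm,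
      show (⟨ψ ⟨_, hxU⟩, hψU⟩ : U) = e ⟨φ x, hφx⟩ from Subtype.ext ((hψe x hxU).trans (he ⟨φ x, hφx⟩).symm),
      hval]
  · have hP₀ : sImg σ.symm P ≤ U := h.symm.img ▸ sImg_mono hP
    obtain ⟨ψ, hψ, hψe⟩ := hD.bwd P φ hφ
    obtain ⟨α, hα, φ₀, hφ₀, hfac⟩ := hfr _ hP₀ ψ hψ
    obtain ⟨φ₁, hφ₁, hφ₁e⟩ := h.fwd _ φ₀ hφ₀
    have hle : P ≤ sImg σ (sImg σ.symm P) := (sImg_sImg_symm (hP.trans h.le')).ge
    obtain ⟨e, he⟩ : ∃ e : U ≃* U', ∀ x : U, (e x : Ω') = ev σ x :=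
      ⟨(imgIso σ h.le).trans (MulEquiv.subgroupCongr h.img), fun x => rfl⟩
    have hα' : MulAut.congr e α ∈ D'.autGroup U' := by
      have hU'V' : U' ≤ V' := h.img ▸ hD.img ▸ sImg_mono hUV
      refine (mem_autGroup_iff_hom D' hU'V').2 ?_
      have hm := autGroup_mem_hom D' ((h.img.le).trans hU'V') (hD.autGroup hUV hα)
      have hle' : U' ≤ sImg σ U := h.img.ge
      refine mem_hom_congr D' (restr_mem D' hle' hm) fun y => ?_
      obtain ⟨x, rfl⟩ := e.surjective y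
      show (e (α (e.symm (e x))) : Ω') = _
      rw [e.symm_apply_apply, he]
      show _ = ((imgIso σ (hUV.trans hD.le)
        (α ((imgIso σ (hUV.trans hD.le)).symm _)) : _) : Ω')
      have : (imgIso σ (hUV.trans hD.le)).symm (Subgroup.inclusion hle' (e x)) = x :=
        Subtype.ext ((congrArg (ev σ.symm) (he x)).trans (ev_symm_ev (h.le x.2)))
      rw [this]
      rfl
    refine ⟨_, hα', restr hle φ₁, restr_mem E' hle hφ₁, fun x hx => ?_⟩
    have hxP : ev σ.symm x ∈ sImg σ.symm P := ev_mem_sImg (hP.trans h.le') x.2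
    have e1 : restr hle φ₁ x = ev σ (φ₀ ⟨_, hxP⟩) := by
      rw [restr_apply, ← hφ₁e ⟨_, hxP⟩ (ev_mem_sImg (sImg_le _) hxP)]
      exact congrArg φ₁ (Subtype.ext (ev_ev_symm (hP.trans h.le' x.2)).symm)
    have e2 : (⟨restr hle φ₁ x, hx⟩ : U') = e ⟨φ₀ ⟨_, hxP⟩, map_mem_S E hφ₀ _⟩ :=
      Subtype.ext (e1.trans (he ⟨φ₀ ⟨_, hxP⟩, map_mem_S E hφ₀ _⟩).symm)
    show φ x = (e (α (e.symm ⟨restr hle φ₁ x, hx⟩)) : Ω')
    rw [e2, e.symm_apply_apply, he, ← hfac ⟨_, hxP⟩ (map_mem_S E hφ₀ _), hψe,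
      ev_ev_symm (hD.le' (map_mem_S D' hφ x))]

theorem Corr.isCentral (h : Corr σ E E') {Q : Subgroup Ω} (hQ : E.IsCentral Q) :
    E'.IsCentral (sImg σ Q) := by
  have hQU := hQ.1
  refine ⟨h.img ▸ sImg_mono hQU, fun P φ hφ => ?_⟩
  have hPS : P ≤ S' := (le_S E' hφ).trans h.le'
  obtain ⟨ψ, hψ, hψe⟩ := h.bwd P φ hφ
  obtain ⟨χ, hχ, h1, h2⟩ := hQ.2 _ ψ hψ
  obtain ⟨χ', hχ', hχ'e⟩ := h.fwd _ χ hχ
  have hle : P ⊔ sImg σ Q ≤ sImg σ (sImg σ.symm P ⊔ Q) := by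
    rw [sImg_sup (sImg_le P) (hQU.trans h.le), sImg_sImg_symm hPS]
  refine ⟨restr hle χ', restr_mem E' hle hχ', fun x => ?_, fun y => ?_⟩
  · have hx : ev σ.symm x ∈ sImg σ.symm P := ev_mem_sImg hPS x.2
    rw [restr_apply]
    refine Eq.trans (congrArg χ' (Subtype.ext ?_))
      ((hχ'e ⟨_, Subgroup.mem_sup_left hx⟩ (ev_mem_sImg (sup_le (sImg_le P) (hQU.trans h.le))
        (Subgroup.mem_sup_left hx))).trans ?_)
    · exact (ev_ev_symm (hPS x.2)).symm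
    · rw [show χ ⟨_, Subgroup.mem_sup_left hx⟩ = ψ ⟨_, hx⟩ from h1 ⟨_, hx⟩, hψe x hx,
        ev_ev_symm (h.le' (map_mem_S E' hφ x))]
  · obtain ⟨q, hq, rfl⟩ := exists_ev y
    rw [restr_apply]
    refine Eq.trans (congrArg χ' (Subtype.ext rfl))
      ((hχ'e ⟨q, Subgroup.mem_sup_right q.2⟩ (ev_mem_sImg (sup_le (sImg_le P) (hQU.trans h.le))
        (Subgroup.mem_sup_right q.2))).trans ?_)
    exact congrArg (ev σ) (h2 q)

theorem Corr.center_le (h : Corr σ E E') : sImg σ E.center ≤ E'.center := by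
  have hc : E.center ≤ S := (sSup_le fun Q hQ => hQ.1).trans h.le
  intro y hy
  obtain ⟨x, hx, hxS, rfl⟩ := mem_sImg.1 hy
  have hcU : E.center ≤ U := sSup_le fun Q hQ => hQ.1
  have hmem : E.center ≤ ((E'.center.comap (hom σ)).map S.subtype) := sSup_le fun Q hQ z hz =>
    ⟨⟨z, hcU.trans h.le (le_sSup (s := {Q | E.IsCentral Q}) hQ hz)⟩,
      le_sSup (s := {Q | E'.IsCentral Q}) (h.isCentral hQ)
        (Subgroup.mem_map_of_mem (hom σ)
          (show (⟨z, _⟩ : S) ∈ Q.subgroupOf S from hz)), rfl⟩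
  obtain ⟨z, hz, hze⟩ := hmem hx
  rw [← hze, Subgroup.coe_subtype, ev_coe]
  exact hz

theorem Corr.center (h : Corr σ E E') : sImg σ E.center = E'.center := by
  refine le_antisymm h.center_le ?_
  have h1 := sImg_mono (σ := σ) h.symm.center_le
  have h2 : E'.center ≤ S' := le_trans (sSup_le fun Q hQ => hQ.1) h.le'
  rwa [sImg_sImg_symm h2] at h1

theorem Corr.hyperfocal_le (h : Corr σ E E') (p : ℕ) :
    E.hyperfocalSubgroup p ≤ ((E'.hyperfocalSubgroup p).comap (hom σ)).map S.subtype := by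
  refine (Subgroup.closure_le _).2 ?_
  rintro _ ⟨P, α, x, hP, hα, rfl⟩
  have hPS := hP.trans h.le
  let ρ : E.autGroup P →* E'.autGroup (sImg σ P) :=
    ((MulAut.congr (imgIso σ hPS)).toMonoidHom.comp (E.autGroup P).subtype).codRestrict _
      fun a => h.autGroup hP a.2
  have hρ : Function.Injective ρ := fun a b hab =>
    Subtype.ext ((MulAut.congr (imgIso σ hPS)).injective (congrArg Subtype.val hab))
  have hres : (pResidual p (E.autGroup P)).map ρ ≤ pResidual p (E'.autGroup (sImg σ P)) := by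
    rw [pResidual, MonoidHom.map_closure]
    refine Subgroup.closure_mono ?_
    rintro _ ⟨a, ha, rfl⟩
    show Nat.Coprime (orderOf (ρ a)) p
    rw [orderOf_injective ρ hρ]
    exact ha
  have hxS : (x : Ω) ∈ S := hPS x.2
  have haS : (((α : MulAut P) x : P) : Ω) ∈ S := hPS (Subtype.coe_prop _)
  refine ⟨⟨_, S.mul_mem (S.inv_mem hxS) haS⟩, Subgroup.subset_closure
    ⟨sImg σ P, ρ α, imgIso σ hPS x, h.img ▸ sImg_mono hP,
      hres (Subgroup.mem_map_of_mem _ hα), ?_⟩, rfl⟩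
  rw [show hom σ ⟨_, S.mul_mem (S.inv_mem hxS) haS⟩ = ev σ _ from
    (ev_coe (σ := σ) ⟨_, S.mul_mem (S.inv_mem hxS) haS⟩).symm,
    ev_mul (S.inv_mem hxS) haS, ev_inv hxS]
  show _ = (ev σ x)⁻¹ * ((imgIso σ hPS ((α : MulAut P) ((imgIso σ hPS).symm (imgIso σ hPS x))) : _) : Ω')
  rw [MulEquiv.symm_apply_apply]
  rfl

theorem Corr.hyperfocal (h : Corr σ E E') (p : ℕ) :
    sImg σ (E.hyperfocalSubgroup p) = E'.hyperfocalSubgroup p := by
  refine le_antisymm (fun y hy => ?_) fun y hy => ?_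
  · obtain ⟨x, hx, hxS, rfl⟩ := mem_sImg.1 hy
    obtain ⟨z, hz, hze⟩ := h.hyperfocal_le p hx
    rw [← hze, Subgroup.coe_subtype, ev_coe]
    exact hz
  · obtain ⟨z, hz, hze⟩ := h.symm.hyperfocal_le p hy
    rw [← hze]
    refine mem_sImg.2 ⟨(σ.symm z : Ω), hz, Subtype.coe_prop _, ?_⟩
    rw [ev_coe, σ.apply_symm_apply]
    rfl

theorem Corr.isNormalIn [Finite U] [Finite V] {p : ℕ} [Fact p.Prime] (hV : IsPGroup p V)
    (h : Corr σ E E') (hD : Corr σ D D') (hE : E.IsNormalIn D p) : E'.IsNormalIn D' p := by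
  obtain ⟨⟨hEs, hDs, hinv⟩, hext⟩ := hE
  have hUV : U ≤ V := hinv.2.1.1
  refine ⟨⟨h.isSaturated (hV.to_le hUV) hEs, hD.isSaturated hV hDs, h.invariant hD hinv⟩,
    fun α hα => ?_⟩
  obtain ⟨e, he⟩ : ∃ e : U' ≃* U, ∀ x : U', (e x : Ω) = ev σ.symm x :=
    ⟨(imgIso σ.symm h.le').trans (MulEquiv.subgroupCongr h.symm.img), fun x => rfl⟩
  have hα₀ : MulAut.congr e α ∈ E.autGroup U := by
    refine (mem_autGroup_iff_hom E le_rfl).2 ?_
    have hm := autGroup_mem_hom E h.symm.img.le (h.symm.autGroup le_rfl hα)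
    have hle : U ≤ sImg σ.symm U' := h.symm.img.ge
    refine mem_hom_congr E (restr_mem E hle hm) fun y => ?_
    obtain ⟨x, rfl⟩ := e.surjective y
    show (e (α (e.symm (e x))) : Ω) = _
    rw [e.symm_apply_apply, he]
    show _ = ((imgIso σ.symm h.le' (α ((imgIso σ.symm h.le').symm _)) : _) : Ω)
    have : (imgIso σ.symm h.le').symm (Subgroup.inclusion hle (e x)) = x :=
      Subtype.ext ((congrArg (ev σ.symm.symm) (he x)).trans (ev_ev_symm (h.le' x.2)))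
    rw [this]
    rfl
  obtain ⟨β, hβ, hβ1, hβ2⟩ := hext _ hα₀
  have hW : U ⊔ centralizerIn V U ≤ V := sup_le hUV (centralizerIn_le U)
  have hW' : sImg σ (U ⊔ centralizerIn V U) = U' ⊔ centralizerIn V' U' := by
    rw [sImg_sup h.le ((centralizerIn_le U).trans hD.le), sImg_centralizerIn hD.le h.le,
      h.img, hD.img]
  obtain ⟨f, hf⟩ : ∃ f : ↥(U ⊔ centralizerIn V U) ≃* ↥(U' ⊔ centralizerIn V' U'),
      ∀ x : ↥(U ⊔ centralizerIn V U), (f x : Ω') = ev σ x :=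
    ⟨(imgIso σ (hW.trans hD.le)).trans (MulEquiv.subgroupCongr hW'), fun x => rfl⟩
  have hWV' : U' ⊔ centralizerIn V' U' ≤ V' :=
    sup_le (h.img ▸ hD.img ▸ sImg_mono hUV) (centralizerIn_le U')
  refine ⟨MulAut.congr f β, ?_, fun x => ?_, fun c hc => ?_⟩
  · refine (mem_autGroup_iff_hom D' hWV').2 ?_
    have hm := autGroup_mem_hom D' (hW'.le.trans hWV') (hD.autGroup hW hβ)
    refine mem_hom_congr D' (restr_mem D' hW'.ge hm) fun y => ?_
    obtain ⟨x, rfl⟩ := f.surjective y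
    show (f (β (f.symm (f x))) : Ω') = _
    rw [f.symm_apply_apply, hf]
    show _ = ((imgIso σ (hW.trans hD.le)
      (β ((imgIso σ (hW.trans hD.le)).symm _)) : _) : Ω')
    have : (imgIso σ (hW.trans hD.le)).symm (Subgroup.inclusion hW'.ge (f x)) = x :=
      Subtype.ext ((congrArg (ev σ.symm) (hf x)).trans (ev_symm_ev ((hW.trans hD.le) x.2)))
    rw [this]
    rfl
  · obtain ⟨y, rfl⟩ := e.symm.surjective x
    have e1 : Subgroup.inclusion (le_sup_left : U' ≤ U' ⊔ centralizerIn V' U') (e.symm y) =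
        f (Subgroup.inclusion le_sup_left y) := Subtype.ext (by
      rw [hf]
      show ((e.symm y : U') : Ω') = ev σ y
      conv_rhs => rw [← e.apply_symm_apply y, he]
      rw [ev_ev_symm (h.le' (e.symm y).2)])
    rw [e1]
    show (f (β (f.symm (f _))) : Ω') = _
    rw [f.symm_apply_apply, hf, hβ1]
    show ev σ ((e (α (e.symm y)) : U) : Ω) = _
    rw [he, ev_ev_symm (h.le' (α (e.symm y)).2)]
  · obtain ⟨x, rfl⟩ := f.surjective c
    have hxS : (x : Ω) ∈ S := (hW.trans hD.le) x.2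
    have hxC : (x : Ω) ∈ centralizerIn V U := by
      rw [hf, ← h.img, ← hD.img, ← sImg_centralizerIn hD.le h.le] at hc
      exact (ev_mem_sImg_iff hxS).1 hc
    show (f x : Ω')⁻¹ * (f (β (f.symm (f x))) : Ω') ∈ centralizerIn U' U'
    rw [f.symm_apply_apply, hf, hf, ← ev_inv hxS,
      ← ev_mul (S.inv_mem hxS) ((hW.trans hD.le) (β x).2)]
    have hm := ev_mem_sImg (σ := σ) ((centralizerIn_le U).trans h.le)
      (show (x : Ω)⁻¹ * (β x : Ω) ∈ centralizerIn U U from hβ2 x hxC)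
    rwa [sImg_centralizerIn h.le h.le, h.img] at hm

end corr

/-- The image of a system along `σ`. -/
noncomputable def imgSys (σ : S ≃* S') {U : Subgroup Ω} (hU : U ≤ S) {U' : Subgroup Ω'}
    (hU' : sImg σ U = U') (E : FusionSystem U) : FusionSystem U' where
  Hom P' := {φ' | P' ≤ U' ∧ ∃ φ ∈ E.Hom (sImg σ.symm P'),
    ∀ (x : P') (h : ev σ.symm x ∈ sImg σ.symm P'), φ' x = ev σ (φ ⟨ev σ.symm x, h⟩)}
  le_of_mem := by
    rintro P' φ' ⟨hP', φ, hφ, he⟩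
    refine ⟨hP', fun x => ?_⟩
    rw [he x (ev_mem_sImg (hP'.trans (hU' ▸ sImg_le U)) x.2)]
    exact hU'.le (ev_mem_sImg hU (map_mem_S E hφ _))
  injective_of_mem := by
    rintro P' φ' ⟨hP', φ, hφ, he⟩ a b hab
    have hS' := hP'.trans (hU' ▸ sImg_le (σ := σ) U)
    rw [he a (ev_mem_sImg hS' a.2), he b (ev_mem_sImg hS' b.2)] at hab
    have h1 := congrArg Subtype.val (E.injective_of_mem hφ
      (ev_inj (hU (map_mem_S E hφ _)) (hU (map_mem_S E hφ _)) hab))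
    exact Subtype.ext (ev_inj (σ := σ.symm) (hS' a.2) (hS' b.2) h1)
  conj_mem := by
    intro P' g hP' hg
    have hS' : U' ≤ S' := hU' ▸ sImg_le U
    obtain ⟨k, hk, hkS, rfl⟩ := mem_sImg.1 (hU'.symm ▸ hg)
    have hle : sImg σ.symm P' ≤ U := fun z hz => by
      obtain ⟨y, hy, -, rfl⟩ := mem_sImg.1 hz
      exact mem_sImg_symm hU (hU'.symm ▸ hP' hy)
    refine ⟨hP', conjHom _ k, E.conj_mem hle hk, fun x hx => ?_⟩
    rw [conjHom_apply, conjHom_apply, ev_conj hkS (hU (hle hx)), ev_ev_symm (hS' (hP' x.2))]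
  comp_mem := by
    rintro P' Q' φ' ψ' ⟨hP', φ, hφ, he⟩ ⟨hQ', ψ, hψ, hψe⟩ hm
    have hS' : U' ≤ S' := hU' ▸ sImg_le U
    have hval : ∀ z : ↥(sImg σ.symm P'), φ z ∈ sImg σ.symm Q' := fun z => by
      obtain ⟨x, hx, rfl⟩ := exists_ev z
      have h1 := ev_mem_sImg (σ := σ.symm) (hQ'.trans hS') (hm x)
      rwa [he x hx, ev_symm_ev (hU (map_mem_S E hφ _))] at h1
    refine ⟨hP', _, E.comp_mem hφ hψ hval, fun x hx => ?_⟩
    show ψ' ⟨φ' x, hm x⟩ = _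
    rw [hψe ⟨φ' x, hm x⟩ (ev_mem_sImg (hQ'.trans hS') (hm x))]
    refine congrArg (fun z => ev σ (ψ z)) (Subtype.ext ?_)
    show ev σ.symm (φ' x) = φ ⟨ev σ.symm x, hx⟩
    rw [he x hx, ev_symm_ev (hU (map_mem_S E hφ _))]
  inv_mem := by
    rintro P' φ' ⟨hP', φ, hφ, he⟩
    have hS' := hP'.trans (hU' ▸ sImg_le (σ := σ) U)
    obtain ⟨ψ, hψ, hψe⟩ := E.inv_mem hφ
    have hinj : Function.Injective φ' := fun a b hab => by
      rw [he a (ev_mem_sImg hS' a.2), he b (ev_mem_sImg hS' b.2)] at hab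
      have h1 := congrArg Subtype.val (E.injective_of_mem hφ
        (ev_inj (hU (map_mem_S E hφ _)) (hU (map_mem_S E hφ _)) hab))
      exact Subtype.ext (ev_inj (σ := σ.symm) (hS' a.2) (hS' b.2) h1)
    have hle : sImg σ.symm φ'.range ≤ φ.range := fun z hz => by
      obtain ⟨_, ⟨x, rfl⟩, -, rfl⟩ := mem_sImg.1 hz
      rw [he x (ev_mem_sImg hS' x.2), ev_symm_ev (hU (map_mem_S E hφ _))]
      exact ⟨_, rfl⟩
    have hr : φ'.range ≤ U' := by
      rintro _ ⟨x, rfl⟩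
      rw [he x (ev_mem_sImg hS' x.2)]
      exact hU'.le (ev_mem_sImg hU (map_mem_S E hφ _))
    refine ⟨P'.subtype.comp (MonoidHom.ofInjective hinj).symm.toMonoidHom,
      ⟨hr, restr hle ψ, restr_mem E hle hψ, fun y hy => ?_⟩,
      fun x => congrArg Subtype.val ((MonoidHom.ofInjective hinj).symm_apply_apply x)⟩
    obtain ⟨_, x, rfl⟩ := y
    have e1 : Subgroup.inclusion hle ⟨ev σ.symm (φ' x), hy⟩ =
        ⟨φ ⟨ev σ.symm x, ev_mem_sImg hS' x.2⟩, _, rfl⟩ := Subtype.ext (by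
      show ev σ.symm (φ' x) = _
      rw [he x (ev_mem_sImg hS' x.2), ev_symm_ev (hU (map_mem_S E hφ _))])
    rw [restr_apply, e1, hψe, ev_ev_symm (hS' x.2)]
    exact congrArg Subtype.val ((MonoidHom.ofInjective hinj).symm_apply_apply x)

theorem corr_imgSys (σ : S ≃* S') {U : Subgroup Ω} (hU : U ≤ S) {U' : Subgroup Ω'}
    (hU' : sImg σ U = U') (E : FusionSystem U) : Corr σ E (imgSys σ hU hU' E) := by
  refine ⟨hU, hU' ▸ sImg_le U, hU', fun P φ hφ => ?_, fun P φ hφ => ?_⟩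
  · have hPS : P ≤ S := (le_S E hφ).trans hU
    let φ' : ↥(sImg σ P) →* Ω' := (hom σ).comp
      ((φ.codRestrict S fun x => hU (map_mem_S E hφ x)).comp (imgIso σ hPS).symm.toMonoidHom)
    have hφ'e : ∀ (x : P) (h : ev σ x ∈ sImg σ P), φ' ⟨ev σ x, h⟩ = ev σ (φ x) := fun x h => by
      refine Eq.trans ?_ (ev_coe (σ := σ) ⟨φ x, hU (map_mem_S E hφ x)⟩).symm
      show hom σ ⟨φ ((imgIso σ hPS).symm ⟨ev σ x, h⟩), _⟩ = _
      exact congrArg (hom σ) (Subtype.ext (congrArg φ (Subtype.ext (ev_symm_ev (hPS x.2)))))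
    refine ⟨φ', ⟨hU' ▸ sImg_mono (le_S E hφ), restr (sImg_symm_sImg hPS).le φ,
      restr_mem E (sImg_symm_sImg hPS).le hφ, fun y hy => ?_⟩, hφ'e⟩
    obtain ⟨x, hx, rfl⟩ := exists_ev y
    rw [hφ'e x hx, restr_apply]
    exact congrArg (fun z => ev σ (φ z)) (Subtype.ext (ev_symm_ev (hPS x.2)).symm)
  · obtain ⟨hP, ψ, hψ, he⟩ := hφ
    refine ⟨ψ, hψ, fun x h => ?_⟩
    rw [he x h, ev_symm_ev (hU (map_mem_S E hψ _))]


theorem subnormal_image {p : ℕ} {U V : Subgroup Ω} {C : FusionSystem U} {F : FusionSystem V}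
    (h : C.IsSubnormalIn F p) : ∀ [Fact p.Prime], IsPGroup p S → Finite S →
      ∀ {V' : Subgroup Ω'} (F' : FusionSystem V'), Corr σ F F' →
        ∃ (U' : Subgroup Ω') (C' : FusionSystem U'), Corr σ C C' ∧ C'.IsSubnormalIn F' p := by
  induction h with
  | refl F p =>
    intro _ _ _ V' F' hF
    exact ⟨V', F', hF, .refl _ _⟩
  | @step W V E D F p hED hD ih =>
    intro hp hS hfin V' F' hF
    have hWV : W ≤ V := hD.1.2.2.2.1.1
    have hWS : W ≤ S := hWV.trans hF.le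
    haveI : Finite V := finite_of_le hfin hF.le
    haveI : Finite W := finite_of_le hfin hWS
    have hDD := corr_imgSys σ hWS rfl D
    obtain ⟨U', C', hC, hCs⟩ := ih hS hfin _ hDD
    exact ⟨U', C', hC, .step hCs (hDD.isNormalIn (hS.to_le hF.le) hF hD)⟩

theorem Corr.isSimple {p : ℕ} [Fact p.Prime] {U : Subgroup Ω} {U' : Subgroup Ω'}
    {E : FusionSystem U} {E' : FusionSystem U'} [Finite U] (hU : IsPGroup p U)
    (h : Corr σ E E') (hE : E.IsSimple p) : E'.IsSimple p := by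
  obtain ⟨hsat, hne, hmin⟩ := hE
  have e : U ≃* U' := (imgIso σ h.le).trans (MulEquiv.subgroupCongr h.img)
  haveI : Finite U' := Finite.of_equiv _ e.toEquiv
  refine ⟨h.isSaturated hU hsat, fun hb => hne ?_, fun T' D' hD' => ?_⟩
  · rw [← h.symm.img, hb, sImg_bot]
  · have hT'U : T' ≤ U' := hD'.1.2.2.2.1.1
    haveI : Finite T' := finite_of_le inferInstance hT'U
    have hDD := corr_imgSys σ.symm (hT'U.trans h.le') rfl D'
    rcases hmin _ _ (hDD.isNormalIn (hU.of_equiv e) h.symm hD') with hb | ⟨hTU, hHom⟩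
    · left
      rw [← sImg_sImg_symm (σ := σ) (hT'U.trans h.le'), hb, sImg_bot]
    · right
      have hT : T' = U' := by
        rw [← sImg_sImg_symm (σ := σ) (hT'U.trans h.le'), hTU, h.img]
      refine ⟨hT, fun P => Set.Subset.antisymm (hD'.1.2.2.1 P) fun φ hφ => ?_⟩
      obtain ⟨ψ, hψ, hψe⟩ := h.bwd P φ hφ
      rw [← hHom] at hψ
      have hPS : P ≤ S' := (le_S E' hφ).trans h.le'
      obtain ⟨χ, hχ, hχe⟩ := hDD.bwd _ ψ hψ
      have hle : P ≤ sImg σ.symm.symm (sImg σ.symm P) := (sImg_symm_sImg (σ := σ.symm) hPS).ge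
      refine mem_hom_congr D' (restr_mem D' hle hχ) fun x => ?_
      have hx : ev σ.symm x ∈ sImg σ.symm P := ev_mem_sImg hPS x.2
      rw [restr_apply, show Subgroup.inclusion hle x =
        ⟨ev σ.symm.symm (ev σ.symm x), ev_mem_sImg (σ := σ.symm.symm) (sImg_le P) hx⟩ from
        Subtype.ext (ev_symm_ev (σ := σ.symm) (hPS x.2)).symm, hχe ⟨_, hx⟩, hψe x hx]
      exact (ev_symm_ev (σ := σ.symm) (h.le' (map_mem_S E' hφ x))).symm

theorem Corr.quasisimple {p : ℕ} [Fact p.Prime] {U : Subgroup Ω} {U' : Subgroup Ω'}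
    {C : FusionSystem U} {C' : FusionSystem U'} [Finite U] (hU : IsPGroup p U)
    (h : Corr σ C C') (hC : C.Quasisimple p) : C'.Quasisimple p := by
  obtain ⟨hsat, hhyp, hsimple⟩ := hC
  refine ⟨h.isSaturated hU hsat, by rw [← h.hyperfocal p, hhyp, h.img], fun E' hE' => ?_⟩
  obtain ⟨e, he⟩ : ∃ e : U ≃* U', ∀ x : U, (e x : Ω') = ev σ x :=
    ⟨(imgIso σ h.le).trans (MulEquiv.subgroupCongr h.img), fun x => rfl⟩
  have hcU : C.center ≤ U := sSup_le fun Q hQ => hQ.1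
  have hcU' : C'.center ≤ U' := sSup_le fun Q hQ => hQ.1
  have hZ : (C.center.subgroupOf U).map e.toMonoidHom = C'.center.subgroupOf U' := by
    ext y
    obtain ⟨x, rfl⟩ := e.surjective y
    rw [Subgroup.mem_subgroupOf, he, ← h.center, ev_mem_sImg_iff (h.le x.2)]
    constructor
    · rintro ⟨z, hz, hze⟩
      rw [← e.injective hze]
      exact hz
    · exact fun hx => ⟨x, hx, rfl⟩
  obtain ⟨τ₀, hτ₀⟩ : ∃ τ₀ : (U ⧸ C.center.subgroupOf U) ≃* (U' ⧸ C'.center.subgroupOf U'),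
      ∀ x : U, τ₀ (QuotientGroup.mk' _ x) = QuotientGroup.mk' _ (e x) :=
    ⟨QuotientGroup.congr _ _ e hZ, fun x => rfl⟩
  obtain ⟨τ, hτ⟩ : ∃ τ : (⊤ : Subgroup (U ⧸ C.center.subgroupOf U)) ≃*
      (⊤ : Subgroup (U' ⧸ C'.center.subgroupOf U')), ∀ x : U,
        ev τ (QuotientGroup.mk' _ x) = QuotientGroup.mk' _ (e x) := by
    refine ⟨Subgroup.topEquiv.trans (τ₀.trans Subgroup.topEquiv.symm), fun x => ?_⟩
    rw [ev_of_mem (Subgroup.mem_top _)]
    exact hτ₀ x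
  have htop : sImg τ.symm (⊤ : Subgroup (U' ⧸ C'.center.subgroupOf U')) = ⊤ := sImg_top
  let E : FusionSystem (⊤ : Subgroup (U ⧸ C.center.subgroupOf U)) :=
    imgSys τ.symm le_rfl htop E'
  have hEE : Corr τ E E' := (corr_imgSys τ.symm le_rfl htop E').symm
  haveI : Finite (U ⧸ C.center.subgroupOf U) :=
    Finite.of_surjective _ (QuotientGroup.mk'_surjective _)
  refine hEE.isSimple ((hU.to_quotient _).of_equiv Subgroup.topEquiv.symm)
    (hsimple E ⟨hcU, fun x => QuotientGroup.eq_one_iff x,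
      MonoidHom.range_eq_top.2 (QuotientGroup.mk'_surjective _), fun P φ' => ⟨fun hφ' => ?_, ?_⟩⟩)
  · refine ⟨le_top, ?_⟩
    obtain ⟨ψ', hψ', hψ'e⟩ := hEE.fwd P φ' hφ'
    obtain ⟨-, ψ, hψ, hind⟩ := (hE'.2.2.2 _ _).1 hψ'
    obtain ⟨φ, hφ, hφe⟩ := h.bwd _ ψ hψ
    obtain ⟨hpS, hψS, hpm, hpe⟩ := hind
    have hle : preimageAlong (QuotientGroup.mk' (C.center.subgroupOf U)) P ≤
        sImg σ.symm (preimageAlong (QuotientGroup.mk' (C'.center.subgroupOf U')) (sImg τ P)) := by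
      intro x hx
      obtain ⟨hxU, hxP⟩ := FusionAlperin.mem_preimageAlong.1 hx
      refine mem_sImg.2 ⟨ev σ x, ?_, ev_mem (h.le hxU), ev_symm_ev (h.le hxU)⟩
      refine FusionAlperin.mem_preimageAlong.2 ⟨h.img ▸ ev_mem_sImg h.le hxU, ?_⟩
      rw [show (⟨ev σ x, _⟩ : U') = e ⟨x, hxU⟩ from Subtype.ext (he ⟨x, hxU⟩).symm, ← hτ]
      exact ev_mem_sImg le_top hxP
    refine ⟨restr hle φ, restr_mem C hle hφ, FusionAlperin.preimageAlong_le _,
      map_mem_S C (restr_mem C hle hφ), FusionAlperin.theta_mem_of_mem_preimage, fun x => ?_⟩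
    have hxU : (x : Ω) ∈ U := FusionAlperin.preimageAlong_le _ x.2
    have hxP := FusionAlperin.theta_mem_of_mem_preimage x
    obtain ⟨y, hy, hyS, hye⟩ := mem_sImg.1 (hle x.2)
    have hyU : y ∈ U' := hpS hy
    have hey : e ⟨x, hxU⟩ = ⟨y, hyU⟩ := Subtype.ext (by
      show (e ⟨(x : Ω), hxU⟩ : Ω') = y
      rw [he]
      show ev σ (x : Ω) = y
      rw [← hye, ev_ev_symm hyS])
    have hm : QuotientGroup.mk' (C'.center.subgroupOf U') ⟨y, hyU⟩ ∈ sImg τ P := hpm ⟨y, hy⟩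
    refine ev_inj (σ := τ) (Subgroup.mem_top _) (Subgroup.mem_top _) ?_
    refine (hψ'e ⟨_, hxP⟩ (ev_mem_sImg le_top hxP)).symm.trans (((congrArg ψ'
      (Subtype.ext ((hτ ⟨x, hxU⟩).trans (congrArg _ hey)))).trans
        ((hpe ⟨y, hy⟩).trans ?_)).trans
          (hτ ⟨restr hle φ x, map_mem_S C (restr_mem C hle hφ) x⟩).symm)
    refine congrArg _ (Subtype.ext ?_)
    rw [he]
    show ψ ⟨y, hy⟩ = ev σ (φ (Subgroup.inclusion hle x))
    have hyS' : ev σ.symm y ∈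
        sImg σ.symm (preimageAlong (QuotientGroup.mk' (C'.center.subgroupOf U')) (sImg τ P)) :=
      hye.symm ▸ hle x.2
    rw [show Subgroup.inclusion hle x = ⟨ev σ.symm y, hyS'⟩ from Subtype.ext hye.symm,
      hφe ⟨y, hy⟩ hyS', ev_ev_symm (h.le' (map_mem_S C' hψ ⟨y, hy⟩))]
  · rintro ⟨-, φ, hφ, hind⟩
    obtain ⟨hpS, hφS, hpm, hpe⟩ := hind
    obtain ⟨χ, hχ, hχe⟩ := h.fwd _ φ hφ
    have hle : preimageAlong (QuotientGroup.mk' (C'.center.subgroupOf U')) (sImg τ P) ≤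
        sImg σ (preimageAlong (QuotientGroup.mk' (C.center.subgroupOf U)) P) := by
      intro y hy
      obtain ⟨hyU, hyP⟩ := FusionAlperin.mem_preimageAlong.1 hy
      obtain ⟨x, hx⟩ := e.surjective ⟨y, hyU⟩
      refine mem_sImg.2 ⟨x, FusionAlperin.mem_preimageAlong.2 ⟨x.2, ?_⟩, h.le x.2,
        (he x).symm.trans (congrArg Subtype.val hx)⟩
      rw [← hx, ← hτ] at hyP
      exact (ev_mem_sImg_iff (σ := τ) (Subgroup.mem_top _)).1 hyP
    let ψ' : ↥(sImg τ P) →* (U' ⧸ C'.center.subgroupOf U') :=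
      (hom τ).comp ((φ'.codRestrict ⊤ fun _ => Subgroup.mem_top _).comp
        (imgIso τ (le_top : P ≤ ⊤)).symm.toMonoidHom)
    have hψ'e : ∀ (z : P) (hz : ev τ z ∈ sImg τ P), ψ' ⟨ev τ z, hz⟩ = ev τ (φ' z) := fun z hz => by
      refine Eq.trans ?_ (ev_coe (σ := τ) ⟨φ' z, Subgroup.mem_top _⟩).symm
      show hom τ ⟨φ' ((imgIso τ le_top).symm ⟨ev τ z, hz⟩), _⟩ = _
      exact congrArg (hom τ) (Subtype.ext (congrArg φ' (Subtype.ext (ev_symm_ev (Subgroup.mem_top _)))))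
    have hψ' : ψ' ∈ E'.Hom (sImg τ P) := by
      refine (hE'.2.2.2 _ ψ').2 ⟨le_top, restr hle χ, restr_mem C' hle hχ,
        FusionAlperin.preimageAlong_le _, map_mem_S C' (restr_mem C' hle hχ),
        FusionAlperin.theta_mem_of_mem_preimage, fun y => ?_⟩
      obtain ⟨x, hx, hxS, hxy⟩ := mem_sImg.1 (hle y.2)
      have hxU : x ∈ U := hpS hx
      have hz : QuotientGroup.mk' _ (⟨x, hxU⟩ : U) ∈ P := hpm ⟨x, hx⟩
      have hey : e ⟨x, hxU⟩ = ⟨y, FusionAlperin.preimageAlong_le _ y.2⟩ :=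
        Subtype.ext ((he ⟨x, hxU⟩).trans hxy)
      refine (congrArg ψ' (Subtype.ext ?_)).trans
        ((hψ'e ⟨_, hz⟩ (ev_mem_sImg le_top hz)).trans ?_)
      · exact ((hτ ⟨x, hxU⟩).trans (congrArg _ hey)).symm
      · rw [show φ' ⟨_, hz⟩ = _ from hpe ⟨x, hx⟩, hτ]
        refine congrArg _ (Subtype.ext ?_)
        rw [he]
        show ev σ (φ ⟨x, hx⟩) = χ (Subgroup.inclusion hle y)
        rw [show Subgroup.inclusion hle y = ⟨ev σ x, ev_mem_sImg (hpS.trans h.le) hx⟩ from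
          Subtype.ext hxy.symm, hχe ⟨x, hx⟩]
    obtain ⟨φ₂, hφ₂, hφ₂e⟩ := hEE.bwd _ ψ' hψ'
    have hle2 : P ≤ sImg τ.symm (sImg τ P) := (sImg_symm_sImg le_top).ge
    refine mem_hom_congr E (restr_mem E hle2 hφ₂) fun z => ?_
    have hz : ev τ z ∈ sImg τ P := ev_mem_sImg le_top z.2
    rw [restr_apply, show Subgroup.inclusion hle2 z = ⟨ev τ.symm (ev τ z),
      ev_mem_sImg le_top hz⟩ from Subtype.ext (ev_symm_ev (Subgroup.mem_top _)).symm,
      hφ₂e ⟨_, hz⟩, hψ'e z hz, ev_symm_ev (Subgroup.mem_top _)]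

/-- An automorphism of `F` carries `F` onto itself. -/
theorem corr_of_morphism (F : FusionSystem S) (α : S ≃* S)
    (hα : F.IsMorphism F (hom α)) (hα' : F.IsMorphism F (hom α.symm)) : Corr α F F := by
  have aux : ∀ β : S ≃* S, F.IsMorphism F (hom β) → ∀ (P : Subgroup Ω) (φ : P →* Ω), φ ∈ F.Hom P →
      ∃ φ' ∈ F.Hom (sImg β P), ∀ (x : P) (h : ev β x ∈ sImg β P),
        φ' ⟨ev β x, h⟩ = ev β (φ x) := by
    intro β hβ P φ hφ
    obtain ⟨φ', hφ', hP, hφS, hP', he⟩ := hβ.2 P φ hφ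
    refine ⟨φ', hφ', fun x h => ?_⟩
    refine Eq.trans ?_ (ev_coe (σ := β) ⟨φ x, hφS x⟩).symm
    exact (congrArg φ' (Subtype.ext (ev_coe (σ := β) ⟨x, hP x.2⟩))).trans (he x)
  exact ⟨le_rfl, le_rfl, sImg_top, aux α hα, aux α.symm hα'⟩

/-- A layer is contained in its image under an automorphism of `F`. -/
theorem layer_subsystem {p : ℕ} [Fact p.Prime] [Finite S] (hS : IsPGroup p S) {F : FusionSystem S}
    {σ : S ≃* S} (hF : Corr σ F F) {T : Subgroup Ω} {E : FusionSystem T}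
    (hE : E.IsLayerOf F p) {T' : Subgroup Ω} {E' : FusionSystem T'} (hEE : Corr σ E E') :
    E.IsSubsystemOf E' := by
  obtain ⟨hn, hcomp, hmin⟩ := hE
  haveI : Finite T := finite_of_le ‹_› hEE.le
  refine hmin T' E' (hEE.isNormalIn hS hF hn) fun U C hC => ?_
  obtain ⟨U', C₀, hC₀, hs⟩ := subnormal_image hC.1 hS ‹_› F hF.symm
  have hUS : U ≤ S := hC₀.le
  haveI : Finite U := finite_of_le ‹_› hUS
  exact hC₀.symm.subsystem hEE (hcomp U' C₀ ⟨hs, hC₀.quasisimple (hS.to_le hUS) hC.2⟩)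

end Cfsg.Agent.Tech.IsoTransport
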