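import Mathlib

/-!
Truncated exponentials in an algebra over `ZMod p`, `5 ≤ p`, on a subspace all of whose products of
four elements vanish: the elements whose exponential lies in a given subgroup of units form a
subspace.
-/

set_option autoImplicit false
set_option linter.style.haveILetI false

namespace Cfsg.Agent.Tech.ExpFour

variable {p : ℕ} [Fact p.Prime] {E : Type*} [Ring E] [Algebra (ZMod p) E]

/-- The exponential truncated after the cubic term. -/
def ex (z : E) : E := 1 + z + (2⁻¹ : ZMod p) • (z * z) + (6⁻¹ : ZMod p) • (z * z * z)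

theorem natCast_ne_zero_of_lt {n : ℕ} (h0 : 0 < n) (hn : n < p) : (n : ZMod p) ≠ 0 := fun h =>
  absurd (Nat.le_of_dvd h0 ((ZMod.natCast_eq_zero_iff n p).1 h)) (not_le.2 hn)

theorem two_ne_zero' (hp : 5 ≤ p) : (2 : ZMod p) ≠ 0 := by
  simpa using natCast_ne_zero_of_lt (p := p) (n := 2) (by norm_num) (by omega)

theorem three_ne_zero' (hp : 5 ≤ p) : (3 : ZMod p) ≠ 0 := by
  simpa using natCast_ne_zero_of_lt (p := p) (n := 3) (by norm_num) (by omega)

theorem six_ne_zero' (hp : 5 ≤ p) : (6 : ZMod p) ≠ 0 := by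
  rw [show (6 : ZMod p) = 2 * 3 by norm_num]
  exact mul_ne_zero (two_ne_zero' hp) (three_ne_zero' hp)

section

variable (hp : 5 ≤ p) (N : Submodule (ZMod p) E) (hmul : ∀ x ∈ N, ∀ y ∈ N, x * y ∈ N)
  (h4 : ∀ a ∈ N, ∀ b ∈ N, ∀ c ∈ N, ∀ d ∈ N, a * b * c * d = 0)

include h4 in
theorem five {a b c d : E} (ha : a ∈ N) (hb : b ∈ N) (hc : c ∈ N) (hd : d ∈ N) (x : E) :
    a * (b * (c * (d * x))) = 0 := by
  rw [← mul_assoc c, ← mul_assoc b, ← mul_assoc a, ← mul_assoc b, ← mul_assoc a (b * c),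
    ← mul_assoc a b, h4 a ha b hb c hc d hd, zero_mul]

include h4 in
theorem four {a b c d : E} (ha : a ∈ N) (hb : b ∈ N) (hc : c ∈ N) (hd : d ∈ N) :
    a * (b * (c * d)) = 0 := by
  rw [← mul_assoc b, ← mul_assoc a, ← mul_assoc a b, h4 a ha b hb c hc d hd]

include h4 in
theorem ex_mul_of_cube {z w : E} (hz : z ∈ N) (hw : w ∈ N) (hcomm : z * w = w * z) :
    ex (p := p) z * ex (p := p) w
      = 1 + z + w + (2⁻¹ : ZMod p) • (z * z) + (2⁻¹ : ZMod p) • (w * w) + z * w
        + (6⁻¹ : ZMod p) • (z * z * z) + (6⁻¹ : ZMod p) • (w * w * w)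
        + (2⁻¹ : ZMod p) • (z * z * w) + (2⁻¹ : ZMod p) • (z * w * w) := by
  simp only [ex, mul_add, add_mul, smul_mul_assoc, mul_smul_comm, mul_one, one_mul, mul_assoc,
    four N h4 hz hz hz hw, five N h4 hz hz hz hw, four N h4 hz hw hw hw, five N h4 hz hw hw hw,
    four N h4 hz hz hw hw, five N h4 hz hz hw hw, smul_zero, mul_zero, smul_smul, add_zero, zero_add, smul_add]
  abel

include hp h4 in
theorem ex_mul_comm {z w : E} (hz : z ∈ N) (hw : w ∈ N) (hcomm : z * w = w * z) :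
    ex (p := p) z * ex (p := p) w = ex (p := p) (z + w) := by
  have h2 : (2 : ZMod p) ≠ 0 := two_ne_zero' hp
  have h6 : (6 : ZMod p) ≠ 0 := six_ne_zero' hp
  have e1 : w * z = z * w := hcomm.symm
  have e2 : ∀ x, w * (z * x) = z * (w * x) := fun x => by rw [← mul_assoc, e1, mul_assoc]
  rw [ex_mul_of_cube N h4 hz hw hcomm]
  simp only [ex, mul_add, add_mul, mul_assoc, e1, e2, smul_add]
  match_scalars <;> field_simp <;> ring

include hp h4 in
theorem ex_mul_swap {s u : E} (hs : s ∈ N) (hu : u ∈ N) :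
    ex (p := p) s * ex (p := p) u
      = (1 + (s * u - u * s + (2⁻¹ : ZMod p) • (s * (s * u - u * s) - (s * u - u * s) * s)
          + (2⁻¹ : ZMod p) • (u * (s * u - u * s) - (s * u - u * s) * u)))
        * (ex (p := p) u * ex (p := p) s) := by
  have h2 : (2 : ZMod p) ≠ 0 := two_ne_zero' hp
  have h6 : (6 : ZMod p) ≠ 0 := six_ne_zero' hp
  have f4 := @four p _ E _ _ N h4
  have f5 := @five p _ E _ _ N h4
  simp only [ex, mul_add, add_mul, mul_sub, sub_mul, smul_mul_assoc, mul_smul_comm, mul_one,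
    one_mul, mul_assoc, smul_smul, smul_add, smul_sub,
    f4 hs hs hs hs, f4 hs hs hs hu, f4 hs hs hu hs, f4 hs hs hu hu, f4 hs hu hs hs,
    f4 hs hu hs hu, f4 hs hu hu hs, f4 hs hu hu hu, f4 hu hs hs hs, f4 hu hs hs hu,
    f4 hu hs hu hs, f4 hu hs hu hu, f4 hu hu hs hs, f4 hu hu hs hu, f4 hu hu hu hs,
    f4 hu hu hu hu, f5 hs hs hs hs, f5 hs hs hs hu, f5 hs hs hu hs, f5 hs hs hu hu,
    f5 hs hu hs hs, f5 hs hu hs hu, f5 hs hu hu hs, f5 hs hu hu hu, f5 hu hs hs hs,
    f5 hu hs hs hu, f5 hu hs hu hs, f5 hu hs hu hu, f5 hu hu hs hs, f5 hu hu hs hu,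
    f5 hu hu hu hs, f5 hu hu hu hu,
    smul_zero, mul_zero, add_zero, zero_add, sub_zero, zero_sub]
  match_scalars <;> field_simp <;> ring

include hp h4 in
theorem ex_add_one {s u : E} (hs : s ∈ N) (hu : u ∈ N) :
    ex (p := p) (s + u) = ex (p := p) s * ex (p := p) u *
      (1 + (-((2⁻¹ : ZMod p) • (s * u - u * s))
        + ((6⁻¹ : ZMod p)) • (s * (s * u - u * s) - (s * u - u * s) * s)
        + ((3⁻¹ : ZMod p)) • (u * (s * u - u * s) - (s * u - u * s) * u))) := by
  have h2 : (2 : ZMod p) ≠ 0 := two_ne_zero' hp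
  have h3 : (3 : ZMod p) ≠ 0 := three_ne_zero' hp
  have h6 : (6 : ZMod p) ≠ 0 := six_ne_zero' hp
  have f4 := @four p _ E _ _ N h4
  have f5 := @five p _ E _ _ N h4
  simp only [ex, mul_add, add_mul, mul_sub, sub_mul, smul_mul_assoc, mul_smul_comm, mul_one,
    one_mul, mul_assoc, smul_smul, mul_neg, smul_neg, smul_add, smul_sub,
    f4 hs hs hs hs, f4 hs hs hs hu, f4 hs hs hu hs, f4 hs hs hu hu, f4 hs hu hs hs,
    f4 hs hu hs hu, f4 hs hu hu hs, f4 hs hu hu hu, f4 hu hs hs hs, f4 hu hs hs hu,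
    f4 hu hs hu hs, f4 hu hs hu hu, f4 hu hu hs hs, f4 hu hu hs hu, f4 hu hu hu hs,
    f4 hu hu hu hu, f5 hs hs hs hs, f5 hs hs hs hu, f5 hs hs hu hs, f5 hs hs hu hu,
    f5 hs hu hs hs, f5 hs hu hs hu, f5 hs hu hu hs, f5 hs hu hu hu, f5 hu hs hs hs,
    f5 hu hs hs hu, f5 hu hs hu hs, f5 hu hs hu hu, f5 hu hu hs hs, f5 hu hu hs hu,
    f5 hu hu hu hs, f5 hu hu hu hu,
    smul_zero, mul_zero, neg_zero, add_zero, zero_add, sub_zero, zero_sub]
  match_scalars <;> field_simp <;> ring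

include h4 in
theorem sq_two_three {s u : E} (hs : s ∈ N) (hu : u ∈ N) (a b c : ZMod p) :
    (a • (s * u - u * s) + b • (s * (s * u - u * s) - (s * u - u * s) * s)
        + c • (u * (s * u - u * s) - (s * u - u * s) * u))
      * (a • (s * u - u * s) + b • (s * (s * u - u * s) - (s * u - u * s) * s)
        + c • (u * (s * u - u * s) - (s * u - u * s) * u)) = 0 := by
  have f4 := @four p _ E _ _ N h4
  have f5 := @five p _ E _ _ N h4
  simp only [mul_add, add_mul, mul_sub, sub_mul, smul_mul_assoc, mul_smul_comm, mul_assoc,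
    smul_smul, smul_add, smul_sub,
    f4 hs hs hs hs, f4 hs hs hs hu, f4 hs hs hu hs, f4 hs hs hu hu, f4 hs hu hs hs,
    f4 hs hu hs hu, f4 hs hu hu hs, f4 hs hu hu hu, f4 hu hs hs hs, f4 hu hs hs hu,
    f4 hu hs hu hs, f4 hu hs hu hu, f4 hu hu hs hs, f4 hu hu hs hu, f4 hu hu hu hs,
    f4 hu hu hu hu, f5 hs hs hs hs, f5 hs hs hs hu, f5 hs hs hu hs, f5 hs hs hu hu,
    f5 hs hu hs hs, f5 hs hu hs hu, f5 hs hu hu hs, f5 hs hu hu hu, f5 hu hs hs hs,
    f5 hu hs hs hu, f5 hu hs hu hs, f5 hu hs hu hu, f5 hu hu hs hs, f5 hu hu hs hu,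
    f5 hu hu hu hs, f5 hu hu hu hu,
    smul_zero, mul_zero, add_zero, sub_zero]

include hp hmul h4 in
/-- The exponential of a sum. -/
theorem ex_add {s u : E} (hs : s ∈ N) (hu : u ∈ N) :
    ex (p := p) (s + u) = ex (p := p) s * ex (p := p) u *
      ex (p := p) (-((2⁻¹ : ZMod p) • (s * u - u * s))
        + ((6⁻¹ : ZMod p)) • (s * (s * u - u * s) - (s * u - u * s) * s)
        + ((3⁻¹ : ZMod p)) • (u * (s * u - u * s) - (s * u - u * s) * u)) := by
  have h := sq_two_three N h4 hs hu (-(2⁻¹)) 6⁻¹ 3⁻¹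
  rw [neg_smul] at h
  rw [ex_add_one hp N h4 hs hu]
  simp only [ex, h, zero_mul, smul_zero, add_zero]

include hp hmul h4 in
/-- The commutator of two exponentials. -/
theorem ex_commutator {s u : E} (hs : s ∈ N) (hu : u ∈ N) :
    ex (p := p) s * ex (p := p) u * ex (p := p) (-s) * ex (p := p) (-u)
      = ex (p := p) (s * u - u * s + (2⁻¹ : ZMod p) • (s * (s * u - u * s) - (s * u - u * s) * s)
          + (2⁻¹ : ZMod p) • (u * (s * u - u * s) - (s * u - u * s) * u)) := by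
  have hinv : ∀ z ∈ N, ex (p := p) z * ex (p := p) (-z) = 1 := fun z hz => by
    rw [ex_mul_comm hp N h4 hz (N.neg_mem hz) (by simp), add_neg_cancel]
    simp [ex]
  have h := sq_two_three N h4 hs hu 1 2⁻¹ 2⁻¹
  rw [one_smul] at h
  rw [ex_mul_swap hp N h4 hs hu, mul_assoc _ (ex (p := p) u * _) _, mul_assoc (ex (p := p) u) _ _,
    hinv s hs, mul_one, mul_assoc, hinv u hu, mul_one]
  simp only [ex, h, zero_mul, smul_zero, add_zero]

end

theorem ex_zero : ex (p := p) (0 : E) = 1 := by simp [ex]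

theorem ex_of_sq {x : E} (h : x * x = 0) : ex (p := p) x = 1 + x := by simp [ex, h]

variable (hp : 5 ≤ p) (N : Submodule (ZMod p) E) (hmul : ∀ x ∈ N, ∀ y ∈ N, x * y ∈ N)
  (h4 : ∀ a ∈ N, ∀ b ∈ N, ∀ c ∈ N, ∀ d ∈ N, a * b * c * d = 0)

include hp hmul h4 in
/-- The elements of `N` with exponential in a subgroup of units form a subspace. -/
theorem exists_logSubspace (H : Subgroup Eˣ) :
    ∃ T : Submodule (ZMod p) E, ∀ z : E, z ∈ T ↔ z ∈ N ∧ ∃ r ∈ H, (r : E) = ex (p := p) z := by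
  let In : E → Prop := fun z => z ∈ N ∧ ∃ r ∈ H, (r : E) = ex (p := p) z
  have hneg : ∀ z, In z → In (-z) := by
    rintro z ⟨hz, r, hr, e⟩
    refine ⟨N.neg_mem hz, r⁻¹, H.inv_mem hr, Units.inv_eq_of_mul_eq_one_right ?_⟩
    rw [e, ex_mul_comm hp N h4 hz (N.neg_mem hz) (by simp), add_neg_cancel, ex_zero]
  have hmulc : ∀ z w, In z → In w → z * w = w * z → In (z + w) := by
    rintro z w ⟨hz, r, hr, e⟩ ⟨hw, t, ht, f⟩ hc
    exact ⟨N.add_mem hz hw, r * t, H.mul_mem hr ht,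
      by rw [Units.val_mul, e, f, ex_mul_comm hp N h4 hz hw hc]⟩
  have hzero : In 0 := ⟨N.zero_mem, 1, H.one_mem, by simp [ex_zero]⟩
  have hnat : ∀ z, In z → ∀ n : ℕ, In ((n : ZMod p) • z) := by
    intro z hz n
    induction n with
    | zero => simpa using hzero
    | succ n ih =>
      rw [Nat.cast_succ, add_smul, one_smul]
      exact hmulc _ _ ih hz (by rw [smul_mul_assoc, mul_smul_comm])
  have hsmul : ∀ (c : ZMod p) z, In z → In (c • z) := fun c z hz => by
    simpa using hnat z hz c.val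
  let br : E → E → E := fun a b => a * b - b * a
  have hbr : ∀ a ∈ N, ∀ b ∈ N, br a b ∈ N := fun a ha b hb =>
    N.sub_mem (hmul a ha b hb) (hmul b hb a ha)
  have hcomm : ∀ s u, In s → In u →
      In (br s u + (2⁻¹ : ZMod p) • br s (br s u) + (2⁻¹ : ZMod p) • br u (br s u)) := by
    intro s u hS hU
    obtain ⟨_, r', hr', e'⟩ := hneg s hS
    obtain ⟨_, t', ht', f'⟩ := hneg u hU
    obtain ⟨hs, r, hr, e⟩ := hS
    obtain ⟨hu, t, ht, f⟩ := hU
    refine ⟨N.add_mem (N.add_mem (hbr s hs u hu) (N.smul_mem _ (hbr s hs _ (hbr s hs u hu))))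
      (N.smul_mem _ (hbr u hu _ (hbr s hs u hu))), r * t * r' * t',
      H.mul_mem (H.mul_mem (H.mul_mem hr ht) hr') ht', ?_⟩
    rw [Units.val_mul, Units.val_mul, Units.val_mul, e, f, e', f']
    exact ex_commutator hp N hmul h4 hs hu
  have k3 : ∀ a ∈ N, ∀ b ∈ N, ∀ c ∈ N, ∀ d ∈ N, br a (br b (br c d)) = 0 := by
    intro a ha b hb c hc d hd
    simp only [br, mul_sub, sub_mul, mul_assoc, four N h4 ha hb hc hd, four N h4 ha hb hd hc,
      four N h4 ha hc hd hb, four N h4 ha hd hc hb, four N h4 hb hc hd ha, four N h4 hb hd hc ha,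
      four N h4 hc hd hb ha, four N h4 hd hc hb ha, sub_zero]
  have k22 : ∀ a ∈ N, ∀ b ∈ N, ∀ c ∈ N, ∀ d ∈ N, br (br a b) (br c d) = 0 := by
    intro a ha b hb c hc d hd
    simp only [br, mul_sub, sub_mul, mul_assoc, four N h4 ha hb hc hd, four N h4 ha hb hd hc,
      four N h4 hb ha hc hd, four N h4 hb ha hd hc, four N h4 hc hd ha hb, four N h4 hc hd hb ha,
      four N h4 hd hc ha hb, four N h4 hd hc hb ha, sub_zero]
  have badd : ∀ a b c : E, br a (b + c) = br a b + br a c := fun a b c => by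
    simp only [br, mul_add, add_mul]; abel
  have bsmul : ∀ (k : ZMod p) (a b : E), br a (k • b) = k • br a b := fun k a b => by
    simp only [br, mul_smul_comm, smul_mul_assoc, smul_sub]
  have htriple : ∀ s u x, In s → In u → (x = s ∨ x = u) → In (br x (br s u)) := by
    intro s u x hS hU hx
    have hxI : In x := by rcases hx with rfl | rfl <;> assumption
    have hsu := hbr s hS.1 u hU.1
    have hd := hcomm x _ hxI (hcomm s u hS hU)
    have e1 : br x (br s u + (2⁻¹ : ZMod p) • br s (br s u) + (2⁻¹ : ZMod p) • br u (br s u))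
        = br x (br s u) := by
      rw [badd, badd, bsmul, bsmul, k3 x hxI.1 s hS.1 s hS.1 u hU.1,
        k3 x hxI.1 u hU.1 s hS.1 u hU.1, smul_zero, add_zero, add_zero]
    have e2 : ∀ y ∈ N, br y (br x (br s u)) = 0 := fun y hy =>
      k3 y hy x hxI.1 s hS.1 u hU.1
    have e3 : br (br s u + (2⁻¹ : ZMod p) • br s (br s u) + (2⁻¹ : ZMod p) • br u (br s u))
        (br x (br s u)) = 0 := by
      refine e2 _ ?_
      exact (hcomm s u hS hU).1
    rw [e1, e2 x hxI.1, e3, smul_zero, add_zero, add_zero] at hd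
    exact hd
  have hcentral : ∀ s u x a, In s → In u → (x = s ∨ x = u) → a ∈ N →
      a * br x (br s u) = br x (br s u) * a := fun s u x a hS hU hx ha =>
    sub_eq_zero.1 (k3 a ha x (by rcases hx with rfl | rfl <;> [exact hS.1; exact hU.1]) s hS.1 u hU.1)
  have hadd : ∀ s u, In s → In u → In (s + u) := by
    intro s u hS hU
    have hw : ∀ (a b c : ZMod p),
        In (a • br s u + b • br s (br s u) + c • br u (br s u)) := by
      intro a b c
      have hs' := htriple s u s hS hU (Or.inl rfl)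
      have hu' := htriple s u u hS hU (Or.inr rfl)
      have h1 := hmulc _ _ (hcomm s u hS hU) (hsmul (-2⁻¹) _ hs') (by
        rw [mul_smul_comm, smul_mul_assoc,
          hcentral s u s _ hS hU (Or.inl rfl) (hcomm s u hS hU).1])
      have h2 := hmulc _ _ h1 (hsmul (-2⁻¹) _ hu') (by
        rw [mul_smul_comm, smul_mul_assoc, hcentral s u u _ hS hU (Or.inr rfl) h1.1])
      have h3 : In (br s u) := by
        convert h2 using 1
        module
      have h4' := hmulc _ _ (hsmul a _ h3) (hsmul b _ hs') (by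
        rw [mul_smul_comm (s := b), smul_mul_assoc (r := b),
          hcentral s u s _ hS hU (Or.inl rfl) (hsmul a _ h3).1])
      exact hmulc _ _ h4' (hsmul c _ hu') (by
        rw [mul_smul_comm, smul_mul_assoc, hcentral s u u _ hS hU (Or.inr rfl) h4'.1])
    obtain ⟨_, w, hw', g⟩ := hw (-(2⁻¹)) 6⁻¹ 3⁻¹
    obtain ⟨hs, r, hr, e⟩ := hS
    obtain ⟨hu, t, ht, f⟩ := hU
    refine ⟨N.add_mem hs hu, r * t * w, H.mul_mem (H.mul_mem hr ht) hw', ?_⟩
    rw [Units.val_mul, Units.val_mul, e, f, g, neg_smul]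
    exact (ex_add hp N hmul h4 hs hu).symm
  exact ⟨{ carrier := {z | In z}
           add_mem' := fun {a b} ha hb => hadd a b ha hb
           zero_mem' := hzero
           smul_mem' := fun c z hz => hsmul c z hz }, fun _ => Iff.rfl⟩

end Cfsg.Agent.Tech.ExpFour
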