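import Cfsg.Agent.FusionAlperin.GoodExtension
import Cfsg.Agent.FusionAlperin.SeriesCriteria
import Cfsg.Agent.FusionSys.Carries

/-!
A `p'`-character of `Aut_F(T)` killing `Aut_E(T)`, for `E` invariant in `F` over `T`, gives a value on
every map of `F` between subgroups of `T`, well defined on the subgroups all of whose conjugates
contain their centralizer in `T`.
-/

set_option autoImplicit false

open Cfsg Cfsg.FusionSystem
open Cfsg.Agent.FusionSys Cfsg.Agent.FusionAlperin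
open Cfsg.Agent.S5119 (InvT autExt_inv autExt_inv' autExt_mul)

namespace Cfsg.Agent.Tech.PPrimeCharacter

variable {Ω : Type*} [Group Ω] {S T : Subgroup Ω} {p : ℕ} {F : FusionSystem S}
  {Δ : Type*} [Group Δ]

/-- The map is an automorphism of `T` with value `δ` composed with a map of `E`. -/
def DAt (E : FusionSystem T) (χ : ↥(F.autGroup T) →* Δ) (P : Subgroup Ω) (f : P → Ω) (δ : Δ) :
    Prop :=
  ∃ α : F.autGroup T, χ α = δ ∧ ∃ φ₀ ∈ E.Hom P, ∀ x : P, f x = autExt (α : MulAut T) (φ₀ x)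

variable {E : FusionSystem T} {χ : ↥(F.autGroup T) →* Δ}

theorem invT_of_invariant (hE : E.IsInvariantIn F) : InvT F E := by
  intro β hβ P φ hφ
  obtain ⟨c, hc, hce⟩ := hE.2.2.1 P (le_S E hφ) φ hφ β hβ
  refine ⟨c, hc, fun x h => ?_⟩
  have e : (⟨autExt β x, h⟩ : autImage β P) =
      ⟨(β ⟨x, le_S E hφ x.2⟩ : T), by rwa [autExt_of_mem β (le_S E hφ x.2)] at h⟩ :=
    Subtype.ext (autExt_of_mem β _)
  rw [e, autExt_of_mem β (map_mem_S E hφ x)]
  exact hce x (map_mem_S E hφ x) _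

theorem DAt.congr {P : Subgroup Ω} {f g : P → Ω} {δ : Δ} (h : DAt E χ P f δ)
    (he : ∀ x, g x = f x) : DAt E χ P g δ := by
  obtain ⟨α, hα, a, ha, hae⟩ := h
  exact ⟨α, hα, a, ha, fun x => (he x).trans (hae x)⟩

theorem dAt_restrict {P R : Subgroup Ω} {f : P → Ω} {δ : Δ} (hf : DAt E χ P f δ) (h : R ≤ P)
    {g : R → Ω} (hg : ∀ x : R, g x = f ⟨x, h x.2⟩) : DAt E χ R g δ := by
  obtain ⟨α, hα, a, ha, hae⟩ := hf
  exact ⟨α, hα, _, restr_mem E h ha, fun x => (hg x).trans (hae _)⟩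

theorem dAt_of_mem {P : Subgroup Ω} {φ : P →* Ω} (hφ : φ ∈ E.Hom P) : DAt E χ P φ 1 :=
  ⟨1, map_one χ, φ, hφ, fun x =>
    (autExt_of_mem (1 : MulAut T) (map_mem_S E hφ x)).symm⟩

theorem dAt_aut {P : Subgroup Ω} (hP : P ≤ T) (α : F.autGroup T) :
    DAt E χ P (fun x => autExt (α : MulAut T) x) (χ α) :=
  ⟨α, rfl, P.subtype, subtype_mem E hP, fun _ => rfl⟩

theorem dAt_exists (hE : E.IsInvariantIn F) {P : Subgroup Ω} (hP : P ≤ T) {φ : P →* Ω}
    (hφ : φ ∈ F.Hom P) : ∃ δ, DAt E χ P φ δ := by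
  obtain ⟨α, hα, a, ha, hae⟩ := hE.2.2.2 P hP φ hφ
  exact ⟨_, ⟨α, hα⟩, rfl, a, ha, fun x =>
    (hae x (map_mem_S E ha x)).trans (autExt_of_mem α _).symm⟩

theorem dAt_comp (hI : InvT F E) {P Q : Subgroup Ω} {f : P → Ω} {g : Q → Ω} {δ ε : Δ}
    (hf : DAt E χ P f δ) (hg : DAt E χ Q g ε) (h : ∀ x, f x ∈ Q) :
    DAt E χ P (fun x => g ⟨f x, h x⟩) (ε * δ) := by
  obtain ⟨α, hα, a, ha, hae⟩ := hf
  obtain ⟨β, hβ, b, hb, hbe⟩ := hg
  obtain ⟨c, hc, hce⟩ := hI _ ((F.autGroup T).inv_mem α.2) Q b hb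
  have hm : ∀ x, a x ∈ autImage ((α : MulAut T)⁻¹) Q := by
    intro x
    have h1 := autExt_mem_autImage ((α : MulAut T)⁻¹) (le_S E hb) (h x)
    rwa [hae, autExt_inv _ (map_mem_S E ha x)] at h1
  refine ⟨β * α, by rw [map_mul, hβ, hα], _, E.comp_mem ha hc hm, fun x => ?_⟩
  show _ = autExt _ (c ⟨a x, hm x⟩)
  have e : (⟨a x, hm x⟩ : autImage ((α : MulAut T)⁻¹) Q) =
      ⟨_, autExt_mem_autImage ((α : MulAut T)⁻¹) (le_S E hb) (h x)⟩ := by
    refine Subtype.ext ?_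
    show a x = autExt ((α : MulAut T)⁻¹) (f x)
    rw [hae, autExt_inv _ (map_mem_S E ha x)]
  have hbT := map_mem_S E hb ⟨f x, h x⟩
  rw [e, hce ⟨f x, h x⟩ _, Subgroup.coe_mul,
    autExt_mul _ _ (by rw [autExt_of_mem _ hbT]; exact (((α : MulAut T))⁻¹ _).2),
    autExt_inv' _ hbT]
  exact hbe _

theorem dAt_symm (hI : InvT F E) {P Q : Subgroup Ω} (e : P ≃* Q) {δ : Δ}
    (hf : DAt E χ P (fun x => (e x : Ω)) δ) :
    DAt E χ Q (fun y => (e.symm y : Ω)) δ⁻¹ := by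
  obtain ⟨α, hα, a, ha, hae⟩ := hf
  obtain ⟨c, hc, hce⟩ := E.inv_mem ha
  obtain ⟨d, hd, hde⟩ := hI _ α.2 _ c hc
  have hle : Q ≤ autImage (α : MulAut T) a.range := by
    intro y hy
    have h1 := autExt_mem_autImage (α : MulAut T) (range_le_S E ha)
      (x := a (e.symm ⟨y, hy⟩)) ⟨_, rfl⟩
    rw [← hae] at h1
    simpa using h1
  refine ⟨α⁻¹, by rw [map_inv, hα], _, restr_mem E hle hd, fun y => ?_⟩
  obtain ⟨x, rfl⟩ := e.surjective y
  show ((e.symm (e x) : P) : Ω) = _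
  rw [MulEquiv.symm_apply_apply]
  show (x : Ω) = autExt ((α⁻¹ : F.autGroup T) : MulAut T) (d ⟨(e x : Ω), _⟩)
  have h2 := hde ⟨a x, x, rfl⟩
    (autExt_mem_autImage (α : MulAut T) (range_le_S E ha) ⟨_, rfl⟩)
  rw [hce x] at h2
  have e2 : (⟨(e x : Ω), hle (e x).2⟩ : autImage (α : MulAut T) a.range) =
      ⟨_, autExt_mem_autImage (α : MulAut T) (range_le_S E ha) (x := a x) ⟨_, rfl⟩⟩ :=
    Subtype.ext (hae x)
  rw [e2, h2, Subgroup.coe_inv, autExt_inv _ (le_S E ha x.2)]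

variable [Finite S] [Fact p.Prime]

omit [Fact p.Prime] [Finite S] in
/-- An element of `p`-power order has trivial value. -/
theorem eq_one_of_pow (hΔ : (Nat.card Δ).Coprime p) {δ : Δ} {k : ℕ} (h : δ ^ p ^ k = 1) :
    δ = 1 := by
  refine orderOf_eq_one_iff.1 (Nat.eq_one_of_dvd_coprimes ((hΔ.symm).pow_left k)
    (orderOf_dvd_of_pow_eq_one h) (orderOf_dvd_natCard δ))

omit [Finite S] [Fact p.Prime] in
/-- The automorphisms of `T` induced by `S` have trivial value. -/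
theorem chi_autInduced (hS : IsPGroup p S) (hΔ : (Nat.card Δ).Coprime p) (a : F.autGroup T)
    (ha : (a : MulAut T) ∈ autInducedBy S T) : χ a = 1 := by
  obtain ⟨k, hk⟩ := isPGroup_autInducedBy hS T ⟨_, ha⟩
  have h1 : a ^ p ^ k = 1 :=
    Subtype.ext (by rw [Subgroup.coe_pow]; exact congrArg Subtype.val hk)
  exact eq_one_of_pow hΔ (by rw [← map_pow, h1, map_one])

variable (hS : IsPGroup p S) (hE : E.IsInvariantIn F) (hEs : E.IsSaturated p)
  (hΔ : (Nat.card Δ).Coprime p) (hker : (E.autGroup T).subgroupOf (F.autGroup T) ≤ χ.ker)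

include hE in
omit [Finite S] [Fact p.Prime] in
/-- Uniqueness of the value from its special case. -/
theorem uniq_of_key {Q : Subgroup Ω} (hQ : TCentric F T Q)
    (key : ∀ R, TCentric F T R → Nat.card R = Nat.card Q → ∀ a : F.autGroup T,
      (∃ e ∈ E.Hom R, ∀ x : R, e x = autExt (a : MulAut T) x) → χ a = 1)
    {f : Q → Ω} {δ ε : Δ} (hδ : DAt E χ Q f δ) (hε : DAt E χ Q f ε) : δ = ε := by
  obtain ⟨α, rfl, a, ha, hae⟩ := hδ
  obtain ⟨β, rfl, b, hb, hbe⟩ := hε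
  obtain ⟨c, hc, hce⟩ := E.inv_mem ha
  have hR : TCentric F T a.range := tCentric_of_isConj hE.2.1 hQ ⟨a, hE.1 Q ha, rfl⟩
  have hcQ : ∀ y, c y ∈ Q := by
    rintro ⟨_, x, rfl⟩
    rw [hce]
    exact x.2
  have h1 := key a.range hR (Nat.card_congr (toIso E ha rfl).toEquiv).symm (β⁻¹ * α)
    ⟨_, E.comp_mem hc hb hcQ, by
      rintro ⟨_, x, rfl⟩
      show b ⟨c _, _⟩ = autExt _ (a x)
      have e : (⟨c ⟨a x, x, rfl⟩, hcQ _⟩ : Q) = x := Subtype.ext (hce x)
      rw [e, Subgroup.coe_mul, autExt_mul _ _ (map_mem_S E ha x), ← hae, hbe, Subgroup.coe_inv,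
        autExt_inv _ (map_mem_S E hb x)]⟩
  rw [map_mul, map_inv, inv_mul_eq_one] at h1
  exact h1.symm

include hS hE hEs hΔ hker in
/-- An automorphism of `T` agreeing on `Q` with a map of `E` has trivial value. -/
theorem key_centric {Q : Subgroup Ω} (hQ : TCentric F T Q) :
    ∀ a : F.autGroup T, (∃ e ∈ E.Hom Q, ∀ x : Q, e x = autExt (a : MulAut T) x) → χ a = 1 := by
  have hT := hE.2.1
  haveI : Finite T := finite_of_le ‹_› hT.1
  refine downward_induction (S := T) (motive := fun Q => TCentric F T Q → ∀ a : F.autGroup T,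
    (∃ e ∈ E.Hom Q, ∀ x : Q, e x = autExt (a : MulAut T) x) → χ a = 1) ?_ hQ.1 hQ
  clear! Q
  rintro Q hQT ih hQ a ⟨e, he, hee⟩
  rcases hQT.eq_or_lt with rfl | hlt
  · exact hker (Subgroup.mem_subgroupOf.2 ((mem_autGroup E le_rfl).2 (mem_hom_congr E he
      fun x => ((hee x).trans (autExt_of_mem _ x.2)).symm)))
  obtain ⟨N, rfl⟩ : ∃ N, N = normalizerIn T Q := ⟨_, rfl⟩
  have hNT : normalizerIn T Q ≤ T := normalizerIn_le Q
  have hQN : Q ≤ normalizerIn T Q := le_normalizerIn hQT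
  have hNcard := card_lt_of_lt hNT (lt_normalizerIn (hS.to_le hT.1) hlt)
  have hN : TCentric F T (normalizerIn T Q) := tCentric_mono hQ hQN hNT
  haveI : Finite (normalizerIn T Q) := finite_of_le ‹_› hNT
  haveI : Finite Q := finite_of_le ‹_› hQT
  -- extend `e` to the normalizer
  have hrec := saturated_fullyCentralized (hS.to_le hT.1) hEs (centric_fullyCentralized
    (centric_of_tCentric hE.1 (tCentric_of_isConj hT hQ (R := e.range) ⟨e, hE.1 Q he, rfl⟩)))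
  obtain ⟨ψ, hψ, hψe⟩ := hrec.2 Q e he rfl
  have hNe : normalizerIn T Q ≤ extender T Q e := by
    intro g hg
    refine mem_extender.2 ⟨hg.1, hg.2, autExt (a : MulAut T) g, ?_, fun x hx => ?_⟩
    · rw [autExt_of_mem _ hg.1]
      exact ((a : MulAut T) _).2
    · rw [hee, hee, autExt_of_mem _ hg.1, autExt_of_mem _ (hQT x.2),
        autExt_of_mem _ (hQT hx), ← Subgroup.coe_inv, ← Subgroup.coe_mul, ← Subgroup.coe_mul,
        ← map_inv, ← map_mul, ← map_mul]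
      rfl
  have hψN := restr_mem E hNe hψ
  have hψQ : ∀ (x : normalizerIn T Q) (hx : (x : Ω) ∈ Q),
      restr hNe ψ x = autExt (a : MulAut T) x :=
    fun x hx => (hψe x hx (hNe x.2)).trans (hee ⟨x, hx⟩)
  -- the correcting automorphism of the normalizer
  have hai := autGroup_mem_hom F hT.1 ((F.autGroup T).inv_mem a.2)
  have hψT : ∀ x, restr hNe ψ x ∈ T := map_mem_S E hψN
  have hd := F.comp_mem (hE.1 _ hψN) hai hψT
  obtain ⟨d, hd, hde⟩ : ∃ d ∈ F.Hom (normalizerIn T Q),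
      ∀ x, d x = autExt ((a : MulAut T)⁻¹) (restr hNe ψ x) :=
    ⟨_, hd, fun x => (autExt_of_mem _ (hψT x)).symm⟩
  have hdQ : ∀ (x : normalizerIn T Q), (x : Ω) ∈ Q → d x = x := fun x hx => by
    rw [hde, hψQ x hx, autExt_inv _ (hNT x.2)]
  have hdT : ∀ x : normalizerIn T Q, d x ∈ T := fun x => sc_map_mem hT hd (hNT x.2)
  have hconj : ∀ (x : normalizerIn T Q) (q : Ω), q ∈ Q → d x * q * (d x)⁻¹ ∈ Q := by
    intro x q hq
    have h1 := (Subgroup.mem_normalizer_iff.1 x.2.2 q).1 hq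
    have h2 : d x * q * (d x)⁻¹ = d (x * ⟨q, hQN hq⟩ * x⁻¹) := by
      rw [map_mul, map_mul, map_inv, hdQ ⟨q, hQN hq⟩ hq]
    rw [h2, hdQ _ h1]
    exact h1
  have hdN : ∀ x, d x ∈ normalizerIn T Q := by
    intro x
    refine ⟨hdT x, Subgroup.mem_normalizer_iff.2 fun q => ⟨hconj x q, fun hq => ?_⟩⟩
    have h := hconj x⁻¹ _ hq
    rw [map_inv] at h
    simpa [mul_assoc] using h
  have hdr : d.range = normalizerIn T Q := range_eq_of_image_le (F.injective_of_mem hd)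
    (by rintro _ ⟨x, rfl⟩; exact hdN x) le_rfl
  obtain ⟨D, hD⟩ : ∃ D : MulAut (normalizerIn T Q), ∀ x, ((D x : _) : Ω) = d x :=
    ⟨toIso F hd hdr, fun _ => rfl⟩
  have hfix : ∀ y ∈ Q.subgroupOf (normalizerIn T Q), D y = y :=
    fun y hy => Subtype.ext ((hD y).trans (hdQ y hy))
  have hmove : ∀ x : normalizerIn T Q, x⁻¹ * D x ∈ Q.subgroupOf (normalizerIn T Q) := by
    intro x
    refine Subgroup.mem_subgroupOf.2 (isConj_rfl_T hT hQ ⟨?_, ?_⟩)
    · rw [Subgroup.coe_mul, Subgroup.coe_inv, hD]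
      exact T.mul_mem (T.inv_mem (hNT x.2)) (hdT x)
    refine Subgroup.mem_centralizer_iff.2 fun q hq => ?_
    have h1 := (Subgroup.mem_normalizer_iff.1 x.2.2 q).1 hq
    have e1 := hfix _ (Subgroup.mem_subgroupOf.2
      (show (((x * ⟨q, hQN hq⟩ * x⁻¹ : normalizerIn T Q)) : Ω) ∈ Q from h1))
    rw [map_mul, map_mul, map_inv,
      hfix ⟨q, hQN hq⟩ (Subgroup.mem_subgroupOf.2 hq)] at e1
    have e2 : ((D x : _) : Ω) * q * ((D x : _) : Ω)⁻¹ = (x : Ω) * q * (x : Ω)⁻¹ :=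
      congrArg Subtype.val e1
    rw [Subgroup.coe_mul, Subgroup.coe_inv]
    calc q * ((x : Ω)⁻¹ * (D x : Ω))
        = (x : Ω)⁻¹ * ((x : Ω) * q * (x : Ω)⁻¹) * (D x : Ω) := by group
      _ = (x : Ω)⁻¹ * (D x : Ω) * q := by rw [← e2]; group
  -- its powers
  have hI := invT_of_invariant hE
  obtain ⟨δ, hδ⟩ : ∃ δ, δ = (χ a)⁻¹ := ⟨_, rfl⟩
  have hdD : DAt E χ (normalizerIn T Q) (fun x => (D x : Ω)) δ :=
    ⟨a⁻¹, by rw [map_inv, hδ], _, hψN, fun x => (hD x).trans (hde x)⟩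
  have hpow : ∀ n : ℕ, DAt E χ (normalizerIn T Q) (fun x => ((D ^ n) x : Ω)) (δ ^ n) := by
    intro n
    induction n with
    | zero =>
      rw [pow_zero, pow_zero]
      exact (dAt_of_mem (subtype_mem E hNT)).congr fun x => by simp
    | succ n ihn =>
      have h := dAt_comp hI hdD ihn fun x => (D x).2
      rw [← pow_succ] at h
      refine h.congr fun x => ?_
      rw [pow_succ, MulAut.mul_apply]
  obtain ⟨k, hk⟩ := ((hS.to_le (hQT.trans hT.1)).of_equiv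
    (Subgroup.subgroupOfEquivOfLe hQN).symm).exists_card_eq
  have hDk : D ^ p ^ k = 1 := MulEquiv.ext fun x => by
    rw [← hk, iterate_eq_of_stab D hfix (hmove x)]
    rfl
  have h1 : δ ^ p ^ k = 1 :=
    uniq_of_key hE hN (fun R hR hc => ih R hR.1 (hc ▸ hNcard) hR) (hpow (p ^ k))
      ((dAt_of_mem (subtype_mem E hNT)).congr fun x => by rw [hDk]; rfl)
  simpa [hδ] using eq_one_of_pow hΔ h1

include hS hE hEs hΔ hker in
/-- The value of a map out of a subgroup all of whose conjugates contain their centralizer in `T`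
is unique. -/
theorem dAt_unique {Q : Subgroup Ω} (hQ : TCentric F T Q) {f : Q → Ω} {δ ε : Δ}
    (hδ : DAt E χ Q f δ) (hε : DAt E χ Q f ε) : δ = ε :=
  uniq_of_key hE hQ (fun _ hR _ => key_centric hS hE hEs hΔ hker hR) hδ hε

omit [Fact p.Prime] [Finite S] in
/-- The image of the part of the source inside `T`. -/
theorem inf_T_range (hT : F.StronglyClosed T) {P : Subgroup Ω} {φ : P →* Ω} (hφ : φ ∈ F.Hom P) :
    (restr (inf_le_left : P ⊓ T ≤ P) φ).range = φ.range ⊓ T := by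
  ext y
  constructor
  · rintro ⟨x, rfl⟩
    exact ⟨⟨_, rfl⟩, sc_map_mem hT hφ (x := ⟨x, x.2.1⟩) x.2.2⟩
  · rintro ⟨⟨x, rfl⟩, hy⟩
    exact ⟨⟨x, x.2, (sc_map_mem_iff hT hφ x).1 hy⟩, rfl⟩

omit [Fact p.Prime] [Finite S] in
theorem tCentric_inf_of_isConj (hT : F.StronglyClosed T) {P R : Subgroup Ω}
    (hP : TCentric F T (P ⊓ T)) (h : F.IsConj P R) : TCentric F T (R ⊓ T) := by
  obtain ⟨φ, hφ, rfl⟩ := h
  exact tCentric_of_isConj hT hP ⟨_, restr_mem F inf_le_left hφ, inf_T_range hT hφ⟩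

/-- Restriction of the automorphisms of `S` to `T`. -/
noncomputable def resT (hT : F.StronglyClosed T) : F.autGroup S →* F.autGroup T :=
  ((restrStab hT.1).comp (Subgroup.inclusion (fun _ hβ x =>
      sc_map_mem_iff hT (autGroup_mem_hom F le_rfl hβ) x :
        F.autGroup S ≤ subStab S T))).codRestrict (F.autGroup T)
    fun β => restrStab_mem_autGroup F hT.1 le_rfl β.2

omit [Fact p.Prime] [Finite S] in
theorem resT_coe (hT : F.StronglyClosed T) (β : F.autGroup S) (x : T) :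
    (((resT hT β : MulAut T) x : T) : Ω) = ((β : MulAut S) ⟨x, hT.1 x.2⟩ : S) :=
  rfl

omit [Fact p.Prime] [Finite S] in
theorem autExt_resT (hT : F.StronglyClosed T) (β : F.autGroup S) {x : Ω} (hx : x ∈ T) :
    autExt (resT hT β : MulAut T) x = autExt (β : MulAut S) x := by
  rw [autExt_of_mem _ hx, autExt_of_mem _ (hT.1 hx)]
  rfl

/-- The automorphisms of `S` whose restriction to `T` has trivial value. -/
noncomputable def kerS (hT : F.StronglyClosed T) (χ : ↥(F.autGroup T) →* Δ) :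
    Subgroup (MulAut S) :=
  (χ.comp (resT hT)).ker.map (F.autGroup S).subtype

omit [Fact p.Prime] [Finite S] in
theorem kerS_le (hT : F.StronglyClosed T) : kerS hT χ ≤ F.autGroup S :=
  Subgroup.map_subtype_le _

omit [Fact p.Prime] [Finite S] in
theorem mem_kerS {hT : F.StronglyClosed T} {β : MulAut S} :
    β ∈ kerS hT χ ↔ ∃ hβ : β ∈ F.autGroup S, χ (resT hT ⟨β, hβ⟩) = 1 := by
  constructor
  · rintro ⟨b, hb, rfl⟩
    exact ⟨b.2, hb⟩
  · rintro ⟨hβ, h⟩
    exact ⟨⟨β, hβ⟩, h, rfl⟩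

/-- The maps with trivial value on the part of their source inside `T`. -/
def valueSystem (hS : IsPGroup p S) (hE : E.IsInvariantIn F) (hΔ : (Nat.card Δ).Coprime p)
    (χ : ↥(F.autGroup T) →* Δ) : FusionSystem S :=
  subSystem F (fun P φ => DAt E χ (P ⊓ T) (fun x => φ ⟨x, x.2.1⟩) 1)
    (fun {P g} _ hg => by
      obtain ⟨β, hβ, hβe⟩ := exists_conj_aut F hE.2.1.1
        (fun g hg x hx => sc_conj_mem hE.2.1 hg hx) hg
      have h : χ ⟨β, hβ⟩ = 1 :=
        chi_autInduced hS hΔ ⟨β, hβ⟩ (mem_autInducedBy.2 ⟨g, hg, hβe⟩)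
      rw [← h]
      exact (dAt_aut inf_le_right ⟨β, hβ⟩).congr fun x => (autExt_conj β hβe x.2.2).symm)
    (fun {P Q φ ψ} hφ _ a b h => by
      have h' := dAt_comp (invT_of_invariant hE) a b fun x =>
        ⟨h ⟨x, x.2.1⟩, sc_map_mem hE.2.1 hφ (x := ⟨x, x.2.1⟩) x.2.2⟩
      rw [mul_one] at h'
      exact h')
    (fun {P φ} hφ a ψ _ he => by
      have h' := dAt_symm (invT_of_invariant hE)
        (toIso F (restr_mem F (inf_le_left : P ⊓ T ≤ P) hφ) (inf_T_range hE.2.1 hφ)) a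
      rw [inv_one] at h'
      refine h'.congr fun y => ?_
      obtain ⟨x, rfl⟩ := (toIso F (restr_mem F (inf_le_left : P ⊓ T ≤ P) hφ)
        (inf_T_range hE.2.1 hφ)).surjective y
      rw [MulEquiv.symm_apply_apply]
      exact he ⟨x, x.2.1⟩)

include hS hE hΔ in
omit [Finite S] [Fact p.Prime] in
/-- Conjugation by any isomorphism of `F` preserves trivial value. -/
theorem autCongr_mem_value {Q R : Subgroup Ω} {f : Q ≃* R} (hf : IsIso F f) {b : MulAut R}
    (hb : b ∈ (valueSystem hS hE hΔ χ).autGroup R) :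
    MulAut.congr f.symm b ∈ (valueSystem hS hE hΔ χ).autGroup Q := by
  have hT := hE.2.1
  have hI := invT_of_invariant hE
  have hR := hf.le_right
  obtain ⟨hbF, hbd⟩ := autGroup_mem_hom _ hR hb
  obtain ⟨g, hgF, hge⟩ : ∃ g : ↥(Q ⊓ T) ≃* ↥(R ⊓ T), IsIso F g ∧
      ∀ x, (g x : Ω) = f ⟨x, x.2.1⟩ := by
    have hr : (restr (inf_le_left : Q ⊓ T ≤ Q) (R.subtype.comp f.toMonoidHom)).range = R ⊓ T :=
      (inf_T_range hT hf).trans (by rw [range_subtype_comp])
    exact ⟨toIso F (restr_mem F inf_le_left hf) hr, toIso_isIso F _ _, fun _ => rfl⟩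
  obtain ⟨δ, hδ⟩ := dAt_exists (χ := χ) hE inf_le_right hgF
  have hα : MulAut.congr f.symm b ∈ F.autGroup Q :=
    autCongr_mem F hf.symm ((mem_autGroup F hR).2 hbF)
  refine (mem_autGroup _ hf.le_left).2 ⟨autGroup_mem_hom F hf.le_left hα, ?_⟩
  have h1 := dAt_comp hI hδ hbd fun x => (g x).2
  have hm : ∀ x : ↥(Q ⊓ T), ((b ⟨(g x : Ω), (g x).2.1⟩ : R) : Ω) ∈ R ⊓ T := fun x =>
    ⟨(b _).2, sc_map_mem hT hbF (x := ⟨(g x : Ω), (g x).2.1⟩) (g x).2.2⟩
  have h2 := dAt_comp hI h1 (dAt_symm hI g hδ) hm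
  rw [one_mul, inv_mul_cancel] at h2
  refine h2.congr fun x => ?_
  obtain ⟨z, hz⟩ := g.surjective ⟨_, hm x⟩
  have e1 : g.symm ⟨_, hm x⟩ = z := by rw [← hz, MulEquiv.symm_apply_apply]
  show ((MulAut.congr f.symm b ⟨x, x.2.1⟩ : Q) : Ω) = ((g.symm ⟨_, hm x⟩ : _) : Ω)
  rw [e1, autCongr_apply, MulEquiv.symm_symm]
  have e2 : f ⟨z, z.2.1⟩ = b (f ⟨x, x.2.1⟩) := by
    refine Subtype.ext ((hge z).symm.trans ((congrArg Subtype.val hz).trans ?_))
    exact congrArg (fun w : R => ((b w : R) : Ω)) (Subtype.ext (hge x))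
  rw [← e2, MulEquiv.symm_apply_apply]

include hS hE hΔ in
/-- The `p`-elements of the automizers have trivial value. -/
theorem centricPElem_le_value (hF : F.IsSaturated p) :
    centricPElemSystem F p ≤ valueSystem hS hE hΔ χ := by
  refine centricPElemSystem_le fun Q hQ => ?_
  rw [pElemGroup, Subgroup.map_le_iff_le_comap, Subgroup.closure_le]
  rintro a ⟨k, hk⟩
  obtain ⟨R, hQR, hR⟩ := exists_fullyNormalized F hQ.1
  obtain ⟨f, hf⟩ := (isConj_iff_exists_iso F).1 hQR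
  haveI : Finite R := finite_of_le ‹_› hR.1
  have hA : IsPGroup p (Subgroup.zpowers (MulAut.congr f (a : MulAut Q))) := by
    refine IsPGroup.of_card (n := k) ?_
    rw [Nat.card_zpowers, MulEquiv.orderOf_eq (MulAut.congr f) (a : MulAut Q),
      Subgroup.orderOf_coe, hk]
  obtain ⟨c, hc, hconj⟩ := exists_conj_le_autInducedBy (saturated_fullyNormalized hS hF hR).2 hA
    (Subgroup.zpowers_le.2 (autCongr_mem F hf a.2))
  have h1 := autInducedBy_le_autGroup (valueSystem hS hE hΔ χ) hR.1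
    (hconj _ (Subgroup.mem_zpowers _))
  have h2 := autCongr_mem_value hS hE hΔ (hf.trans ((mem_autGroup F hR.1).1 hc)) h1
  have e : MulAut.congr (f.trans c).symm (c * MulAut.congr f (a : MulAut Q) * c⁻¹) =
      (a : MulAut Q) := by
    ext x
    simp [MulAut.inv_def]
  rw [e] at h2
  exact h2

variable {hS hE hΔ}

omit [Finite S] [Fact p.Prime] in
/-- The value of an automorphism of `S` after a map of trivial value. -/
theorem dAt_aut_comp (β : F.autGroup S) {P : Subgroup Ω} {φ : P →* Ω}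
    (hφ : φ ∈ (valueSystem hS hE hΔ χ).Hom P) :
    DAt E χ (P ⊓ T) (fun x => autExt (β : MulAut S) (φ ⟨x, x.2.1⟩))
      (χ (resT hE.2.1 β)) := by
  obtain ⟨α, hα, a, ha, hae⟩ := hφ.2
  refine ⟨resT hE.2.1 β * α, by rw [map_mul, hα, mul_one], a, ha, fun x => ?_⟩
  have hx : φ ⟨x, x.2.1⟩ ∈ T := sc_map_mem hE.2.1 hφ.1 (x := ⟨x, x.2.1⟩) x.2.2
  rw [Subgroup.coe_mul, autExt_mul _ _ (map_mem_S E ha x), ← hae x, autExt_resT hE.2.1 β hx]

include hEs hker in
/-- An automorphism of `S` agreeing with a map of trivial value has trivial value. -/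
theorem chi_eq_one_of_agree (β : F.autGroup S) {P : Subgroup Ω} {φ : P →* Ω}
    (hφ : φ ∈ (valueSystem hS hE hΔ χ).Hom P) (hP : TCentric F T (P ⊓ T))
    (h : ∀ x : P, φ x = autExt (β : MulAut S) x) : χ (resT hE.2.1 β) = 1 := by
  refine dAt_unique hS hE hEs hΔ hker hP (dAt_aut hP.1 (resT hE.2.1 β)) ?_
  refine hφ.2.congr fun x => ?_
  rw [h, autExt_resT hE.2.1 β x.2.2]

end Cfsg.Agent.Tech.PPrimeCharacter
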