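import Mathlib

/-!
Offenders in a group of automorphisms of an elementary abelian 2-group all of whose 2-subgroups act
quadratically: in the absence of a natural `S₃` configuration, best offenders commute.
-/

set_option autoImplicit false
set_option linter.style.haveILetI false

namespace Cfsg.Agent.Tech.QuadFF

open Subgroup
open scoped Pointwise

variable {V : Type*} [CommGroup V]

/-- The commutator map. -/
def d (f : MulAut V) (v : V) : V := f v * v⁻¹

theorem d_mul_right (f : MulAut V) (v w : V) : d f (v * w) = d f v * d f w := by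
  simp only [d, map_mul, mul_inv_rev]; group; simp [mul_comm, mul_left_comm]

theorem apply_eq (f : MulAut V) (v : V) : f v = d f v * v := by simp [d]

/-- The fixed points. -/
def fixS (D : Subgroup (MulAut V)) : Subgroup V where
  carrier := {v | ∀ f ∈ D, f v = v}
  one_mem' := fun f _ => map_one f
  mul_mem' := fun {a b} ha hb f hf => by rw [map_mul, ha f hf, hb f hf]
  inv_mem' := fun {a} ha f hf => by rw [map_inv, ha f hf]

theorem mem_fixS {D : Subgroup (MulAut V)} {v : V} : v ∈ fixS D ↔ ∀ f ∈ D, f v = v := Iff.rfl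

theorem fixS_antitone {D E : Subgroup (MulAut V)} (h : D ≤ E) : fixS E ≤ fixS D :=
  fun _ hv f hf => hv f (h hf)

/-- Quadratic action of all 2-subgroups of `H`. -/
def QuadH (H : Subgroup (MulAut V)) : Prop :=
  ∀ T : Subgroup (MulAut V), T ≤ H → IsPGroup 2 T → ∀ s ∈ T, ∀ t ∈ T, ∀ v : V, s (d t v) = d t v

/-- Two elements of `H` acting on a four-group as two transpositions. -/
def Config (H : Subgroup (MulAut V)) : Prop :=
  ∃ b ∈ H, ∃ c ∈ H, ∃ p w : V, p ≠ 1 ∧ w ≠ 1 ∧ p ≠ w ∧
    b p = p ∧ b w = p * w ∧ c w = w ∧ c p = p * w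

/-- A 2-subgroup at which `|D| |C_V(D)|` is maximal among its own subgroups. -/
def Best (H A : Subgroup (MulAut V)) : Prop :=
  A ≤ H ∧ IsPGroup 2 A ∧ ∀ D ≤ A, Nat.card D * Nat.card (fixS D) ≤ Nat.card A * Nat.card (fixS A)

/-- Elementwise commutation. -/
def Comm (A B : Subgroup (MulAut V)) : Prop := ∀ a ∈ A, ∀ b ∈ B, a * b = b * a

theorem fixS_map_conj (g : MulAut V) (D : Subgroup (MulAut V)) :
    fixS (D.map (MulAut.conj g).toMonoidHom) = (fixS D).map g.toMonoidHom := by
  ext v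
  constructor
  · intro hv
    refine ⟨g⁻¹ v, fun f hf => ?_, MulAut.apply_inv_self V g v⟩
    have h := hv _ (mem_map_of_mem _ hf)
    simp only [MulEquiv.coe_toMonoidHom, MulAut.conj_apply, MulAut.mul_apply] at h
    apply g.injective
    rw [h, MulAut.apply_inv_self]
  · rintro ⟨w, hw, rfl⟩ _ ⟨f, hf, rfl⟩
    simp only [MulEquiv.coe_toMonoidHom, MulAut.conj_apply, MulAut.mul_apply, MulAut.inv_apply_self,
      hw f hf]

theorem Best.map_conj [Finite V] {H A : Subgroup (MulAut V)} (h : Best H A) {g : MulAut V}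
    (hg : g ∈ H) : Best H (A.map (MulAut.conj g).toMonoidHom) := by
  obtain ⟨hA, hA2, hmax⟩ := h
  refine ⟨?_, hA2.map _, fun D hD => ?_⟩
  · rintro _ ⟨a, ha, rfl⟩
    exact H.mul_mem (H.mul_mem hg (hA ha)) (H.inv_mem hg)
  · obtain ⟨D, hD', rfl⟩ : ∃ D' ≤ A, D'.map (MulAut.conj g).toMonoidHom = D :=
      ⟨D.comap (MulAut.conj g).toMonoidHom,
        (comap_mono hD).trans (comap_map_eq_self_of_injective (MulAut.conj g).injective A).le,
        map_comap_eq_self_of_surjective (MulAut.conj g).surjective D⟩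
    rw [fixS_map_conj, fixS_map_conj, card_map_of_injective (f := g.toMonoidHom) g.injective,
      card_map_of_injective (f := g.toMonoidHom) g.injective,
      card_map_of_injective (f := (MulAut.conj g).toMonoidHom) (MulAut.conj g).injective,
      card_map_of_injective (f := (MulAut.conj g).toMonoidHom) (MulAut.conj g).injective]
    exact hmax D hD'

section Quad

variable {H : Subgroup (MulAut V)} (hV : ∀ v : V, v * v = 1) (hq : QuadH H)

include hq in
theorem quad_mul_apply {T : Subgroup (MulAut V)} (hT : T ≤ H) (hT2 : IsPGroup 2 T) {s t : MulAut V}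
    (hs : s ∈ T) (ht : t ∈ T) (v : V) : d (s * t) v = d s v * d t v := by
  have h := hq T hT hT2 s hs t ht v
  show (s * t) v * v⁻¹ = _
  rw [MulAut.mul_apply, apply_eq t v, map_mul, h]
  simp [d, mul_comm, mul_left_comm, mul_assoc]

include hq in
theorem comm_of_two {T : Subgroup (MulAut V)} (hT : T ≤ H) (hT2 : IsPGroup 2 T) {s t : MulAut V}
    (hs : s ∈ T) (ht : t ∈ T) : s * t = t * s := by
  refine MulEquiv.ext fun v => ?_
  rw [apply_eq (s * t) v, apply_eq (t * s) v, quad_mul_apply hq hT hT2 hs ht,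
    quad_mul_apply hq hT hT2 ht hs, mul_comm (d s v)]

include hV hq in
theorem sq_one {T : Subgroup (MulAut V)} (hT : T ≤ H) (hT2 : IsPGroup 2 T) {t : MulAut V}
    (ht : t ∈ T) : t * t = 1 := by
  refine MulEquiv.ext fun v => ?_
  rw [apply_eq (t * t) v, quad_mul_apply hq hT hT2 ht ht, hV, one_mul, MulAut.one_apply]

include hq in
/-- If `a ∈ A` commutes with all of `B` then `a` moves into the fixed points of `B`. -/
theorem d_mem_fixS_of_comm {A B : Subgroup (MulAut V)} (hA : A ≤ H) (hA2 : IsPGroup 2 A)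
    (hB : B ≤ H) (hB2 : IsPGroup 2 B) {a : MulAut V} (ha : a ∈ A)
    (hab : ∀ b ∈ B, a * b = b * a) (v : V) : d a v ∈ fixS B := by
  have hz : IsPGroup 2 (zpowers a) := hA2.to_le (zpowers_le.2 ha)
  have hnorm : zpowers a ≤ normalizer (B : Set (MulAut V)) := by
    refine zpowers_le.2 (mem_normalizer_iff.2 fun x => ⟨fun hx => ?_, fun hx => ?_⟩)
    · rwa [hab x hx, mul_inv_cancel_right]
    · have h := hab _ hx
      have e : a * x * a⁻¹ = x := by
        calc a * x * a⁻¹ = a⁻¹ * (a * (a * x * a⁻¹)) := by group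
          _ = a⁻¹ * (a * x * a⁻¹ * a) := by rw [h]
          _ = x := by group
      rwa [e] at hx
  intro b hb
  exact hq (zpowers a ⊔ B) (sup_le ((zpowers_le.2 ha).trans hA) hB)
    (hz.to_sup_of_normal_right' hB2 hnorm) b (mem_sup_right hb) a (mem_sup_left (mem_zpowers a)) v

include hq in
theorem d_mem_fixS_self {A : Subgroup (MulAut V)} (hA : A ≤ H) (hA2 : IsPGroup 2 A) {a : MulAut V}
    (ha : a ∈ A) (v : V) : d a v ∈ fixS A :=
  fun s hs => hq A hA hA2 s hs a ha v

/-- The part of `A` centralizing `B`. -/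
def centr (A B : Subgroup (MulAut V)) : Subgroup (MulAut V) := A ⊓ centralizer (B : Set (MulAut V))

theorem mem_centr {A B : Subgroup (MulAut V)} {a : MulAut V} :
    a ∈ centr A B ↔ a ∈ A ∧ ∀ b ∈ B, a * b = b * a := by
  simp only [centr, Subgroup.mem_inf, mem_centralizer_iff, SetLike.mem_coe]
  exact ⟨fun h => ⟨h.1, fun b hb => (h.2 b hb).symm⟩, fun h => ⟨h.1, fun b hb => (h.2 b hb).symm⟩⟩

/-- The map `a ↦ [q, a]`. -/
def moveHom (hq : QuadH H) {A : Subgroup (MulAut V)} (hA : A ≤ H) (hA2 : IsPGroup 2 A) (q : V) :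
    A →* V where
  toFun a := d (a : MulAut V) q
  map_one' := by simp [d]
  map_mul' a b := quad_mul_apply hq hA hA2 a.2 b.2 q

/-- The key counting step, one side. -/
structure PairData (H A B : Subgroup (MulAut V)) : Prop where
  bestA : Best H A
  bestB : Best H B
  gen : ∀ a ∈ A, a ∉ centr A B → ∀ v ∈ fixS B, d a v ∈ fixS A ⊓ fixS B → v ∈ fixS A ⊓ fixS B

variable {A B : Subgroup (MulAut V)}

include hq in
theorem PairData.d_mem (h : PairData H A B) {a : MulAut V} (ha : a ∈ A) {q : V}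
    (hqB : q ∈ fixS B) : d a q ∈ fixS A ⊓ fixS (centr B A) := by
  refine ⟨d_mem_fixS_self hq h.bestA.1 h.bestA.2.1 ha q, fun b hb => ?_⟩
  obtain ⟨hb1, hb2⟩ := mem_centr.1 hb
  have e : b (a q) = a (b q) := by rw [← MulAut.mul_apply, ← MulAut.mul_apply, hb2 a ha]
  rw [hqB b hb1] at e
  show b (a q * q⁻¹) = a q * q⁻¹
  rw [map_mul, map_inv, e, hqB b hb1]

include hq in
/-- `|Q₀/Z| ≤ |A/A₀|`. -/
theorem PairData.card_le_index [Finite V] (h : PairData H A B) :
    (fixS A ⊓ fixS B).relIndex (fixS B ⊓ fixS (centr A B)) ≤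
      (centr A B).relIndex A := by
  set A0 := centr A B
  set Z := fixS A ⊓ fixS B
  set Q0 := fixS B ⊓ fixS A0
  have hA0 : A0 ≤ A := inf_le_left
  have h1 : Nat.card A0 * Nat.card (fixS A0) ≤ Nat.card A * Nat.card (fixS A) := h.bestA.2.2 A0 hA0
  have hA0c : Nat.card A0 * A0.relIndex A = Nat.card A := by
    have := card_mul_index (A0.subgroupOf A)
    rwa [Nat.card_congr (subgroupOfEquivOfLe hA0).toEquiv] at this
  rw [← hA0c, mul_assoc] at h1
  have h2 := Nat.le_of_mul_le_mul_left h1 Nat.card_pos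
  have h3 : fixS A ⊔ Q0 ≤ fixS A0 := sup_le (fixS_antitone hA0) inf_le_right
  have h4 : (fixS A ⊓ Q0) = Z := by
    apply le_antisymm
    · exact le_inf inf_le_left (inf_le_right.trans inf_le_left)
    · exact le_inf inf_le_left (le_inf inf_le_right (inf_le_left.trans (fixS_antitone hA0)))
  have h5 : (fixS A).relIndex (fixS A ⊔ Q0) = Z.relIndex Q0 := by
    rw [sup_comm, relIndex_sup_right, ← h4, inf_relIndex_right]
  have h6 : Nat.card (fixS A) * Z.relIndex Q0 ≤ Nat.card (fixS A0) := by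
    rw [← h5]
    have := card_mul_index ((fixS A).subgroupOf (fixS A ⊔ Q0))
    rw [Nat.card_congr (subgroupOfEquivOfLe le_sup_left).toEquiv] at this
    exact this.le.trans (card_le_of_le h3)
  have h7 := h6.trans h2
  rw [mul_comm (A0.relIndex A)] at h7
  exact Nat.le_of_mul_le_mul_left h7 Nat.card_pos

include hq in
/-- For `q ∈ Q₀ ∖ Z` the map `a ↦ [q, a]` embeds `A/A₀` into `P₀/Z`. -/
theorem PairData.comap_move (h : PairData H A B) {q : V} (hqQ : q ∈ fixS B ⊓ fixS (centr A B))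
    (hqZ : q ∉ fixS A ⊓ fixS B) :
    (fixS A ⊓ fixS B).comap (moveHom hq h.bestA.1 h.bestA.2.1 q) = (centr A B).subgroupOf A := by
  ext a
  rw [mem_comap, mem_subgroupOf]
  constructor
  · intro ha
    by_contra hc
    exact hqZ (h.gen a a.2 hc q hqQ.1 ha)
  · intro ha
    have e : d (a : MulAut V) q = 1 := by
      show (a : MulAut V) q * q⁻¹ = 1
      rw [hqQ.2 a ha, mul_inv_cancel]
    show d (a : MulAut V) q ∈ _
    rw [e]; exact one_mem _

include hq in
theorem PairData.index_eq_range (h : PairData H A B) {q : V}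
    (hqQ : q ∈ fixS B ⊓ fixS (centr A B)) (hqZ : q ∉ fixS A ⊓ fixS B) :
    (centr A B).relIndex A =
      (fixS A ⊓ fixS B).relIndex (moveHom hq h.bestA.1 h.bestA.2.1 q).range := by
  rw [← index_comap, h.comap_move hq hqQ hqZ]; rfl

include hq in
theorem PairData.index_le [Finite V] (h : PairData H A B) {q : V}
    (hqQ : q ∈ fixS B ⊓ fixS (centr A B)) (hqZ : q ∉ fixS A ⊓ fixS B) :
    (centr A B).relIndex A ≤ (fixS A ⊓ fixS B).relIndex (fixS A ⊓ fixS (centr B A)) := by
  rw [h.index_eq_range hq hqQ hqZ]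
  refine relIndex_le_of_le_right ?_ (index_ne_zero_of_finite)
  rintro _ ⟨a, rfl⟩
  exact h.d_mem hq a.2 hqQ.1

include hq in
theorem PairData.false [Finite V] (hV : ∀ v : V, v * v = 1) (hnc : ¬ Config H)
    (hAB : PairData H A B) (hBA : PairData H B A) (hne : ¬ Comm A B) : False := by
  set Z := fixS A ⊓ fixS B with hZ
  have hZ' : fixS B ⊓ fixS A = Z := inf_comm _ _
  set P0 := fixS A ⊓ fixS (centr B A) with hP0
  set Q0 := fixS B ⊓ fixS (centr A B) with hQ0
  obtain ⟨a1, ha1, ha1'⟩ : ∃ a ∈ A, a ∉ centr A B := by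
    by_contra! hcon
    exact hne fun a ha b hb => (mem_centr.1 (hcon a ha)).2 b hb
  obtain ⟨b1, hb1, hb1'⟩ : ∃ b ∈ B, b ∉ centr B A := by
    by_contra! hcon
    exact hne fun a ha b hb => ((mem_centr.1 (hcon b hb)).2 a ha).symm
  have hindA : 2 ≤ (centr A B).relIndex A := by
    have h0 : (centr A B).relIndex A ≠ 0 := index_ne_zero_of_finite
    have h1 : (centr A B).relIndex A ≠ 1 := fun e => ha1' (relIndex_eq_one.1 e ha1)
    omega
  have hindB : 2 ≤ (centr B A).relIndex B := by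
    have h0 : (centr B A).relIndex B ≠ 0 := index_ne_zero_of_finite
    have h1 : (centr B A).relIndex B ≠ 1 := fun e => hb1' (relIndex_eq_one.1 e hb1)
    omega
  have hQle := hAB.card_le_index hq
  have hPle : Z.relIndex P0 ≤ (centr B A).relIndex B := hZ' ▸ hBA.card_le_index hq
  by_cases hQ : Q0 ≤ Z
  · by_cases hP : P0 ≤ Z
    · -- both trivial: `X` stabilizes `V ≥ Z ≥ 1`
      have hin : ∀ (X Y : Subgroup (MulAut V)), PairData H X Y →
          fixS Y ⊓ fixS (centr X Y) ≤ fixS X ⊓ fixS Y → ∀ b ∈ Y, ∀ v, d b v ∈ fixS X ⊓ fixS Y := by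
        intro X Y h hle b hb v
        refine hle ⟨d_mem_fixS_self hq h.bestB.1 h.bestB.2.1 hb v, fun x hx => ?_⟩
        obtain ⟨hx1, hx2⟩ := mem_centr.1 hx
        have hz : d x v ∈ fixS Y := d_mem_fixS_of_comm hq h.bestA.1 h.bestA.2.1 h.bestB.1 h.bestB.2.1 hx1 hx2 v
        have e : x (b v) = b (x v) := by rw [← MulAut.mul_apply, ← MulAut.mul_apply, hx2 b hb]
        show x (b v * v⁻¹) = b v * v⁻¹
        rw [map_mul, map_inv, e, apply_eq x v, map_mul, hz b hb, mul_inv_rev]
        simp [mul_comm, mul_left_comm, mul_assoc]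
      refine hne fun a ha b hb => MulEquiv.ext fun v => ?_
      have hb' := hin A B hAB hQ b hb v
      have ha' := hin B A hBA (hZ'.symm ▸ hP) a ha v
      rw [MulAut.mul_apply, MulAut.mul_apply, apply_eq b v, map_mul, hb'.1 a ha, apply_eq a v,
        map_mul, ha'.1 b hb, apply_eq b v]
      exact mul_left_comm _ _ _
    · obtain ⟨q, hqP, hqZ⟩ := SetLike.not_le_iff_exists.1 hP
      have h1 := hBA.index_le hq hqP (hZ'.symm ▸ hqZ)
      rw [hZ', relIndex_eq_one.2 hQ] at h1
      omega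
  obtain ⟨q, hqQ, hqZ⟩ := SetLike.not_le_iff_exists.1 hQ
  by_cases hP : P0 ≤ Z
  · have h1 := hAB.index_le hq hqQ hqZ
    rw [relIndex_eq_one.2 hP] at h1
    omega
  -- both nontrivial
  obtain ⟨p0, hp0, hp0Z⟩ := SetLike.not_le_iff_exists.1 hP
  set p := d a1 q with hpdef
  have hp : p ∈ P0 := hAB.d_mem hq ha1 hqQ.1
  have hpZ : p ∉ Z := fun h => hqZ (hAB.gen a1 ha1 ha1' q hqQ.1 h)
  have e1 := hBA.index_le hq hp (hZ'.symm ▸ hpZ)
  rw [hZ'] at e1
  have e2 := hAB.index_le hq hqQ hqZ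
  set R := (moveHom hq hBA.bestA.1 hBA.bestA.2.1 p).range with hR
  have hRQ : R ≤ Q0 := by
    rintro _ ⟨b, rfl⟩
    exact hBA.d_mem hq b.2 hp.1
  have e3 : (centr B A).relIndex B = Z.relIndex R := by
    rw [hBA.index_eq_range hq hp (hZ'.symm ▸ hpZ), hZ']
  have e4 : Z.relIndex Q0 ≤ Z.relIndex R := by simp only [hZ, hP0, hQ0] at *; omega
  -- surjectivity
  have hsurj : Q0 ≤ R ⊔ Z := by
    have hZQ : Z ≤ Q0 := le_inf inf_le_right (inf_le_left.trans (fixS_antitone inf_le_left))
    have hle : R ⊔ Z ≤ Q0 := sup_le hRQ hZQ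
    have c1 := card_mul_index (Z.subgroupOf Q0)
    have c2 := card_mul_index (Z.subgroupOf (R ⊔ Z))
    rw [Nat.card_congr (subgroupOfEquivOfLe hZQ).toEquiv] at c1
    rw [Nat.card_congr (subgroupOfEquivOfLe (le_sup_right : Z ≤ R ⊔ Z)).toEquiv] at c2
    have e5 : Z.relIndex (R ⊔ Z) = Z.relIndex R := relIndex_sup_right R Z
    refine (eq_of_le_of_card_ge hle ?_).ge
    rw [← c1, ← c2]
    refine Nat.mul_le_mul le_rfl ?_
    exact e4.trans e5.ge
  have hq' : q ∈ (R : Set V) * (Z : Set V) := by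
    rw [← mul_normal]; exact hsurj hqQ
  obtain ⟨_, ⟨c, rfl⟩, z, hz, hcz⟩ := hq'
  set w := moveHom hq hBA.bestA.1 hBA.bestA.2.1 p c with hw
  have hwz : w * z = q := hcz
  have hwd : w = d (c : MulAut V) p := rfl
  have hwB : w ∈ fixS B := (hRQ ⟨c, rfl⟩).1
  have hwZ : w ∉ Z := fun h => hqZ (hwz ▸ Z.mul_mem h hz)
  apply hnc
  refine ⟨a1, hAB.bestA.1 ha1, (c : MulAut V), hAB.bestB.1 c.2, p, w, fun h => hpZ (h ▸ one_mem _),
    fun h => hwZ (h ▸ one_mem _), fun h => hpZ ⟨hp.1, h ▸ hwB⟩, hp.1 a1 ha1, ?_, hwB _ c.2, ?_⟩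
  · have e : d a1 w = p := by
      have hz1 : d a1 z = 1 := by show a1 z * z⁻¹ = 1; rw [hz.1 a1 ha1, mul_inv_cancel]
      rw [hpdef, ← hwz, d_mul_right, hz1, mul_one]
    rw [apply_eq a1 w, e]
  · rw [apply_eq (c : MulAut V) p, ← hwd, mul_comm]

include hV hq in
/-- Best offenders commute. -/
theorem best_comm [Finite V] (hnc : ¬ Config H) :
    ∀ A B : Subgroup (MulAut V), Best H A → Best H B → Comm A B := by
  suffices key : ∀ (n : ℕ) (A B : Subgroup (MulAut V)), Nat.card ↥(A ⊔ B) = n →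
      Best H A → Best H B → Comm A B from fun A B => key _ A B rfl
  intro n
  induction n using Nat.strong_induction_on with
  | _ n ih =>
  intro A B hn hA hB
  subst hn
  by_contra hne
  have gen : ∀ A' B' : Subgroup (MulAut V), A' ⊔ B' = A ⊔ B → Best H A' → Best H B' →
      PairData H A' B' := by
    intro A' B' hsup hA' hB'
    refine ⟨hA', hB', fun a ha hac v hv hdv => ⟨fun x hx => ?_, hv⟩⟩
    set B1 := B'.map (MulAut.conj a).toMonoidHom with hB1
    have hB1best : Best H B1 := hB'.map_conj (hA'.1 ha)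
    have hle : B' ⊔ B1 ≤ A ⊔ B := by
      rw [← hsup]
      refine sup_le le_sup_right ?_
      rintro _ ⟨b, hb, rfl⟩
      exact (A' ⊔ B').mul_mem ((A' ⊔ B').mul_mem (mem_sup_left ha) (mem_sup_right hb))
        ((A' ⊔ B').inv_mem (mem_sup_left ha))
    have ha1 : a * a = 1 := sq_one hV hq hA'.1 hA'.2.1 ha
    have hainv : a⁻¹ = a := inv_eq_of_mul_eq_one_right ha1
    have heq : B' ⊔ B1 = A ⊔ B := by
      rcases hle.lt_or_eq with hlt | h
      swap
      · exact h
      exfalso
      apply hac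
      have hc : Comm B' B1 := ih _ (Set.ncard_lt_ncard hlt (Set.toFinite _)) B' B1 rfl hB' hB1best
      have hnorm : B' ≤ normalizer (B1 : Set (MulAut V)) := fun x hx =>
        mem_normalizer_iff.2 fun y => ⟨fun hy => by rwa [hc x hx y hy, mul_inv_cancel_right],
          fun hy => by
            have h := hc x hx _ hy
            have e : x * y * x⁻¹ = y := by
              calc x * y * x⁻¹ = x⁻¹ * (x * (x * y * x⁻¹)) := by group
                _ = x⁻¹ * (x * y * x⁻¹ * x) := by rw [h]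
                _ = y := by group
            rwa [e] at hy⟩
      have hT0 : IsPGroup 2 ↥(B' ⊔ B1) := hB'.2.1.to_sup_of_normal_right' hB1best.2.1 hnorm
      have hza : zpowers a ≤ normalizer ((B' ⊔ B1 : Subgroup _) : Set (MulAut V)) := by
        rw [zpowers_le, mem_normalizer_iff_map_conj_eq, Subgroup.map_sup]
        have e2 : B1.map (MulAut.conj a).toMonoidHom = B' := by
          rw [hB1, Subgroup.map_map, show ((MulAut.conj a).toMonoidHom.comp (MulAut.conj a).toMonoidHom)
            = MonoidHom.id (MulAut V) from MonoidHom.ext fun x => by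
              simp only [MonoidHom.comp_apply, MulEquiv.coe_toMonoidHom, MulAut.conj_apply, hainv,
                MonoidHom.id_apply]
              rw [← mul_assoc, ← mul_assoc, ha1, one_mul, mul_assoc, ha1, mul_one], Subgroup.map_id]
        erw [e2]
        rw [sup_comm]
        rfl
      have hT : IsPGroup 2 ↥(zpowers a ⊔ (B' ⊔ B1)) :=
        (hA'.2.1.to_le (zpowers_le.2 ha)).to_sup_of_normal_right' hT0 hza
      refine mem_centr.2 ⟨ha, fun b hb => comm_of_two hq ?_ hT (mem_sup_left (mem_zpowers a))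
        (mem_sup_right (mem_sup_left hb))⟩
      exact sup_le ((zpowers_le.2 ha).trans hA'.1) (sup_le hB'.1 hB1best.1)
    have hvB1 : v ∈ fixS B1 := by
      rw [hB1, fixS_map_conj]
      refine ⟨a v, fun b hb => ?_, ?_⟩
      · rw [apply_eq a v, map_mul, hdv.2 b hb, hv b hb]
      · show a (a v) = v
        rw [← MulAut.mul_apply, ha1, MulAut.one_apply]
    have hall : B' ⊔ B1 ≤ MulAction.stabilizer (MulAut V) v :=
      sup_le (fun b hb => hv b hb) (fun b hb => hvB1 b hb)
    rw [heq, ← hsup] at hall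
    exact hall (mem_sup_left hx)
  exact PairData.false hq hV hnc (gen A B rfl hA hB) (gen B A (sup_comm B A) hB hA) hne

end Quad

end Cfsg.Agent.Tech.QuadFF
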