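import Cfsg.Agent.Tech.QuasisimpleResidual

/-!
A subsystem normal in a quasisimple system is over the whole group or over a central subgroup.
-/

set_option autoImplicit false

open Cfsg Cfsg.FusionSystem
open Cfsg.Agent.FusionSys Cfsg.Agent.FusionAlperin
open Cfsg.Agent.S5119 (InvT Decomp)

namespace Cfsg.Agent.Tech.Meet

universe u

variable {Ω : Type u} [Group Ω] {S W : Subgroup Ω} {p : ℕ} [Finite S] [Fact p.Prime]
  {C : FusionSystem S}

theorem quasisimple_normal (hS : IsPGroup p S) (hC : C.Quasisimple p) {M : FusionSystem W}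
    (hM : M.IsNormalIn C p) : W = S ∨ W ≤ C.center := by
  obtain ⟨hCs, hhyp, hsimple⟩ := hC
  obtain ⟨⟨hMs, -, hMi⟩, -⟩ := hM
  have hW := hMi.2.1
  have hWS := hW.1
  have : Finite W := finite_of_le ‹_› hWS
  have hWp := hS.to_le hWS
  have hZc := isCentral_center C
  have hZ := isNormal_stronglyClosed (isCentral_isNormal hZc)
  set Z := C.center
  set θ := QuotientGroup.mk' (Z.subgroupOf S)
  have hker : ∀ s : S, θ s = 1 ↔ (s : Ω) ∈ Z := fun s => QuotientGroup.eq_one_iff s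
  have hrange : θ.range = ⊤ := MonoidHom.range_eq_top.2 (QuotientGroup.mk'_surjective _)
  have hE := factorSystem_isFactorSystem C hZ θ hker hrange
  set E := factorSystem C hZ θ hker hrange
  have hmor := (isSurjectiveMorphism_factor hS hCs hZ hE).1.2
  obtain ⟨hEs, hne, hnor⟩ := hsimple _ hE
  set θ' := θ.comp (Subgroup.inclusion hWS) with hθ'
  set V := θ'.range
  have hWZ : M.StronglyClosed (W ⊓ Z) :=
    ⟨inf_le_left, fun R hR φ hφ x =>
      ⟨map_mem_S M hφ x, hZ.2 R (hR.trans inf_le_right) φ (hMi.1 R hφ) x⟩⟩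
  have hker' : ∀ w : W, θ' w = 1 ↔ (w : Ω) ∈ W ⊓ Z := fun w =>
    (hker _).trans ⟨fun h => ⟨w.2, h⟩, fun h => h.2⟩
  have hMb := factorSystem_isFactorSystem M hWZ θ' hker' (rfl : θ'.range = V)
  set Mb := factorSystem M hWZ θ' hker' (rfl : θ'.range = V)
  have hmor' := (isSurjectiveMorphism_factor hWp hMs hWZ hMb).1.2
  have hMbs : Mb.IsSaturated p :=
    saturated_of_surjective hWp hMs (isSurjectiveMorphism_factor hWp hMs hWZ hMb)
  have hp' : IsPGroup p (⊤ : Subgroup (S ⧸ Z.subgroupOf S)) :=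
    (hS.to_quotient _).to_subgroup _
  have hsub : Mb.IsSubsystemOf E := by
    rintro P' φ' ⟨hP', φ, hφ, hind⟩
    obtain ⟨χ, hχ, hindχ⟩ := hmor _ φ (hMi.1 _ hφ)
    have hle : P' ≤ imageAlong θ (preimageAlong θ' P') := fun y hy => by
      obtain ⟨w, hw⟩ := exists_preimage hP' ⟨y, hy⟩
      exact ⟨⟨w, hWS (preimageAlong_le P' w.2)⟩, w.2, hw⟩
    refine mem_hom_congr E (restr_mem E hle hχ) fun y => ?_
    obtain ⟨w, hw⟩ := exists_preimage hP' y
    obtain ⟨hwW, he⟩ := inducedAlong_apply hind w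
    obtain ⟨_, hv, hm, heχ⟩ := hindχ
    have e : y = ⟨θ' ⟨w, preimageAlong_le P' w.2⟩, theta_mem_of_mem_preimage w⟩ := Subtype.ext hw.symm
    rw [e, he]
    refine ((congrArg χ (Subtype.ext ?_)).trans ((heχ w).trans ?_)).symm
    · rfl
    · rfl
  have hVsc : E.StronglyClosed V := by
    refine sc_of_elements le_top fun P' φ' hφ' y hy => ?_
    obtain ⟨-, φ, hφ, hind⟩ := hφ'
    obtain ⟨w, hw⟩ := hy
    have hwP : (w : Ω) ∈ preimageAlong θ P' := mem_preimageAlong.2 ⟨hWS w.2, by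
      show θ' w ∈ P'
      rw [hw]
      exact y.2⟩
    obtain ⟨hwS, he⟩ := inducedAlong_apply hind ⟨w, hwP⟩
    have e : y = ⟨θ ⟨w, preimageAlong_le P' hwP⟩, theta_mem_of_mem_preimage ⟨(w : Ω), hwP⟩⟩ :=
      Subtype.ext hw.symm
    rw [e, he]
    exact ⟨⟨_, sc_map_mem hW hφ (x := ⟨w, hwP⟩) w.2⟩, rfl⟩
  -- automorphisms of `V` lift to automorphisms of `W`
  have hliftT : ∀ b ∈ E.autGroup V, ∃ a ∈ C.autGroup W, ∀ w : W,
      (b ⟨θ' w, w, rfl⟩ : S ⧸ Z.subgroupOf S) = θ' (a w) := by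
    intro b hb
    obtain ⟨-, φ, hφ, hind⟩ := autGroup_mem_hom E le_top hb
    have hle : W ≤ preimageAlong θ V := fun x hx =>
      mem_preimageAlong.2 ⟨hWS hx, ⟨x, hx⟩, rfl⟩
    have hr' := restr_mem C hle hφ
    have hr : (restr hle φ).range = W := range_eq_of_image_le (C.injective_of_mem hr')
      (by rintro _ ⟨x, rfl⟩; exact sc_map_mem hW hφ (x := Subgroup.inclusion hle x) x.2) le_rfl
    refine ⟨toIso C hr' hr, toIso_mem_autGroup C hr' hr, fun w => ?_⟩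
    obtain ⟨hwS, he⟩ := inducedAlong_apply hind (Subgroup.inclusion hle w)
    exact he
  -- automorphisms of `W` induce automorphisms of `V`
  have hdown : ∀ a ∈ C.autGroup W, ∃ b ∈ E.autGroup V, ∀ w : W,
      (b ⟨θ' w, w, rfl⟩ : S ⧸ Z.subgroupOf S) = θ' (a w) := by
    intro a ha
    obtain ⟨χ, hχ, hP, hv, hm, he⟩ := hmor W _ (autGroup_mem_hom C hWS ha)
    have hle : V ≤ imageAlong θ W := by
      rintro _ ⟨w, rfl⟩
      exact ⟨Subgroup.inclusion hWS w, w.2, rfl⟩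
    have hr' := restr_mem E hle hχ
    have : Finite (⊤ : Subgroup (S ⧸ Z.subgroupOf S)) := inferInstance
    have hr : (restr hle χ).range = V := range_eq_of_image_le (E.injective_of_mem hr') (by
      rintro _ ⟨⟨_, w, rfl⟩, rfl⟩
      exact ⟨a w, (he w).symm⟩) le_rfl
    exact ⟨toIso E hr' hr, toIso_mem_autGroup E hr' hr, fun w => he w⟩
  have hinv : Mb.IsInvariantIn E := by
    refine ⟨hsub, hVsc, fun P' hP' φ' hφ' b hb => ?_, fun P' hP' φ' hφ' => ?_⟩
    · obtain ⟨a, ha, hab⟩ := hliftT b hb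
      obtain ⟨-, φ, hφ, hind⟩ := hφ'
      obtain ⟨χ, hχ, hχe⟩ := Cfsg.Agent.S5141.invT_of_invariant hMi a ha _ φ hφ
      obtain ⟨χ', hχ', hQ, hv, hm, he⟩ := hmor' _ χ hχ
      have hPW := preimageAlong_le (θ := θ') P'
      have hpt : ∀ x : P', ∃ w : preimageAlong θ' P', θ' ⟨w, hPW w.2⟩ = x :=
        exists_preimage hP'
      have hval : ∀ (w : Ω) (hw : w ∈ preimageAlong θ' P'),
          autExt a w ∈ autImage a (preimageAlong θ' P') := fun w hw =>
        autExt_mem_autImage a hPW hw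
      have hle : (P'.subgroupOf V).map (V.subtype.comp b.toMonoidHom) ≤
          imageAlong θ' (autImage a (preimageAlong θ' P')) := by
        rintro _ ⟨x, hx, rfl⟩
        obtain ⟨w, hw⟩ := hpt ⟨x, hx⟩
        refine ⟨a ⟨w, hPW w.2⟩, ?_, ?_⟩
        · show (a ⟨w, hPW w.2⟩ : Ω) ∈ autImage a (preimageAlong θ' P')
          have := hval w w.2
          rwa [autExt_of_mem a (hPW w.2)] at this
        · rw [← hab]
          exact congrArg (fun z => (b z : S ⧸ Z.subgroupOf S)) (Subtype.ext hw)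
      refine ⟨restr hle χ', restr_mem Mb hle hχ', fun x hφx hbx => ?_⟩
      obtain ⟨w, hw⟩ := hpt x
      obtain ⟨hwW, hew⟩ := inducedAlong_apply hind w
      have hx : x = ⟨θ' ⟨w, hPW w.2⟩, theta_mem_of_mem_preimage w⟩ := Subtype.ext hw.symm
      subst hx
      show χ' ⟨_, _⟩ = _
      have e1 : (⟨((b ⟨θ' ⟨w, hPW w.2⟩, hP' (theta_mem_of_mem_preimage w)⟩ : V) :
          S ⧸ Z.subgroupOf S), hle hbx⟩ : imageAlong θ' (autImage a (preimageAlong θ' P'))) =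
          ⟨θ' ⟨autExt a w, hQ (hval w w.2)⟩, hm ⟨_, hval w w.2⟩⟩ := by
        refine Subtype.ext ?_
        show (b _ : S ⧸ Z.subgroupOf S) = θ' _
        rw [hab]
        exact congrArg θ' (Subtype.ext (autExt_of_mem a (hPW w.2)).symm)
      rw [e1, he ⟨_, hval w w.2⟩]
      have e2 : (⟨φ' ⟨θ' ⟨w, hPW w.2⟩, theta_mem_of_mem_preimage w⟩, hφx⟩ : V) =
          ⟨θ' ⟨φ w, hwW⟩, _, rfl⟩ := Subtype.ext hew
      rw [e2, hab]
      refine congrArg θ' (Subtype.ext ?_)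
      show χ ⟨autExt a (w : Ω), _⟩ = _
      rw [hχe w (hval w w.2), autExt_of_mem a hwW]
    · obtain ⟨-, φ, hφ, hind⟩ := hφ'
      have hPW := preimageAlong_le (θ := θ') P'
      have hle : preimageAlong θ' P' ≤ preimageAlong θ P' := fun x hx => by
        obtain ⟨hxW, hxP⟩ := mem_preimageAlong.1 hx
        exact mem_preimageAlong.2 ⟨hWS hxW, hxP⟩
      obtain ⟨a, ha, e, he, hφe⟩ := hMi.2.2.2 _ hPW _ (restr_mem C hle hφ)
      obtain ⟨b, hb, hab⟩ := hdown a ha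
      obtain ⟨e', he', hQ, hv, hm, hev⟩ := hmor' _ e he
      have hle' : P' ≤ imageAlong θ' (preimageAlong θ' P') :=
        (imageAlong_preimageAlong hP').ge
      refine ⟨b, hb, restr hle' e', restr_mem Mb hle' he', fun x hx => ?_⟩
      obtain ⟨w, hw⟩ := exists_preimage hP' x
      obtain ⟨hwS, hew⟩ := inducedAlong_apply hind (Subgroup.inclusion hle w)
      have hx' : x = ⟨θ' ⟨w, hPW w.2⟩, theta_mem_of_mem_preimage w⟩ := Subtype.ext hw.symm
      subst hx'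
      refine hew.trans ?_
      have e2 : (⟨restr hle' e' ⟨θ' ⟨w, hPW w.2⟩, theta_mem_of_mem_preimage w⟩, hx⟩ : V) =
          ⟨θ' ⟨e w, hv w⟩, _, rfl⟩ := Subtype.ext (hev w)
      rw [e2, hab]
      exact congrArg θ (Subtype.ext (hφe w (hv w)))
  have : Finite V := Finite.of_surjective θ'.rangeRestrict θ'.rangeRestrict_surjective
  have hres : (residualSystem Mb p).IsNormalIn E p :=
    Cfsg.Agent.S5141.result p hp' E hEs Mb ⟨hMbs, hEs, hinv⟩ _
      (residual_isPPrimeResidual (hp'.to_le hVsc.1) hMbs)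
  rcases hnor _ _ hres with hbot | ⟨htop, -⟩
  · right
    intro x hx
    have h1 : θ' ⟨x, hx⟩ ∈ V := ⟨_, rfl⟩
    rw [show V = ⊥ from hbot, Subgroup.mem_bot] at h1
    exact (hker _).1 h1
  · left
    refine le_antisymm hWS ?_
    have hdec : ∀ x ∈ S, ∃ v ∈ W, ∃ z ∈ Z, x = v * z := fun x hx => by
      obtain ⟨v, hv⟩ := htop.ge (show θ ⟨x, hx⟩ ∈ (⊤ : Subgroup _) from trivial)
      refine ⟨v, v.2, (v : Ω)⁻¹ * x, ?_, by group⟩
      refine (hker ⟨_, S.mul_mem (S.inv_mem (hWS v.2)) hx⟩).1 ?_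
      show θ ((Subgroup.inclusion hWS v)⁻¹ * ⟨x, hx⟩) = 1
      rw [map_mul, map_inv, show θ (Subgroup.inclusion hWS v) = θ ⟨x, hx⟩ from hv, inv_mul_cancel]
    conv_lhs => rw [← hhyp]
    rw [hyperfocalSubgroup, Subgroup.closure_le]
    rintro _ ⟨P, α, x, hP, -, rfl⟩
    obtain ⟨ψ, hψ, h1, h2⟩ := hZc.2 P _ (autGroup_mem_hom C hP α.2)
    obtain ⟨v, hv, z, hz, hvz⟩ := hdec x (hP x.2)
    have hvP : v ∈ P ⊔ Z := by
      rw [show v = x * z⁻¹ by rw [hvz, mul_inv_cancel_right]]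
      exact Subgroup.mul_mem _ (Subgroup.mem_sup_left x.2)
        (Subgroup.inv_mem _ (Subgroup.mem_sup_right hz))
    have hax : (((α : MulAut P) x : P) : Ω) = ψ ⟨v, hvP⟩ * z := by
      have e : Subgroup.inclusion (le_sup_left : P ≤ P ⊔ Z) x =
          ⟨v, hvP⟩ * ⟨z, Subgroup.mem_sup_right hz⟩ := Subtype.ext hvz
      refine (h1 x).symm.trans ?_
      rw [e, map_mul]
      exact congrArg (ψ ⟨v, hvP⟩ * ·) (h2 ⟨z, hz⟩)
    show (x : Ω)⁻¹ * (((α : MulAut P) x : P) : Ω) ∈ W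
    rw [hax]
    have hm : v⁻¹ * ψ ⟨v, hvP⟩ ∈ W := W.mul_mem (W.inv_mem hv) (sc_map_mem hW hψ (x := ⟨v, hvP⟩) hv)
    have hzc : z⁻¹ * (v⁻¹ * ψ ⟨v, hvP⟩) = v⁻¹ * ψ ⟨v, hvP⟩ * z⁻¹ :=
      (Subgroup.mem_centralizer_iff.1 (C.center_le_centralizer (Z.inv_mem hz)) _ (hWS hm)).symm
    have e : (x : Ω)⁻¹ * (ψ ⟨v, hvP⟩ * z) = v⁻¹ * ψ ⟨v, hvP⟩ := by
      rw [hvz, mul_inv_rev, ← mul_assoc, mul_assoc z⁻¹, hzc, inv_mul_cancel_right]
    rw [e]
    exact hm

end Cfsg.Agent.Tech.Meet
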