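import Cfsg.Agent.PGroup.Critical
import Cfsg.Agent.Recog.SymplecticCore
import Cfsg.Agent.PSolv.Cores

/-!
An abelian `p'`-group `Q` and an automorphism `β` of order `p` acting fixed point freely on `Q` act on
a `p`-group of exponent `p` and class at most two. If the points fixed by `β` lie in a subgroup of
order `p` fixed by `Q`, then `Q` acts trivially (`p` odd).
-/

set_option autoImplicit false

open scoped commutatorElement
open Polynomial

namespace Cfsg.Agent.Tech.RankOneFixed

universe u v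

variable {p : ℕ} [hp : Fact p.Prime] {Q : Type v} [CommGroup Q]

section Norm

variable {R : Type*} [Ring R] (ρ : Q →* R) (σ : MulAut Q) (r : ℕ → Q)

/-- The coefficients left after eliminating the terms in `L`. -/
def coeff : List ℕ → ℕ → R
  | [], _ => 1
  | j :: L, i => (ρ ((σ ^ i) (r j)) - ρ ((σ ^ j) (r j))) * coeff L i

theorem coeff_commute (x : Q) : ∀ (L : List ℕ) (i : ℕ), Commute (coeff ρ σ r L i) (ρ x)
  | [], _ => Commute.one_left _
  | _ :: L, i => (((Commute.all _ x).map ρ).sub_left ((Commute.all _ x).map ρ)).mul_left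
      (coeff_commute x L i)

theorem coeff_eq_zero : ∀ (L : List ℕ) (i : ℕ), i ∈ L → coeff ρ σ r L i = 0
  | [], _, h => absurd h (List.not_mem_nil)
  | j :: L, i, h => by
    rcases List.mem_cons.mp h with rfl | h
    · simp [coeff]
    · simp [coeff, coeff_eq_zero L i h]

theorem coeff_sum (b : R) {n : ℕ} (h : ∀ q, ∑ i ∈ Finset.range n, ρ ((σ ^ i) q) * b ^ i = 0) :
    ∀ (L : List ℕ) (q : Q), ∑ i ∈ Finset.range n, coeff ρ σ r L i * (ρ ((σ ^ i) q) * b ^ i) = 0
  | [], q => by simpa [coeff] using h q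
  | j :: L, q => by
    have h1 := coeff_sum b h L (r j * q)
    have h2 := coeff_sum b h L q
    have e : ∀ i, coeff ρ σ r (j :: L) i * (ρ ((σ ^ i) q) * b ^ i) =
        coeff ρ σ r L i * (ρ ((σ ^ i) (r j * q)) * b ^ i) -
          ρ ((σ ^ j) (r j)) * (coeff ρ σ r L i * (ρ ((σ ^ i) q) * b ^ i)) := by
      intro i
      have hc := (coeff_commute ρ σ r ((σ ^ i) (r j)) L i).eq
      have hd := (coeff_commute ρ σ r ((σ ^ j) (r j)) L i).eq
      simp only [coeff, sub_mul, map_mul, mul_assoc]
      congr 1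
      rw [← mul_assoc, ← hc, mul_assoc]
    rw [Finset.sum_congr rfl (fun i _ => e i), Finset.sum_sub_distrib, h1, ← Finset.mul_sum, h2]
    simp

theorem coeff_zero {y : Q} : ∀ L : List ℕ, (∀ j ∈ L, (σ ^ j) (r j) = r j * y) →
    ∃ u : R, IsUnit u ∧ coeff ρ σ r L 0 = u * (1 - ρ y) ^ L.length
  | [], _ => ⟨1, isUnit_one, by simp [coeff]⟩
  | j :: L, h => by
    obtain ⟨u, hu, he⟩ := coeff_zero (y := y) L fun i hi => h i (List.mem_cons_of_mem _ hi)
    refine ⟨ρ (r j) * u, ((Group.isUnit (r j)).map ρ).mul hu, ?_⟩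
    have hcu : Commute (coeff ρ σ r L 0) (1 - ρ y) :=
      (Commute.one_right _).sub_right (coeff_commute ρ σ r y L 0)
    calc coeff ρ σ r (j :: L) 0
        = ρ (r j) * (1 - ρ y) * coeff ρ σ r L 0 := by
          simp only [coeff, pow_zero, MulAut.one_apply, h j List.mem_cons_self, map_mul, mul_sub,
            mul_one]
      _ = ρ (r j) * (coeff ρ σ r L 0 * (1 - ρ y)) := by rw [hcu.eq, mul_assoc]
      _ = ρ (r j) * u * (1 - ρ y) ^ (j :: L).length := by
          rw [he, List.length_cons, pow_succ]; simp only [mul_assoc]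

/-- If the norm of an operator `b` of order `p` kills an abelian `p'`-group of operators on which
it acts without fixed points, that group is trivial. -/
theorem eq_one_of_norm_eq_zero [Finite Q] [Algebra (ZMod p) R] (b : R)
    (hcomm : ∀ q, b * ρ q = ρ (σ q) * b) (hcop : (Nat.card Q).Coprime p)
    (hfpf : ∀ i, 0 < i → i < p → ∀ q, (σ ^ i) q = q → q = 1)
    (hnorm : ∑ i ∈ Finset.range p, b ^ i = 0) (y : Q) : ρ y = 1 := by
  have hpow : ∀ (i : ℕ) q, b ^ i * ρ q = ρ ((σ ^ i) q) * b ^ i := by
    intro i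
    induction i with
    | zero => intro q; simp
    | succ i ih =>
      intro q
      rw [pow_succ, mul_assoc, hcomm, ← mul_assoc, ih, mul_assoc, pow_succ σ, MulAut.mul_apply]
  have hn : ∀ q, ∑ i ∈ Finset.range p, ρ ((σ ^ i) q) * b ^ i = 0 := fun q => by
    rw [← Finset.sum_congr rfl (fun i _ => hpow i q), ← Finset.sum_mul, hnorm, zero_mul]
  classical
  have hr : ∀ j, 0 < j → j < p → ∃ x, (σ ^ j) x = x * y := by
    intro j hj hjp
    have hinj : Function.Injective fun x => (σ ^ j) x * x⁻¹ := fun x x' h => by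
      have h' : (σ ^ j) x * x⁻¹ = (σ ^ j) x' * x'⁻¹ := h
      have : (σ ^ j) (x * x'⁻¹) = x * x'⁻¹ := by
        rw [map_mul, map_inv, mul_inv_eq_iff_eq_mul.mp h']
        simp [mul_comm, mul_left_comm, mul_assoc]
      exact mul_inv_eq_one.mp (hfpf j hj hjp _ this)
    obtain ⟨x, hx⟩ := Finite.surjective_of_injective hinj y
    exact ⟨x, by rw [← hx]; simp [mul_comm]⟩
  let r : ℕ → Q := fun j => if h : 0 < j ∧ j < p then (hr j h.1 h.2).choose else 1
  set L := List.range' 1 (p - 1) with hL
  have hmem : ∀ j, j ∈ L ↔ 0 < j ∧ j < p := by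
    intro j
    rw [hL, List.mem_range'_1]
    have := hp.out.one_le
    omega
  obtain ⟨u, hu, he⟩ := coeff_zero ρ σ r (y := y) L fun j hj => by
    have h := (hmem j).mp hj
    simp only [r, dif_pos h]
    exact (hr j h.1 h.2).choose_spec
  have hsum := coeff_sum ρ σ r b hn L 1
  rw [Finset.sum_eq_single 0 (fun i hi h0 => by
      rw [coeff_eq_zero ρ σ r L i ((hmem i).mpr ⟨Nat.pos_of_ne_zero h0, Finset.mem_range.mp hi⟩),
        zero_mul])
    (fun h => absurd (Finset.mem_range.mpr hp.out.pos) h), he] at hsum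
  simp only [map_one, pow_zero, mul_one, hL, List.length_range'] at hsum
  rw [hu.mul_right_eq_zero] at hsum
  have h1 : (1 - ρ y) ^ p = 0 := by
    rw [← Nat.sub_add_cancel hp.out.one_le, pow_succ, hsum, zero_mul]
  have h2 : ρ y ^ p = 1 := by
    have e : ((1 : (ZMod p)[X]) - X) ^ p = 1 - X ^ p := by rw [sub_pow_char, one_pow]
    have e' := congrArg (aeval (ρ y)) e
    simp only [map_pow, map_sub, map_one, aeval_X] at e'
    rw [h1] at e'
    exact (sub_eq_zero.mp e'.symm).symm
  have h3 : ρ y ^ Nat.card Q = 1 := by rw [← map_pow, pow_card_eq_one', map_one]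
  have h4 := pow_gcd_eq_one.mpr ⟨h3, h2⟩
  rwa [hcop.gcd_eq_one, pow_one] at h4

end Norm

/-- A single Jordan block: a nilpotent endomorphism with kernel of order at most `p`. -/
theorem card_eq_pow_of_kernel {V : Type*} [AddCommGroup V] [Finite V] {j : ℕ}
    (hV : ∃ k, Nat.card V = p ^ k) (δ : AddMonoid.End V) (hker : Nat.card δ.ker ≤ p)
    (hnil : δ ^ (j + 1) = 0) (hne : δ ^ j ≠ 0) : Nat.card V = p ^ (j + 1) := by
  let W : ℕ → AddSubgroup V := fun i => AddMonoidHom.range (δ ^ i : AddMonoid.End V)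
  have hWj : W j ≤ δ.ker := by
    rintro _ ⟨v, rfl⟩
    show δ ((δ ^ j) v) = 0
    have := DFunLike.congr_fun hnil v
    rw [pow_succ'] at this
    exact this
  obtain ⟨k, hk⟩ := hV
  have hkerp : Nat.card δ.ker = p ∧ δ.ker ≤ W j := by
    obtain ⟨a, -, ha⟩ := (Nat.dvd_prime_pow hp.out).1 (hk ▸ AddSubgroup.card_addSubgroup_dvd_card (W j))
    have ha0 : a ≠ 0 := by
      rintro rfl
      apply hne
      ext v
      have hb := AddSubgroup.eq_bot_of_card_eq (W j) (by rw [ha, pow_zero])
      exact (AddSubgroup.eq_bot_iff_forall _).mp hb _ ⟨v, rfl⟩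
    have hle := AddSubgroup.card_le_of_le hWj
    have hpa : p ≤ Nat.card (W j) := by rw [ha]; exact Nat.le_self_pow ha0 p
    exact ⟨le_antisymm hker (hpa.trans hle),
      (AddSubgroup.eq_of_le_of_card_ge hWj (hker.trans hpa)).ge⟩
  have hanti : ∀ i i', i ≤ i' → W i' ≤ W i := by
    intro i i' hi
    rintro _ ⟨v, rfl⟩
    obtain ⟨c, rfl⟩ := Nat.exists_eq_add_of_le hi
    exact ⟨(δ ^ c) v, by rw [pow_add]; rfl⟩
  have hstep : ∀ i ≤ j, Nat.card (W i) = p * Nat.card (W (i + 1)) := by
    intro i hi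
    let ψ : W i →+ V := (δ : V →+ V).comp (W i).subtype
    have hrange : ψ.range = W (i + 1) := by
      ext x
      constructor
      · rintro ⟨⟨_, v, rfl⟩, rfl⟩
        exact ⟨v, by rw [pow_succ']; rfl⟩
      · rintro ⟨v, rfl⟩
        exact ⟨⟨_, v, rfl⟩, by rw [pow_succ']; rfl⟩
    have hk' : Nat.card ψ.ker = p := by
      refine (Nat.card_congr ?_).trans hkerp.1
      exact
        { toFun := fun x => ⟨(x : W i), x.2⟩
          invFun := fun x => ⟨⟨x, hanti i j hi (hkerp.2 x.2)⟩, x.2⟩
          left_inv := fun x => rfl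
          right_inv := fun x => rfl }
    rw [← hrange, ← hk', ← AddSubgroup.index_ker, AddSubgroup.card_mul_index]
  have htail : ∀ m, m ≤ j + 1 → Nat.card (W (j + 1 - m)) = p ^ m := by
    intro m
    induction m with
    | zero =>
      intro _
      rw [Nat.sub_zero, pow_zero, AddSubgroup.card_eq_one, AddSubgroup.eq_bot_iff_forall]
      rintro _ ⟨v, rfl⟩
      rw [hnil]; rfl
    | succ m ih =>
      intro hm
      rw [show j + 1 - (m + 1) = j - m by omega, hstep (j - m) (by omega),
        show j - m + 1 = j + 1 - m by omega, ih (by omega), pow_succ']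
  have := htail (j + 1) le_rfl
  rw [Nat.sub_self] at this
  rw [← this]
  have htop : W 0 = ⊤ := top_le_iff.mp fun v _ => ⟨v, rfl⟩
  rw [htop, AddSubgroup.card_top]

/-- An elementary abelian group on which `Q` acts nontrivially while `β` fixes at most `p` points
has order `p ^ p`. -/
theorem card_eq_of_action [Finite Q] {V : Type*} [CommGroup V] [Finite V] (hV : ∀ v : V, v ^ p = 1)
    (φ : Q →* MulAut V) (b : MulAut V) (σ : MulAut Q) (hb : b ^ p = 1)
    (hcomm : ∀ q v, b (φ q v) = φ (σ q) (b v)) (hcop : (Nat.card Q).Coprime p)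
    (hfpf : ∀ i, 0 < i → i < p → ∀ q, (σ ^ i) q = q → q = 1)
    (hfix : Nat.card {v : V // b v = v} ≤ p) (hne : ∃ q v, φ q v ≠ v) :
    Nat.card V = p ^ p := by
  letI := AddCommGroup.zmodModule (n := p) (G := Additive V)
    fun v => congrArg Additive.ofMul (hV (Additive.toMul v))
  let lin : MulAut V →* Module.End (ZMod p) (Additive V) :=
    { toFun := fun ψ => AddMonoidHom.toZModLinearMap p (MonoidHom.toAdditive ψ.toMonoidHom)
      map_one' := LinearMap.ext fun v => by simp
      map_mul' := fun ψ ψ' => LinearMap.ext fun v => by simp }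
  have happly : ∀ ψ v, lin ψ v = Additive.ofMul (ψ (Additive.toMul v)) := fun ψ v => by simp [lin]
  set B := lin b with hB
  have hbρ : ∀ q, B * lin.comp φ q = lin.comp φ (σ q) * B := by
    intro q
    have : b * φ q = φ (σ q) * b := MulEquiv.ext fun v => hcomm q v
    simp only [hB, MonoidHom.comp_apply, ← map_mul, this]
  have hbp : B ^ p = 1 := by rw [hB, ← map_pow, hb, map_one]
  have hid := congrArg (aeval B) (show ((X : (ZMod p)[X]) - 1) ^ p = X ^ p - 1 by
    rw [sub_pow_char, one_pow])
  have hid' := congrArg (aeval B) (show ((X : (ZMod p)[X]) - 1) ^ (p - 1) =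
      ∑ i ∈ Finset.range p, X ^ i from by
    apply mul_right_cancel₀ (X_sub_C_ne_zero (1 : ZMod p))
    rw [map_one, geom_sum_mul, ← pow_succ, Nat.sub_add_cancel hp.out.one_le, sub_pow_char, one_pow])
  simp only [map_pow, map_sub, map_one, aeval_X, map_sum] at hid hid'
  rw [hbp, sub_self] at hid
  have hnorm : ∑ i ∈ Finset.range p, B ^ i ≠ 0 := by
    intro h0
    obtain ⟨q, v, hv⟩ := hne
    apply hv
    have h1 := DFunLike.congr_fun
      (eq_one_of_norm_eq_zero (lin.comp φ) σ B hbρ hcop hfpf h0 q) (Additive.ofMul v)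
    rw [MonoidHom.comp_apply, happly] at h1
    exact h1
  let δ : AddMonoid.End (Additive V) := (B - 1).toAddMonoidHom
  have hδpow : ∀ (n : ℕ) v, (δ ^ n) v = ((B - 1) ^ n) v := by
    intro n
    induction n with
    | zero => intro v; rfl
    | succ n ihn =>
      intro v
      rw [pow_succ', pow_succ', Module.End.mul_apply, ← ihn]; rfl
  have hker : Nat.card δ.ker ≤ p := by
    refine (Nat.card_le_card_of_injective (fun v : δ.ker =>
      (⟨Additive.toMul (v : Additive V), ?_⟩ : {v : V // b v = v})) ?_).trans hfix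
    · have hv : (B - 1) (v : Additive V) = 0 := v.2
      rw [LinearMap.sub_apply, Module.End.one_apply, sub_eq_zero, hB, happly] at hv
      exact congrArg Additive.toMul hv
    · intro v w h
      exact Subtype.ext (Additive.toMul.injective (congrArg Subtype.val h :))
  have hnil : δ ^ (p - 1 + 1) = 0 := by
    ext v; rw [Nat.sub_add_cancel hp.out.one_le, hδpow, hid]; rfl
  have hnz : δ ^ (p - 1) ≠ 0 := by
    intro h0
    apply hnorm
    rw [← hid']
    exact LinearMap.ext fun v => by rw [← hδpow, h0]; rfl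
  obtain ⟨k, hk⟩ := IsPGroup.iff_card.1 (show IsPGroup p V from fun v => ⟨1, by rw [pow_one, hV]⟩)
  have := card_eq_pow_of_kernel ⟨k, (Nat.card_congr Additive.toMul).trans hk⟩ δ hker hnil hnz
  rwa [Nat.sub_add_cancel hp.out.one_le, Nat.card_congr Additive.toMul] at this

theorem mul_div_mul_of_central {G : Type*} [Group G] {a a' b b' : G}
    (h : a' * b'⁻¹ ∈ Subgroup.center G) : a * a' * (b * b')⁻¹ = a * b⁻¹ * (a' * b'⁻¹) := by
  calc a * a' * (b * b')⁻¹ = a * ((a' * b'⁻¹) * b⁻¹) := by group
    _ = a * (b⁻¹ * (a' * b'⁻¹)) := by rw [Subgroup.mem_center_iff.mp h b⁻¹]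
    _ = a * b⁻¹ * (a' * b'⁻¹) := by group

/-- The hypotheses: `β` of order `p` has only `d` as fixed points among elements of order `p`. -/
structure Setup (p : ℕ) {T : Type u} [Group T] (θ : Q →* MulAut T) (β : MulAut T) (σ : MulAut Q)
    (d : T) : Prop where
  isPGroup : IsPGroup p T
  beta_pow : β ^ p = 1
  comm : ∀ q x, β (θ q x) = θ (σ q) (β x)
  d_ne : d ≠ 1
  d_pow : d ^ p = 1
  d_fix : ∀ q, θ q d = d
  d_beta : β d = d
  d_central : ∀ x, x * d = d * x
  fix_le : ∀ x, x ^ p = 1 → β x = x → x ∈ Subgroup.zpowers d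

variable {T : Type u} [Group T] [Finite T] {θ : Q →* MulAut T} {β : MulAut T} {σ : MulAut Q} {d : T}

/-- Every non-trivial `β`-invariant subgroup contains `d`. -/
theorem Setup.d_mem (h : Setup p θ β σ d) {U : Subgroup T} (hne : U ≠ ⊥)
    (hinv : ∀ x ∈ U, β x ∈ U) : d ∈ U := by
  classical
  have : Fintype U := Fintype.ofFinite U
  let e : U → U := fun x => ⟨β x, hinv x x.2⟩
  have he : Function.Bijective e := Finite.injective_iff_bijective.mp fun x y hxy =>
    Subtype.ext (β.injective (congrArg Subtype.val hxy))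
  let π : Equiv.Perm U := Equiv.ofBijective e he
  have hπ : ∀ (n : ℕ) (x : U), ((π ^ n) x : T) = (β ^ n) x := by
    intro n
    induction n with
    | zero => intro x; rfl
    | succ n ih =>
      intro x
      rw [pow_succ', pow_succ', MulAut.mul_apply, Equiv.Perm.mul_apply, ← ih]; rfl
  have hpi : π ^ p ^ 1 = 1 := Equiv.ext fun x => Subtype.ext (by
    rw [pow_one, hπ, h.beta_pow]; rfl)
  have hdvd : p ∣ Fintype.card U := by
    rw [← Nat.card_eq_fintype_card]
    obtain ⟨k, hk⟩ := IsPGroup.iff_card.1 (h.isPGroup.to_subgroup U)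
    rw [hk]
    exact dvd_pow_self p fun h0 => hne (Subgroup.eq_bot_of_card_eq U (by rw [hk, h0, pow_zero]))
  obtain ⟨x, hx, hx1⟩ := Equiv.Perm.exists_fixed_point_of_prime' hdvd hpi
    (a := (1 : U)) (Subtype.ext (map_one β))
  have hxβ : β (x : T) = x := congrArg Subtype.val hx
  have hxne : (x : T) ≠ 1 := fun he' => hx1 (Subtype.ext he')
  obtain ⟨k, hk⟩ := (IsPGroup.iff_orderOf.1 h.isPGroup) (x : T)
  have hk0 : k ≠ 0 := fun h0 => hxne (orderOf_eq_one_iff.1 (by rw [hk, h0, pow_zero]))
  obtain ⟨m, rfl⟩ := Nat.exists_eq_succ_of_ne_zero hk0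
  set z := (x : T) ^ p ^ m with hz
  have hzp : z ^ p = 1 := by rw [hz, ← pow_mul, ← pow_succ, ← hk, pow_orderOf_eq_one]
  have hzne : z ≠ 1 := fun hz1 => by
    have := orderOf_dvd_of_pow_eq_one hz1
    rw [hk, Nat.pow_dvd_pow_iff_le_right hp.out.one_lt] at this
    omega
  have hzd := h.fix_le z hzp (by rw [hz, map_pow, hxβ])
  obtain ⟨i, hi⟩ := hzd
  have hcard : Nat.card (Subgroup.zpowers d) = p := by
    rw [Nat.card_zpowers]; exact orderOf_eq_prime h.d_pow h.d_ne
  have hmem := mem_zpowers_of_prime_card (g := (⟨z, i, hi⟩ : Subgroup.zpowers d))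
    (g' := ⟨d, Subgroup.mem_zpowers d⟩) hcard (fun he' => hzne (congrArg Subtype.val he'))
  obtain ⟨n, hn⟩ := Subgroup.mem_zpowers_iff.mp hmem
  have hn' : z ^ n = d := congrArg Subtype.val hn
  rw [← hn']
  exact U.zpow_mem (U.pow_mem x.2 _) n

/-- Restriction of a group of automorphisms to an invariant subgroup. -/
noncomputable def res (φ : Q →* MulAut T) (U : Subgroup T) (hU : ∀ q, ∀ x ∈ U, φ q x ∈ U) :
    Q →* MulAut U where
  toFun q :=
    { toFun := fun x => ⟨φ q x, hU q x x.2⟩
      invFun := fun x => ⟨φ q⁻¹ x, hU q⁻¹ x x.2⟩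
      left_inv := fun x => Subtype.ext (by simp)
      right_inv := fun x => Subtype.ext (by simp)
      map_mul' := fun x y => Subtype.ext (by simp) }
  map_one' := MulEquiv.ext fun x => Subtype.ext (by simp)
  map_mul' q q' := MulEquiv.ext fun x => Subtype.ext (by simp)

omit hp in
/-- Restriction of the setup to an invariant subgroup containing `d`. -/
theorem Setup.restrict (h : Setup p θ β σ d) (U : Subgroup T)
    (hθ : ∀ q, ∀ x ∈ U, θ q x ∈ U) (hβ : ∀ x ∈ U, β x ∈ U) (hd : d ∈ U) :
    ∃ β' : MulAut U, Setup p (res θ U hθ) β' σ ⟨d, hd⟩ ∧ ∀ x : U, (β' x : T) = β x := by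
  have hmap : U.map β.toMonoidHom = U := by
    refine Subgroup.eq_of_le_of_card_ge ?_ (Subgroup.card_map_of_injective β.injective).ge
    rintro _ ⟨x, hx, rfl⟩; exact hβ x hx
  let β' : MulAut U := ((β : T ≃* T).subgroupMap U).trans (MulEquiv.subgroupCongr hmap)
  have hβ' : ∀ x : U, (β' x : T) = β x := fun x => rfl
  have hpow : ∀ (n : ℕ) (x : U), ((β' ^ n) x : T) = (β ^ n) x := by
    intro n
    induction n with
    | zero => intro x; rfl
    | succ n ih => intro x; rw [pow_succ', pow_succ', MulAut.mul_apply, MulAut.mul_apply, hβ', ih]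
  refine ⟨β', ⟨h.isPGroup.to_subgroup U, MulEquiv.ext fun x => Subtype.ext ?_,
    fun q x => Subtype.ext (h.comm q x), fun he => h.d_ne (congrArg Subtype.val he),
    Subtype.ext (by simp [h.d_pow]), fun q => Subtype.ext (h.d_fix q), Subtype.ext h.d_beta,
    fun x => Subtype.ext (h.d_central x), fun x hx hx' => ?_⟩, hβ'⟩
  · rw [hpow, h.beta_pow]; rfl
  · obtain ⟨i, hi⟩ := h.fix_le (x : T) (by simpa using congrArg Subtype.val hx)
      (congrArg Subtype.val hx')
    exact ⟨i, Subtype.ext (by simpa using hi)⟩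

variable [Finite Q]

/-- The main result: `Q` acts trivially on a group of exponent `p` and class at most two. -/
theorem Setup.trivial_of_classTwo (hodd : Odd p) (hcop : (Nat.card Q).Coprime p)
    (hfpf : ∀ i, 0 < i → i < p → ∀ q, (σ ^ i) q = q → q = 1) (h : Setup p θ β σ d)
    (hexp : ∀ x : T, x ^ p = 1) (hcl : commutator T ≤ Subgroup.center T) (q : Q) (x : T) :
    θ q x = x := by
  induction hn : Nat.card T using Nat.strong_induction_on generalizing T q with
  | _ n ih =>
  subst hn
  -- proper invariant subgroups are centralised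
  have hsub : ∀ U : Subgroup T, U ≠ ⊤ → (∀ q, ∀ x ∈ U, θ q x ∈ U) → (∀ x ∈ U, β x ∈ U) →
      ∀ q, ∀ x ∈ U, θ q x = x := by
    intro U hU hθU hβU q x hx
    by_cases hb : U = ⊥
    · rw [hb, Subgroup.mem_bot] at hx; rw [hx, map_one]
    obtain ⟨β', hset, -⟩ := h.restrict U hθU hβU (h.d_mem hb hβU)
    have hlt : Nat.card U < Nat.card T := by
      refine lt_of_le_of_ne (Subgroup.card_le_card_group U) fun he => hU ?_
      exact Subgroup.eq_top_of_card_eq U he
    exact congrArg Subtype.val (ih (Nat.card U) hlt hset (fun y => Subtype.ext (by simp [hexp]))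
      (by
        rw [commutator_def, Subgroup.commutator_le]
        intro a _ b _
        refine Subgroup.mem_center_iff.mpr fun g => Subtype.ext ?_
        exact Subgroup.mem_center_iff.mp
          (hcl (Subgroup.commutator_mem_commutator (Subgroup.mem_top (a : T))
            (Subgroup.mem_top (b : T)))) g) q ⟨x, hx⟩ rfl)
  -- the subgroup generated by `[T, Q]` and the derived subgroup
  set A := Subgroup.closure {z | ∃ q x, z = θ q x * x⁻¹} with hA
  have hAθ : ∀ q, ∀ z ∈ A, θ q z ∈ A := by
    intro q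
    suffices A ≤ A.comap (θ q).toMonoidHom from fun z hz => this hz
    rw [hA, Subgroup.closure_le]
    rintro _ ⟨q', x, rfl⟩
    refine Subgroup.subset_closure ⟨q', θ q x, ?_⟩
    show θ q (θ q' x * x⁻¹) = θ q' (θ q x) * (θ q x)⁻¹
    rw [map_mul, map_inv, ← MulAut.mul_apply, ← map_mul, mul_comm, map_mul, MulAut.mul_apply]
  have hAβ : ∀ z ∈ A, β z ∈ A := by
    suffices A ≤ A.comap β.toMonoidHom from fun z hz => this hz
    rw [hA, Subgroup.closure_le]
    rintro _ ⟨q', x, rfl⟩
    refine Subgroup.subset_closure ⟨σ q', β x, ?_⟩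
    show β (θ q' x * x⁻¹) = θ (σ q') (β x) * (β x)⁻¹
    rw [map_mul, map_inv, h.comm]
  by_cases hab : ∀ a b : T, a * b = b * a
  · -- abelian case: the norm separates `[T, Q]` from `d`
    let : CommGroup T := { (inferInstance : Group T) with mul_comm := hab }
    classical
    have : Fintype Q := Fintype.ofFinite Q
    let N : T →* T := ∏ q : Q, (θ q).toMonoidHom
    have hN : ∀ z, N z = ∏ q : Q, θ q z := fun z => by simp [N]
    have hAN : A ≤ N.ker := by
      rw [hA, Subgroup.closure_le]
      rintro _ ⟨q', y, rfl⟩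
      rw [SetLike.mem_coe, MonoidHom.mem_ker, map_mul, map_inv, mul_inv_eq_one, hN, hN]
      exact Fintype.prod_equiv (Equiv.mulRight q') _ _ fun q'' => by simp
    by_contra hne
    have hd := h.d_mem (U := A) (fun hb => hne (mul_inv_eq_one.mp
      ((Subgroup.eq_bot_iff_forall A).mp hb _ (Subgroup.subset_closure ⟨q, x, rfl⟩)))) hAβ
    have h1 : d ^ Nat.card Q = 1 := by
      rw [← MonoidHom.mem_ker.mp (hAN hd), hN, Finset.prod_congr rfl (fun q'' _ => h.d_fix q''),
        Finset.prod_const, Finset.card_univ, Nat.card_eq_fintype_card]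
    have h2 := pow_gcd_eq_one.mpr ⟨h1, h.d_pow⟩
    rw [hcop.gcd_eq_one, pow_one] at h2
    exact h.d_ne h2
  -- non-abelian case
  have hne : ∀ U : Subgroup T, U ≤ Subgroup.center T → U ≠ ⊤ := fun U hU ht => hab fun a b =>
    (Subgroup.mem_center_iff.mp (hU (ht ▸ Subgroup.mem_top a)) b).symm
  set C := commutator T with hC
  have hcomm : ∀ a b : T, ⁅a, b⁆ ∈ C := fun a b =>
    Subgroup.commutator_mem_commutator (Subgroup.mem_top a) (Subgroup.mem_top b)
  have hCch : C.Characteristic := inferInstance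
  have hCθ : ∀ q, ∀ z ∈ C, θ q z ∈ C := fun q z hz =>
    Subgroup.characteristic_iff_le_comap.1 hCch (θ q) hz
  have hCβ : ∀ z ∈ C, β z ∈ C := fun z hz => Subgroup.characteristic_iff_le_comap.1 hCch β hz
  have hCfix := hsub C (hne C hcl) hCθ hCβ
  by_cases hAC : A ⊔ C = ⊤
  swap
  · -- `Q` fixes its commutators, so by coprimality it fixes everything
    have hfix := hsub (A ⊔ C) hAC
      (fun q => show A ⊔ C ≤ (A ⊔ C).comap (θ q).toMonoidHom from
        sup_le (fun z hz => Subgroup.mem_sup_left (hAθ q z hz))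
          (fun z hz => Subgroup.mem_sup_right (hCθ q z hz)))
      (show A ⊔ C ≤ (A ⊔ C).comap β.toMonoidHom from
        sup_le (fun z hz => Subgroup.mem_sup_left (hAβ z hz))
          (fun z hz => Subgroup.mem_sup_right (hCβ z hz)))
    set w := θ q x * x⁻¹ with hw
    have hwA : w ∈ A ⊔ C := Subgroup.mem_sup_left (Subgroup.subset_closure ⟨q, x, rfl⟩)
    have hpow : ∀ m : ℕ, θ (q ^ m) x = w ^ m * x := by
      intro m
      induction m with
      | zero => simp
      | succ m ihm =>
        rw [pow_succ' q, map_mul, MulAut.mul_apply, ihm, map_mul, map_pow, hfix q w hwA, pow_succ,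
          mul_assoc, hw, inv_mul_cancel_right]
    have h1 : w ^ Nat.card Q = 1 := by
      have := hpow (Nat.card Q)
      rwa [pow_card_eq_one', map_one, MulAut.one_apply, eq_comm, mul_eq_right] at this
    have h2 := pow_gcd_eq_one.mpr ⟨h1, hexp w⟩
    rw [hcop.gcd_eq_one, pow_one] at h2
    exact mul_inv_eq_one.mp h2
  exfalso
  have hCbot : C ≠ ⊥ := fun hb => hab fun a b =>
    commutatorElement_eq_one_iff_mul_comm.mp ((Subgroup.eq_bot_iff_forall C).mp hb _ (hcomm a b))
  set Z := Subgroup.center T with hZ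
  have hZch : Z.Characteristic := inferInstance
  have hCZ : C ≤ Z := hcl
  -- the quotient by the centre
  let qlin : MulAut T →* MulAut (T ⧸ Z) :=
    { toFun := fun φ => QuotientGroup.congr Z Z φ (Subgroup.characteristic_iff_map_eq.1 hZch φ)
      map_one' := MulEquiv.ext fun y => by induction y using QuotientGroup.induction_on; rfl
      map_mul' := fun _ _ => MulEquiv.ext fun y => by
        induction y using QuotientGroup.induction_on; rfl }
  have habV : ∀ a b : T ⧸ Z, a * b = b * a := by
    intro a b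
    induction a using QuotientGroup.induction_on with
    | H a => induction b using QuotientGroup.induction_on with
      | H b =>
        refine QuotientGroup.eq.2 ?_
        have := hCZ (hcomm b⁻¹ a⁻¹)
        simpa [commutatorElement_def, mul_assoc] using this
  letI : CommGroup (T ⧸ Z) := { (inferInstance : Group (T ⧸ Z)) with mul_comm := habV }
  have hexpV : ∀ y : T ⧸ Z, y ^ p = 1 := fun y => by
    induction y using QuotientGroup.induction_on with
    | H a => rw [← QuotientGroup.mk_pow, hexp]; rfl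
  let g : T →* T ⧸ Z :=
    { toFun := fun t => ((β t * t⁻¹ : T) : T ⧸ Z)
      map_one' := by simp
      map_mul' := fun s t => by
        simp only [map_mul, mul_inv_rev, QuotientGroup.mk_mul, QuotientGroup.mk_inv]
        simp [mul_comm, mul_left_comm, mul_assoc] }
  have hker : Nat.card {v : T ⧸ Z // qlin β v = v} ≤ p := by
    let emb : {v : T ⧸ Z // qlin β v = v} → (g.ker.map (QuotientGroup.mk' Z)) := fun v =>
      ⟨v, by
        obtain ⟨t, ht⟩ := QuotientGroup.mk'_surjective Z v.1
        refine ⟨t, ?_, ht⟩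
        have hv : qlin β (t : T ⧸ Z) = (t : T ⧸ Z) := by
          have h0 := v.2
          rw [← ht] at h0
          exact h0
        have hv' : ((β t : T) : T ⧸ Z) = (t : T ⧸ Z) := hv
        show ((β t * t⁻¹ : T) : T ⧸ Z) = 1
        rw [QuotientGroup.mk_mul, QuotientGroup.mk_inv, hv', mul_inv_cancel]⟩
    have hemb : Function.Injective emb := fun v w hvw => Subtype.ext (congrArg Subtype.val hvw :)
    refine (Nat.card_le_card_of_injective emb hemb).trans ?_
    -- `β`-fixed elements lie in `⟨d⟩`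
    have hZk : Z ≤ g.ker := fun z hz => by
      show ((β z * z⁻¹ : T) : T ⧸ Z) = 1
      exact (QuotientGroup.eq_one_iff _).2
        (mul_mem (Subgroup.characteristic_iff_le_comap.1 hZch β hz) (inv_mem hz))
    let F : g.ker →* Z :=
      { toFun := fun t => ⟨β t * (t : T)⁻¹, (QuotientGroup.eq_one_iff _).1 t.2⟩
        map_one' := Subtype.ext (by simp)
        map_mul' := fun s t => Subtype.ext (by
          show β ((s : T) * t) * ((s : T) * t)⁻¹ = β s * (s : T)⁻¹ * (β t * (t : T)⁻¹)
          rw [map_mul]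
          exact mul_div_mul_of_central ((QuotientGroup.eq_one_iff _).1 t.2)) }
    have hFker : Nat.card F.ker ≤ p := by
      have hle : F.ker.map g.ker.subtype ≤ Subgroup.zpowers d := by
        rintro _ ⟨t, ht, rfl⟩
        exact h.fix_le _ (hexp _) (mul_inv_eq_one.mp (congrArg Subtype.val ht))
      have := Subgroup.card_le_of_le hle
      rw [Subgroup.card_map_of_injective g.ker.subtype_injective, Nat.card_zpowers] at this
      exact this.trans (Nat.le_of_dvd hp.out.pos (orderOf_dvd_of_pow_eq_one h.d_pow))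
    have h1 : Nat.card g.ker ≤ p * Nat.card Z := by
      rw [← F.ker.card_mul_index, Subgroup.index_ker]
      exact Nat.mul_le_mul hFker (Subgroup.card_le_card_group _)
    have h2 : Nat.card g.ker = Nat.card Z * Nat.card (g.ker.map (QuotientGroup.mk' Z)) := by
      rw [PSolv.card_map_mk_eq_relIndex, Subgroup.relIndex]
      conv_lhs => rw [← (Z.subgroupOf g.ker).card_mul_index]
      rw [Nat.card_congr (Subgroup.subgroupOfEquivOfLe hZk).toEquiv]
    rw [h2, mul_comm p] at h1
    exact Nat.le_of_mul_le_mul_left h1 Nat.card_pos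
  have hcardV : Nat.card (T ⧸ Z) = p ^ p := by
    refine card_eq_of_action hexpV (qlin.comp θ) (qlin β) σ
      (by rw [← map_pow, h.beta_pow, map_one]) (fun q' y => ?_) hcop hfpf hker ?_
    · induction y using QuotientGroup.induction_on with
      | H t => exact congrArg (fun z : T => (z : T ⧸ Z)) (h.comm q' t)
    · by_contra hall
      push Not at hall
      have hAZ : A ≤ Z := by
        rw [hA, Subgroup.closure_le]
        rintro _ ⟨q', y, rfl⟩
        have h3 : ((θ q' y : T) : T ⧸ Z) = (y : T ⧸ Z) := hall q' (y : T ⧸ Z)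
        rw [SetLike.mem_coe, ← QuotientGroup.eq_one_iff, QuotientGroup.mk_mul, QuotientGroup.mk_inv,
          h3, mul_inv_cancel]
      exact hne ⊤ (hAC ▸ sup_le hAZ hCZ) rfl
  -- a `β`-invariant hyperplane of the derived subgroup
  let γ : C →* C :=
    { toFun := fun c => ⟨β c * (c : T)⁻¹, mul_mem (hCβ c c.2) (inv_mem c.2)⟩
      map_one' := Subtype.ext (by simp)
      map_mul' := fun c c' => Subtype.ext (by
        show β ((c : T) * c') * ((c : T) * c')⁻¹ = β c * (c : T)⁻¹ * (β c' * (c' : T)⁻¹)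
        rw [map_mul]
        exact mul_div_mul_of_central (hCZ (mul_mem (hCβ c' c'.2) (inv_mem c'.2)))) }
  have hd : d ∈ C := h.d_mem hCbot hCβ
  have hγ : γ.range ≠ ⊤ := by
    intro ht
    have hinj : Function.Injective γ := Finite.injective_iff_surjective.mpr
      (MonoidHom.range_eq_top.mp ht)
    have : (⟨d, hd⟩ : C) = 1 := hinj (by rw [map_one]; exact Subtype.ext (by simp [γ, h.d_beta]))
    exact h.d_ne (congrArg Subtype.val this)
  obtain ⟨M1, hM1, hγM⟩ := (eq_top_or_exists_le_coatom γ.range).resolve_left hγ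
  have hM1i : M1.index = p := PGroup.index_of_isCoatom (h.isPGroup.to_subgroup C) hM1
  set M := M1.map C.subtype with hM
  have hMC : M ≤ C := Subgroup.map_subtype_le _
  have hMn : M.Normal := ⟨fun m hm t => by
    have : t * m * t⁻¹ = m := by
      rw [Subgroup.mem_center_iff.mp (hCZ (hMC hm)) t, mul_inv_cancel_right]
    rw [this]; exact hm⟩
  let π := QuotientGroup.mk' M
  have hπ : Function.Surjective π := QuotientGroup.mk'_surjective M
  have hCbar : Nat.card (C.map π) = p := by
    rw [PSolv.card_map_mk_eq_relIndex, Subgroup.relIndex, hM, Subgroup.subgroupOf,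
      Subgroup.comap_map_eq_self_of_injective C.subtype_injective, hM1i]
  set Z' := (Subgroup.center (T ⧸ M)).comap π with hZ'
  have hmemZ' : ∀ u, u ∈ Z' ↔ ∀ t, ⁅u, t⁆ ∈ M := by
    intro u
    rw [hZ', Subgroup.mem_comap, Subgroup.mem_center_iff]
    refine ⟨fun hu t => ?_, fun hu y => ?_⟩
    · rw [← QuotientGroup.eq_one_iff, ← QuotientGroup.mk'_apply, map_commutatorElement,
        commutatorElement_eq_one_iff_mul_comm]
      exact (hu _).symm
    · obtain ⟨t, rfl⟩ := hπ y
      rw [eq_comm, ← commutatorElement_eq_one_iff_mul_comm, ← map_commutatorElement]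
      exact (QuotientGroup.eq_one_iff _).2 (hu t)
  have hMθ : ∀ q', ∀ m ∈ M, θ q' m = m := fun q' m hm => hCfix q' m (hMC hm)
  have hMβ : ∀ m ∈ M, β m ∈ M := by
    rintro _ ⟨m, hm, rfl⟩
    refine ⟨γ m * m, mul_mem (hγM ⟨m, rfl⟩) hm, ?_⟩
    simp [γ]
  have hZ'top : Z' ≠ ⊤ := by
    intro ht
    have hle : C ≤ M := by
      rw [hC, commutator_def, Subgroup.commutator_le]
      exact fun a _ b _ => (hmemZ' a).1 (ht ▸ Subgroup.mem_top a) b
    have h1 : C.map π = ⊥ := by
      rw [Subgroup.map_eq_bot_iff, QuotientGroup.ker_mk']; exact hle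
    rw [h1, Subgroup.card_bot] at hCbar
    exact hp.out.ne_one hCbar.symm
  have hZ'fix := hsub Z' hZ'top
    (fun q' u hu => (hmemZ' _).2 fun t => by
      have h1 := (hmemZ' u).1 hu ((θ q').symm t)
      have h2 := hMθ q' _ h1
      rw [map_commutatorElement, MulEquiv.apply_symm_apply] at h2
      rw [h2]; exact h1)
    (fun u hu => (hmemZ' _).2 fun t => by
      have h2 := hMβ _ ((hmemZ' u).1 hu (β.symm t))
      rwa [map_commutatorElement, MulEquiv.apply_symm_apply] at h2)
  have hZ'eq : Z' = Z := by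
    refine le_antisymm (fun u hu => Subgroup.mem_center_iff.mpr fun t => ?_)
      (fun u hu => (hmemZ' u).2 fun t => by
        rw [show ⁅u, t⁆ = 1 from commutatorElement_eq_one_iff_mul_comm.mpr
          (Subgroup.mem_center_iff.mp hu t).symm]
        exact one_mem M)
    have hle : A ⊔ C ≤ Subgroup.centralizer {u} := by
      refine sup_le ?_ (fun c hc => Subgroup.mem_centralizer_singleton_iff.mpr
        (Subgroup.mem_center_iff.mp (hCZ hc) u).symm)
      rw [hA, Subgroup.closure_le]
      rintro _ ⟨q', y, rfl⟩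
      rw [SetLike.mem_coe, Subgroup.mem_centralizer_singleton_iff, eq_comm,
        ← commutatorElement_eq_one_iff_mul_comm,
        PGroup.commutatorElement_mul_right (hCZ (hcomm u y⁻¹)),
        PGroup.commutatorElement_inv_right (hCZ (hcomm u y))]
      conv_lhs => arg 1; rw [← hZ'fix q' u hu]
      rw [← map_commutatorElement, hCfix q' _ (hcomm u y), mul_inv_cancel]
    exact Subgroup.mem_centralizer_singleton_iff.mp (hle (hAC.symm ▸ Subgroup.mem_top t))
  obtain ⟨m, hm⟩ := Recog.SympCore.exists_index_center_eq_sq (q := p) (C.map π)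
    ((Subgroup.map_mono hCZ).trans (by
      rintro _ ⟨z, hz, rfl⟩
      refine Subgroup.mem_center_iff.mpr fun y => ?_
      obtain ⟨t, rfl⟩ := hπ y
      rw [← map_mul, ← map_mul, Subgroup.mem_center_iff.mp hz t]))
    hCbar (fun a c => by
      obtain ⟨a, rfl⟩ := hπ a
      obtain ⟨c, rfl⟩ := hπ c
      rw [← map_commutatorElement]
      exact ⟨_, hcomm a c, rfl⟩)
  have hindex : Z.index = (p ^ m) ^ 2 := by
    rw [← hZ'eq, hZ', Subgroup.index_comap_of_surjective _ hπ, hm]
  rw [Subgroup.index_eq_card, hcardV, ← pow_mul] at hindex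
  have := Nat.pow_right_injective hp.out.two_le hindex
  obtain ⟨k, hk⟩ := hodd
  omega

end Cfsg.Agent.Tech.RankOneFixed
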